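import Cfsg.Agent.Lib.H5.Centric
import Cfsg.Agent.Lib.H5.ZStar5
import Cfsg.Agent.Lib.H2.Fusion
import Mathlib.GroupTheory.SemidirectProduct

/-!
# Automorphisms centralizing a Sylow 2-subgroup
-/

set_option autoImplicit false

namespace H5.GlaubAut

open Subgroup hiding mem_normalizer_iff'
open H38.Basic

universe u

section cocycle

variable {G : Type u} [Group G] [Finite G] {p : ℕ} [Fact p.Prime]

/-- The key cocycle argument. -/
theorem exists_core (Q : Subgroup G)
    (hQ : IsSyl p (Q ⊓ Subgroup.centralizer (Q : Set G)) (Subgroup.centralizer (Q : Set G)))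
    (C : Subgroup (MulAut G)) (hC : ∀ φ ∈ C, ∀ q ∈ Q, φ q = q) {n : G}
    (hn : n ∈ Subgroup.normalizer (Q : Set G)) {t : MulAut G} (ht : t ∈ ⁅C, C⁆) :
    ∃ O : Subgroup G, ¬ p ∣ Nat.card O ∧ t n * n⁻¹ ∈ O := by
  classical
  set K := Subgroup.centralizer (Q : Set G) with hK
  have hcentral : ∀ z ∈ Q ⊓ K, ∀ k ∈ K, k * z = z * k := fun z hz k hk =>
    (Subgroup.mem_centralizer_iff.1 hk z hz.1).symm
  have hPc : (hQ.toSylow : Subgroup K) ≤ Subgroup.center K := by
    intro z hz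
    rw [Subgroup.mem_center_iff]
    intro k
    exact Subtype.ext (hcentral z hz k k.2)
  have hP : Subgroup.normalizer ((hQ.toSylow : Subgroup K) : Set K) ≤
      Subgroup.centralizer ((hQ.toSylow : Subgroup K) : Set K) := by
    intro k _
    rw [Subgroup.mem_centralizer_iff]
    intro z hz
    exact (Subgroup.mem_center_iff.1 (hPc hz) k).symm
  set P := hQ.toSylow with hPdef
  have hPQ : ∀ z : K, z ∈ (P : Subgroup K) → (z : G) ∈ Q := fun z hz => hz.1
  set f := MonoidHom.transferSylow P hP with hf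
  have hfc := MonoidHom.ker_transferSylow_isComplement' P hP
  have hfd := MonoidHom.not_dvd_card_ker_transferSylow P hP
  -- elements of order prime to p are in the kernel
  have hker : ∀ k : K, ¬ p ∣ orderOf k → f k = 1 := by
    intro k hk
    obtain ⟨j, hj⟩ := IsPGroup.iff_orderOf.mp P.2 (f k)
    have h1 : orderOf (f k) ∣ orderOf k := orderOf_map_dvd f k
    rw [← orderOf_eq_one_iff]
    rcases Nat.eq_zero_or_pos j with hj0 | hj0
    · rw [hj, hj0, pow_zero]
    · exfalso
      apply hk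
      refine (dvd_pow_self p hj0.ne').trans ?_
      rw [← hj]; exact h1
  have hCK : ∀ φ ∈ C, ∀ k ∈ K, φ k ∈ K := by
    intro φ hφ k hk
    rw [hK, Subgroup.mem_centralizer_iff]
    intro q hq
    rw [← hC φ hφ q hq, ← map_mul, ← map_mul, Subgroup.mem_centralizer_iff.1 hk q hq]
  have hfinv : ∀ φ (hφ : φ ∈ C) (k : K), f ⟨φ k, hCK φ hφ k k.2⟩ = f k := by
    intro φ hφ k
    obtain ⟨⟨⟨o, ho⟩, ⟨z, hz⟩⟩, hoz⟩ := hfc.2 k
    simp only at hoz
    subst hoz
    have h1 : φ (z : G) = z := hC φ hφ z (hPQ z hz)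
    have h2 : (⟨φ ((o * z : K) : G), hCK φ hφ _ (o * z).2⟩ : K) = ⟨φ o, hCK φ hφ o o.2⟩ * z := by
      apply Subtype.ext
      simp only [Subgroup.coe_mul, map_mul, h1]
    rw [h2, map_mul, map_mul, MonoidHom.mem_ker.1 ho, hker]
    have h3 : orderOf (⟨φ o, hCK φ hφ o o.2⟩ : K) = orderOf o := by
      rw [Subgroup.orderOf_mk, φ.orderOf_eq, Subgroup.orderOf_coe]
    rw [h3]
    intro hd
    apply hfd
    refine hd.trans ?_
    have := orderOf_dvd_natCard (⟨o, ho⟩ : f.ker)
    rwa [Subgroup.orderOf_mk] at this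
  have hmem : ∀ φ ∈ C, φ n * n⁻¹ ∈ K := by
    intro φ hφ
    rw [hK, Subgroup.mem_centralizer_iff]
    intro q hq
    have h1 : n⁻¹ * q * n ∈ Q := by
      have := (Subgroup.mem_normalizer_iff.1 (inv_mem hn) q).1 hq
      rwa [inv_inv] at this
    have h2 : φ n * (n⁻¹ * q * n) * (φ n)⁻¹ = q := by
      conv_lhs => rw [← hC φ hφ _ h1, ← map_mul, ← map_inv, ← map_mul]
      rw [← hC φ hφ q hq]
      rw [hC φ hφ q hq]
      conv_rhs => rw [← hC φ hφ q hq]
      congr 1
      group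
    calc q * (φ n * n⁻¹) = φ n * (n⁻¹ * q * n) * (φ n)⁻¹ * (φ n * n⁻¹) := by rw [h2]
      _ = φ n * n⁻¹ * q := by group
  let δ : C →* (P : Subgroup K) := MonoidHom.mk' (fun c => f ⟨(c : MulAut G) n * n⁻¹, hmem c c.2⟩) (by
    intro c d
    have h1 : (⟨((c * d : C) : MulAut G) n * n⁻¹, hmem _ (c * d).2⟩ : K) =
        ⟨(c : MulAut G) ((⟨(d : MulAut G) n * n⁻¹, hmem d d.2⟩ : K) : G), hCK c c.2 _ (hmem d d.2)⟩ *
          ⟨(c : MulAut G) n * n⁻¹, hmem c c.2⟩ := by
      apply Subtype.ext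
      simp only [Subgroup.coe_mul, MulAut.mul_apply, map_mul, map_inv]
      group
    rw [h1, map_mul, hfinv c c.2 ⟨(d : MulAut G) n * n⁻¹, hmem d d.2⟩]
    apply Subtype.ext
    simp only [Subgroup.coe_mul]
    exact (Subgroup.mem_center_iff.1 (hPc (f ⟨(c : MulAut G) n * n⁻¹, hmem c c.2⟩).2) _))
  have hδ : ⁅C, C⁆ ≤ δ.ker.map C.subtype := by
    rw [Subgroup.commutator_le]
    intro a ha b hb
    refine ⟨(⟨a, ha⟩ : C) * ⟨b, hb⟩ * (⟨a, ha⟩ : C)⁻¹ * (⟨b, hb⟩ : C)⁻¹, ?_, rfl⟩
    rw [SetLike.mem_coe, MonoidHom.mem_ker, map_mul, map_mul, map_mul, map_inv, map_inv]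
    have h1 : δ ⟨a, ha⟩ * δ ⟨b, hb⟩ = δ ⟨b, hb⟩ * δ ⟨a, ha⟩ := by
      apply Subtype.ext
      simp only [Subgroup.coe_mul]
      exact (Subgroup.mem_center_iff.1 (hPc (δ ⟨b, hb⟩).2) _)
    rw [h1]
    group
  obtain ⟨c, hc, rfl⟩ := hδ ht
  refine ⟨f.ker.map K.subtype, ?_, ⟨⟨(c : MulAut G) n * n⁻¹, hmem c c.2⟩, ?_, rfl⟩⟩
  · rw [Subgroup.card_map_of_injective K.subtype_injective]
    exact hfd
  · exact hc

end cocycle

section semidirect

variable {G : Type u} [Group G] [Finite G]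

theorem eq_one_of_mem_commutator (hZ : H5.ZStar5.ZHyp.{u}) (hO : Cfsg.pPrimeCore 2 G = ⊥)
    (S : Sylow 2 G) (C : Subgroup (MulAut G)) (hC : ∀ φ ∈ C, ∀ s ∈ (S : Subgroup G), φ s = s)
    (t : MulAut G) (ht : t ∈ ⁅C, C⁆) : orderOf t ≠ 2 := by
  intro ht2
  have : Fact (Nat.Prime 2) := ⟨Nat.prime_two⟩
  have hCC : ⁅C, C⁆ ≤ C := by
    rw [Subgroup.commutator_le]
    intro a ha b hb
    exact C.mul_mem (C.mul_mem (C.mul_mem ha hb) (C.inv_mem ha)) (C.inv_mem hb)
  have htC : t ∈ C := hCC ht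
  let T := Subgroup.zpowers t
  let τ : T := ⟨t, mem_zpowers t⟩
  let H := G ⋊[T.subtype] T
  have hfinH : Finite H := Finite.of_equiv _ (SemidirectProduct.equivProd (φ := T.subtype)).symm
  let il : G →* H := SemidirectProduct.inl
  let ir : T →* H := SemidirectProduct.inr
  have hilinj : Function.Injective il := SemidirectProduct.inl_injective
  let t' : H := ir τ
  have ht' : orderOf t' = 2 := by
    rw [← ht2]
    have h1 : orderOf t' = orderOf τ := orderOf_injective ir SemidirectProduct.inr_injective τ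
    rw [h1, Subgroup.orderOf_mk]
  have hconj : ∀ g : G, t' * il g * t'⁻¹ = il (t g) := by
    intro g
    have := SemidirectProduct.inl_aut (φ := T.subtype) τ g
    rw [map_inv] at this
    exact this.symm
  let N : Subgroup H := il.range
  have hNn : N.Normal := by
    have : N = (SemidirectProduct.rightHom (φ := T.subtype)).ker :=
      SemidirectProduct.range_inl_eq_ker_rightHom
    rw [this]; infer_instance
  have hNt : ∀ g : H, ∃ n ∈ N, ∃ i : ℤ, g = n * t' ^ i := by
    intro g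
    obtain ⟨i, hi⟩ := g.right.2
    refine ⟨il g.left, ⟨_, rfl⟩, i, ?_⟩
    have h1 := SemidirectProduct.inl_left_mul_inr_right g
    rw [← map_zpow]
    have h2 : τ ^ i = g.right := Subtype.ext hi
    rw [h2]
    exact h1.symm
  -- `t'` centralizes `S`
  have hcS : ∀ s ∈ (S : Subgroup G), t' * il s = il s * t' := by
    intro s hs
    have h1 := hconj s
    rw [hC t htC s hs] at h1
    exact mul_inv_eq_iff_eq_mul.1 h1
  -- the Sylow subgroup
  have hW : IsPGroup 2 ((S : Subgroup G).map il ⊔ Subgroup.zpowers t' : Subgroup H) := by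
    refine IsPGroup.to_sup_of_normal_right' (S.2.map il) ?_ ?_
    · exact IsPGroup.of_card (n := 1) (by rw [Nat.card_zpowers, ht', pow_one])
    · rintro _ ⟨s, hs, rfl⟩
      rw [H38.Basic.mem_normalizer_iff', MonoidHom.map_zpowers]
      change Subgroup.zpowers (il s * t' * (il s)⁻¹) = _
      rw [← hcS s hs, mul_inv_cancel_right]
  obtain ⟨P, hP⟩ := hW.exists_le_sylow
  have htP : t' ∈ (P : Subgroup H) := hP (mem_sup_right (mem_zpowers t'))
  have hSP : (S : Subgroup G).map il ≤ (P : Subgroup H) := le_sup_left.trans hP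
  have hPN : ∀ g : G, il g ∈ (P : Subgroup H) → g ∈ (S : Subgroup G) := by
    have h1 : IsPGroup 2 ((P : Subgroup H).comap il) :=
      P.2.comap_of_injective il hilinj
    have h2 : (P : Subgroup H).comap il = S := S.3 h1 fun s hs => hSP ⟨s, hs, rfl⟩
    intro g hg
    rw [← h2]; exact hg
  have htc : ∀ s ∈ (P : Subgroup H), s * t' = t' * s := by
    intro s hs
    obtain ⟨_, ⟨g, rfl⟩, i, rfl⟩ := hNt s
    have h1 : il g ∈ (P : Subgroup H) := by
      have h2 : il g = il g * t' ^ i * (t' ^ i)⁻¹ := (mul_inv_cancel_right _ _).symm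
      rw [h2]
      exact mul_mem hs (inv_mem (zpow_mem htP i))
    rw [mul_assoc, (Commute.zpow_self t' i).eq, ← mul_assoc, ← hcS g (hPN g h1), mul_assoc]
  have hiso : ∀ g : H, g * t' * g⁻¹ ∈ (P : Subgroup H) → g * t' * g⁻¹ = t' := by
    refine H5.Centric.isolated_of_normal P htP htc N hNt ?_
    rintro Q hQ hQsyl _ ⟨n, rfl⟩ hn
    set Q₀ := Q.comap il with hQ₀
    have hQmap : Q₀.map il = Q := by
      rw [hQ₀, Subgroup.map_comap_eq, inf_eq_right]
      exact fun x hx => (hQ hx).2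
    have hcent : (Subgroup.centralizer (Q₀ : Set G)).map il =
        Subgroup.centralizer (Q : Set H) ⊓ N := by
      apply le_antisymm
      · rintro _ ⟨k, hk, rfl⟩
        refine Subgroup.mem_inf.2 ⟨Subgroup.mem_centralizer_iff.2 ?_, ⟨k, rfl⟩⟩
        intro q hq
        rw [SetLike.mem_coe, ← hQmap] at hq
        obtain ⟨q, hq, rfl⟩ := hq
        rw [← map_mul, ← map_mul, Subgroup.mem_centralizer_iff.1 hk q hq]
      · rintro _ ⟨hk, ⟨k, rfl⟩⟩
        refine ⟨k, Subgroup.mem_centralizer_iff.2 ?_, rfl⟩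
        intro q hq
        apply hilinj
        rw [map_mul, map_mul]
        exact Subgroup.mem_centralizer_iff.1 hk _ hq
    have hQ0syl : IsSyl 2 (Q₀ ⊓ Subgroup.centralizer (Q₀ : Set G))
        (Subgroup.centralizer (Q₀ : Set G)) := by
      refine ⟨inf_le_right, ?_, ?_⟩
      · refine IsPGroup.to_inf_left ?_
        refine S.2.to_le ?_
        intro x hx
        exact hPN x (hQ hx).1
      · have h1 := hQsyl.2.2
        rw [← hcent] at h1
        have h2 : Q ⊓ Subgroup.centralizer (Q : Set H) =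
            (Q₀ ⊓ Subgroup.centralizer (Q₀ : Set G)).map il := by
          rw [Subgroup.map_inf _ _ _ hilinj, hcent, hQmap]
          apply le_antisymm
          · exact fun x hx => ⟨hx.1, hx.2, (hQ hx.1).2⟩
          · exact fun x hx => ⟨hx.1, hx.2.1⟩
        rwa [h2, Subgroup.relIndex_map_map_of_injective _ _ hilinj] at h1
    have hn0 : n ∈ Subgroup.normalizer (Q₀ : Set G) := by
      rw [Subgroup.mem_normalizer_iff]
      intro q
      have h1 := (Subgroup.mem_normalizer_iff.1 hn) (il q)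
      rw [← map_inv, ← map_mul, ← map_mul] at h1
      exact h1
    obtain ⟨O, hO1, hO2⟩ := exists_core Q₀ hQ0syl C
      (fun φ hφ q hq => hC φ hφ q (hPN q (hQ hq).1)) hn0 ht
    refine ⟨O.map il, by rwa [Subgroup.card_map_of_injective hilinj], ⟨_, hO2, ?_⟩⟩
    rw [hconj, map_mul, map_inv]
  have hZS := hZ H t' (H5.ZStar1.IsoInv.of_sylow P ht' hiso)
  -- so `t` acts trivially
  have hone : t = 1 := by
    apply MulEquiv.ext
    intro g
    have h1 := hZS (il g)
    have h2 : t' * (il g * t' * (il g)⁻¹) = il (t g * g⁻¹) := by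
      have h3 : t'⁻¹ = t' := H5.Dihedral.inv_eq_self ht'
      rw [map_mul, ← hconj, map_inv, h3]
      simp only [mul_assoc]
    rw [h2] at h1
    have h3 : (Cfsg.pPrimeCore 2 H).comap il ≤ Cfsg.pPrimeCore 2 G := by
      apply H1.Cores.le_pPrimeCore
      · infer_instance
      · have h4 : Nat.card ((Cfsg.pPrimeCore 2 H).comap il) =
            Nat.card (((Cfsg.pPrimeCore 2 H).comap il).map il) :=
          (Subgroup.card_map_of_injective hilinj).symm
        rw [h4]
        exact Nat.Coprime.coprime_dvd_left (Subgroup.card_dvd_of_le (Subgroup.map_comap_le _ _))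
          (H1.Cores.coprime_card_pPrimeCore 2)
    have h4 : t g * g⁻¹ ∈ Cfsg.pPrimeCore 2 G := h3 h1
    rw [hO, Subgroup.mem_bot, mul_inv_eq_one] at h4
    rw [h4]; rfl
  rw [hone, orderOf_one] at ht2
  omega

end semidirect

section final

variable {G : Type u} [Group G] [Finite G]

theorem odd_commutator (hZ : H5.ZStar5.ZHyp.{u}) (hO : Cfsg.pPrimeCore 2 G = ⊥)
    (S : Sylow 2 G) (C : Subgroup (MulAut G)) (hC : ∀ φ ∈ C, ∀ s ∈ (S : Subgroup G), φ s = s) :
    Odd (Nat.card (commutator C)) := by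
  have : Fact (Nat.Prime 2) := ⟨Nat.prime_two⟩
  rw [← Nat.not_even_iff_odd, even_iff_two_dvd]
  intro h2
  obtain ⟨x, hx⟩ := exists_prime_orderOf_dvd_card' 2 h2
  have h1 : (commutator C).map C.subtype = ⁅C, C⁆ := by
    rw [commutator_def, Subgroup.map_commutator, ← MonoidHom.range_eq_map, Subgroup.range_subtype]
  have h3 : (((x : C) : MulAut G)) ∈ ⁅C, C⁆ := by
    rw [← h1]; exact ⟨x, x.2, rfl⟩
  apply eq_one_of_mem_commutator hZ hO S C hC _ h3
  rw [Subgroup.orderOf_coe, Subgroup.orderOf_coe, hx]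

theorem glauberman (hZ : H5.ZStar5.ZHyp.{u})
    (hFT : ∀ (H : Type u) [Group H] [Finite H], Odd (Nat.card H) → Group.IsSolvable H)
    (hO : ∀ N : Subgroup G, N.Normal → Odd (Nat.card N) → N = ⊥) (S : Sylow 2 G)
    (C : Subgroup (MulAut G)) (hC : ∀ φ : MulAut G, φ ∈ C ↔ ∀ s : G, s ∈ S → φ s = s) :
    (∀ T : Sylow 2 C, (∀ a b : T, a * b = b * a) ∧ ∃ N : Subgroup C, N.Normal ∧
      Subgroup.IsComplement' N (T : Subgroup C)) ∧ Group.IsSolvable C := by
  have : Fact (Nat.Prime 2) := ⟨Nat.prime_two⟩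
  have hO2 : Cfsg.pPrimeCore 2 G = ⊥ := hO _ (H1.Cores.pPrimeCore_normal 2)
    (Nat.coprime_two_right.mp (H1.Cores.coprime_card_pPrimeCore 2))
  have hodd := odd_commutator hZ hO2 S C (fun φ hφ s hs => (hC φ).1 hφ s hs)
  have hint : ∀ (T : Sylow 2 C), ∀ x ∈ (T : Subgroup C), x ∈ commutator C → x = 1 := by
    intro T x hx hx'
    obtain ⟨k, hk⟩ := IsPGroup.iff_orderOf.mp T.2 ⟨x, hx⟩
    rw [Subgroup.orderOf_mk] at hk
    have h5 : orderOf x ∣ Nat.card (commutator C) := by
      have := orderOf_dvd_natCard (⟨x, hx'⟩ : commutator C)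
      rwa [Subgroup.orderOf_mk] at this
    rw [← orderOf_eq_one_iff]
    rcases Nat.eq_zero_or_pos k with hk0 | hk0
    · rw [hk, hk0, pow_zero]
    · exfalso
      have h6 : Odd (orderOf x) := Odd.of_dvd_nat hodd h5
      rw [hk] at h6
      exact (Nat.not_odd_iff_even.2 ((Nat.even_pow.2 ⟨even_two, hk0.ne'⟩))) h6
  have hcomm : ∀ a b : C, a * b * a⁻¹ * b⁻¹ ∈ commutator C := fun a b =>
    Subgroup.commutator_mem_commutator (mem_top a) (mem_top b)
  constructor
  · intro T
    constructor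
    · intro a b
      apply Subtype.ext
      have h1 := hint T ((a : C) * b * (a : C)⁻¹ * (b : C)⁻¹)
        (mul_mem (mul_mem (mul_mem a.2 b.2) (inv_mem a.2)) (inv_mem b.2)) (hcomm a b)
      rw [mul_inv_eq_one, mul_inv_eq_iff_eq_mul] at h1
      exact h1
    · have h1 : Cfsg.HasNormalPComplement 2 C := by
        apply H2.Fusion.hasNPC_of_self_control T
        intro x hx g hg
        refine ⟨1, one_mem _, ?_⟩
        have h1 := hint T (g * x * g⁻¹ * x⁻¹) (mul_mem hg (inv_mem hx)) (hcomm g x)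
        rw [mul_inv_eq_one] at h1
        rw [h1]; group
      exact ⟨_, inferInstance, H2.NPC.isComplement'_residual_of_hasNPC h1 T⟩
  · have h1 : Group.IsSolvable (commutator C) := hFT _ hodd
    rw [Group.isSolvable_iff_subgroup_quotient (commutator C)]
    exact ⟨h1, Group.isSolvable_of_comm (G := Abelianization C) mul_comm⟩

end final

end H5.GlaubAut
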