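import Mathlib

/-!
# Average dimension of fixed point spaces, the coset lemma
-/

set_option autoImplicit false
set_option linter.unusedSectionVars false
set_option linter.style.haveILetI false

namespace H5.FixAvg

open Module

variable {k V : Type*} [Field k] [AddCommGroup V] [Module k V] [FiniteDimensional k V]

/-- splitting of the dimension by an idempotent -/
theorem finrank_split (S : Submodule k V) (e : V →ₗ[k] V) (h1 : ∀ v ∈ S, e v ∈ S)
    (h2 : ∀ v ∈ S, e (e v) = e v) :
    finrank k S = finrank k ↥(S ⊓ LinearMap.ker (e - 1)) + finrank k ↥(S ⊓ LinearMap.ker e) := by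
  have h3 : Disjoint (S ⊓ LinearMap.ker (e - 1)) (S ⊓ LinearMap.ker e) := by
    rw [Submodule.disjoint_def]
    intro v hv hw
    have hw2 := LinearMap.mem_ker.1 hw.2
    have hv2 := LinearMap.mem_ker.1 hv.2
    rw [LinearMap.sub_apply, hw2] at hv2
    simpa using hv2
  have h4 : (S ⊓ LinearMap.ker (e - 1)) ⊔ (S ⊓ LinearMap.ker e) = S := by
    apply le_antisymm (sup_le inf_le_left inf_le_left)
    intro v hv
    have h5 : v = e v + (v - e v) := by abel
    rw [h5]
    refine Submodule.add_mem_sup ⟨h1 v hv, ?_⟩ ⟨S.sub_mem hv (h1 v hv), ?_⟩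
    · refine LinearMap.mem_ker.2 ?_
      rw [LinearMap.sub_apply, h2 v hv]; simp
    · refine LinearMap.mem_ker.2 ?_
      rw [map_sub, h2 v hv, sub_self]
  have h5 := Submodule.finrank_sup_add_finrank_inf_eq (S ⊓ LinearMap.ker (e - 1)) (S ⊓ LinearMap.ker e)
  rw [h4, h3.eq_bot] at h5
  simpa using h5

variable {X : Type*} [Group X] [Finite X] (ρ : Representation k X V)

/-- fixed space of one element -/
noncomputable def fx (y : X) : Submodule k V := LinearMap.ker (ρ y - 1)

theorem mem_fx {y : X} {v : V} : v ∈ fx ρ y ↔ ρ y v = v := by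
  rw [fx, LinearMap.mem_ker, LinearMap.sub_apply, sub_eq_zero]
  rfl

/-- averaging operator of a subgroup -/
noncomputable def E (B : Subgroup X) : V →ₗ[k] V :=
  ((Nat.card B : k)⁻¹) • ∑ᶠ b : B, (ρ b : V →ₗ[k] V)

theorem E_apply (B : Subgroup X) [Fintype B] (v : V) :
    E ρ B v = ((Nat.card B : k)⁻¹) • ∑ b : B, ρ b v := by
  rw [E, finsum_eq_sum_of_fintype, LinearMap.smul_apply, LinearMap.sum_apply]

theorem E_fixed {B : Subgroup X} {v : V} (hB : (Nat.card B : k) ≠ 0) (hv : ∀ b ∈ B, ρ b v = v) :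
    E ρ B v = v := by
  classical
  haveI := Fintype.ofFinite X
  haveI := Fintype.ofFinite B
  rw [E_apply, Finset.sum_congr rfl fun (b : B) _ => hv b b.2, Finset.sum_const, Finset.card_univ,
    ← Nat.card_eq_fintype_card, ← Nat.cast_smul_eq_nsmul k, smul_smul, inv_mul_cancel₀ hB, one_smul]

theorem E_mem {B : Subgroup X} {v : V} {b : X} (hb : b ∈ B) : ρ b (E ρ B v) = E ρ B v := by
  classical
  haveI := Fintype.ofFinite X
  haveI := Fintype.ofFinite B
  rw [E_apply, map_smul, map_sum]
  congr 1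
  refine Fintype.sum_equiv (Equiv.mulLeft (⟨b, hb⟩ : B)) _ _ fun c => ?_
  rw [← Module.End.mul_apply, ← map_mul]
  rfl

theorem E_conj (B B' : Subgroup X) (y : X) (h : B' = B.map (MulAut.conj y).toMonoidHom) (v : V) :
    ρ y (E ρ B v) = E ρ B' (ρ y v) := by
  classical
  haveI := Fintype.ofFinite X
  haveI := Fintype.ofFinite B
  haveI := Fintype.ofFinite B'
  subst h
  have hcard : Nat.card ↥(B.map (MulAut.conj y).toMonoidHom) = Nat.card B :=
    Nat.card_congr (B.equivMapOfInjective _ (MulAut.conj y).injective).symm.toEquiv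
  rw [E_apply, E_apply, hcard, map_smul, map_sum]
  congr 1
  refine Fintype.sum_equiv (B.equivMapOfInjective _ (MulAut.conj y).injective).toEquiv _ _ fun c => ?_
  rw [← Module.End.mul_apply, ← map_mul, ← Module.End.mul_apply, ← map_mul]
  congr 2
  have h1 : (((B.equivMapOfInjective (MulAut.conj y).toMonoidHom (MulAut.conj y).injective) c :
    ↥(B.map (MulAut.conj y).toMonoidHom)) : X) = y * c * y⁻¹ := rfl
  change y * (c : X) = ((B.equivMapOfInjective (MulAut.conj y).toMonoidHom (MulAut.conj y).injective) c : X) * y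
  rw [h1, inv_mul_cancel_right]

theorem E_submodule (B : Subgroup X) (S : Submodule k V) (h : ∀ b ∈ B, ∀ v ∈ S, ρ b v ∈ S) {v : V}
    (hv : v ∈ S) : E ρ B v ∈ S := by
  classical
  haveI := Fintype.ofFinite X
  haveI := Fintype.ofFinite B
  rw [E_apply]
  exact S.smul_mem _ (S.sum_mem fun b _ => h b b.2 v hv)

theorem conj_self {B : Subgroup X} {m : X} (h : ∀ b ∈ B, m * b = b * m) :
    B = B.map (MulAut.conj m).toMonoidHom := by
  ext c
  rw [Subgroup.mem_map]
  constructor
  · intro hc
    exact ⟨c, hc, by simp [MulAut.conj_apply, h c hc]⟩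
  · rintro ⟨b, hb, rfl⟩
    simpa [MulAut.conj_apply, h b hb] using hb

theorem conj_mul (B : Subgroup X) (x y : X) :
    B.map (MulAut.conj (x * y)).toMonoidHom =
      (B.map (MulAut.conj y).toMonoidHom).map (MulAut.conj x).toMonoidHom := by
  rw [Subgroup.map_map]
  congr 1
  ext c
  simp [MulAut.conj_apply, mul_assoc]

theorem card_conj (B : Subgroup X) (y : X) :
    Nat.card ↥(B.map (MulAut.conj y).toMonoidHom) = Nat.card B :=
  Nat.card_congr (B.equivMapOfInjective _ (MulAut.conj y).injective).symm.toEquiv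

end H5.FixAvg
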