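import Cfsg.Agent.Lib.H5.FixAvg1

/-!
# Average dimension of fixed point spaces over a coset of an abelian normal subgroup of order prime
to the characteristic: it is at most one half.
-/

set_option autoImplicit false
set_option linter.unusedSectionVars false
set_option linter.style.haveILetI false

namespace H5.FixAvg

open Module

variable {k V : Type*} [Field k] [AddCommGroup V] [Module k V] [FiniteDimensional k V]
variable {X : Type*} [Group X] [Finite X] (ρ : Representation k X V)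

theorem finrank_add_le (W A B : Submodule k V) (hA : A ≤ W) (hB : B ≤ W) (h : ∀ v ∈ A, v ∈ B → v = 0) :
    finrank k A + finrank k B ≤ finrank k W := by
  have h1 := Submodule.finrank_sup_add_finrank_inf_eq A B
  have h2 : A ⊓ B = ⊥ := by
    rw [eq_bot_iff]
    rintro v ⟨hv, hw⟩
    exact h v hv hw
  rw [h2, finrank_bot, add_zero] at h1
  rw [← h1]
  exact Submodule.finrank_mono (sup_le hA hB)

/-- an element without fixed points -/
theorem case1 (M : Subgroup X) [Fintype M] (x : X) (W : Submodule k V) {m0 : X} (hm0 : m0 ∈ M)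
    (h : ∀ w ∈ W, ρ m0 w = w → w = 0) :
    2 * ∑ m : M, finrank k ↥(W ⊓ fx ρ (x * m)) ≤ Nat.card M * finrank k W := by
  have h1 : ∀ m : M, finrank k ↥(W ⊓ fx ρ (x * m)) +
      finrank k ↥(W ⊓ fx ρ (x * ((m * ⟨m0, hm0⟩ : M) : X))) ≤ finrank k W := by
    intro m
    refine finrank_add_le _ _ _ inf_le_left inf_le_left ?_
    rintro v ⟨hv, hv1⟩ ⟨-, hv2⟩
    refine h v hv ?_
    have h2 := (mem_fx ρ).1 hv1
    have h3 := (mem_fx ρ).1 hv2
    have h4 : x * ((m * ⟨m0, hm0⟩ : M) : X) = (x * m) * m0 := by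
      simp [mul_assoc]
    rw [h4, map_mul, Module.End.mul_apply] at h3
    have h5 : ρ (x * m) (ρ m0 v) = ρ (x * m) v := by rw [h3, h2]
    have h6 := congrArg (ρ (x * m)⁻¹) h5
    have h7 : ∀ u : V, ρ (x * m)⁻¹ (ρ (x * m) u) = u := by
      intro u
      rw [← Module.End.mul_apply, ← map_mul, inv_mul_cancel, map_one, Module.End.one_apply]
    rwa [h7, h7] at h6
  have h2 := Finset.sum_le_sum fun (m : M) (_ : m ∈ Finset.univ) => h1 m
  rw [Finset.sum_add_distrib, Finset.sum_const, Finset.card_univ, ← Nat.card_eq_fintype_card,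
    smul_eq_mul] at h2
  have h3 : ∑ m : M, finrank k ↥(W ⊓ fx ρ (x * ((m * ⟨m0, hm0⟩ : M) : X))) =
      ∑ m : M, finrank k ↥(W ⊓ fx ρ (x * m)) :=
    Fintype.sum_equiv (Equiv.mulRight (⟨m0, hm0⟩ : M)) _ _ fun m => rfl
  rw [h3] at h2
  omega

/-- two disjoint projections which are injective on the fixed points -/
theorem case2 (W F : Submodule k V) (e f : V →ₗ[k] V) (he : ∀ v ∈ F, e v ∈ W) (hf : ∀ v ∈ F, f v ∈ W)
    (hee : ∀ v ∈ F, e (e v) = e v) (hff : ∀ v ∈ F, f (f v) = f v)
    (hef : ∀ v ∈ F, e (f v) = 0) (hfe : ∀ v ∈ F, f (e v) = 0)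
    (h0 : ∀ v ∈ F, e v = 0 → v = 0) (h1 : ∀ v ∈ F, f v = 0 → v = 0) :
    2 * finrank k F ≤ finrank k W := by
  let Φ : (F × F) →ₗ[k] W :=
    { toFun := fun z => ⟨e z.1 + f z.2, W.add_mem (he _ z.1.2) (hf _ z.2.2)⟩
      map_add' := fun z w => by
        ext
        simp only [Prod.fst_add, Prod.snd_add, Submodule.coe_add, map_add]
        abel
      map_smul' := fun c z => by
        ext
        simp only [Prod.smul_fst, Prod.smul_snd, Submodule.coe_smul, map_smul, smul_add,
          RingHom.id_apply] }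
  have hinj : Function.Injective Φ := by
    rw [← LinearMap.ker_eq_bot, eq_bot_iff]
    rintro ⟨v, w⟩ hz
    have h2 : e v + f w = 0 := by
      have := congrArg (Subtype.val) (LinearMap.mem_ker.1 hz)
      exact this
    have h3 : e (e v + f w) = 0 := by rw [h2, map_zero]
    have h4 : f (e v + f w) = 0 := by rw [h2, map_zero]
    rw [map_add, hee _ v.2, hef _ w.2, add_zero] at h3
    rw [map_add, hff _ w.2, hfe _ v.2, zero_add] at h4
    have h5 := h0 _ v.2 h3
    have h6 := h1 _ w.2 h4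
    rw [Submodule.mem_bot]
    exact Prod.ext (Subtype.ext h5) (Subtype.ext h6)
  have h2 := LinearMap.finrank_le_finrank_of_injective hinj
  rw [Module.finrank_prod] at h2
  omega

theorem coset (M : Subgroup X) [Fintype M] (hcomm : ∀ a ∈ M, ∀ b ∈ M, a * b = b * a) (x : X)
    (hx : ∀ m ∈ M, ∀ i : ℤ, x ^ i * m * (x ^ i)⁻¹ ∈ M) (hcard : ∀ B : Subgroup X, B ≤ M → (Nat.card B : k) ≠ 0)
    (hfix : ∀ v : V, (∀ m ∈ M, ρ m v = v) → v = 0) (n : ℕ) :
    ∀ V' : Submodule k V, finrank k V' = n → (∀ v ∈ V', ρ x v ∈ V') →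
      (∀ m ∈ M, ∀ v ∈ V', ρ m v ∈ V') →
      2 * ∑ m : M, finrank k ↥(V' ⊓ fx ρ (x * m)) ≤ Nat.card M * finrank k V' := by
  classical
  induction n using Nat.strong_induction_on with
  | _ n ih =>
  intro V' hn hxV hMV
  by_cases hV0 : V' = ⊥
  · rw [hV0]
    have h1 : ∀ m : M, finrank k ↥((⊥ : Submodule k V) ⊓ fx ρ (x * m)) = 0 := by
      intro m
      rw [bot_inf_eq, finrank_bot]
    rw [Finset.sum_congr rfl fun m _ => h1 m]
    simp
  -- a subgroup of maximal order with a fixed vector in V'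
  obtain ⟨B, ⟨hBM, v0, hv0, hv0ne, hBv0⟩, hBmax⟩ : ∃ B : Subgroup X,
      (B ≤ M ∧ ∃ v ∈ V', v ≠ 0 ∧ ∀ b ∈ B, ρ b v = v) ∧
      ∀ C : Subgroup X, (C ≤ M ∧ ∃ v ∈ V', v ≠ 0 ∧ ∀ b ∈ C, ρ b v = v) → Nat.card C ≤ Nat.card B := by
    have hne : {B : Subgroup X | B ≤ M ∧ ∃ v ∈ V', v ≠ 0 ∧ ∀ b ∈ B, ρ b v = v}.Nonempty := by
      obtain ⟨v, hv, hv0⟩ := Submodule.exists_mem_ne_zero_of_ne_bot hV0
      refine ⟨⊥, bot_le, v, hv, hv0, fun b hb => ?_⟩
      rw [Subgroup.mem_bot] at hb
      rw [hb, map_one, Module.End.one_apply]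
    obtain ⟨B, hB1, hB2⟩ := Set.exists_max_image _ (fun B : Subgroup X => Nat.card B)
      (Set.toFinite _) hne
    exact ⟨B, hB1, fun C hC => hB2 C hC⟩
  -- the orbit
  let O : Finset (Subgroup X) :=
    (Set.toFinite {B' : Subgroup X | ∃ i : ℤ, B' = B.map (MulAut.conj (x ^ i)).toMonoidHom}).toFinset
  have hO : ∀ B', B' ∈ O ↔ ∃ i : ℤ, B' = B.map (MulAut.conj (x ^ i)).toMonoidHom := by
    intro B'
    simp [O]
  have hBO : B ∈ O := by
    rw [hO]
    refine ⟨0, ?_⟩
    rw [zpow_zero]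
    exact conj_self (fun b _ => by simp)
  have hOM : ∀ B' ∈ O, B' ≤ M := by
    intro B' hB'
    obtain ⟨i, rfl⟩ := (hO _).1 hB'
    rintro _ ⟨b, hb, rfl⟩
    exact hx b (hBM hb) i
  have hOcard : ∀ B' ∈ O, Nat.card B' = Nat.card B := by
    intro B' hB'
    obtain ⟨i, rfl⟩ := (hO _).1 hB'
    exact card_conj _ _
  have hmconj : ∀ B' ∈ O, ∀ m ∈ M, B'.map (MulAut.conj (x * m)).toMonoidHom =
      B'.map (MulAut.conj x).toMonoidHom := by
    intro B' hB' m hm
    rw [conj_mul, ← conj_self (fun b hb => hcomm m hm b (hOM B' hB' hb))]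
  have hOx : ∀ B' ∈ O, B'.map (MulAut.conj x).toMonoidHom ∈ O := by
    intro B' hB'
    obtain ⟨i, rfl⟩ := (hO _).1 hB'
    rw [hO]
    refine ⟨1 + i, ?_⟩
    rw [← conj_mul, zpow_add, zpow_one]
  have hOx' : ∀ B' ∈ O, ∃ B'' ∈ O, B' = B''.map (MulAut.conj x).toMonoidHom := by
    intro B' hB'
    obtain ⟨i, rfl⟩ := (hO _).1 hB'
    refine ⟨B.map (MulAut.conj (x ^ (i - 1))).toMonoidHom, (hO _).2 ⟨i - 1, rfl⟩, ?_⟩
    rw [← conj_mul]
    congr 3
    rw [← zpow_one_add]
    congr 1
    ring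
  have hconjinj : ∀ B1 B2 : Subgroup X, B1.map (MulAut.conj x).toMonoidHom =
      B2.map (MulAut.conj x).toMonoidHom → B1 = B2 := fun B1 B2 h =>
    Subgroup.map_injective (MulAut.conj x).injective h
  -- V' is stable
  have hEV : ∀ B' ∈ O, ∀ v ∈ V', E ρ B' v ∈ V' := fun B' hB' v hv =>
    E_submodule ρ B' V' (fun b hb => hMV b (hOM B' hB' hb)) hv
  have hEE : ∀ B' ∈ O, ∀ v : V, E ρ B' (E ρ B' v) = E ρ B' v := fun B' hB' v =>
    E_fixed ρ (hcard B' (hOM B' hB')) fun b hb => E_mem ρ hb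
  have hEcomm : ∀ B' ∈ O, ∀ m ∈ M, ∀ v : V, ρ m (E ρ B' v) = E ρ B' (ρ m v) := by
    intro B' hB' m hm v
    exact E_conj ρ B' B' m (conj_self fun b hb => hcomm m hm b (hOM B' hB' hb)) v
  have hE0 : ∀ B1 ∈ O, ∀ B2 ∈ O, B1 ≠ B2 → ∀ v ∈ V', E ρ B1 (E ρ B2 v) = 0 := by
    intro B1 hB1 B2 hB2 hne v hv
    by_contra hne0
    have h1 : ∀ b ∈ B1 ⊔ B2, ρ b (E ρ B1 (E ρ B2 v)) = E ρ B1 (E ρ B2 v) := by
      intro b hb
      rw [Subgroup.sup_eq_closure_mul] at hb
      induction hb using Subgroup.closure_induction with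
      | mem b hb =>
        obtain ⟨b1, hb1, b2, hb2, rfl⟩ := hb
        change ρ (b1 * b2) _ = _
        rw [map_mul, Module.End.mul_apply, hEcomm B1 hB1 b2 (hOM B2 hB2 hb2), E_mem ρ hb2, E_mem ρ hb1]
      | one => rw [map_one, Module.End.one_apply]
      | mul a b _ _ ha hb => rw [map_mul, Module.End.mul_apply, hb, ha]
      | inv a _ ha =>
        have h2 := congrArg (ρ a⁻¹) ha
        rw [← Module.End.mul_apply, ← map_mul, inv_mul_cancel, map_one, Module.End.one_apply] at h2
        exact h2.symm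
    have h2 := hBmax (B1 ⊔ B2) ⟨sup_le (hOM _ hB1) (hOM _ hB2), _, hEV _ hB1 _ (hEV _ hB2 _ hv), hne0, h1⟩
    have h3 : B1 = B1 ⊔ B2 := by
      apply Subgroup.eq_of_le_of_card_ge le_sup_left
      rw [hOcard _ hB1]
      exact h2
    have h4 : B2 = B1 ⊔ B2 := by
      apply Subgroup.eq_of_le_of_card_ge le_sup_right
      rw [hOcard _ hB2]
      exact h2
    exact hne (h3.trans h4.symm)
  -- the projection
  let e : V →ₗ[k] V := ∑ B' ∈ O, E ρ B'
  have he : ∀ v, e v = ∑ B' ∈ O, E ρ B' v := fun v => by simp [e, LinearMap.sum_apply]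
  have hBe : ∀ B' ∈ O, ∀ v ∈ V', E ρ B' (e v) = E ρ B' v := by
    intro B' hB' v hv
    rw [he, map_sum, Finset.sum_eq_single_of_mem B' hB' fun C hC hne => hE0 B' hB' C hC hne.symm v hv,
      hEE B' hB']
  have heV : ∀ v ∈ V', e v ∈ V' := fun v hv => by
    rw [he]; exact V'.sum_mem fun B' hB' => hEV B' hB' v hv
  have hee : ∀ v ∈ V', e (e v) = e v := by
    intro v hv
    rw [he (e v), Finset.sum_congr rfl fun B' hB' => hBe B' hB' v hv, he]
  have hye : ∀ m ∈ M, ∀ v : V, ρ (x * m) (e v) = e (ρ (x * m) v) := by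
    intro m hm v
    rw [he, he, map_sum]
    refine Finset.sum_nbij (fun B' => B'.map (MulAut.conj x).toMonoidHom) ?_ ?_ ?_ ?_
    · intro B' hB'
      exact hOx B' hB'
    · intro B1 _ B2 _ h
      exact hconjinj _ _ h
    · intro B' hB'
      obtain ⟨B'', h1, h2⟩ := hOx' B' hB'
      exact ⟨B'', h1, h2.symm⟩
    · intro B' hB'
      exact E_conj ρ _ _ _ (hmconj B' hB' m hm).symm v
  have hme : ∀ m ∈ M, ∀ v : V, ρ m (e v) = e (ρ m v) := by
    intro m hm v
    rw [he, he, map_sum]
    exact Finset.sum_congr rfl fun B' hB' => hEcomm B' hB' m hm v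
  have hxe : ∀ v : V, ρ x (e v) = e (ρ x v) := by
    intro v
    have h1 := hye 1 M.one_mem v
    rwa [mul_one] at h1
  have hxm : ∀ m ∈ M, ∀ v ∈ V', ρ (x * m) v ∈ V' := by
    intro m hm v hv
    rw [map_mul, Module.End.mul_apply]
    exact hxV _ (hMV m hm v hv)
  -- the two parts
  set W := V' ⊓ LinearMap.ker (e - 1) with hW
  set U := V' ⊓ LinearMap.ker e with hU
  have hWe : ∀ v ∈ W, e v = v := by
    intro v hv
    have h1 := LinearMap.mem_ker.1 hv.2
    rw [LinearMap.sub_apply, sub_eq_zero] at h1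
    exact h1
  have hsum := finrank_split V' e heV hee
  rw [← hW, ← hU] at hsum
  have hsplit : ∀ m : M, finrank k ↥(V' ⊓ fx ρ (x * m)) =
      finrank k ↥(W ⊓ fx ρ (x * m)) + finrank k ↥(U ⊓ fx ρ (x * m)) := by
    intro m
    have h1 := finrank_split (V' ⊓ fx ρ (x * m)) e ?_ ?_
    · have h2 : V' ⊓ fx ρ (x * m) ⊓ LinearMap.ker (e - 1) = W ⊓ fx ρ (x * m) := by
        rw [hW, inf_assoc, inf_comm (fx ρ (x * m)), ← inf_assoc]
      have h3 : V' ⊓ fx ρ (x * m) ⊓ LinearMap.ker e = U ⊓ fx ρ (x * m) := by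
        rw [hU, inf_assoc, inf_comm (fx ρ (x * m)), ← inf_assoc]
      rw [h1, h2, h3]
    · rintro v ⟨hv1, hv2⟩
      refine ⟨heV v hv1, (mem_fx ρ).2 ?_⟩
      rw [hye m m.2, (mem_fx ρ).1 hv2]
    · rintro v ⟨hv1, -⟩
      exact hee v hv1
  -- W is not zero
  have hWne : W ≠ ⊥ := by
    intro h
    have h1 : e v0 ∈ W := ⟨heV v0 hv0, LinearMap.mem_ker.2 (by
      rw [LinearMap.sub_apply, hee v0 hv0]; simp)⟩
    rw [h, Submodule.mem_bot] at h1
    have h2 := hBe B hBO v0 hv0
    rw [h1, map_zero, E_fixed ρ (hcard B hBM) hBv0] at h2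
    exact hv0ne h2.symm
  have hWpos : 0 < finrank k W := by
    rw [Nat.pos_iff_ne_zero, Ne, Submodule.finrank_eq_zero]
    exact hWne
  -- induction for U
  have hUind := ih (finrank k U) (by omega) U rfl
    (fun v hv => ⟨hxV v hv.1, LinearMap.mem_ker.2 (by rw [← hxe, LinearMap.mem_ker.1 hv.2, map_zero])⟩)
    (fun m hm v hv => ⟨hMV m hm v hv.1,
      LinearMap.mem_ker.2 (by rw [← hme m hm, LinearMap.mem_ker.1 hv.2, map_zero])⟩)
  have hWbd : 2 * ∑ m : M, finrank k ↥(W ⊓ fx ρ (x * m)) ≤ Nat.card M * finrank k W := by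
    by_cases hcase : B.map (MulAut.conj x).toMonoidHom = B
    · -- O = {B}
      have hall : ∀ B' ∈ O, B' = B := by
        intro B' hB'
        obtain ⟨i, rfl⟩ := (hO _).1 hB'
        have h1 : ∀ j : ℕ, B.map (MulAut.conj (x ^ (j : ℤ))).toMonoidHom = B := by
          intro j
          induction j with
          | zero =>
            rw [Nat.cast_zero, zpow_zero]
            exact (conj_self (fun b _ => by simp)).symm
          | succ j ihj =>
            rw [Nat.cast_succ, add_comm, zpow_add, zpow_one, conj_mul, ihj, hcase]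
        obtain ⟨j, rfl | rfl⟩ := i.eq_nat_or_neg
        · exact h1 j
        · have h2 := h1 j
          conv_lhs => rw [← h2]
          rw [← conj_mul, ← zpow_add, neg_add_cancel, zpow_zero]
          exact (conj_self (fun b _ => by simp)).symm
      have hOeq : O = {B} := by
        ext B'
        rw [Finset.mem_singleton]
        exact ⟨hall B', fun h => h ▸ hBO⟩
      have hWfix : ∀ w ∈ W, ∀ b ∈ B, ρ b w = w := by
        intro w hw b hb
        have h1 := hWe w hw
        rw [he, hOeq, Finset.sum_singleton] at h1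
        rw [← h1]
        exact E_mem ρ hb
      obtain ⟨m0, hm0, hm0B⟩ : ∃ m0 ∈ M, m0 ∉ B := by
        by_contra hcon
        push Not at hcon
        exact hv0ne (hfix v0 fun m hm => hBv0 m (hcon m hm))
      refine case1 ρ M x W hm0 fun w hw hw0 => ?_
      by_contra hne
      have h1 : ∀ b ∈ B ⊔ Subgroup.zpowers m0, ρ b w = w := by
        intro b hb
        have h2 : B ⊔ Subgroup.zpowers m0 ≤
            (MonoidHom.ker (1 : X →* X)).comap (1 : X →* X) := by
          intro z _
          simp [MonoidHom.mem_ker]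
        rw [Subgroup.sup_eq_closure_mul] at hb
        induction hb using Subgroup.closure_induction with
        | mem b hb =>
          obtain ⟨b1, hb1, b2, hb2, rfl⟩ := hb
          obtain ⟨i, rfl⟩ := Subgroup.mem_zpowers_iff.1 hb2
          change ρ (b1 * m0 ^ i) _ = _
          have h3 : ∀ j : ℕ, ρ (m0 ^ j) w = w := by
            intro j
            induction j with
            | zero => rw [pow_zero, map_one, Module.End.one_apply]
            | succ j ihj => rw [pow_succ, map_mul, Module.End.mul_apply, hw0, ihj]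
          have h4 : ρ (m0 ^ i) w = w := by
            obtain ⟨j, rfl | rfl⟩ := i.eq_nat_or_neg
            · rw [zpow_natCast]; exact h3 j
            · have h5 := congrArg (ρ (m0 ^ (-(j : ℤ)))) (h3 j)
              rw [← Module.End.mul_apply, ← map_mul, ← zpow_natCast, ← zpow_add, neg_add_cancel,
                zpow_zero, map_one, Module.End.one_apply] at h5
              exact h5.symm
          rw [map_mul, Module.End.mul_apply, h4, hWfix w hw b1 hb1]
        | one => rw [map_one, Module.End.one_apply]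
        | mul a b _ _ ha hb => rw [map_mul, Module.End.mul_apply, hb, ha]
        | inv a _ ha =>
          have h2 := congrArg (ρ a⁻¹) ha
          rw [← Module.End.mul_apply, ← map_mul, inv_mul_cancel, map_one, Module.End.one_apply] at h2
          exact h2.symm
      have h2 := hBmax (B ⊔ Subgroup.zpowers m0)
        ⟨sup_le hBM (by rwa [Subgroup.zpowers_le]), w, hw.1, hne, h1⟩
      have h3 : B = B ⊔ Subgroup.zpowers m0 := Subgroup.eq_of_le_of_card_ge le_sup_left h2
      apply hm0B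
      rw [h3]
      exact (le_sup_right : _ ≤ B ⊔ Subgroup.zpowers m0) (Subgroup.mem_zpowers m0)
    · -- the second case
      set B1 := B.map (MulAut.conj x).toMonoidHom with hB1
      have hB1O : B1 ∈ O := hOx B hBO
      have key : ∀ m : M, 2 * finrank k ↥(W ⊓ fx ρ (x * m)) ≤ finrank k W := by
        intro m
        have hstep : ∀ B' ∈ O, ∀ v ∈ fx ρ (x * m), E ρ B' v = 0 → ∀ B'' ∈ O, E ρ B'' v = 0 := by
          intro B' hB' v hv h0 B'' hB''
          obtain ⟨i, rfl⟩ := (hO _).1 hB'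
          obtain ⟨j, rfl⟩ := (hO _).1 hB''
          have h1 : ∀ (l : ℕ) (i : ℤ), E ρ (B.map (MulAut.conj (x ^ i)).toMonoidHom) v = 0 →
              E ρ (B.map (MulAut.conj (x ^ (i + l))).toMonoidHom) v = 0 := by
            intro l i hi
            induction l with
            | zero => simpa using hi
            | succ l ihl =>
              have h2 := E_conj ρ (B.map (MulAut.conj (x ^ (i + l))).toMonoidHom)
                (B.map (MulAut.conj (x ^ (i + (l + 1 : ℕ)))).toMonoidHom) (x * m) ?_ v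
              · rw [ihl, map_zero, (mem_fx ρ).1 hv] at h2
                exact h2.symm
              · rw [hmconj _ ((hO _).2 ⟨_, rfl⟩) m m.2, ← conj_mul]
                congr 3
                rw [← zpow_one_add]
                congr 1
                push_cast; ring
          -- choose a large multiple of the order
          have h2 : ∃ l : ℕ, x ^ (i + l) = x ^ j := by
            refine ⟨((j - i) % (orderOf x : ℤ)).toNat, ?_⟩
            have hpos : 0 < (orderOf x : ℤ) := by exact_mod_cast orderOf_pos x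
            rw [Int.toNat_of_nonneg (Int.emod_nonneg _ hpos.ne'), zpow_add, zpow_mod_orderOf,
              ← zpow_add]
            congr 1
            ring
          obtain ⟨l, hl⟩ := h2
          have h3 := h1 l i h0
          rwa [hl] at h3
        have hzero : ∀ B' ∈ O, ∀ v ∈ W ⊓ fx ρ (x * m), E ρ B' v = 0 → v = 0 := by
          rintro B' hB' v ⟨hv1, hv2⟩ h0
          have h1 := hstep B' hB' v hv2 h0
          rw [← hWe v hv1, he]
          exact Finset.sum_eq_zero h1
        have hEW : ∀ B' ∈ O, ∀ v ∈ W ⊓ fx ρ (x * m), E ρ B' v ∈ W := by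
          rintro B' hB' v ⟨hv1, -⟩
          refine ⟨hEV B' hB' v hv1.1, LinearMap.mem_ker.2 ?_⟩
          rw [LinearMap.sub_apply, he, Finset.sum_eq_single_of_mem B' hB' fun C hC hne =>
            hE0 C hC B' hB' hne v hv1.1, hEE B' hB', Module.End.one_apply, sub_self]
        exact case2 W (W ⊓ fx ρ (x * m)) (E ρ B) (E ρ B1) (hEW B hBO) (hEW B1 hB1O)
          (fun v _ => hEE B hBO v) (fun v _ => hEE B1 hB1O v)
          (fun v hv => hE0 B hBO B1 hB1O (Ne.symm hcase) v hv.1.1)
          (fun v hv => hE0 B1 hB1O B hBO hcase v hv.1.1)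
          (hzero B hBO) (hzero B1 hB1O)
      rw [Finset.mul_sum]
      calc ∑ m : M, 2 * finrank k ↥(W ⊓ fx ρ (x * m)) ≤ ∑ _m : M, finrank k W :=
            Finset.sum_le_sum fun m _ => key m
        _ = Nat.card M * finrank k W := by
            rw [Finset.sum_const, Finset.card_univ, Nat.card_eq_fintype_card, smul_eq_mul]
  rw [Finset.sum_congr rfl fun m _ => hsplit m, Finset.sum_add_distrib, mul_add, hsum, mul_add]
  exact Nat.add_le_add hWbd hUind

end H5.FixAvg
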