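import Cfsg.Agent.Lib.H5.FixAvg2
import Cfsg.Agent.Lib.H1.Solv
import Cfsg.Agent.Lib.H73.SolvSmall

/-!
# Average dimension of fixed point spaces in irreducible modules of solvable groups
-/

set_option autoImplicit false
set_option linter.unusedSectionVars false
set_option linter.style.haveILetI false

namespace H5.FixAvg

open Module

variable {p : ℕ} [hp : Fact p.Prime]

/-- P. M. Neumann: the average dimension of a fixed point space in a non-trivial irreducible module
of a solvable group is at most one half of the dimension (faithful case). -/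
theorem avg_faithful {X V : Type*} [Group X] [Finite X] (hsol : Group.IsSolvable X) [AddCommGroup V]
    [Module (ZMod p) V] [Finite V] (ρ : Representation (ZMod p) X V)
    (hirr : ∀ W : Submodule (ZMod p) V, (∀ h, ∀ w ∈ W, ρ h w ∈ W) → W = ⊥ ∨ W = ⊤)
    (hnt : Nontrivial X) (hinj : ∀ h, (∀ v, ρ h v = v) → h = 1) [Fintype X] :
    2 * ∑ h : X, finrank (ZMod p) (fx ρ h) ≤ Nat.card X * finrank (ZMod p) V := by
  classical
  haveI : FiniteDimensional (ZMod p) V := Module.Finite.of_finite
  obtain ⟨M, -, hMn, hM0, hMmin⟩ := H73.SolvSmall.exists_minimal_normal (G := X)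
    (N := (⊤ : Subgroup X)) inferInstance (by intro h; exact (bot_ne_top (α := Subgroup X)) h.symm)
  haveI := hMn
  obtain ⟨hMc, r, hr, hMr⟩ := H1.Solv.minimal_normal_elementary hsol M hM0
    hMmin
  have hcomm : ∀ a ∈ M, ∀ b ∈ M, a * b = b * a := by
    intro a ha b hb
    have := hMc.is_comm.comm ⟨a, ha⟩ ⟨b, hb⟩
    exact congrArg Subtype.val this
  haveI : Fact r.Prime := ⟨hr⟩
  have hMp : IsPGroup r M := by
    intro m
    refine ⟨1, ?_⟩
    rw [pow_one]
    exact Subtype.ext (hMr m m.2)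
  -- the fixed space of M
  let F : Submodule (ZMod p) V := ⨅ m : M, fx ρ m
  have hF : ∀ v, v ∈ F ↔ ∀ m ∈ M, ρ m v = v := by
    intro v
    simp only [F, Submodule.mem_iInf, mem_fx, Subtype.forall]
  have hFinv : ∀ h, ∀ w ∈ F, ρ h w ∈ F := by
    intro h w hw
    rw [hF] at hw ⊢
    intro m hm
    have h1 : m * h = h * (h⁻¹ * m * h) := by group
    rw [← Module.End.mul_apply, ← map_mul, h1, map_mul, Module.End.mul_apply, hw]
    have h2 := hMn.conj_mem m hm h⁻¹
    rwa [inv_inv] at h2
  have hFbot : F = ⊥ := by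
    rcases hirr F hFinv with h | h
    · exact h
    · exfalso
      apply hM0
      rw [eq_bot_iff]
      intro m hm
      rw [Subgroup.mem_bot]
      refine hinj m fun v => ?_
      exact (hF v).1 (h ▸ Submodule.mem_top) m hm
  have hVne : ∃ v : V, v ≠ 0 := by
    by_contra hcon
    push Not at hcon
    obtain ⟨x, y, hxy⟩ := hnt
    have h1 := hinj x fun v => by rw [hcon v, map_zero]
    have h2 := hinj y fun v => by rw [hcon v, map_zero]
    exact hxy (h1.trans h2.symm)
  have hrp : r ≠ p := by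
    rintro rfl
    let _ : MulAction M V :=
      { smul := fun m v => ρ m v
        one_smul := fun v => by
          change ρ ((1 : M) : X) v = v
          rw [Subgroup.coe_one, map_one, Module.End.one_apply]
        mul_smul := fun a b v => by
          change ρ ((a * b : M) : X) v = ρ a (ρ b v)
          rw [Subgroup.coe_mul, map_mul, Module.End.mul_apply] }
    have h1 : r ∣ Nat.card V := by
      obtain ⟨v, hv⟩ := hVne
      have h2 : addOrderOf v = r := by
        apply addOrderOf_eq_prime _ hv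
        have : (r : ZMod r) • v = 0 := by rw [CharP.cast_eq_zero, zero_smul]
        rwa [Nat.cast_smul_eq_nsmul] at this
      rw [← h2]
      exact addOrderOf_dvd_natCard v
    obtain ⟨b, hb1, hb2⟩ := hMp.exists_fixed_point_of_prime_dvd_card_of_fixed_point (α := V) h1
      (a := 0) (fun m => map_zero (ρ m))
    have h3 : b ∈ F := by
      rw [hF]
      intro m hm
      exact hb1 ⟨m, hm⟩
    rw [hFbot, Submodule.mem_bot] at h3
    exact hb2 h3.symm
  have hcard : ∀ B : Subgroup X, B ≤ M → (Nat.card B : ZMod p) ≠ 0 := by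
    intro B hB h0
    rw [ZMod.natCast_eq_zero_iff] at h0
    have h1 : p ∣ Nat.card M := h0.trans (Subgroup.card_dvd_of_le hB)
    obtain ⟨k, hk⟩ := hMp.exists_card_eq
    rw [hk] at h1
    have h2 := hp.out.dvd_of_dvd_pow h1
    exact hrp ((Nat.prime_dvd_prime_iff_eq hp.out hr).1 h2).symm
  have hfix : ∀ v : V, (∀ m ∈ M, ρ m v = v) → v = 0 := by
    intro v hv
    have h1 : v ∈ F := (hF v).2 hv
    rwa [hFbot, Submodule.mem_bot] at h1
  haveI : Fintype M := Fintype.ofFinite M
  have hx : ∀ x : X, ∀ m ∈ M, ∀ i : ℤ, x ^ i * m * (x ^ i)⁻¹ ∈ M := fun x m hm i =>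
    hMn.conj_mem m hm _
  have hcoset : ∀ x : X, 2 * ∑ m : M, finrank (ZMod p) (fx ρ (x * m)) ≤
      Nat.card M * finrank (ZMod p) V := by
    intro x
    have h1 := coset ρ M hcomm x (hx x) hcard hfix (finrank (ZMod p) (⊤ : Submodule (ZMod p) V)) ⊤ rfl
      (fun _ _ => Submodule.mem_top) (fun _ _ _ _ => Submodule.mem_top)
    have h2 : ∀ m : M, finrank (ZMod p) ↥((⊤ : Submodule (ZMod p) V) ⊓ fx ρ (x * m)) =
        finrank (ZMod p) (fx ρ (x * m)) := fun m => by rw [top_inf_eq]
    rwa [finrank_top, Finset.sum_congr rfl fun m _ => h2 m] at h1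
  have h1 := Finset.sum_le_sum fun (x : X) (_ : x ∈ Finset.univ) => hcoset x
  rw [← Finset.mul_sum, Finset.sum_comm, Finset.sum_const, Finset.card_univ,
    ← Nat.card_eq_fintype_card, smul_eq_mul] at h1
  have h2 : ∀ m : M, ∑ x : X, finrank (ZMod p) (fx ρ (x * m)) = ∑ x : X, finrank (ZMod p) (fx ρ x) :=
    fun m => Fintype.sum_equiv (Equiv.mulRight (m : X)) _ _ fun x => rfl
  rw [Finset.sum_congr rfl fun m _ => h2 m, Finset.sum_const, Finset.card_univ,
    ← Nat.card_eq_fintype_card, smul_eq_mul] at h1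
  have h3 : 0 < Nat.card M := Nat.card_pos
  have h4 : Nat.card M * (2 * ∑ x : X, finrank (ZMod p) (fx ρ x)) ≤
      Nat.card M * (Nat.card X * finrank (ZMod p) V) := by
    calc _ = 2 * (Nat.card M * ∑ x : X, finrank (ZMod p) (fx ρ x)) := by ring
      _ ≤ _ := h1
      _ = _ := by ring
  exact Nat.le_of_mul_le_mul_left h4 h3

/-- P. M. Neumann: the average dimension of a fixed point space in a non-trivial irreducible module
of a solvable group is at most one half of the dimension. -/
theorem avg_irred {X V : Type*} [Group X] [Finite X] (hsol : Group.IsSolvable X) [AddCommGroup V]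
    [Module (ZMod p) V] [Finite V] (ρ : Representation (ZMod p) X V)
    (hirr : ∀ W : Submodule (ZMod p) V, (∀ h, ∀ w ∈ W, ρ h w ∈ W) → W = ⊥ ∨ W = ⊤)
    (hnt : ∃ h v, ρ h v ≠ v) [Fintype X] :
    2 * ∑ h : X, finrank (ZMod p) (fx ρ h) ≤ Nat.card X * finrank (ZMod p) V := by
  classical
  let K : Subgroup X := MonoidHom.ker ρ
  let ρ' : Representation (ZMod p) (X ⧸ K) V := QuotientGroup.lift K ρ le_rfl
  have hρ' : ∀ x : X, ρ' (x : X ⧸ K) = ρ x := fun x => QuotientGroup.lift_mk' K le_rfl x
  haveI : Fintype (X ⧸ K) := Fintype.ofFinite _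
  have hsol' : Group.IsSolvable (X ⧸ K) :=
    Group.isSolvable_of_surjective (QuotientGroup.mk'_surjective K)
  have hinj : ∀ h : X ⧸ K, (∀ v, ρ' h v = v) → h = 1 := by
    intro h hh
    obtain ⟨x, rfl⟩ := QuotientGroup.mk_surjective h
    rw [QuotientGroup.eq_one_iff]
    rw [MonoidHom.mem_ker]
    ext v
    rw [← hρ', hh v]
    rfl
  have hnt' : Nontrivial (X ⧸ K) := by
    obtain ⟨h, v, hv⟩ := hnt
    refine ⟨(h : X ⧸ K), 1, fun hh => hv ?_⟩
    rw [← hρ', hh, map_one, Module.End.one_apply]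
  have h1 := avg_faithful hsol' ρ' (fun W hW => hirr W fun h w hw => by
    have := hW (h : X ⧸ K) w hw
    rwa [hρ'] at this) hnt' hinj
  have h2 : ∀ x : X, finrank (ZMod p) (fx ρ x) = finrank (ZMod p) (fx ρ' (x : X ⧸ K)) := by
    intro x
    rw [fx, fx, hρ']
  have h3 : ∑ x : X, finrank (ZMod p) (fx ρ x) =
      Nat.card K * ∑ z : X ⧸ K, finrank (ZMod p) (fx ρ' z) := by
    rw [Finset.sum_congr rfl fun x _ => h2 x]
    rw [← Finset.sum_fiberwise Finset.univ (fun x : X => (x : X ⧸ K)), Finset.mul_sum]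
    refine Finset.sum_congr rfl fun z _ => ?_
    rw [Finset.sum_congr rfl (g := fun _ => finrank (ZMod p) (fx ρ' z))
      (fun x hx => by rw [(Finset.mem_filter.1 hx).2]), Finset.sum_const, smul_eq_mul]
    congr 1
    obtain ⟨x0, rfl⟩ := QuotientGroup.mk_surjective z
    haveI : Fintype K := Fintype.ofFinite K
    rw [Nat.card_eq_fintype_card, ← Finset.card_univ]
    symm
    refine Finset.card_bij (fun (c : K) _ => x0 * c) ?_ ?_ ?_
    · intro c _
      rw [Finset.mem_filter]
      refine ⟨Finset.mem_univ _, ?_⟩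
      rw [QuotientGroup.mk_mul, (QuotientGroup.eq_one_iff _).2 c.2, mul_one]
    · intro a _ b _ hab
      exact Subtype.ext (mul_left_cancel hab)
    · intro y hy
      have h4 := (Finset.mem_filter.1 hy).2
      refine ⟨⟨x0⁻¹ * y, ?_⟩, Finset.mem_univ _, by simp⟩
      rw [← QuotientGroup.eq]
      exact h4.symm
  rw [h3, ← Subgroup.card_mul_index K, Subgroup.index]
  calc 2 * (Nat.card K * ∑ z : X ⧸ K, finrank (ZMod p) (fx ρ' z))
      = Nat.card K * (2 * ∑ z : X ⧸ K, finrank (ZMod p) (fx ρ' z)) := by ring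
    _ ≤ Nat.card K * (Nat.card (X ⧸ K) * finrank (ZMod p) V) := Nat.mul_le_mul_left _ h1
    _ = _ := by ring

end H5.FixAvg
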