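import Cfsg.Agent.Lib.H5.FixAvg3

/-!
# Average number of fixed points on minimal normal subgroups and chief factors of solvable groups
-/

set_option autoImplicit false
set_option linter.unusedSectionVars false
set_option linter.style.haveILetI false

namespace H5.FixAvg

open Module

theorem avg_add {G V : Type*} [Group G] [Finite G] [Fintype G] (hsol : Group.IsSolvable G)
    [AddCommGroup V] [Finite V] (φ : G → V → V) (hadd : ∀ g v w, φ g (v + w) = φ g v + φ g w)
    (hone : ∀ v, φ 1 v = v) (hmul : ∀ a b v, φ (a * b) v = φ a (φ b v))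
    {q : ℕ} [hq : Fact q.Prime] (hexp : ∀ a : V, q • a = 0)
    (hirr : ∀ B : AddSubgroup V, (∀ g, ∀ b ∈ B, φ g b ∈ B) → B = ⊥ ∨ B = ⊤)
    (hnt : ∃ g a, φ g a ≠ a) :
    2 * ∑ g : G, (Nat.card {a : V // φ g a = a}).factorization q ≤
      Nat.card G * (Nat.card V).factorization q := by
  classical
  letI iM : Module (ZMod q) V := AddCommGroup.zmodModule (n := q) hexp
  let act : G → (V →+ V) := fun g => AddMonoidHom.mk' (φ g) (hadd g)
  let ρ : Representation (ZMod q) G V :=
    { toFun := fun g => (act g).toZModLinearMap q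
      map_one' := by
        refine LinearMap.ext fun v => ?_
        exact hone v
      map_mul' := fun a b => by
        refine LinearMap.ext fun v => ?_
        exact hmul a b v }
  have hρ : ∀ (g : G) (v : V), ρ g v = φ g v := fun g v => rfl
  have hfxcard : ∀ z : G, Nat.card (fx ρ z) = Nat.card {a : V // φ z a = a} := by
    intro z
    refine Nat.card_congr ⟨fun v => ⟨(v : V), ?_⟩,
      fun n => ⟨(n : V), ?_⟩, fun v => rfl, fun n => rfl⟩
    · have h1 := (mem_fx ρ).1 v.2
      rw [hρ] at h1
      exact h1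
    · rw [mem_fx, hρ]
      exact n.2
  have hfr : ∀ z : G, (Nat.card {a : V // φ z a = a}).factorization q =
      finrank (ZMod q) (fx ρ z) := by
    intro z
    rw [← hfxcard, Module.natCard_eq_pow_finrank (K := ZMod q), Nat.card_zmod,
      hq.out.factorization_pow, Finsupp.single_eq_same]
  have hfr2 : (Nat.card V).factorization q = finrank (ZMod q) V := by
    rw [Module.natCard_eq_pow_finrank (K := ZMod q), Nat.card_zmod,
      hq.out.factorization_pow, Finsupp.single_eq_same]
  have hirr' : ∀ W : Submodule (ZMod q) V, (∀ h, ∀ w ∈ W, ρ h w ∈ W) →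
      W = ⊥ ∨ W = ⊤ := by
    intro W hW
    rcases hirr W.toAddSubgroup (fun g b hb => hW g _ hb) with h | h
    · left
      rw [eq_bot_iff]
      intro w hw
      have h1 : w ∈ W.toAddSubgroup := hw
      rw [h] at h1
      exact h1
    · right
      rw [eq_top_iff]
      intro w _
      have h1 : w ∈ W.toAddSubgroup := by rw [h]; exact AddSubgroup.mem_top _
      exact h1
  have hnt' : ∃ h v, ρ h v ≠ v := hnt
  have h1 := avg_irred hsol ρ hirr' hnt'
  rw [hfr2, Finset.sum_congr rfl fun z _ => hfr z]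
  exact h1

theorem avg_action {G A : Type*} [Group G] [Finite G] [Fintype G] (hsol : Group.IsSolvable G)
    [CommGroup A] [Finite A] (φ : G →* MulAut A) {q : ℕ} [hq : Fact q.Prime] (hexp : ∀ a : A, a ^ q = 1)
    (hirr : ∀ B : Subgroup A, (∀ g, ∀ b ∈ B, φ g b ∈ B) → B = ⊥ ∨ B = ⊤)
    (hnt : ∃ g a, φ g a ≠ a) :
    2 * ∑ g : G, (Nat.card {a : A // φ g a = a}).factorization q ≤
      Nat.card G * (Nat.card A).factorization q := by
  have h1 := avg_add (V := Additive A) hsol (fun g v => Additive.ofMul (φ g v.toMul))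
    (fun g v w => by
      change Additive.ofMul (φ g (v.toMul * w.toMul)) = _
      rw [map_mul]; rfl)
    (fun v => by
      change Additive.ofMul (φ 1 v.toMul) = v
      rw [map_one]; rfl)
    (fun a b v => by
      change Additive.ofMul (φ (a * b) v.toMul) = _
      rw [map_mul]; rfl)
    (q := q) (fun v => hexp v.toMul)
    (fun B hB => by
      let M : Subgroup A :=
        { carrier := {x | Additive.ofMul x ∈ B}
          one_mem' := B.zero_mem
          mul_mem' := fun ha hb => B.add_mem ha hb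
          inv_mem' := fun ha => B.neg_mem ha }
      rcases hirr M (fun g b hb => hB g _ hb) with h | h
      · left
        rw [eq_bot_iff]
        intro w hw
        have h1 : w.toMul ∈ M := hw
        rw [h, Subgroup.mem_bot] at h1
        rw [AddSubgroup.mem_bot]
        exact Additive.toMul.injective h1
      · right
        rw [eq_top_iff]
        intro w _
        have h1 : w.toMul ∈ M := by rw [h]; exact Subgroup.mem_top _
        exact h1)
    (by
      obtain ⟨g, n, hgn⟩ := hnt
      exact ⟨g, Additive.ofMul n, fun h => hgn (Additive.ofMul.injective h)⟩)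
  exact h1

theorem min_avg {G : Type*} [Group G] [Finite G] [Fintype G] (hsol : Group.IsSolvable G)
    (N : Subgroup G) [hN : N.Normal] (hN0 : N ≠ ⊥)
    (hmin : ∀ M : Subgroup G, M.Normal → M ≤ N → M = ⊥ ∨ M = N)
    (hnc : ∃ g : G, ∃ n ∈ N, g * n * g⁻¹ ≠ n) (p : ℕ) [hp : Fact p.Prime] :
    2 * ∑ z : G, (Nat.card ↥(N ⊓ Subgroup.centralizer {z})).factorization p ≤
      Nat.card G * (Nat.card N).factorization p := by
  classical
  obtain ⟨hNc, q, hq, hNq⟩ := H1.Solv.minimal_normal_elementary hsol N hN0 hmin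
  haveI : Fact q.Prime := ⟨hq⟩
  have hNqg : IsPGroup q N := by
    intro m
    refine ⟨1, ?_⟩
    rw [pow_one]
    exact Subtype.ext (hNq m m.2)
  by_cases hqp : q = p
  swap
  · -- everything is zero
    obtain ⟨k, hk⟩ := hNqg.exists_card_eq
    have h1 : (Nat.card N).factorization p = 0 := by
      rw [hk]
      apply Nat.factorization_eq_zero_of_not_dvd
      intro h
      exact hqp ((Nat.prime_dvd_prime_iff_eq hp.out hq).1 (hp.out.dvd_of_dvd_pow h)).symm
    have h2 : ∀ z : G, (Nat.card ↥(N ⊓ Subgroup.centralizer {z})).factorization p = 0 := by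
      intro z
      have h3 : Nat.card ↥(N ⊓ Subgroup.centralizer {z}) ∣ Nat.card N :=
        Subgroup.card_dvd_of_le inf_le_left
      have h4 := (Nat.factorization_le_iff_dvd Nat.card_pos.ne' Nat.card_pos.ne').2 h3 p
      omega
    rw [Finset.sum_congr rfl fun z _ => h2 z]
    simp
  subst hqp
  letI iC : CommGroup N :=
    { (inferInstance : Group N) with mul_comm := fun a b => hNc.is_comm.comm a b }
  have hcard : ∀ z : G, Nat.card {a : N // (MulAut.conjNormal z : MulAut N) a = a} =
      Nat.card ↥(N ⊓ Subgroup.centralizer {z}) := by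
    intro z
    refine Nat.card_congr ⟨fun v => ⟨v.1, v.1.2, ?_⟩, fun n => ⟨⟨n, n.2.1⟩, ?_⟩,
      fun v => rfl, fun n => rfl⟩
    · refine Subgroup.mem_centralizer_singleton_iff.2 ?_
      have h2 := congrArg Subtype.val v.2
      rw [MulAut.conjNormal_apply, mul_inv_eq_iff_eq_mul] at h2
      exact h2.symm
    · have h1 := Subgroup.mem_centralizer_singleton_iff.1 n.2.2
      apply Subtype.ext
      rw [MulAut.conjNormal_apply]
      change z * n * z⁻¹ = n
      rw [mul_inv_eq_iff_eq_mul]
      exact h1.symm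
  have h1 := avg_action (A := N) hsol (MulAut.conjNormal : G →* MulAut N) (q := q)
    (fun a => Subtype.ext (hNq a a.2)) ?_ ?_
  · rw [Finset.sum_congr rfl fun z _ => by rw [hcard z]] at h1
    exact h1
  · intro B hB
    have hMn : (B.map N.subtype).Normal := ⟨by
      rintro _ ⟨b, hb, rfl⟩ g
      refine ⟨(MulAut.conjNormal g : MulAut N) b, hB g b hb, ?_⟩
      exact MulAut.conjNormal_apply g b⟩
    rcases hmin _ hMn (Subgroup.map_subtype_le B) with h | h
    · left
      exact (Subgroup.map_eq_bot_iff_of_injective B N.subtype_injective).1 h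
    · right
      rw [eq_top_iff]
      intro w _
      have h2 : (w : G) ∈ B.map N.subtype := by rw [h]; exact w.2
      obtain ⟨b, hb, hbw⟩ := h2
      have h3 : b = w := Subtype.ext hbw
      rwa [← h3]
  · obtain ⟨g, n, hn, hgn⟩ := hnc
    refine ⟨g, ⟨n, hn⟩, fun h => hgn ?_⟩
    have h2 := congrArg Subtype.val h
    rwa [MulAut.conjNormal_apply] at h2

variable {G : Type*} [Group G] [Finite G]

/-- number of fixed points on a section -/
theorem card_step (L K : Subgroup G) [hL : L.Normal] (hLK : L ≤ K) (g : G) (p : ℕ) :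
    (Nat.card ↥(K ⊓ Subgroup.centralizer {g})).factorization p ≤
      (Nat.card ↥(L ⊓ Subgroup.centralizer {g})).factorization p +
      (Nat.card ↥(K.map (QuotientGroup.mk' L) ⊓
        Subgroup.centralizer {(g : G ⧸ L)})).factorization p := by
  set A := K ⊓ Subgroup.centralizer {g} with hA
  set φ : A →* G ⧸ L := (QuotientGroup.mk' L).comp A.subtype with hφ
  have h1 : Nat.card A = Nat.card φ.ker * Nat.card φ.range := by
    rw [← Nat.card_congr (QuotientGroup.quotientKerEquivRange φ).toEquiv, ← Subgroup.index,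
      Subgroup.card_mul_index]
  have h2 : Nat.card φ.ker = Nat.card ↥(L ⊓ Subgroup.centralizer {g}) := by
    refine Nat.card_congr ⟨fun x => ⟨(x : A), ?_, (x : A).2.2⟩,
      fun x => ⟨⟨x, hLK x.2.1, x.2.2⟩, ?_⟩, fun x => rfl, fun x => rfl⟩
    · have := x.2
      rw [MonoidHom.mem_ker] at this
      exact (QuotientGroup.eq_one_iff _).1 this
    · rw [MonoidHom.mem_ker]
      exact (QuotientGroup.eq_one_iff _).2 x.2.1
  have h3 : φ.range ≤ K.map (QuotientGroup.mk' L) ⊓ Subgroup.centralizer {(g : G ⧸ L)} := by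
    rintro _ ⟨x, rfl⟩
    refine ⟨⟨x, x.2.1, rfl⟩, ?_⟩
    change φ x ∈ Subgroup.centralizer {(g : G ⧸ L)}
    rw [Subgroup.mem_centralizer_singleton_iff]
    have h4 := Subgroup.mem_centralizer_singleton_iff.1 x.2.2
    have h5 := congrArg (QuotientGroup.mk' L) h4
    rw [map_mul, map_mul] at h5
    exact h5
  have h4 := (Nat.factorization_le_iff_dvd Nat.card_pos.ne' Nat.card_pos.ne').2
    (Subgroup.card_dvd_of_le h3) p
  rw [h1, Nat.factorization_mul Nat.card_pos.ne' Nat.card_pos.ne', h2, Finsupp.add_apply]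
  omega

theorem sum_quot [Fintype G] (L : Subgroup G) [hL : L.Normal] [Fintype (G ⧸ L)] (f : G ⧸ L → ℕ) :
    ∑ x : G, f (x : G ⧸ L) = Nat.card L * ∑ z : G ⧸ L, f z := by
  classical
  rw [← Finset.sum_fiberwise Finset.univ (fun x : G => (x : G ⧸ L)), Finset.mul_sum]
  refine Finset.sum_congr rfl fun z _ => ?_
  rw [Finset.sum_congr rfl (g := fun _ => f z)
    (fun x hx => by rw [(Finset.mem_filter.1 hx).2]), Finset.sum_const, smul_eq_mul]
  congr 1
  obtain ⟨x0, rfl⟩ := QuotientGroup.mk_surjective z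
  haveI : Fintype L := Fintype.ofFinite L
  rw [Nat.card_eq_fintype_card, ← Finset.card_univ]
  symm
  refine Finset.card_bij (fun (c : L) _ => x0 * c) ?_ ?_ ?_
  · intro c _
    rw [Finset.mem_filter]
    refine ⟨Finset.mem_univ _, ?_⟩
    rw [QuotientGroup.mk_mul, (QuotientGroup.eq_one_iff _).2 c.2, mul_one]
  · intro a _ b _ hab
    exact Subtype.ext (mul_left_cancel hab)
  · intro y hy
    have h4 := (Finset.mem_filter.1 hy).2
    refine ⟨⟨x0⁻¹ * y, ?_⟩, Finset.mem_univ _, by simp⟩
    rw [← QuotientGroup.eq]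
    exact h4.symm

theorem card_map_mk (L K : Subgroup G) [hL : L.Normal] (hLK : L ≤ K) :
    Nat.card ↥(K.map (QuotientGroup.mk' L)) = L.relIndex K := by
  have h1 : (K.map (QuotientGroup.mk' L)) = ((QuotientGroup.mk' L).comp K.subtype).range := by
    rw [MonoidHom.range_comp, Subgroup.range_subtype]
  rw [h1, ← Nat.card_congr (QuotientGroup.quotientKerEquivRange _).toEquiv, Subgroup.relIndex,
    Subgroup.index]
  have h2 : ((QuotientGroup.mk' L).comp K.subtype).ker = L.subgroupOf K := by
    ext x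
    rw [MonoidHom.mem_ker, Subgroup.mem_subgroupOf]
    exact QuotientGroup.eq_one_iff _
  rw [h2]

theorem chief_min (L K : Subgroup G) [hL : L.Normal] (hLK : L < K)
    (hchief : ∀ M : Subgroup G, M.Normal → L ≤ M → M ≤ K → M = L ∨ M = K) :
    K.map (QuotientGroup.mk' L) ≠ ⊥ ∧ ∀ M : Subgroup (G ⧸ L), M.Normal →
      M ≤ K.map (QuotientGroup.mk' L) → M = ⊥ ∨ M = K.map (QuotientGroup.mk' L) := by
  constructor
  · intro h
    apply hLK.not_ge
    intro k hk
    have h1 : (k : G ⧸ L) ∈ K.map (QuotientGroup.mk' L) := ⟨k, hk, rfl⟩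
    rw [h, Subgroup.mem_bot] at h1
    exact (QuotientGroup.eq_one_iff _).1 h1
  · intro M hM hMK
    have h1 : M = (M.comap (QuotientGroup.mk' L)).map (QuotientGroup.mk' L) :=
      (Subgroup.map_comap_eq_self_of_surjective (QuotientGroup.mk'_surjective L) M).symm
    have h2 : L ≤ M.comap (QuotientGroup.mk' L) := by
      intro l hl
      rw [Subgroup.mem_comap]
      have : QuotientGroup.mk' L l = 1 := (QuotientGroup.eq_one_iff _).2 hl
      rw [this]; exact M.one_mem
    have h3 : M.comap (QuotientGroup.mk' L) ≤ K := by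
      intro x hx
      obtain ⟨k, hk, hkx⟩ := hMK hx
      have h4 : k⁻¹ * x ∈ L := QuotientGroup.eq.1 hkx
      have h5 : x = k * (k⁻¹ * x) := by group
      rw [h5]
      exact K.mul_mem hk (hLK.le h4)
    haveI := hM
    rcases hchief _ (Subgroup.Normal.comap hM _) h2 h3 with h | h
    · left
      rw [h1, h, eq_bot_iff]
      rintro _ ⟨l, hl, rfl⟩
      exact (QuotientGroup.eq_one_iff _).2 hl
    · right
      rw [h1, h]

/-- central chief factors have prime order -/
theorem central_prime (L K : Subgroup G) [hL : L.Normal] (hLK : L < K)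
    (hchief : ∀ M : Subgroup G, M.Normal → L ≤ M → M ≤ K → M = L ∨ M = K)
    (hc : ∀ g : G, ∀ k ∈ K, g * k * g⁻¹ * k⁻¹ ∈ L) : (L.relIndex K).Prime := by
  classical
  obtain ⟨h0, hmin⟩ := chief_min L K hLK hchief
  rw [← card_map_mk L K hLK.le]
  set N := K.map (QuotientGroup.mk' L) with hN
  have hNc : ∀ n ∈ N, ∀ g : G ⧸ L, g * n = n * g := by
    rintro _ ⟨k, hk, rfl⟩ g
    obtain ⟨g, rfl⟩ := QuotientGroup.mk_surjective g
    have h1 := (QuotientGroup.eq_one_iff _).2 (hc g k hk)
    rw [QuotientGroup.mk_mul, QuotientGroup.mk_mul, QuotientGroup.mk_mul, QuotientGroup.mk_inv,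
      QuotientGroup.mk_inv, mul_inv_eq_one, mul_inv_eq_iff_eq_mul] at h1
    exact h1
  have h1 : 1 < Nat.card N := (Subgroup.one_lt_card_iff_ne_bot N).2 h0
  obtain ⟨q, hq, hqd⟩ := Nat.exists_prime_and_dvd h1.ne'
  haveI : Fact q.Prime := ⟨hq⟩
  obtain ⟨x, hx⟩ := exists_prime_orderOf_dvd_card' q hqd
  have h2 : (Subgroup.zpowers (x : G ⧸ L)).Normal := ⟨by
    intro y hy g
    have h3 : y ∈ N := by
      have : Subgroup.zpowers (x : G ⧸ L) ≤ N := by
        rw [Subgroup.zpowers_le]; exact x.2
      exact this hy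
    rw [hNc y h3, mul_inv_cancel_right]
    exact hy⟩
  have h3 : Subgroup.zpowers (x : G ⧸ L) ≤ N := by
    rw [Subgroup.zpowers_le]; exact x.2
  have hx' : orderOf (x : G ⧸ L) = q := by rw [Subgroup.orderOf_coe, hx]
  rcases hmin _ h2 h3 with h4 | h4
  · exfalso
    rw [Subgroup.zpowers_eq_bot] at h4
    rw [h4, orderOf_one] at hx'
    exact hq.one_lt.ne hx'
  · rw [← h4, Nat.card_zpowers, hx']
    exact hq

/-- the fundamental inequality for non-central chief factors -/
theorem chief_avg [Fintype G] (hsol : Group.IsSolvable G) (L K : Subgroup G) [hL : L.Normal]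
    [hK : K.Normal] (hLK : L < K)
    (hchief : ∀ M : Subgroup G, M.Normal → L ≤ M → M ≤ K → M = L ∨ M = K)
    (hnc : ∃ g : G, ∃ k ∈ K, g * k * g⁻¹ * k⁻¹ ∉ L) (p : ℕ) [hp : Fact p.Prime] :
    2 * ∑ g : G, (Nat.card ↥(K ⊓ Subgroup.centralizer {g})).factorization p ≤
      2 * ∑ g : G, (Nat.card ↥(L ⊓ Subgroup.centralizer {g})).factorization p +
        Nat.card G * (L.relIndex K).factorization p := by
  classical
  haveI : Fintype (G ⧸ L) := Fintype.ofFinite _
  obtain ⟨h0, hmin⟩ := chief_min L K hLK hchief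
  have hsol' : Group.IsSolvable (G ⧸ L) :=
    Group.isSolvable_of_surjective (QuotientGroup.mk'_surjective L)
  haveI : (K.map (QuotientGroup.mk' L)).Normal :=
    Subgroup.Normal.map hK _ (QuotientGroup.mk'_surjective L)
  have h1 := min_avg hsol' (K.map (QuotientGroup.mk' L)) h0 hmin (by
    obtain ⟨g, k, hk, hgk⟩ := hnc
    refine ⟨(g : G ⧸ L), (k : G ⧸ L), ⟨k, hk, rfl⟩, fun h => hgk ?_⟩
    rw [← QuotientGroup.eq_one_iff, QuotientGroup.mk_mul, QuotientGroup.mk_mul,
      QuotientGroup.mk_mul, QuotientGroup.mk_inv, QuotientGroup.mk_inv, h, mul_inv_cancel]) p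
  rw [card_map_mk L K hLK.le] at h1
  have h2 : ∑ g : G, (Nat.card ↥(K ⊓ Subgroup.centralizer {g})).factorization p ≤
      ∑ g : G, (Nat.card ↥(L ⊓ Subgroup.centralizer {g})).factorization p +
      ∑ g : G, (Nat.card ↥(K.map (QuotientGroup.mk' L) ⊓
        Subgroup.centralizer {(g : G ⧸ L)})).factorization p := by
    rw [← Finset.sum_add_distrib]
    exact Finset.sum_le_sum fun g _ => card_step L K hLK.le g p
  have h3 := sum_quot L (fun z : G ⧸ L => (Nat.card ↥(K.map (QuotientGroup.mk' L) ⊓
        Subgroup.centralizer {z})).factorization p)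
  rw [h3] at h2
  have h4 : Nat.card G = Nat.card L * Nat.card (G ⧸ L) := by
    rw [← Subgroup.index, Subgroup.card_mul_index]
  rw [h4]
  have h5 := Nat.mul_le_mul_left (Nat.card L) h1
  nlinarith [h5, h2]

theorem chief_triv [Fintype G] (L K : Subgroup G) [hL : L.Normal] (hLK : L ≤ K) (p : ℕ) :
    ∑ g : G, (Nat.card ↥(K ⊓ Subgroup.centralizer {g})).factorization p ≤
      ∑ g : G, (Nat.card ↥(L ⊓ Subgroup.centralizer {g})).factorization p +
        Nat.card G * (L.relIndex K).factorization p := by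
  have h1 : ∀ g : G, (Nat.card ↥(K ⊓ Subgroup.centralizer {g})).factorization p ≤
      (Nat.card ↥(L ⊓ Subgroup.centralizer {g})).factorization p +
        (L.relIndex K).factorization p := by
    intro g
    refine (card_step L K hLK g p).trans (Nat.add_le_add_left ?_ _)
    rw [← card_map_mk L K hLK]
    exact (Nat.factorization_le_iff_dvd Nat.card_pos.ne' Nat.card_pos.ne').2
      (Subgroup.card_dvd_of_le inf_le_left) p
  calc _ ≤ ∑ g : G, ((Nat.card ↥(L ⊓ Subgroup.centralizer {g})).factorization p +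
        (L.relIndex K).factorization p) := Finset.sum_le_sum fun g _ => h1 g
    _ = _ := by
      rw [Finset.sum_add_distrib, Finset.sum_const, Finset.card_univ, ← Nat.card_eq_fintype_card,
        smul_eq_mul]

end H5.FixAvg
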