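import Cfsg.Agent.Lib.H5.FixAvg4
import Cfsg.Agent.Lib.H18.GoDown
import Cfsg.Agent.Lib.H18.RelM
import Cfsg.Agent.Lib.H18.Primitive
import Cfsg.Agent.Lib.H4.CenterIndex
import Cfsg.Agent.Lib.H82.Deg

/-!
# The `p`-part of the degree of a quasi-primitive character of a solvable group divides the size of
a conjugacy class
-/

set_option autoImplicit false
set_option linter.unusedSectionVars false
set_option linter.style.haveILetI false

namespace H5.FixAvg

open Cfsg H18.CharBasic H18.CharOrtho H18.CharInd H18.CharQuot H31.Clifford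

universe u

variable {G : Type u} [Group G] [Fintype G]

/-- primitive characters are quasi-primitive -/
theorem quasi {χ : G → ℂ} (hχ : IsIrrCharacter G χ)
    (hprim : ¬ ∃ (H : Subgroup G), H ≠ ⊤ ∧ ∃ θ : ↥H → ℂ, IsCharacter ↥H θ ∧ indFun H θ = χ)
    (N : Subgroup G) [hN : N.Normal] :
    ∃ (ϑ : N → ℂ) (e : ℕ), e ≠ 0 ∧ IsIrrCharacter N ϑ ∧ (fun n : N => χ n) = (e : ℂ) • ϑ := by
  classical
  haveI : Fintype N := Fintype.ofFinite N
  obtain ⟨ϑ, hϑ, hne⟩ := exists_constituent_restrict N hχ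
  have hTtop : inertia N ϑ = ⊤ := by
    by_contra hT
    haveI : Fintype (inertia N ϑ) := Fintype.ofFinite _
    obtain ⟨ψ, hψ, -, hind, -⟩ := H4.CenterIndex.exists_corr N hχ hϑ hne (inertia N ϑ)
      (le_inertia N (isClassFunction_of_isIrr hϑ)) (fun g => Iff.rfl)
    exact hprim ⟨inertia N ϑ, hT, ψ, isCharacter_of_isIrr hψ, hind⟩
  have horb : orb N ϑ = {ϑ} := by
    ext φ
    rw [mem_orb, Finset.mem_singleton]
    constructor
    · rintro ⟨g, rfl⟩
      have : g ∈ inertia N ϑ := by rw [hTtop]; exact Subgroup.mem_top g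
      exact (mem_inertia N).1 this
    · rintro rfl
      exact ⟨1, (cj_one N _).symm⟩
  obtain ⟨e, he⟩ := inner_char_natCast
    (isCharacter_restrict N (isCharacter_of_isIrr hχ)) (isCharacter_of_isIrr hϑ)
  have h1 := restrict_eq N hχ hϑ hne
  rw [horb, Finset.sum_singleton, he] at h1
  refine ⟨ϑ, e, ?_, hϑ, h1⟩
  rintro rfl
  apply hne
  rw [he]; simp

theorem relIndex_ne (L K : Subgroup G) : L.relIndex K ≠ 0 := by
  haveI : Finite K := Subtype.finite
  exact (L.subgroupOf K).index_ne_zero_of_finite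

theorem irr_scalar {X : Type u} [Group X] [Finite X] {φ ψ : X → ℂ} (hφ : IsIrrCharacter X φ)
    (hψ : IsIrrCharacter X ψ) {a b : ℕ} (ha : a ≠ 0) (h : (a : ℂ) • φ = (b : ℂ) • ψ) :
    a = b ∧ φ = ψ := by
  classical
  haveI : Fintype X := Fintype.ofFinite X
  have h1 : φ = ψ := by
    by_contra hne
    have h2 : classInner ((a : ℂ) • φ) φ = classInner ((b : ℂ) • ψ) φ := by rw [h]
    rw [H18.CharOrtho.inner_smul_left, H18.CharOrtho.inner_smul_left, inner_irr_self hφ,
      inner_irr_ne hψ hφ (Ne.symm hne), mul_one, mul_zero] at h2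
    exact ha (by exact_mod_cast h2)
  refine ⟨?_, h1⟩
  subst h1
  have h2 : classInner ((a : ℂ) • φ) φ = classInner ((b : ℂ) • φ) φ := by rw [h]
  rw [H18.CharOrtho.inner_smul_left, H18.CharOrtho.inner_smul_left, inner_irr_self hφ,
      mul_one, mul_one] at h2
  exact_mod_cast h2

theorem quasi_inv {χ : G → ℂ} (hχ : IsIrrCharacter G χ) (N : Subgroup G) [hN : N.Normal]
    {ϑ : N → ℂ} {e : ℕ} (he0 : e ≠ 0) (he : (fun n : N => χ n) = (e : ℂ) • ϑ) (g : G) (n : N) :
    ϑ ⟨g * n * g⁻¹, hN.conj_mem (n : G) n.2 g⟩ = ϑ n := by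
  have h0 : (e : ℂ) ≠ 0 := by exact_mod_cast he0
  have h1 := congrFun he n
  have h2 := congrFun he ⟨g * n * g⁻¹, hN.conj_mem (n : G) n.2 g⟩
  have h3 : χ (g * n * g⁻¹) = χ n := (isClassFunction_of_isIrr hχ) _ _
  rw [Pi.smul_apply, smul_eq_mul] at h1 h2
  apply mul_left_cancel₀ h0
  rw [← h1, ← h2]
  exact h3

/-- the degree step on a chief factor: either the degree does not change, or it is multiplied by
the square root of the order of the factor. -/
theorem degree_step {χ : G → ℂ} (hχ : IsIrrCharacter G χ) (L K : Subgroup G) [hL : L.Normal]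
    [hK : K.Normal] (hLK : L < K)
    (hchief : ∀ M : Subgroup G, M.Normal → L ≤ M → M ≤ K → M = L ∨ M = K)
    (hab : ⁅K, K⁆ ≤ L) {θ : K → ℂ} {φ : L → ℂ} {e f : ℕ} (he0 : e ≠ 0) (hf0 : f ≠ 0)
    (hθ : IsIrrCharacter K θ) (hφ : IsIrrCharacter L φ) (he : (fun n : K => χ n) = (e : ℂ) • θ)
    (hf : (fun n : L => χ n) = (f : ℂ) • φ) {c d : ℕ} (hc : θ 1 = c) (hd : φ 1 = d) :
    c = d ∨ ∃ r : ℕ, r ^ 2 = L.relIndex K ∧ c = r * d := by
  classical
  haveI : Fintype L := Fintype.ofFinite L
  have hinv := quasi_inv hχ K he0 he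
  -- e • θ|L = f • φ
  have hef : (e : ℂ) • (fun x : L => θ ⟨(x : G), hLK.le x.2⟩) = (f : ℂ) • φ := by
    rw [← hf]
    funext x
    have h1 := congrFun he ⟨(x : G), hLK.le x.2⟩
    rw [Pi.smul_apply] at h1 ⊢
    exact h1.symm
  rcases H18.GoDown.going_down K L hLK hchief hab θ hθ hinv with h | ⟨φ', r, hφ', hr, hr2⟩ | ⟨F, hF, hFc, hFs⟩
  · left
    obtain ⟨-, h1⟩ := irr_scalar h hφ he0 hef
    have h2 : θ 1 = φ 1 := congrFun h1 1
    rw [hc, hd] at h2
    exact_mod_cast h2
  · right
    refine ⟨r, hr2, ?_⟩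
    have hr0 : r ≠ 0 := by
      rintro rfl
      exact relIndex_ne L K hr2.symm
    rw [hr, smul_smul, ← Nat.cast_mul] at hef
    obtain ⟨-, h1⟩ := irr_scalar hφ' hφ (mul_ne_zero he0 hr0) hef
    have h2 : θ 1 = (r : ℂ) * φ' 1 := congrFun hr 1
    rw [hc, h1, hd] at h2
    exact_mod_cast h2
  · exfalso
    have hidx : 1 < L.relIndex K := by
      have h1 : L.relIndex K ≠ 0 := relIndex_ne L K
      have h2 : L.relIndex K ≠ 1 := fun h => hLK.not_ge (Subgroup.relIndex_eq_one.1 h)
      omega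
    rw [← hFc] at hidx
    -- all members of F are equal to φ
    have hall : ∀ ψ ∈ F, ψ = φ := by
      intro ψ hψ
      by_contra hne
      have h1 : classInner ((e : ℂ) • ∑ α ∈ F, α) ψ = classInner ((f : ℂ) • φ) ψ := by
        rw [← hFs, hef]
      rw [H18.CharOrtho.inner_smul_left, H18.CharOrtho.inner_smul_left,
        inner_irr_ne hφ (hF ψ hψ) (Ne.symm hne), mul_zero, H18.CharOrtho.inner_sum_left,
        Finset.sum_eq_single_of_mem ψ hψ (fun α hα hne' => inner_irr_ne (hF α hα) (hF ψ hψ) hne'),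
        inner_irr_self (hF ψ hψ), mul_one] at h1
      exact he0 (by exact_mod_cast h1)
    obtain ⟨α, hα, β, hβ, hab'⟩ := Finset.one_lt_card.1 hidx
    exact hab' ((hall α hα).trans (hall β hβ).symm)

/-- existence of a maximal normal subgroup below -/
theorem exists_chief (K : Subgroup G) (hK0 : K ≠ ⊥) :
    ∃ L : Subgroup G, L.Normal ∧ L < K ∧ ∀ M : Subgroup G, M.Normal → L ≤ M → M ≤ K → M = L ∨ M = K := by
  obtain ⟨L, hL⟩ := (Set.toFinite {L : Subgroup G | L.Normal ∧ L < K}).exists_maximal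
    ⟨⊥, Subgroup.normal_bot, bot_lt_iff_ne_bot.2 hK0⟩
  refine ⟨L, hL.prop.1, hL.prop.2, fun M hM hLM hMK => ?_⟩
  by_cases h : M = K
  · exact Or.inr h
  · left
    exact le_antisymm (hL.le_of_ge ⟨hM, lt_of_le_of_ne hMK h⟩ hLM) hLM

theorem two_factorization_le {r m p : ℕ} (h : r ^ 2 = m) :
    2 * r.factorization p = m.factorization p := by
  rw [← h, Nat.factorization_pow, Finsupp.smul_apply, smul_eq_mul]

/-- main inequality -/
theorem main_ineq (hsol : Group.IsSolvable G) {χ : G → ℂ} (hχ : IsIrrCharacter G χ)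
    (hqp : ∀ (N : Subgroup G), N.Normal →
      ∃ (ϑ : N → ℂ) (e : ℕ), e ≠ 0 ∧ IsIrrCharacter N ϑ ∧ (fun n : N => χ n) = (e : ℂ) • ϑ)
    (p : ℕ) [hp : Fact p.Prime] (n : ℕ) :
    ∀ K : Subgroup G, Nat.card K = n → K.Normal → ∀ (θ : K → ℂ) (e c : ℕ), e ≠ 0 →
      IsIrrCharacter K θ → (fun n : K => χ n) = (e : ℂ) • θ → θ 1 = c →
      2 * ∑ g : G, (Nat.card ↥(K ⊓ Subgroup.centralizer {g})).factorization p +
        2 * (Nat.card G * c.factorization p) ≤ 2 * (Nat.card G * (Nat.card K).factorization p) := by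
  classical
  induction n using Nat.strong_induction_on with
  | _ n ih =>
  intro K hKn hKnor θ e c he0 hθ he hc
  haveI := hKnor
  by_cases hK0 : K = ⊥
  · subst hK0
    have h1 : c = 1 := by
      have h2 : θ 1 = 1 := by
        have h4 : ∀ x : (⊥ : Subgroup G), x = 1 := fun x => Subsingleton.elim _ _
        have h5 := H18.Primitive.degree_one_of_commutator hθ (fun a b => by rw [h4 (a * b * a⁻¹ * b⁻¹)])
        exact h5
      rw [hc] at h2
      exact_mod_cast h2
    subst h1
    have h2 : ∀ g : G, (Nat.card ↥((⊥ : Subgroup G) ⊓ Subgroup.centralizer {g})).factorization p = 0 := by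
      intro g
      rw [bot_inf_eq, Subgroup.card_bot, Nat.factorization_one]
      rfl
    rw [Finset.sum_congr rfl fun g _ => h2 g]
    simp
  obtain ⟨L, hLn, hLK, hchief⟩ := exists_chief K hK0
  haveI := hLn
  have hab : ⁅K, K⁆ ≤ L := by
    have hsb : Group.IsSolvable (G ⧸ (⊥ : Subgroup G)) :=
      Group.isSolvable_of_surjective (QuotientGroup.mk'_surjective (⊥ : Subgroup G))
    exact H18.RelM.commutator_le_of_chief (⊥ : Subgroup G) K L hsb bot_le hLK hchief
  obtain ⟨φ, f, hf0, hφ, hf⟩ := hqp L hLn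
  obtain ⟨d, hd⟩ := exists_degree (isCharacter_of_isIrr hφ)
  have hcardlt : Nat.card L < n := by
    rw [← hKn]
    exact Set.Finite.card_lt_card (Set.toFinite _) hLK
  have hind := ih (Nat.card L) hcardlt L rfl hLn φ f d hf0 hφ hf hd
  have hrel : Nat.card K = L.relIndex K * Nat.card L := by
    rw [← (L.subgroupOf K).card_mul_index, mul_comm, Subgroup.relIndex,
      Nat.card_congr (Subgroup.subgroupOfEquivOfLe hLK.le).toEquiv]
  have hrel0 : L.relIndex K ≠ 0 := relIndex_ne L K
  have hfacK : (Nat.card K).factorization p =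
      (L.relIndex K).factorization p + (Nat.card L).factorization p := by
    rw [hrel, Nat.factorization_mul hrel0 Nat.card_pos.ne']
    rfl
  have hd0 : d ≠ 0 := by
    rintro rfl
    exact irr_one_ne_zero hφ (by rw [hd]; simp)
  rw [hfacK]
  rcases degree_step hχ L K hLK hchief hab he0 hf0 hθ hφ he hf hc hd with h | ⟨r, hr, hcr⟩
  · subst h
    have h1 := chief_triv L K hLK.le p
    nlinarith [h1, hind]
  · by_cases hcen : ∀ g : G, ∀ k ∈ K, g * k * g⁻¹ * k⁻¹ ∈ L
    · exfalso
      have h1 := central_prime L K hLK hchief hcen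
      rw [← hr] at h1
      exact Nat.Prime.not_prime_pow (le_refl 2) h1
    · push Not at hcen
      have h1 := chief_avg hsol L K hLK hchief hcen p
      have hr0 : r ≠ 0 := by
        rintro rfl
        exact hrel0 hr.symm
      have h2 : c.factorization p = r.factorization p + d.factorization p := by
        rw [hcr, Nat.factorization_mul hr0 hd0]
        rfl
      have h3 := two_factorization_le (p := p) hr
      rw [h2]
      nlinarith [h1, hind, h3]

/-- The `p`-part of the degree of a primitive character of a solvable group divides the size of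
a conjugacy class. -/
theorem main (hsol : Group.IsSolvable G) (χ : IrrCharacter G)
    (hprim : ¬ ∃ (H : Subgroup G), H ≠ ⊤ ∧ ∃ θ : ↥H → ℂ, IsCharacter ↥H θ ∧ indFun H θ = (χ : G → ℂ))
    (p : ℕ) [hp : Fact p.Prime] :
    ∃ g : G, (charDegree (χ : G → ℂ)).factorization p ≤
      ((Subgroup.centralizer ({g} : Set G)).index).factorization p := by
  classical
  have hχ : IsIrrCharacter G (χ : G → ℂ) := χ.2
  have hqp : ∀ (N : Subgroup G), N.Normal → ∃ (ϑ : N → ℂ) (e : ℕ), e ≠ 0 ∧ IsIrrCharacter N ϑ ∧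
      (fun n : N => (χ : G → ℂ) n) = (e : ℂ) • ϑ := by
    intro N hN
    exact quasi hχ hprim N
  obtain ⟨c, hc⟩ := exists_degree (isCharacter_of_isIrr hχ)
  have hθ : IsIrrCharacter (⊤ : Subgroup G) (fun x : (⊤ : Subgroup G) => (χ : G → ℂ) x) :=
    isIrrCharacter_comp (Subgroup.topEquiv : (⊤ : Subgroup G) ≃* G).toMonoidHom
      (Subgroup.topEquiv : (⊤ : Subgroup G) ≃* G).surjective hχ
  have h1 := main_ineq hsol hχ hqp p (Nat.card (⊤ : Subgroup G)) ⊤ rfl inferInstance
    (fun x : (⊤ : Subgroup G) => (χ : G → ℂ) x) 1 c one_ne_zero hθ (by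
      rw [Nat.cast_one, one_smul]) hc
  rw [Subgroup.card_top] at h1
  rw [H82.Deg.charDegree_eq_of hc]
  by_contra hcon
  push Not at hcon
  have h2 : ∀ g : G, (Nat.card G).factorization p + 1 ≤
      (Nat.card ↥((⊤ : Subgroup G) ⊓ Subgroup.centralizer {g})).factorization p +
        c.factorization p := by
    intro g
    have h3 := hcon g
    have h4 : (Nat.card G).factorization p = (Nat.card (Subgroup.centralizer ({g} : Set G))).factorization p +
        ((Subgroup.centralizer ({g} : Set G)).index).factorization p := by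
      rw [← Subgroup.card_mul_index (Subgroup.centralizer ({g} : Set G)),
        Nat.factorization_mul Nat.card_pos.ne' Subgroup.index_ne_zero_of_finite]
      rfl
    rw [top_inf_eq, h4]
    omega
  have h3 := Finset.sum_le_sum fun (g : G) (_ : g ∈ Finset.univ) => h2 g
  rw [Finset.sum_const, Finset.card_univ, ← Nat.card_eq_fintype_card, smul_eq_mul,
    Finset.sum_add_distrib, Finset.sum_const, Finset.card_univ, ← Nat.card_eq_fintype_card,
    smul_eq_mul] at h3
  have h5 : 0 < Nat.card G := Nat.card_pos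
  nlinarith [h1, h3, h5]

end H5.FixAvg
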