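import Cfsg.Agent.Lib.H5.FixAvg5
import Cfsg.Agent.Lib.H65.Chief

/-!
# Primitive characters of metanilpotent groups with two prime divisors
-/

set_option autoImplicit false
set_option linter.unusedSectionVars false
set_option linter.style.haveILetI false

namespace H5.FixAvg

open Cfsg H18.CharBasic H18.CharOrtho H18.CharInd H18.CharQuot H31.Clifford

universe u

variable {G : Type u} [Group G] [Fintype G]

/-- a normal subgroup which is a `p`-group modulo a nilpotent normal subgroup centralizes the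
`p`-chief factors -/
theorem p_centralizes (hsol : Group.IsSolvable G) (p : ℕ) [hp : Fact p.Prime] {F P : Subgroup G}
    [F.Normal] [hPn : P.Normal]
    (hF : Group.IsNilpotent F) (hPF : ∀ x ∈ P, ∃ k : ℕ, x ^ (p ^ k) ∈ F) (L K : Subgroup G)
    [hL : L.Normal] [hK : K.Normal] (hLK : L < K)
    (hchief : ∀ M : Subgroup G, M.Normal → L ≤ M → M ≤ K → M = L ∨ M = K)
    (hpd : p ∣ L.relIndex K) : ∀ x ∈ P, ∀ n ∈ K.map (QuotientGroup.mk' L),
      (x : G ⧸ L) * n = n * (x : G ⧸ L) := by
  classical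
  obtain ⟨h0, hmin⟩ := chief_min L K hLK hchief
  rw [← card_map_mk L K hLK.le] at hpd
  have hFK : ∀ x ∈ F, ∀ n ∈ K.map (QuotientGroup.mk' L), (x : G ⧸ L) * n = n * (x : G ⧸ L) := by
    rintro x hx _ ⟨k, hk, rfl⟩
    have h1 := H65.Chief.nilpotent_centralizes hF (U := K) (V := L) ⟨hK, hL, hLK, hchief⟩ k hk x hx
    have h2 := (QuotientGroup.eq_one_iff _).2 h1
    rw [QuotientGroup.mk_mul, QuotientGroup.mk_mul, QuotientGroup.mk_mul, QuotientGroup.mk_inv,
      QuotientGroup.mk_inv, mul_inv_eq_one, mul_inv_eq_iff_eq_mul] at h2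
    exact h2.symm
  haveI hNn : (K.map (QuotientGroup.mk' L)).Normal :=
    Subgroup.Normal.map hK _ (QuotientGroup.mk'_surjective L)
  set N := K.map (QuotientGroup.mk' L) with hN
  let ψ : G →* MulAut N := (MulAut.conjNormal : (G ⧸ L) →* MulAut N).comp (QuotientGroup.mk' L)
  have hψ : ∀ (x : G) (n : N), ((ψ x n : N) : G ⧸ L) = (x : G ⧸ L) * n * (x : G ⧸ L)⁻¹ :=
    fun x n => MulAut.conjNormal_apply _ _
  have hPg : IsPGroup p (P.map ψ) := by
    rintro ⟨_, x, hx, rfl⟩
    obtain ⟨k, hk⟩ := hPF x hx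
    refine ⟨k, ?_⟩
    apply Subtype.ext
    change (ψ x) ^ (p ^ k) = 1
    rw [← map_pow]
    ext n
    rw [hψ, hFK _ hk n n.2, mul_inv_cancel_right]
    rfl
  obtain ⟨b, hb1, hb2⟩ := hPg.exists_fixed_point_of_prime_dvd_card_of_fixed_point (α := N) hpd
    (a := 1) (fun m => map_one (m : MulAut N))
  -- fixed points
  let D : Subgroup (G ⧸ L) :=
    { carrier := {n | n ∈ N ∧ ∀ x ∈ P, (x : G ⧸ L) * n = n * (x : G ⧸ L)}
      one_mem' := ⟨N.one_mem, fun x _ => by rw [mul_one, one_mul]⟩
      mul_mem' := by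
        rintro a c ⟨ha, ha'⟩ ⟨hc, hc'⟩
        refine ⟨N.mul_mem ha hc, fun x hx => ?_⟩
        rw [← mul_assoc, ha' x hx, mul_assoc, hc' x hx, mul_assoc]
      inv_mem' := by
        rintro a ⟨ha, ha'⟩
        refine ⟨N.inv_mem ha, fun x hx => ?_⟩
        have h1 := ha' x hx
        calc (x : G ⧸ L) * a⁻¹ = a⁻¹ * (a * (x : G ⧸ L)) * a⁻¹ := by group
          _ = a⁻¹ * ((x : G ⧸ L) * a) * a⁻¹ := by rw [h1]
          _ = a⁻¹ * (x : G ⧸ L) := by group }
  have hDn : D.Normal := ⟨by
    rintro n ⟨hn, hn'⟩ g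
    refine ⟨hNn.conj_mem n hn g, fun x hx => ?_⟩
    obtain ⟨g, rfl⟩ := QuotientGroup.mk_surjective g
    have h1 := hn' (g⁻¹ * x * g) (by
      have := hPn.conj_mem x hx g⁻¹
      rwa [inv_inv] at this)
    rw [QuotientGroup.mk_mul, QuotientGroup.mk_mul, QuotientGroup.mk_inv] at h1
    calc (x : G ⧸ L) * ((g : G ⧸ L) * n * (g : G ⧸ L)⁻¹)
        = (g : G ⧸ L) * (((g : G ⧸ L)⁻¹ * x * g) * n) * (g : G ⧸ L)⁻¹ := by group
      _ = (g : G ⧸ L) * (n * ((g : G ⧸ L)⁻¹ * x * g)) * (g : G ⧸ L)⁻¹ := by rw [h1]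
      _ = (g : G ⧸ L) * n * (g : G ⧸ L)⁻¹ * x := by group⟩
  have hDb : (b : G ⧸ L) ∈ D := by
    refine ⟨b.2, fun x hx => ?_⟩
    have h1 : (ψ x) b = b := hb1 ⟨ψ x, x, hx, rfl⟩
    have h2 := hψ x b
    rw [h1] at h2
    exact (mul_inv_eq_iff_eq_mul.1 h2.symm)
  rcases hmin D hDn (fun n hn => hn.1) with h | h
  · exfalso
    rw [h, Subgroup.mem_bot] at hDb
    exact hb2 (Subtype.ext hDb).symm
  · intro x hx n hn
    have h1 : n ∈ D := by rw [h]; exact hn
    exact h1.2 x hx

/-- refined main inequality -/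
theorem main_phi (hsol : Group.IsSolvable G) {χ : G → ℂ} (hχ : IsIrrCharacter G χ)
    (hqp : ∀ (N : Subgroup G), N.Normal →
      ∃ (ϑ : N → ℂ) (e : ℕ), e ≠ 0 ∧ IsIrrCharacter N ϑ ∧ (fun n : N => χ n) = (e : ℂ) • ϑ)
    (p : ℕ) [hp : Fact p.Prime] (P : Subgroup G)
    (hP : ∀ (L K : Subgroup G) [L.Normal] [K.Normal], L < K →
      (∀ M : Subgroup G, M.Normal → L ≤ M → M ≤ K → M = L ∨ M = K) → p ∣ L.relIndex K →
      ∀ x ∈ P, ∀ n ∈ K.map (QuotientGroup.mk' L), (x : G ⧸ L) * n = n * (x : G ⧸ L)) (n : ℕ) :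
    ∀ K : Subgroup G, Nat.card K = n → K.Normal → ∀ (θ : K → ℂ) (e c : ℕ), e ≠ 0 →
      IsIrrCharacter K θ → (fun n : K => χ n) = (e : ℂ) • θ → θ 1 = c →
      ∃ Φ : G → ℕ, (∀ g : G, (Nat.card ↥(K ⊓ Subgroup.centralizer {g})).factorization p + Φ g ≤
        (Nat.card K).factorization p) ∧ (∀ g : G, ∀ x ∈ P, Φ (g * x) = Φ g) ∧
        Nat.card G * c.factorization p ≤ ∑ g : G, Φ g := by
  classical
  induction n using Nat.strong_induction_on with
  | _ n ih =>
  intro K hKn hKnor θ e c he0 hθ he hc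
  haveI := hKnor
  by_cases hK0 : K = ⊥
  · subst hK0
    have h1 : c = 1 := by
      have h2 : θ 1 = 1 := by
        have h4 : ∀ x : (⊥ : Subgroup G), x = 1 := fun x => Subsingleton.elim _ _
        exact H18.Primitive.degree_one_of_commutator hθ (fun a b => by rw [h4 (a * b * a⁻¹ * b⁻¹)])
      rw [hc] at h2
      exact_mod_cast h2
    subst h1
    refine ⟨fun _ => 0, fun g => ?_, fun _ _ _ => rfl, by simp⟩
    rw [bot_inf_eq, Subgroup.card_bot, Nat.factorization_one]
    simp
  obtain ⟨L, hLn, hLK, hchief⟩ := exists_chief K hK0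
  haveI := hLn
  have hab : ⁅K, K⁆ ≤ L := by
    have hsb : Group.IsSolvable (G ⧸ (⊥ : Subgroup G)) :=
      Group.isSolvable_of_surjective (QuotientGroup.mk'_surjective (⊥ : Subgroup G))
    exact H18.RelM.commutator_le_of_chief (⊥ : Subgroup G) K L hsb bot_le hLK hchief
  obtain ⟨φ, f, hf0, hφ, hf⟩ := hqp L hLn
  obtain ⟨d, hd⟩ := exists_degree (isCharacter_of_isIrr hφ)
  have hcardlt : Nat.card L < n := by
    rw [← hKn]
    exact Set.Finite.card_lt_card (Set.toFinite _) hLK
  obtain ⟨Φ, hΦ1, hΦ2, hΦ3⟩ := ih (Nat.card L) hcardlt L rfl hLn φ f d hf0 hφ hf hd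
  have hrel : Nat.card K = L.relIndex K * Nat.card L := by
    rw [← (L.subgroupOf K).card_mul_index, mul_comm, Subgroup.relIndex,
      Nat.card_congr (Subgroup.subgroupOfEquivOfLe hLK.le).toEquiv]
  have hrel0 : L.relIndex K ≠ 0 := relIndex_ne L K
  have hfacK : (Nat.card K).factorization p =
      (L.relIndex K).factorization p + (Nat.card L).factorization p := by
    rw [hrel, Nat.factorization_mul hrel0 Nat.card_pos.ne']
    rfl
  have hd0 : d ≠ 0 := by
    rintro rfl
    exact irr_one_ne_zero hφ (by rw [hd]; simp)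
  -- number of fixed points in the factor
  set N := K.map (QuotientGroup.mk' L) with hN
  let z : G → ℕ := fun g => (Nat.card ↥(N ⊓ Subgroup.centralizer {(g : G ⧸ L)})).factorization p
  have hz1 : ∀ g, (Nat.card ↥(K ⊓ Subgroup.centralizer {g})).factorization p ≤
      (Nat.card ↥(L ⊓ Subgroup.centralizer {g})).factorization p + z g :=
    fun g => card_step L K hLK.le g p
  have hz2 : ∀ g, z g ≤ (L.relIndex K).factorization p := by
    intro g
    rw [← card_map_mk L K hLK.le]
    exact (Nat.factorization_le_iff_dvd Nat.card_pos.ne' Nat.card_pos.ne').2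
      (Subgroup.card_dvd_of_le inf_le_left) p
  have htriv : c.factorization p = d.factorization p → ∃ Φ : G → ℕ,
      (∀ g : G, (Nat.card ↥(K ⊓ Subgroup.centralizer {g})).factorization p + Φ g ≤
        (Nat.card K).factorization p) ∧ (∀ g : G, ∀ x ∈ P, Φ (g * x) = Φ g) ∧
        Nat.card G * c.factorization p ≤ ∑ g : G, Φ g := by
    intro hcd
    refine ⟨Φ, fun g => ?_, hΦ2, by rw [hcd]; exact hΦ3⟩
    have h1 := hz1 g
    have h2 := hz2 g
    have h3 := hΦ1 g
    omega
  rcases degree_step hχ L K hLK hchief hab he0 hf0 hθ hφ he hf hc hd with h | ⟨r, hr, hcr⟩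
  · exact htriv (by rw [h])
  · have hr0 : r ≠ 0 := by
      rintro rfl
      exact hrel0 hr.symm
    have h2 : c.factorization p = r.factorization p + d.factorization p := by
      rw [hcr, Nat.factorization_mul hr0 hd0]
      rfl
    have h3 := two_factorization_le (p := p) hr
    by_cases hpd : p ∣ L.relIndex K
    swap
    · have h4 := Nat.factorization_eq_zero_of_not_dvd hpd
      exact htriv (by omega)
    by_cases hcen : ∀ g : G, ∀ k ∈ K, g * k * g⁻¹ * k⁻¹ ∈ L
    · exfalso
      have h1 := central_prime L K hLK hchief hcen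
      rw [← hr] at h1
      exact Nat.Prime.not_prime_pow (le_refl 2) h1
    push Not at hcen
    haveI : Fintype (G ⧸ L) := Fintype.ofFinite _
    obtain ⟨h0, hmin⟩ := chief_min L K hLK hchief
    have hsol' : Group.IsSolvable (G ⧸ L) :=
      Group.isSolvable_of_surjective (QuotientGroup.mk'_surjective L)
    haveI : N.Normal := Subgroup.Normal.map hKnor _ (QuotientGroup.mk'_surjective L)
    have h4 := min_avg hsol' N h0 hmin (by
      obtain ⟨g, k, hk, hgk⟩ := hcen
      refine ⟨(g : G ⧸ L), (k : G ⧸ L), ⟨k, hk, rfl⟩, fun h => hgk ?_⟩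
      rw [← QuotientGroup.eq_one_iff, QuotientGroup.mk_mul, QuotientGroup.mk_mul,
        QuotientGroup.mk_mul, QuotientGroup.mk_inv, QuotientGroup.mk_inv, h, mul_inv_cancel]) p
    rw [card_map_mk L K hLK.le] at h4
    have h5 := sum_quot L (fun w : G ⧸ L => (Nat.card ↥(N ⊓ Subgroup.centralizer {w})).factorization p)
    have h6 : 2 * ∑ g : G, z g ≤ Nat.card G * (L.relIndex K).factorization p := by
      change 2 * ∑ g : G, (Nat.card ↥(N ⊓ Subgroup.centralizer {(g : G ⧸ L)})).factorization p ≤ _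
      rw [h5]
      have h7 : Nat.card G = Nat.card L * Nat.card (G ⧸ L) := by
        rw [← Subgroup.index, Subgroup.card_mul_index]
      rw [h7]
      have h8 := Nat.mul_le_mul_left (Nat.card L) h4
      nlinarith [h8]
    refine ⟨fun g => Φ g + ((L.relIndex K).factorization p - z g), fun g => ?_, fun g x hx => ?_, ?_⟩
    · have h7 := hz1 g
      have h8 := hz2 g
      have h9 := hΦ1 g
      change _ + (Φ g + ((L.relIndex K).factorization p - z g)) ≤ _
      omega
    · have h7 : z (g * x) = z g := by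
        have h8 : N ⊓ Subgroup.centralizer {((g * x : G) : G ⧸ L)} =
            N ⊓ Subgroup.centralizer {(g : G ⧸ L)} := by
          ext w
          rw [Subgroup.mem_inf, Subgroup.mem_inf, Subgroup.mem_centralizer_singleton_iff,
            Subgroup.mem_centralizer_singleton_iff]
          constructor
          · rintro ⟨hw, hw'⟩
            refine ⟨hw, ?_⟩
            have h9 := hP L K hLK hchief hpd x hx w hw
            rw [QuotientGroup.mk_mul] at hw'
            apply mul_right_cancel (b := (x : G ⧸ L))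
            rw [mul_assoc w, hw', mul_assoc, mul_assoc, h9]
          · rintro ⟨hw, hw'⟩
            refine ⟨hw, ?_⟩
            have h9 := hP L K hLK hchief hpd x hx w hw
            rw [QuotientGroup.mk_mul, ← mul_assoc, hw', mul_assoc, mul_assoc, h9]
        change (Nat.card ↥(N ⊓ Subgroup.centralizer {((g * x : G) : G ⧸ L)})).factorization p = _
        rw [h8]
      change Φ (g * x) + ((L.relIndex K).factorization p - z (g * x)) = _
      rw [hΦ2 g x hx, h7]
    · rw [Finset.sum_add_distrib, h2, mul_add]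
      have h7 : Nat.card G * r.factorization p ≤ ∑ g : G, ((L.relIndex K).factorization p - z g) := by
        have h8 : ∑ g : G, ((L.relIndex K).factorization p - z g) + ∑ g : G, z g =
            Nat.card G * (L.relIndex K).factorization p := by
          rw [← Finset.sum_add_distrib]
          rw [Finset.sum_congr rfl fun g _ => Nat.sub_add_cancel (hz2 g), Finset.sum_const,
            Finset.card_univ, ← Nat.card_eq_fintype_card, smul_eq_mul]
        rw [← h3] at h8 h6 ⊢
        nlinarith [h8, h6]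
      omega

theorem phi_final (hsol : Group.IsSolvable G) {χ : G → ℂ} (hχ : IsIrrCharacter G χ)
    (hqp : ∀ (N : Subgroup G), N.Normal →
      ∃ (ϑ : N → ℂ) (e : ℕ), e ≠ 0 ∧ IsIrrCharacter N ϑ ∧ (fun n : N => χ n) = (e : ℂ) • ϑ)
    (p : ℕ) [hp : Fact p.Prime] {F P : Subgroup G} [F.Normal] [hPn : P.Normal]
    (hF : Group.IsNilpotent F) (hPF : ∀ x ∈ P, ∃ k : ℕ, x ^ (p ^ k) ∈ F) {c : ℕ} (hc : χ 1 = c) :
    ∃ y : G, ∀ x ∈ P, c.factorization p ≤
      ((Subgroup.centralizer ({y * x} : Set G)).index).factorization p := by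
  classical
  have hθ : IsIrrCharacter (⊤ : Subgroup G) (fun x : (⊤ : Subgroup G) => χ x) :=
    isIrrCharacter_comp (Subgroup.topEquiv : (⊤ : Subgroup G) ≃* G).toMonoidHom
      (Subgroup.topEquiv : (⊤ : Subgroup G) ≃* G).surjective hχ
  obtain ⟨Φ, h1, h2, h3⟩ := main_phi hsol hχ hqp p P
    (fun L K _ _ hLK hch hpd => p_centralizes hsol p hF hPF L K hLK hch hpd)
    (Nat.card (⊤ : Subgroup G)) ⊤ rfl inferInstance
    (fun x : (⊤ : Subgroup G) => χ x) 1 c one_ne_zero hθ (by
      rw [Nat.cast_one, one_smul]) hc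
  rw [Subgroup.card_top] at h1
  obtain ⟨y, hy⟩ : ∃ y : G, c.factorization p ≤ Φ y := by
    by_contra hcon
    push Not at hcon
    have h4 : ∀ g : G, Φ g + 1 ≤ c.factorization p := fun g => hcon g
    have h5 := Finset.sum_le_sum fun (g : G) (_ : g ∈ Finset.univ) => h4 g
    rw [Finset.sum_add_distrib, Finset.sum_const, Finset.sum_const, Finset.card_univ,
      ← Nat.card_eq_fintype_card, smul_eq_mul, smul_eq_mul, mul_one] at h5
    have h6 : 0 < Nat.card G := Nat.card_pos
    omega
  refine ⟨y, fun x hx => ?_⟩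
  have h4 := h1 (y * x)
  rw [h2 y x hx, top_inf_eq] at h4
  have h5 : (Nat.card G).factorization p =
      (Nat.card (Subgroup.centralizer ({y * x} : Set G))).factorization p +
      ((Subgroup.centralizer ({y * x} : Set G)).index).factorization p := by
    rw [← Subgroup.card_mul_index (Subgroup.centralizer ({y * x} : Set G)),
      Nat.factorization_mul Nat.card_pos.ne' Subgroup.index_ne_zero_of_finite]
    rfl
  omega

end H5.FixAvg
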