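import Cfsg.Agent.Lib.H5.FixAvg6
import Cfsg.Agent.Lib.H1.Cores

/-!
# Primitive characters of metanilpotent groups with two prime divisors
-/

set_option autoImplicit false
set_option linter.unusedSectionVars false
set_option linter.style.haveILetI false

namespace H5.FixAvg

open Cfsg H18.CharBasic H18.CharOrtho H18.CharInd H18.CharQuot H31.Clifford

universe u

variable {G : Type u} [Group G] [Fintype G]

theorem exists_part (F : Subgroup G) [hFn : F.Normal] (hnil : Group.IsNilpotent (G ⧸ F)) (p : ℕ)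
    [hp : Fact p.Prime] : ∃ P : Subgroup G, P.Normal ∧ (∀ x ∈ P, ∃ k : ℕ, x ^ (p ^ k) ∈ F) ∧
      ¬ p ∣ P.index := by
  obtain ⟨S⟩ : Nonempty (Sylow p (G ⧸ F)) := inferInstance
  have hS : (S : Subgroup (G ⧸ F)).Normal := by
    have h1 := (Group.isNilpotent_of_finite_tfae (G := G ⧸ F)).out 0 3
    exact h1.1 hnil p hp S
  refine ⟨(S : Subgroup (G ⧸ F)).comap (QuotientGroup.mk' F), Subgroup.Normal.comap hS _, ?_, ?_⟩
  · intro x hx
    obtain ⟨k, hk⟩ := S.isPGroup' ⟨_, hx⟩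
    refine ⟨k, ?_⟩
    have h1 := congrArg Subtype.val hk
    rw [← QuotientGroup.eq_one_iff, QuotientGroup.mk_pow]
    exact h1
  · rw [Subgroup.index_comap_of_surjective _ (QuotientGroup.mk'_surjective F)]
    exact S.not_dvd_index

theorem metanil (hsol : Group.IsSolvable G) (χ : IrrCharacter G)
    (hprim : ¬ ∃ (H : Subgroup G), H ≠ ⊤ ∧ ∃ θ : ↥H → ℂ, IsCharacter ↥H θ ∧ indFun H θ = (χ : G → ℂ))
    (h2 : (Nat.card G).primeFactors.card = 2) (F : Subgroup G) [hFn : F.Normal]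
    (hF : Group.IsNilpotent F) (hmeta : Group.IsNilpotent (G ⧸ F)) :
    ∃ g : G, charDegree (χ : G → ℂ) ∣ (Subgroup.centralizer ({g} : Set G)).index := by
  classical
  have hχ : IsIrrCharacter G (χ : G → ℂ) := χ.2
  have hqp : ∀ (N : Subgroup G), N.Normal → ∃ (ϑ : N → ℂ) (e : ℕ), e ≠ 0 ∧ IsIrrCharacter N ϑ ∧
      (fun n : N => (χ : G → ℂ) n) = (e : ℂ) • ϑ := by
    intro N hN
    exact quasi hχ hprim N
  obtain ⟨c, hc⟩ := exists_degree (isCharacter_of_isIrr hχ)
  obtain ⟨p, q, hpq, hpf⟩ := Finset.card_eq_two.1 h2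
  have hp : p.Prime := by
    have : p ∈ (Nat.card G).primeFactors := by rw [hpf]; simp
    exact Nat.prime_of_mem_primeFactors this
  have hq : q.Prime := by
    have : q ∈ (Nat.card G).primeFactors := by rw [hpf]; simp
    exact Nat.prime_of_mem_primeFactors this
  haveI : Fact p.Prime := ⟨hp⟩
  haveI : Fact q.Prime := ⟨hq⟩
  obtain ⟨P, hPn, hP1, hP2⟩ := exists_part F hmeta p
  obtain ⟨Q, hQn, hQ1, hQ2⟩ := exists_part F hmeta q
  have hPQ : P ⊔ Q = ⊤ := by
    rw [← Subgroup.index_eq_one]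
    by_contra hne
    obtain ⟨r, hr, hrd⟩ := Nat.exists_prime_and_dvd hne
    have h3 : r ∈ (Nat.card G).primeFactors := by
      rw [Nat.mem_primeFactors]
      exact ⟨hr, hrd.trans (Subgroup.index_dvd_card _), Nat.card_pos.ne'⟩
    rw [hpf, Finset.mem_insert, Finset.mem_singleton] at h3
    rcases h3 with rfl | rfl
    · exact hP2 (hrd.trans (Subgroup.index_dvd_of_le le_sup_left))
    · exact hQ2 (hrd.trans (Subgroup.index_dvd_of_le le_sup_right))
  obtain ⟨y, hy⟩ := phi_final hsol hχ hqp p (F := F) (P := P) hF hP1 hc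
  obtain ⟨z, hz⟩ := phi_final hsol hχ hqp q (F := F) (P := Q) hF hQ1 hc
  have h3 : y⁻¹ * z ∈ P ⊔ Q := by rw [hPQ]; exact Subgroup.mem_top _
  rw [Subgroup.mem_sup_of_normal_left] at h3
  obtain ⟨a, ha, b, hb, hab⟩ := h3
  have hg : y * a = z * b⁻¹ := by
    have : a = y⁻¹ * z * b⁻¹ := by rw [← hab]; group
    rw [this]; group
  refine ⟨y * a, ?_⟩
  rw [H82.Deg.charDegree_eq_of hc]
  have hc0 : c ≠ 0 := by
    rintro rfl
    exact irr_one_ne_zero hχ (by rw [hc]; simp)
  rw [← Nat.factorization_le_iff_dvd hc0 Subgroup.index_ne_zero_of_finite]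
  intro r
  by_cases hr : r.Prime
  swap
  · rw [Nat.factorization_eq_zero_of_not_prime _ hr]
    exact Nat.zero_le _
  by_cases hrp : r = p
  · subst hrp; exact hy a ha
  by_cases hrq : r = q
  · subst hrq; rw [hg]; exact hz b⁻¹ (Q.inv_mem hb)
  haveI : Fact r.Prime := ⟨hr⟩
  obtain ⟨g, hg'⟩ := main hsol χ hprim r
  rw [H82.Deg.charDegree_eq_of hc] at hg'
  have h4 : ¬ r ∣ Nat.card G := by
    intro h
    have h5 : r ∈ (Nat.card G).primeFactors := Nat.mem_primeFactors.2 ⟨hr, h, Nat.card_pos.ne'⟩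
    rw [hpf, Finset.mem_insert, Finset.mem_singleton] at h5
    rcases h5 with h5 | h5
    · exact hrp h5
    · exact hrq h5
  have h5 : ((Subgroup.centralizer ({g} : Set G)).index).factorization r = 0 :=
    Nat.factorization_eq_zero_of_not_dvd fun h => h4 (h.trans (Subgroup.index_dvd_card _))
  omega

end H5.FixAvg
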