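import Mathlib
import Cfsg.Agent.Lib.H60.Semireg
import Cfsg.Agent.Lib.H65.PBasic
import Cfsg.Agent.Lib.H18.CharInd

/-!
# Camina-type pairs: a normal subgroup `P` with `P \ K` a single class and `P : K = q`, `G : P = q - 1`
-/

set_option autoImplicit false
open Subgroup
open scoped commutatorElement

namespace H5.OneNL1

universe u

variable {H : Type u} [Group H] [Finite H]

theorem relIndex_mul_card {A B : Subgroup H} (h : A ≤ B) :
    A.relIndex B * Nat.card A = Nat.card B := by
  rw [← relIndex_bot_left A, ← relIndex_bot_left B, mul_comm]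
  exact relIndex_mul_relIndex ⊥ A B bot_le h

/-- `H` acts irreducibly and "abelianly" on the minimal normal subgroup `V`. -/
theorem index_centralizer_dvd (V : Subgroup H) [hV : V.Normal]
    (hmin : ∀ W : Subgroup H, W.Normal → W ≤ V → W ≠ ⊥ → W = V)
    (hab : commutator H ≤ centralizer (V : Set H)) :
    (centralizer (V : Set H)).index ∣ Nat.card V - 1 := by
  classical
  let φ : H →* MulAut V := MulAut.conjNormal
  have hφ : ∀ (h : H) (v : V), ((φ h v : V) : H) = h * v * h⁻¹ := fun h v => MulAut.conjNormal_apply h v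
  have hker : φ.ker = centralizer (V : Set H) := by
    ext h
    rw [MonoidHom.mem_ker, mem_centralizer_iff]
    constructor
    · intro h1 v hv
      have h2 := hφ h ⟨v, hv⟩
      rw [h1] at h2
      simp only [MulAut.one_apply] at h2
      exact (eq_mul_inv_iff_mul_eq.1 h2)
    · intro h1
      ext v
      rw [hφ, ← h1 v v.2, mul_inv_cancel_right]
      rfl
  have hcard : Nat.card φ.range = (centralizer (V : Set H)).index := by
    rw [← hker, Subgroup.index_ker]
  -- stabilizers
  have hstab : ∀ v ∈ V, v ≠ 1 → ∀ h : H, h * v = v * h → h ∈ centralizer (V : Set H) := by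
    intro v hv hv1 h hh
    let W : Subgroup H := V ⊓ centralizer {h}
    have hW : W.Normal := by
      refine ⟨fun w hw g => ?_⟩
      refine mem_inf.2 ⟨hV.conj_mem w (mem_inf.1 hw).1 g, ?_⟩
      have hw2 := mem_centralizer_singleton_iff.1 (mem_inf.1 hw).2
      rw [mem_centralizer_singleton_iff]
      -- h g w g⁻¹ = g w g⁻¹ h
      have hc : g⁻¹ * h * g * h⁻¹ ∈ centralizer (V : Set H) := by
        apply hab
        have : g⁻¹ * h * g * h⁻¹ = ⁅g⁻¹, h⁆ := by rw [commutatorElement_def, inv_inv]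
        rw [this]
        exact commutator_mem_commutator (mem_top _) (mem_top _)
      have hc2 := mem_centralizer_iff.1 hc w (mem_inf.1 hw).1
      -- w * c = c * w
      have h3 : g⁻¹ * h * g = (g⁻¹ * h * g * h⁻¹) * h := by group
      have h4 : w * (g⁻¹ * h * g) = (g⁻¹ * h * g) * w := by
        rw [h3]
        calc w * (g⁻¹ * h * g * h⁻¹ * h) = (w * (g⁻¹ * h * g * h⁻¹)) * h := by group
          _ = ((g⁻¹ * h * g * h⁻¹) * w) * h := by rw [hc2]
          _ = (g⁻¹ * h * g * h⁻¹) * (w * h) := by group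
          _ = (g⁻¹ * h * g * h⁻¹) * (h * w) := by rw [hw2]
          _ = g⁻¹ * h * g * h⁻¹ * h * w := by group
      calc g * w * g⁻¹ * h = g * (w * (g⁻¹ * h * g)) * g⁻¹ := by group
        _ = g * ((g⁻¹ * h * g) * w) * g⁻¹ := by rw [h4]
        _ = h * (g * w * g⁻¹) := by group
    have hWV : W = V := by
      apply hmin W hW inf_le_left
      intro h0
      have : v ∈ W := mem_inf.2 ⟨hv, mem_centralizer_singleton_iff.2 hh.symm⟩
      rw [h0, mem_bot] at this
      exact hv1 this
    rw [mem_centralizer_iff]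
    intro w hw
    have : w ∈ W := by rw [hWV]; exact hw
    exact mem_centralizer_singleton_iff.1 (mem_inf.1 this).2
  have h1 := H60.Semireg.dvd_ncard (T := φ.range) (X := V) {v : V | v ≠ 1} (Set.toFinite _)
    (by
      rintro ⟨_, t, rfl⟩ v hv h0
      apply hv
      have h2 : φ t v = 1 := h0
      have := (φ t).map_eq_one_iff.1 h2
      exact this)
    (by
      rintro v hv ⟨_, t, rfl⟩ h0
      have h2 : φ t v = v := h0
      have h3 : t * (v : H) = v * t := by
        have := hφ t v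
        rw [h2] at this
        exact (eq_mul_inv_iff_mul_eq.1 this).symm
      have h4 := hstab v v.2 (fun h => hv (Subtype.ext h)) t h3
      rw [← hker, MonoidHom.mem_ker] at h4
      exact Subtype.ext h4)
  rw [hcard] at h1
  have h2 : {v : V | v ≠ 1}.ncard = Nat.card V - 1 := by
    have h3 : {v : V | v ≠ 1} = ({1} : Set V)ᶜ := rfl
    rw [h3, Set.ncard_compl, Set.ncard_singleton]
  rwa [h2] at h1

/-- The configuration. -/
structure Cam (K P : Subgroup H) (q : ℕ) : Prop where
  nK : K.Normal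
  nP : P.Normal
  le : K ≤ P
  comm : commutator H ≤ P
  ab : ⁅P, P⁆ ≤ K
  rel : K.relIndex P = q
  idx : P.index = q - 1
  two : 2 ≤ q
  loc : ∀ x ∈ P, x ∉ K → ∀ k ∈ K, ∃ y ∈ P, y * x * y⁻¹ = x * k
  tr : ∀ x ∈ P, x ∉ K → ∀ y ∈ P, y ∉ K → IsConj x y

variable {K P : Subgroup H} {q : ℕ}

theorem Cam.exists_mem (c : Cam K P q) : ∃ x ∈ P, x ∉ K := by
  by_contra hne
  push Not at hne
  have h1 : K.relIndex P = 1 := relIndex_eq_one.2 hne
  rw [c.rel] at h1
  have := c.two
  omega

/-- the configuration passes to quotients -/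
theorem Cam.quot (c : Cam K P q) (W : Subgroup H) [hW : W.Normal] (hWK : W ≤ K) :
    Cam (K.map (QuotientGroup.mk' W)) (P.map (QuotientGroup.mk' W)) q := by
  have hsurj := QuotientGroup.mk'_surjective W
  have hker : (QuotientGroup.mk' W).ker = W := QuotientGroup.ker_mk' W
  have hKc : (K.map (QuotientGroup.mk' W)).comap (QuotientGroup.mk' W) = K := by
    rw [comap_map_eq, hker, sup_eq_left.2 hWK]
  have hPc : (P.map (QuotientGroup.mk' W)).comap (QuotientGroup.mk' W) = P := by
    rw [comap_map_eq, hker, sup_eq_left.2 (hWK.trans c.le)]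
  have hK : ∀ x : H, QuotientGroup.mk' W x ∈ K.map (QuotientGroup.mk' W) ↔ x ∈ K := by
    intro x
    rw [← mem_comap, hKc]
  have hP : ∀ x : H, QuotientGroup.mk' W x ∈ P.map (QuotientGroup.mk' W) ↔ x ∈ P := by
    intro x
    rw [← mem_comap, hPc]
  refine ⟨c.nK.map _ hsurj, c.nP.map _ hsurj, map_mono c.le, ?_, ?_, ?_, ?_, c.two, ?_, ?_⟩
  · have h1 : commutator (H ⧸ W) = (commutator H).map (QuotientGroup.mk' W) := by
      rw [commutator_def, commutator_def, map_commutator, ← MonoidHom.range_eq_map,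
        MonoidHom.range_eq_top.2 hsurj]
    rw [h1]
    exact map_mono c.comm
  · rw [← map_commutator]
    exact map_mono c.ab
  · rw [← c.rel]
    have h1 := relIndex_comap (K.map (QuotientGroup.mk' W)) (QuotientGroup.mk' W) P
    rw [hKc] at h1
    exact h1.symm
  · rw [← c.idx]
    have h1 := index_comap_of_surjective (P.map (QuotientGroup.mk' W)) hsurj
    rw [hPc] at h1
    exact h1.symm
  · intro x hx hxK k hk
    obtain ⟨x, rfl⟩ := hsurj x
    obtain ⟨k, rfl⟩ := hsurj k
    obtain ⟨y, hy, hyx⟩ := c.loc x ((hP x).1 hx) (fun h => hxK ((hK x).2 h)) k ((hK k).1 hk)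
    refine ⟨QuotientGroup.mk' W y, (hP y).2 hy, ?_⟩
    rw [← map_inv, ← map_mul, ← map_mul, hyx, map_mul]
  · intro x hx hxK y hy hyK
    obtain ⟨x, rfl⟩ := hsurj x
    obtain ⟨y, rfl⟩ := hsurj y
    have h1 := c.tr x ((hP x).1 hx) (fun h => hxK ((hK x).2 h)) y ((hP y).1 hy)
      (fun h => hyK ((hK y).2 h))
    obtain ⟨g, hg⟩ := isConj_iff.1 h1
    refine isConj_iff.2 ⟨QuotientGroup.mk' W g, ?_⟩
    rw [← map_inv, ← map_mul, ← map_mul, hg]

/-- a normal subgroup not inside `K` contains `P` -/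
theorem Cam.le_of_not_le (c : Cam K P q) {N : Subgroup H} (hN : N.Normal) (hNP : N ≤ P)
    (h : ¬ N ≤ K) : N = P := by
  obtain ⟨x, hx, hxK⟩ := Set.not_subset.1 h
  have hxK : x ∉ K := hxK
  have h1 : ∀ y ∈ P, y ∉ K → y ∈ N := by
    intro y hy hyK
    obtain ⟨g, hg⟩ := isConj_iff.1 (c.tr x (hNP hx) hxK y hy hyK)
    rw [← hg]
    exact hN.conj_mem x hx g
  apply le_antisymm hNP
  intro y hy
  by_cases hyK : y ∈ K
  · have h2 : x * y ∉ K := fun h3 => hxK ((mul_mem_cancel_right hyK).1 h3)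
    have h3 := h1 _ (mul_mem (hNP hx) hy) h2
    exact (mul_mem_cancel_left hx).1 h3
  · exact h1 y hy hyK

theorem Cam.card_P (c : Cam K P q) : Nat.card P = q * Nat.card K := by
  rw [← c.rel]
  exact (relIndex_mul_card c.le).symm

theorem Cam.card_centralizer (c : Cam K P q) {x : H} (hx : x ∈ P) (hxK : x ∉ K) :
    Nat.card (centralizer ({x} : Set H)) = q := by
  classical
  have h1 := H18.CharInd.card_isConj_eq_index x
  have h2 : Nat.card {y : H // IsConj x y} = Nat.card P - Nat.card K := by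
    have h3 : {y : H | IsConj x y} = (P : Set H) \ (K : Set H) := by
      ext y
      constructor
      · intro h
        obtain ⟨g, rfl⟩ := isConj_iff.1 h
        refine ⟨c.nP.conj_mem x hx g, fun h4 => hxK ?_⟩
        have := c.nK.conj_mem _ h4 g⁻¹
        have h5 : g⁻¹ * (g * x * g⁻¹) * g⁻¹⁻¹ = x := by group
        rwa [h5] at this
      · rintro ⟨h4, h5⟩
        exact c.tr x hx hxK y h4 h5
    change Nat.card ({y : H | IsConj x y} : Set H) = _
    rw [h3, Nat.card_coe_set_eq, Set.ncard_sdiff c.le (Set.toFinite _)]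
    rfl
  have h3 := card_mul_index (centralizer ({x} : Set H))
  have h4 := card_mul_index P
  rw [← h1, h2, c.card_P] at h3
  rw [c.card_P, c.idx] at h4
  have hK : 0 < Nat.card K := Nat.card_pos
  have h5 : q * Nat.card K - Nat.card K = (q - 1) * Nat.card K := by
    rw [Nat.sub_mul, one_mul]
  rw [h5, ← h4] at h3
  have h6 : 0 < (q - 1) * Nat.card K := by
    apply Nat.mul_pos _ hK
    have := c.two
    omega
  apply Nat.eq_of_mul_eq_mul_right h6
  rw [h3]
  ring

theorem Cam.centralizer_le (c : Cam K P q) {x : H} (hx : x ∈ P) (hxK : x ∉ K) :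
    centralizer ({x} : Set H) ≤ P := by
  classical
  have h1 := H18.CharInd.card_isConj_eq_index (⟨x, hx⟩ : P)
  have hmem : ∀ (k : H) (hk : k ∈ K), IsConj (⟨x, hx⟩ : P) (⟨x, hx⟩ * ⟨k, c.le hk⟩) := by
    intro k hk
    obtain ⟨y, hy, hyx⟩ := c.loc x hx hxK k hk
    exact isConj_iff.2 ⟨⟨y, hy⟩, Subtype.ext hyx⟩
  have h2 : Nat.card {y : P // IsConj (⟨x, hx⟩ : P) y} = Nat.card K := by
    symm
    refine Nat.card_congr (Equiv.ofBijective
      (fun k : K => (⟨⟨x, hx⟩ * ⟨k, c.le k.2⟩, hmem k k.2⟩ : {y : P // IsConj (⟨x, hx⟩ : P) y}))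
      ⟨?_, ?_⟩)
    · intro k k' h
      have h3 : x * (k : H) = x * k' := congrArg (fun z => ((z.1 : P) : H)) h
      exact Subtype.ext (mul_left_cancel h3)
    · rintro ⟨y, hy⟩
      obtain ⟨g, hg⟩ := isConj_iff.1 hy
      have h3 : x⁻¹ * (y : H) ∈ K := by
        apply c.ab
        have h4 : x⁻¹ * (y : H) = ⁅x⁻¹, (g : H)⁆ := by
          rw [← hg, commutatorElement_def]
          simp [mul_assoc]
        rw [h4]
        exact commutator_mem_commutator (inv_mem hx) g.2
      refine ⟨⟨x⁻¹ * y, h3⟩, ?_⟩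
      apply Subtype.ext
      apply Subtype.ext
      change x * (x⁻¹ * (y : H)) = y
      group
  have h3 := card_mul_index (centralizer ({(⟨x, hx⟩ : P)} : Set P))
  rw [← h1, h2, c.card_P] at h3
  have h4 : Nat.card (centralizer ({(⟨x, hx⟩ : P)} : Set P)) = q :=
    Nat.eq_of_mul_eq_mul_right Nat.card_pos h3
  have h5 : (centralizer ({(⟨x, hx⟩ : P)} : Set P)).map P.subtype ≤ centralizer ({x} : Set H) := by
    rintro _ ⟨y, hy, rfl⟩
    rw [SetLike.mem_coe, mem_centralizer_singleton_iff] at hy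
    rw [mem_centralizer_singleton_iff]
    exact congrArg Subtype.val hy
  have h6 : (centralizer ({(⟨x, hx⟩ : P)} : Set P)).map P.subtype = centralizer ({x} : Set H) := by
    apply Subgroup.eq_of_le_of_card_ge h5
    rw [c.card_centralizer hx hxK, Subgroup.card_map_of_injective P.subtype_injective, h4]
  rw [← h6]
  exact map_subtype_le _

theorem Cam.mem_of_conj (c : Cam K P q) {x : H} (hx : x ∈ P) (hxK : x ∉ K) {h : H}
    (hh : h * x * h⁻¹ * x⁻¹ ∈ K) : h ∈ P := by
  have h1 : x⁻¹ * (h * x * h⁻¹) ∈ K := by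
    have := c.nK.conj_mem _ hh x⁻¹
    have h2 : x⁻¹ * (h * x * h⁻¹ * x⁻¹) * x⁻¹⁻¹ = x⁻¹ * (h * x * h⁻¹) := by group
    rwa [h2] at this
  obtain ⟨y, hy, hyx⟩ := c.loc x hx hxK _ h1
  have h3 : y * x * y⁻¹ = h * x * h⁻¹ := by rw [hyx]; group
  have h4 : y⁻¹ * h ∈ centralizer ({x} : Set H) := by
    rw [mem_centralizer_singleton_iff]
    calc y⁻¹ * h * x = y⁻¹ * (h * x * h⁻¹) * h := by group
      _ = y⁻¹ * (y * x * y⁻¹) * h := by rw [h3]
      _ = x * (y⁻¹ * h) := by group
  have h5 := c.centralizer_le hx hxK h4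
  have h6 : h = y * (y⁻¹ * h) := by group
  rw [h6]
  exact mul_mem hy h5

section pgroup

variable {p : ℕ} [hp : Fact p.Prime]

/-- central subgroups inside `K` are small -/
theorem Cam.card_central (c : Cam K P q) (hP : IsPGroup p P) {N : Subgroup H} (hNK : N ≤ K)
    (hN : N ≤ centralizer (P : Set H)) : p * Nat.card N ≤ q := by
  obtain ⟨x, hx, hxK⟩ := c.exists_mem
  have h1 : N ≤ centralizer ({x} : Set H) := by
    intro n hn
    rw [mem_centralizer_singleton_iff]
    exact (mem_centralizer_iff.1 (hN hn) x hx).symm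
  have hxN : x ∉ N := fun h => hxK (hNK h)
  have hxC : x ∈ centralizer ({x} : Set H) := mem_centralizer_singleton_iff.2 rfl
  have hCp : IsPGroup p (centralizer ({x} : Set H)) := hP.to_le (c.centralizer_le hx hxK)
  have h2 : N.relIndex (centralizer ({x} : Set H)) ≠ 1 := by
    intro h
    exact hxN (relIndex_eq_one.1 h hxC)
  have h3 := relIndex_mul_card h1
  rw [c.card_centralizer hx hxK] at h3
  obtain ⟨k, hk⟩ := IsPGroup.iff_card.1 hCp
  rw [c.card_centralizer hx hxK] at hk
  have h4 : N.relIndex (centralizer ({x} : Set H)) ∣ p ^ k := by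
    rw [← hk, ← h3]; exact Dvd.intro _ rfl
  obtain ⟨j, hj, hj'⟩ := (Nat.dvd_prime_pow hp.out).1 h4
  have h5 : p ≤ N.relIndex (centralizer ({x} : Set H)) := by
    rw [hj']
    rcases Nat.eq_zero_or_pos j with h | h
    · exfalso; apply h2; rw [hj', h, pow_zero]
    · exact Nat.le_self_pow (by omega) p
  rw [← h3]
  exact Nat.mul_le_mul_right _ h5

end pgroup

end H5.OneNL1
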