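import Cfsg.Agent.Lib.H5.OneNL1

/-!
# The class of `P` is at most two
-/

set_option autoImplicit false
open Subgroup
open scoped commutatorElement

namespace H5.OneNL1

universe u

theorem comp_aux {H : Type u} [Group H] {v y u u₀ z d : H}
    (hz : z = y * u * y⁻¹ * u⁻¹) (hdz : d * z = z * d) (hv : v = d * y * d⁻¹ * y⁻¹)
    (hu₀ : u₀ = d * u * d⁻¹ * u⁻¹) (h1 : Commute u₀ v) (h2 : Commute u₀ y) (h3 : Commute u₀ u)
    (h4 : z * v = v * z) : v * u = u * v := by
  have e1 : d * y * d⁻¹ = v * y := by rw [hv]; group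
  have e2 : d * u * d⁻¹ = u₀ * u := by rw [hu₀]; group
  have e3 : d * z * d⁻¹ = z := by rw [hdz]; group
  have e4 : d * z * d⁻¹ = (v * y) * (u₀ * u) * (v * y)⁻¹ * (u₀ * u)⁻¹ := by
    rw [← e1, ← e2, hz]; group
  have c1 : Commute u₀ (v * y) := h1.mul_right h2
  have c2 : Commute u₀ (v * y * u * (v * y)⁻¹ * u⁻¹) :=
    (((c1.mul_right h3).mul_right c1.inv_right).mul_right h3.inv_right)
  have e5 : (v * y) * (u₀ * u) * (v * y)⁻¹ * (u₀ * u)⁻¹ = v * y * u * (v * y)⁻¹ * u⁻¹ := by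
    calc (v * y) * (u₀ * u) * (v * y)⁻¹ * (u₀ * u)⁻¹
        = ((v * y) * u₀) * u * (v * y)⁻¹ * u⁻¹ * u₀⁻¹ := by group
      _ = (u₀ * (v * y)) * u * (v * y)⁻¹ * u⁻¹ * u₀⁻¹ := by rw [c1.eq]
      _ = (u₀ * (v * y * u * (v * y)⁻¹ * u⁻¹)) * u₀⁻¹ := by group
      _ = ((v * y * u * (v * y)⁻¹ * u⁻¹) * u₀) * u₀⁻¹ := by rw [c2.eq]
      _ = v * y * u * (v * y)⁻¹ * u⁻¹ := by group
  have e6 : v * y * u * (v * y)⁻¹ * u⁻¹ = z * (v * u * v⁻¹ * u⁻¹) := by
    calc v * y * u * (v * y)⁻¹ * u⁻¹ = v * (y * u * y⁻¹ * u⁻¹) * u * v⁻¹ * u⁻¹ := by group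
      _ = (v * z) * u * v⁻¹ * u⁻¹ := by rw [hz]
      _ = (z * v) * u * v⁻¹ * u⁻¹ := by rw [h4]
      _ = z * (v * u * v⁻¹ * u⁻¹) := by group
  rw [e4, e5, e6] at e3
  have e7 : v * u * v⁻¹ * u⁻¹ = 1 := mul_eq_left.1 e3
  calc v * u = (v * u * v⁻¹ * u⁻¹) * (u * v) := by group
    _ = u * v := by rw [e7, one_mul]

theorem arith {p n a : ℕ} (hp : 2 ≤ p) (ha : 1 ≤ a) (han : a < n) {i : ℕ} (h1 : i ∣ p ^ n - 1)
    (h2 : i ∣ p ^ a - 1) : i ≤ p ^ (n / 2) - 1 := by
  have h3 : i ∣ p ^ (Nat.gcd n a) - 1 := by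
    rw [← Nat.pow_sub_one_gcd_pow_sub_one]
    exact Nat.dvd_gcd h1 h2
  have hg : 0 < Nat.gcd n a := Nat.gcd_pos_of_pos_right _ ha
  have h4 : Nat.gcd n a ≤ n / 2 := by
    obtain ⟨e, he⟩ := Nat.gcd_dvd_left n a
    have h5 : Nat.gcd n a ≤ a := Nat.gcd_le_right _ ha
    have h6 : 2 ≤ e := by
      rcases Nat.lt_or_ge e 2 with h | h
      · exfalso
        have h7 : n ≤ Nat.gcd n a := by
          calc n = Nat.gcd n a * e := he
            _ ≤ Nat.gcd n a * 1 := Nat.mul_le_mul_left _ (by omega)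
            _ = Nat.gcd n a := mul_one _
        omega
      · exact h
    rw [Nat.le_div_iff_mul_le (by norm_num)]
    calc Nat.gcd n a * 2 ≤ Nat.gcd n a * e := Nat.mul_le_mul_left _ h6
      _ = n := he.symm
  have h7 : 0 < p ^ (Nat.gcd n a) - 1 := by
    have : 2 ^ 1 ≤ p ^ (Nat.gcd n a) :=
      (Nat.pow_le_pow_left hp 1).trans (Nat.pow_le_pow_right (by omega) hg)
    omega
  have h8 := Nat.le_of_dvd h7 h3
  have h9 : p ^ (Nat.gcd n a) ≤ p ^ (n / 2) := Nat.pow_le_pow_right (by omega) h4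
  omega

theorem arith2 {p n : ℕ} (hp : 3 ≤ p) (hn : 1 ≤ n) :
    (p ^ (n / 2) - 1) * (p ^ (n / 2) - 1) < p ^ n - 1 := by
  have h1 : p ^ (n / 2) * p ^ (n / 2) ≤ p ^ n := by
    rw [← pow_add]
    exact Nat.pow_le_pow_right (by omega) (by omega)
  have h2 : 1 ≤ p ^ (n / 2) := Nat.one_le_pow _ _ (by omega)
  have h3 : 3 ^ 1 ≤ p ^ n := (Nat.pow_le_pow_left hp 1).trans (Nat.pow_le_pow_right (by omega) hn)
  obtain ⟨m, hm⟩ : ∃ m, p ^ (n / 2) = m + 1 := ⟨p ^ (n / 2) - 1, by omega⟩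
  rw [hm] at h1 ⊢
  rw [Nat.add_sub_cancel]
  rcases Nat.eq_zero_or_pos m with h | h
  · subst h; omega
  · have : (m + 1) * (m + 1) = m * m + 2 * m + 1 := by ring
    omega

variable {p : ℕ} [hp : Fact p.Prime]

theorem Cam.comm_aux (n : ℕ) (hp3 : 3 ≤ p) : ∀ (m : ℕ) (H : Type u) [Group H] [Finite H]
    (K P : Subgroup H), Nat.card H = m → Cam K P (p ^ n) → IsPGroup p P →
    ⁅K, P⁆ = ⊥ := by
  intro m
  induction m using Nat.strong_induction_on with
  | _ m ih =>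
  intro H _ _ K P hm c hP
  by_contra hne
  have := c.nK
  have := c.nP
  have hn : 1 ≤ n := by
    rcases Nat.eq_zero_or_pos n with h | h
    · exfalso
      have := c.two
      rw [h, pow_zero] at this
      omega
    · exact h
  -- the induction hypothesis
  have hind : ∀ W : Subgroup H, W.Normal → W ≤ K → W ≠ ⊥ → ⁅K, P⁆ ≤ W := by
    intro W hW hWK hW1
    have h1 := ih (Nat.card (H ⧸ W)) (by
      rw [← hm, ← Subgroup.card_mul_index W, Subgroup.index]
      have h2 : 1 < Nat.card W := by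
        rcases Nat.lt_or_ge 1 (Nat.card W) with h | h
        · exact h
        · exact absurd (Subgroup.card_eq_one.1 (le_antisymm h Nat.card_pos)) hW1
      exact (Nat.lt_mul_iff_one_lt_left Nat.card_pos).2 h2) (H ⧸ W) _ _ rfl (c.quot W hWK) (hP.map _)
    rw [← map_commutator, Subgroup.map_eq_bot_iff, QuotientGroup.ker_mk'] at h1
    exact h1
  set V := ⁅K, P⁆ with hVdef
  have hVn : V.Normal := inferInstance
  have hVK : V ≤ K := commutator_le_left K P
  have hKP := c.le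
  -- V is central in P
  have hVc : V ≤ centralizer (P : Set H) := by
    have h1 : V ⊓ centralizer (P : Set H) ≠ ⊥ := by
      apply H65.PBasic.inf_centralizer_ne_bot P V hP (hP.to_le (hVK.trans hKP)) _ hne
      rw [Subgroup.normalizer_eq_top]
      exact le_top
    have h2 := hind (V ⊓ centralizer (P : Set H)) inferInstance (inf_le_left.trans hVK) h1
    exact h2.trans inf_le_right
  have hPV : P ≤ centralizer (V : Set H) := by rwa [Subgroup.le_centralizer_iff] at hVc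
  have ha : p * Nat.card V ≤ p ^ n := c.card_central hP hVK hVc
  -- K / V
  have cV := c.quot V hVK
  have hb : p * Nat.card (K.map (QuotientGroup.mk' V)) ≤ p ^ n := by
    apply cV.card_central (hP.map _) le_rfl
    rw [← commutator_eq_bot_iff_le_centralizer, ← map_commutator, Subgroup.map_eq_bot_iff,
      QuotientGroup.ker_mk']
  have hb' : Nat.card (K.map (QuotientGroup.mk' V)) = V.relIndex K := by
    rw [← relIndex_ker, QuotientGroup.ker_mk']
  -- U₀
  set U₀ := K ⊓ centralizer (P : Set H) with hU₀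
  have hU₀n : U₀.Normal := inferInstance
  have hVU₀ : V ≤ U₀ := le_inf hVK hVc
  have hU₀K : U₀ ≠ K := by
    intro h
    apply hne
    rw [commutator_eq_bot_iff_le_centralizer]
    rw [← h]
    exact inf_le_right
  -- U₁
  obtain ⟨U₁, ⟨hU₁n, hU₁lt, hU₁K⟩, hU₁min⟩ : ∃ U : Subgroup H, (U.Normal ∧ U₀ < U ∧ U ≤ K) ∧
      ∀ W : Subgroup H, (W.Normal ∧ U₀ < W ∧ W ≤ K) → W ≤ U → W = U := by
    have hfin : {U : Subgroup H | U.Normal ∧ U₀ < U ∧ U ≤ K}.Finite := Set.toFinite _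
    obtain ⟨U, hU⟩ := hfin.exists_minimal ⟨K, c.nK, lt_of_le_of_ne inf_le_left hU₀K, le_rfl⟩
    exact ⟨U, hU.1, fun W hW hWU => le_antisymm hWU (hU.2 hW hWU)⟩
  have hker₀ : (QuotientGroup.mk' U₀).ker = U₀ := QuotientGroup.ker_mk' U₀
  have hsurj₀ := QuotientGroup.mk'_surjective U₀
  set U' := U₁.map (QuotientGroup.mk' U₀) with hU'
  have hU'n : U'.Normal := hU₁n.map _ hsurj₀
  have hU'card : Nat.card U' = U₀.relIndex U₁ := by
    rw [hU', ← relIndex_ker, hker₀]
  have hPU₁ : ⁅U₁, P⁆ ≤ U₀ := (commutator_mono hU₁K le_rfl).trans hVU₀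
  have hPU' : P.map (QuotientGroup.mk' U₀) ≤ centralizer (U' : Set (H ⧸ U₀)) := by
    rw [Subgroup.le_centralizer_iff, ← commutator_eq_bot_iff_le_centralizer, hU',
      ← map_commutator, Subgroup.map_eq_bot_iff, hker₀]
    exact hPU₁
  have hdvd₁ : (centralizer (U' : Set (H ⧸ U₀))).index ∣ Nat.card U' - 1 := by
    apply index_centralizer_dvd U'
    · intro W hW hWU' hW1
      have h1 : (W.comap (QuotientGroup.mk' U₀)).Normal := hW.comap _
      have h2 : U₀ ≤ W.comap (QuotientGroup.mk' U₀) :=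
        hker₀.ge.trans (ker_le_comap _ _)
      have h3 : (W.comap (QuotientGroup.mk' U₀)).map (QuotientGroup.mk' U₀) = W :=
        map_comap_eq_self_of_surjective hsurj₀ W
      have h4 : W.comap (QuotientGroup.mk' U₀) ≤ U₁ := by
        have h5 : W.comap (QuotientGroup.mk' U₀) ≤ U'.comap (QuotientGroup.mk' U₀) := comap_mono hWU'
        rwa [hU', comap_map_eq, hker₀, sup_eq_left.2 hU₁lt.le] at h5
      have h5 : U₀ ≠ W.comap (QuotientGroup.mk' U₀) := by
        intro h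
        apply hW1
        rw [← h3, ← h, Subgroup.map_eq_bot_iff, hker₀]
      have h6 := hU₁min _ ⟨h1, lt_of_le_of_ne h2 h5, h4.trans hU₁K⟩ h4
      rw [← h3, h6]
    · refine le_trans ?_ hPU'
      have h1 : commutator (H ⧸ U₀) = (commutator H).map (QuotientGroup.mk' U₀) := by
        rw [_root_.commutator_def, _root_.commutator_def, map_commutator, ← MonoidHom.range_eq_map,
          MonoidHom.range_eq_top.2 hsurj₀]
      rw [h1]
      exact map_mono c.comm
  have hdvd₂ : (centralizer (V : Set H)).index ∣ Nat.card V - 1 := by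
    apply index_centralizer_dvd V
    · intro W hW hWV hW1
      exact le_antisymm hWV (hind W hW (hWV.trans hVK) hW1)
    · exact c.comm.trans hPV
  set C₁ := (centralizer (U' : Set (H ⧸ U₀))).comap (QuotientGroup.mk' U₀) with hC₁
  have hC₁i : C₁.index = (centralizer (U' : Set (H ⧸ U₀))).index :=
    index_comap_of_surjective _ hsurj₀
  have hPC₁ : P ≤ C₁ := by
    rw [hC₁, ← map_le_iff_le_comap]; exact hPU'
  have hi₁ : C₁.index ∣ p ^ n - 1 := by
    rw [← c.idx]; exact index_dvd_of_le hPC₁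
  have hi₂ : (centralizer (V : Set H)).index ∣ p ^ n - 1 := by
    rw [← c.idx]; exact index_dvd_of_le hPV
  -- orders
  obtain ⟨v, hv⟩ := IsPGroup.iff_card.1 (hP.to_le (hVK.trans hKP))
  have hp1 : 1 < p := hp.out.one_lt
  have hv1 : 1 ≤ v := by
    rcases Nat.eq_zero_or_pos v with h | h
    · rw [h, pow_zero] at hv
      exact absurd (Subgroup.card_eq_one.1 hv) hne
    · exact h
  have hvn : v < n := by
    rw [hv, ← pow_succ'] at ha
    have := (Nat.pow_le_pow_iff_right hp1).1 ha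
    omega
  have hU'p : IsPGroup p U' := (hP.to_le (hU₁K.trans hKP)).map _
  obtain ⟨a, hacard⟩ := IsPGroup.iff_card.1 hU'p
  have ha1 : 1 ≤ a := by
    rcases Nat.eq_zero_or_pos a with h | h
    · rw [h, pow_zero, hU'card, relIndex_eq_one] at hacard
      exact absurd hacard (not_le_of_gt hU₁lt)
    · exact h
  have han : a < n := by
    have h1 : U₀.relIndex U₁ ≤ V.relIndex K := by
      have e1 := relIndex_mul_relIndex U₀ U₁ K hU₁lt.le hU₁K
      have e2 := relIndex_mul_relIndex V U₀ K hVU₀ inf_le_left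
      have e3 : 0 < U₁.relIndex K := Nat.pos_of_ne_zero (Subgroup.index_ne_zero_of_finite)
      have e4 : 0 < V.relIndex U₀ := Nat.pos_of_ne_zero (Subgroup.index_ne_zero_of_finite)
      calc U₀.relIndex U₁ ≤ U₀.relIndex U₁ * U₁.relIndex K := Nat.le_mul_of_pos_right _ e3
        _ = U₀.relIndex K := e1
        _ ≤ V.relIndex U₀ * U₀.relIndex K := Nat.le_mul_of_pos_left _ e4
        _ = V.relIndex K := e2
    rw [hb'] at hb
    rw [← hU'card, hacard] at h1
    have h2 : p ^ (a + 1) ≤ p ^ n := by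
      rw [pow_succ']
      exact (Nat.mul_le_mul_left p h1).trans hb
    have := (Nat.pow_le_pow_iff_right hp1).1 h2
    omega
  have hle₁ : C₁.index ≤ p ^ (n / 2) - 1 :=
    arith hp.out.two_le ha1 han hi₁ (by rw [hC₁i, ← hacard]; exact hdvd₁)
  have hle₂ : (centralizer (V : Set H)).index ≤ p ^ (n / 2) - 1 :=
    arith hp.out.two_le hv1 hvn hi₂ (by rw [← hv]; exact hdvd₂)
  have hnot : ¬ C₁ ⊓ centralizer (V : Set H) ≤ P := by
    intro h
    have h1 := index_antitone h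
    have h2 := index_inf_le (H := C₁) (K := centralizer (V : Set H))
    have h3 := Nat.mul_le_mul hle₁ hle₂
    have h4 := arith2 hp3 hn
    rw [c.idx] at h1
    omega
  obtain ⟨d, hd, hdP⟩ := Set.not_subset.1 hnot
  have hdP : d ∉ P := hdP
  obtain ⟨hd₁, hd₂⟩ := mem_inf.1 hd
  obtain ⟨y, hy, hyK⟩ := c.exists_mem
  -- v
  have hvP : d * y * d⁻¹ * y⁻¹ ∈ P := mul_mem (c.nP.conj_mem y hy d) (inv_mem hy)
  have hvK : d * y * d⁻¹ * y⁻¹ ∉ K := fun h => hdP (c.mem_of_conj hy hyK h)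
  have hcomm : ∀ u ∈ U₁, (d * y * d⁻¹ * y⁻¹) * u = u * (d * y * d⁻¹ * y⁻¹) := by
    intro u hu
    have huP : u ∈ P := hKP (hU₁K hu)
    have hzV : y * u * y⁻¹ * u⁻¹ ∈ V := by
      have h1 : u * y * u⁻¹ * y⁻¹ ∈ V := commutator_mem_commutator (hU₁K hu) hy
      have h2 := inv_mem h1
      have h3 : (u * y * u⁻¹ * y⁻¹)⁻¹ = y * u * y⁻¹ * u⁻¹ := by group
      rwa [h3] at h2
    have hu₀ : d * u * d⁻¹ * u⁻¹ ∈ U₀ := by
      have h1 : QuotientGroup.mk' U₀ d ∈ centralizer (U' : Set (H ⧸ U₀)) := hd₁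
      have h2 := mem_centralizer_iff.1 h1 (QuotientGroup.mk' U₀ u) (mem_map_of_mem _ hu)
      rw [← hker₀, MonoidHom.mem_ker, map_mul, map_mul, map_mul, map_inv, map_inv, ← h2]
      group
    have hc₀ : ∀ w ∈ P, Commute (d * u * d⁻¹ * u⁻¹) w := by
      intro w hw
      exact (mem_centralizer_iff.1 (mem_inf.1 hu₀).2 w hw).symm
    refine comp_aux (z := y * u * y⁻¹ * u⁻¹) (u₀ := d * u * d⁻¹ * u⁻¹) (y := y) (d := d) rfl ?_ rfl rfl
      (hc₀ _ hvP) (hc₀ _ hy) (hc₀ _ huP) ?_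
    · exact (mem_centralizer_iff.1 hd₂ _ hzV).symm
    · exact (mem_centralizer_iff.1 (hVc hzV) _ hvP).symm
  have hTn : (P ⊓ centralizer (U₁ : Set H)).Normal := inferInstance
  have hT : P ⊓ centralizer (U₁ : Set H) = P := by
    apply c.le_of_not_le hTn inf_le_left
    intro h
    apply hvK
    apply h
    refine mem_inf.2 ⟨hvP, ?_⟩
    rw [mem_centralizer_iff]
    intro u hu
    exact (hcomm u hu).symm
  have h1 : P ≤ centralizer (U₁ : Set H) := by rw [← hT]; exact inf_le_right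
  rw [Subgroup.le_centralizer_iff] at h1
  exact absurd (le_inf hU₁K h1) (not_le_of_gt hU₁lt)

end H5.OneNL1
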