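import Cfsg.Agent.Lib.H5.OneNL2

/-!
# Elements outside `K` have order `p`
-/

set_option autoImplicit false
open Subgroup
open scoped commutatorElement

namespace H5.OneNL1

universe u

theorem mul_pow_class_two {H : Type u} [Group H] {a b c : H} (hc : b * a = a * b * c)
    (ha : Commute c a) (hb : Commute c b) (m : ℕ) :
    (a * b) ^ m = a ^ m * b ^ m * c ^ (m * (m - 1) / 2) := by
  have h1 : ∀ m : ℕ, b ^ m * a = a * b ^ m * c ^ m := by
    intro m
    induction m with
    | zero => simp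
    | succ m ih =>
      calc b ^ (m + 1) * a = b ^ m * (b * a) := by rw [pow_succ, mul_assoc]
        _ = (b ^ m * a) * b * c := by rw [hc]; group
        _ = a * b ^ m * (c ^ m * b) * c := by rw [ih]; group
        _ = a * b ^ m * (b * c ^ m) * c := by rw [(hb.pow_left m).eq]
        _ = a * b ^ (m + 1) * c ^ (m + 1) := by rw [pow_succ b, pow_succ c]; group
  induction m with
  | zero => simp
  | succ m ih =>
    have h2 : (m + 1) * (m + 1 - 1) / 2 = m * (m - 1) / 2 + m := by
      rw [Nat.add_sub_cancel]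
      rcases m with _ | m
      · rfl
      · rw [Nat.add_sub_cancel]
        have h3 : (m + 1 + 1) * (m + 1) = (m + 1) * m + (m + 1) * 2 := by ring
        rw [h3, Nat.add_mul_div_right _ _ (by norm_num)]
    rw [h2]
    generalize m * (m - 1) / 2 = e at ih ⊢
    have hca : Commute (c ^ e) (a * b) := (ha.mul_right hb).pow_left _
    calc (a * b) ^ (m + 1) = (a ^ m * b ^ m * c ^ e) * (a * b) := by rw [pow_succ, ih]
      _ = a ^ m * b ^ m * (c ^ e * (a * b)) := by simp only [mul_assoc]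
      _ = a ^ m * b ^ m * ((a * b) * c ^ e) := by rw [hca.eq]
      _ = a ^ m * (b ^ m * a) * b * c ^ e := by simp only [mul_assoc]
      _ = a ^ m * (a * b ^ m * c ^ m) * b * c ^ e := by rw [h1]
      _ = a ^ m * a * b ^ m * (c ^ m * b) * c ^ e := by simp only [mul_assoc]
      _ = a ^ m * a * b ^ m * (b * c ^ m) * c ^ e := by rw [(hb.pow_left m).eq]
      _ = (a ^ m * a) * (b ^ m * b) * (c ^ m * c ^ e) := by simp only [mul_assoc]
      _ = a ^ (m + 1) * b ^ (m + 1) * c ^ (e + m) := by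
          rw [← pow_succ a, ← pow_succ b, ← pow_add c, Nat.add_comm m e]

variable {H : Type u} [Group H] [Finite H] {K P : Subgroup H}

theorem Cam.pow_mem {q : ℕ} (c : Cam K P q) {p : ℕ} (hP : IsPGroup p P) {x : H} (hx : x ∈ P) :
    x ^ p ∈ K := by
  classical
  obtain ⟨y, hy, hyK⟩ := c.exists_mem
  have hex : ∃ i, y ^ p ^ i ∈ K := by
    obtain ⟨i, hi⟩ := hP ⟨y, hy⟩
    refine ⟨i, ?_⟩
    have : y ^ p ^ i = 1 := congrArg Subtype.val hi
    rw [this]; exact one_mem _
  have h1 := Nat.find_spec hex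
  rcases h : Nat.find hex with _ | i
  · rw [h, pow_zero, pow_one] at h1
    exact absurd h1 hyK
  · rw [h] at h1
    have h2 : y ^ p ^ i ∉ K := Nat.find_min hex (by omega)
    by_cases hxK : x ∈ K
    · exact _root_.pow_mem hxK p
    · obtain ⟨g, hg⟩ := isConj_iff.1 (c.tr (y ^ p ^ i) (_root_.pow_mem hy _) h2 x hx hxK)
      rw [← hg, conj_pow, ← pow_mul, ← pow_succ]
      exact c.nK.conj_mem _ h1 g

variable {p : ℕ} [hp : Fact p.Prime]

theorem Cam.pow_eq_one {n : ℕ} (hp3 : 3 ≤ p) (c : Cam K P (p ^ n)) (hP : IsPGroup p P) {x : H}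
    (hx : x ∈ P) (hxK : x ∉ K) : x ^ p = 1 := by
  classical
  have hcomm := Cam.comm_aux n hp3 _ H K P rfl c hP
  rw [commutator_eq_bot_iff_le_centralizer] at hcomm
  have hK : ∀ k ∈ K, ∀ y ∈ P, Commute k y := fun k hk y hy =>
    (mem_centralizer_iff.1 (hcomm hk) y hy).symm
  -- exponent of K
  have hexp : ∀ k ∈ K, k ^ p = 1 := by
    intro k hk
    obtain ⟨y, hy, hyx⟩ := c.loc x hx hxK k hk
    have h1 : (y * x * y⁻¹) ^ p = (x * k) ^ p := by rw [hyx]
    rw [conj_pow, (hK k hk x hx).symm.mul_pow] at h1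
    have h2 : y * x ^ p * y⁻¹ = x ^ p := by
      rw [← (hK _ (c.pow_mem hP hx) y hy).eq, mul_inv_cancel_right]
    rw [h2] at h1
    exact (mul_eq_left.1 h1.symm)
  have hmul : ∀ a ∈ P, ∀ b ∈ P, (a * b) ^ p = a ^ p * b ^ p := by
    intro a ha b hb
    have hcK : b⁻¹ * a⁻¹ * b * a ∈ K := by
      apply c.ab
      have h1 : b⁻¹ * a⁻¹ * b * a = ⁅b⁻¹, a⁻¹⁆ := by
        rw [commutatorElement_def, inv_inv, inv_inv]
      rw [h1]
      exact commutator_mem_commutator (inv_mem hb) (inv_mem ha)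
    rw [mul_pow_class_two (c := b⁻¹ * a⁻¹ * b * a) (by group) (hK _ hcK a ha) (hK _ hcK b hb)]
    have h2 : ∃ r, p * (p - 1) / 2 = p * r := by
      obtain ⟨r, hr⟩ := hp.out.odd_of_ne_two (by omega)
      refine ⟨r, ?_⟩
      have h3 : p - 1 = r * 2 := by omega
      rw [h3, ← mul_assoc, Nat.mul_div_cancel _ (by norm_num)]
    obtain ⟨r, hr⟩ := h2
    rw [hr, pow_mul, hexp _ hcK, one_pow, mul_one]
  by_contra hne
  let f : P →* H :=
    { toFun := fun y => (y : H) ^ p
      map_one' := by simp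
      map_mul' := fun a b => hmul a a.2 b b.2 }
  have hrange : f.range ≤ K := by
    rintro _ ⟨y, rfl⟩
    exact c.pow_mem hP y.2
  have hker : f.ker ≤ K.subgroupOf P := by
    intro y hy
    rw [mem_subgroupOf]
    by_contra hyK
    apply hne
    obtain ⟨g, hg⟩ := isConj_iff.1 (c.tr y y.2 hyK x hx hxK)
    have h1 : (y : H) ^ p = 1 := hy
    rw [← hg, conj_pow, h1]
    group
  have h1 : Nat.card P = Nat.card f.ker * Nat.card f.range := by
    have h2 := Subgroup.card_mul_index f.ker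
    rw [Subgroup.index_ker] at h2
    exact h2.symm
  have h2 : Nat.card f.ker ≤ Nat.card K := by
    calc Nat.card f.ker ≤ Nat.card (K.subgroupOf P) := Subgroup.card_le_of_le hker
      _ = Nat.card K := Nat.card_congr (subgroupOfEquivOfLe c.le).toEquiv
  have h3 : Nat.card f.range ≤ Nat.card K := Subgroup.card_le_of_le hrange
  have h4 := c.card_central hP le_rfl hcomm
  have h5 := c.card_P
  have hKpos : 0 < Nat.card K := Nat.card_pos
  have h6 : p * Nat.card K * Nat.card K ≤ Nat.card K * Nat.card K := by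
    calc p * Nat.card K * Nat.card K ≤ p ^ n * Nat.card K := Nat.mul_le_mul_right _ h4
      _ = Nat.card P := h5.symm
      _ = Nat.card f.ker * Nat.card f.range := h1
      _ ≤ Nat.card K * Nat.card K := Nat.mul_le_mul h2 h3
  have h7 : 0 < Nat.card K * Nat.card K := Nat.mul_pos hKpos hKpos
  rw [mul_assoc] at h6
  have h8 : 3 * (Nat.card K * Nat.card K) ≤ p * (Nat.card K * Nat.card K) :=
    Nat.mul_le_mul_right _ hp3
  omega

end H5.OneNL1
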