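import Cfsg.Agent.Lib.H5.OneNL3

/-!
# Groups whose derived subgroup is a single class together with `1`
-/

set_option autoImplicit false
open Subgroup
open scoped commutatorElement

namespace H5.OneNL4

universe u

variable {X : Type u} [Group X] [Finite X]

theorem le_of_normal {D N : Subgroup X} (hN : N.Normal) (hND : N ≤ D) (hN1 : N ≠ ⊥)
    (htr : ∀ x ∈ D, x ≠ 1 → ∀ y ∈ D, y ≠ 1 → IsConj x y) : D ≤ N := by
  obtain ⟨⟨x, hx⟩, hx1'⟩ := Subgroup.ne_bot_iff_exists_ne_one.1 hN1
  have hx1 : x ≠ 1 := fun h => hx1' (Subtype.ext h)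
  intro y hy
  by_cases hy1 : y = 1
  · rw [hy1]; exact one_mem _
  · obtain ⟨g, hg⟩ := isConj_iff.1 (htr x (hND hx) hx1 y hy hy1)
    rw [← hg]
    exact hN.conj_mem _ hx g

theorem exists_prime (D : Subgroup X) [hDn : D.Normal] (hD : D ≠ ⊥)
    (htr : ∀ x ∈ D, x ≠ 1 → ∀ y ∈ D, y ≠ 1 → IsConj x y) :
    ∃ p : ℕ, p.Prime ∧ IsPGroup p D ∧ (∀ a ∈ D, ∀ b ∈ D, a * b = b * a) ∧ ∀ x ∈ D, x ^ p = 1 := by
  have hcard : Nat.card D ≠ 1 := fun h => hD (Subgroup.card_eq_one.1 h)
  obtain ⟨p, hp, hpd⟩ := Nat.exists_prime_and_dvd hcard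
  have := Fact.mk hp
  obtain ⟨x, hx⟩ := exists_prime_orderOf_dvd_card' p hpd
  have hxp : (x : X) ^ p = 1 := by
    rw [← hx]
    have := pow_orderOf_eq_one x
    exact congrArg Subtype.val this
  have hx1 : (x : X) ≠ 1 := by
    intro h
    have : x = 1 := Subtype.ext h
    rw [this, orderOf_one] at hx
    exact hp.one_lt.ne hx
  have hexp : ∀ y ∈ D, y ^ p = 1 := by
    intro y hy
    by_cases hy1 : y = 1
    · rw [hy1, one_pow]
    · obtain ⟨g, hg⟩ := isConj_iff.1 (htr x x.2 hx1 y hy hy1)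
      rw [← hg, conj_pow, hxp]; group
  have hDp : IsPGroup p D := fun y => ⟨1, Subtype.ext (by rw [pow_one]; exact hexp y y.2)⟩
  refine ⟨p, hp, hDp, ?_, hexp⟩
  have h1 : D ⊓ centralizer (D : Set X) ≠ ⊥ :=
    H65.PBasic.inf_centralizer_ne_bot D D hDp hDp le_normalizer hD
  have h2 := le_of_normal (inferInstance : (D ⊓ centralizer (D : Set X)).Normal) inf_le_left h1 htr
  intro a ha b hb
  exact mem_centralizer_iff.1 (mem_inf.1 (h2 hb)).2 a ha

/-- If `Z(X) ≤ X'`, `X'` abelian with all non-identity elements conjugate, `|X'| > 2`, then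
`X : X' = |X'| - 1`. -/
theorem index_eq (hcomm : ∀ a ∈ commutator X, ∀ b ∈ commutator X, a * b = b * a)
    (htr : ∀ x ∈ commutator X, x ≠ 1 → ∀ y ∈ commutator X, y ≠ 1 → IsConj x y)
    (hZ : center X ≤ commutator X) (hq : 2 < Nat.card (commutator X)) :
    (commutator X).index = Nat.card (commutator X) - 1 := by
  classical
  set D := commutator X with hD
  -- the centre is trivial
  have hZ1 : center X = ⊥ := by
    by_contra hne
    have h1 := le_of_normal (inferInstance : (center X).Normal) hZ hne htr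
    have h2 : Nat.card D ≤ 2 := by
      by_contra h3
      push Not at h3
      obtain ⟨z, hz⟩ := Subgroup.ne_bot_iff_exists_ne_one.1 hne
      have h4 : ∀ y : D, y = 1 ∨ y = ⟨z, hZ z.2⟩ := by
        intro y
        by_cases hy : y = 1
        · exact Or.inl hy
        · right
          have hy' : (y : X) ≠ 1 := fun h => hy (Subtype.ext h)
          obtain ⟨g, hg⟩ := isConj_iff.1 (htr z (hZ z.2) (fun h => hz (Subtype.ext h)) y y.2 hy')
          apply Subtype.ext
          rw [← hg]
          change g * (z : X) * g⁻¹ = z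
          rw [mem_center_iff.1 z.2 g, mul_inv_cancel_right]
      have h5 : Nat.card D ≤ Nat.card (({1, ⟨z, hZ z.2⟩} : Set D)) := by
        apply Nat.card_le_card_of_injective (fun y : D => (⟨y, by
          rcases h4 y with h | h
          · exact Or.inl h
          · exact Or.inr h⟩ : ({1, ⟨z, hZ z.2⟩} : Set D)))
        intro a b hab
        exact congrArg Subtype.val hab
      have h6 : Nat.card (({1, ⟨z, hZ z.2⟩} : Set D)) ≤ 2 := by
        rw [Nat.card_coe_set_eq]
        refine (Set.ncard_insert_le _ _).trans ?_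
        rw [Set.ncard_singleton]
      omega
    omega
  have hD1 : D ≠ ⊥ := by
    intro h
    rw [h, Subgroup.card_bot] at hq
    omega
  set C := centralizer (D : Set X) with hC
  have hDC : D ≤ C := by
    intro a ha
    rw [hC, mem_centralizer_iff]
    intro b hb
    exact hcomm b hb a ha
  -- stabilizers
  have hstab : ∀ l ∈ D, l ≠ 1 → ∀ h : X, h * l = l * h → h ∈ C := by
    intro v hv hv1 h hh
    let W : Subgroup X := D ⊓ centralizer {h}
    have hW : W.Normal := by
      refine ⟨fun w hw g => ?_⟩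
      refine mem_inf.2 ⟨(inferInstance : D.Normal).conj_mem w (mem_inf.1 hw).1 g, ?_⟩
      have hw2 := mem_centralizer_singleton_iff.1 (mem_inf.1 hw).2
      rw [mem_centralizer_singleton_iff]
      have hc : g⁻¹ * h * g * h⁻¹ ∈ C := by
        apply hDC
        have : g⁻¹ * h * g * h⁻¹ = ⁅g⁻¹, h⁆ := by rw [commutatorElement_def, inv_inv]
        rw [this]
        exact commutator_mem_commutator (mem_top _) (mem_top _)
      have hc2 := mem_centralizer_iff.1 hc w (mem_inf.1 hw).1
      have h3 : g⁻¹ * h * g = (g⁻¹ * h * g * h⁻¹) * h := by group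
      have h4 : w * (g⁻¹ * h * g) = (g⁻¹ * h * g) * w := by
        rw [h3]
        calc w * (g⁻¹ * h * g * h⁻¹ * h) = (w * (g⁻¹ * h * g * h⁻¹)) * h := by group
          _ = ((g⁻¹ * h * g * h⁻¹) * w) * h := by rw [hc2]
          _ = (g⁻¹ * h * g * h⁻¹) * (w * h) := by group
          _ = (g⁻¹ * h * g * h⁻¹) * (h * w) := by rw [hw2]
          _ = g⁻¹ * h * g * h⁻¹ * h * w := by group
      calc g * w * g⁻¹ * h = g * (w * (g⁻¹ * h * g)) * g⁻¹ := by group
        _ = g * ((g⁻¹ * h * g) * w) * g⁻¹ := by rw [h4]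
        _ = h * (g * w * g⁻¹) := by group
    have hWV : D ≤ W := by
      apply le_of_normal hW inf_le_left _ htr
      intro h0
      have : v ∈ W := mem_inf.2 ⟨hv, mem_centralizer_singleton_iff.2 hh.symm⟩
      rw [h0, mem_bot] at this
      exact hv1 this
    rw [hC, mem_centralizer_iff]
    intro w hw
    exact mem_centralizer_singleton_iff.1 (mem_inf.1 (hWV hw)).2
  -- `C = D`
  have hCD : C ≤ D := by
    obtain ⟨a, ha⟩ : ∃ a, a ∉ C := by
      by_contra hne
      push Not at hne
      apply hD1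
      rw [eq_bot_iff, ← hZ1]
      intro l hl
      rw [mem_center_iff]
      intro g
      exact (mem_centralizer_iff.1 (hne g) l hl).symm
    have hfix : ∀ l ∈ D, a * l = l * a → l = 1 := by
      intro l hl hal
      by_contra hl1
      exact ha (hstab l hl hl1 a hal)
    have hcm : ∀ c : X, c * a * c⁻¹ * a⁻¹ ∈ D := by
      intro c
      have : c * a * c⁻¹ * a⁻¹ = ⁅c, a⁆ := by rw [commutatorElement_def]
      rw [this]
      exact commutator_mem_commutator (mem_top _) (mem_top _)
    let f : D → D := fun l => ⟨(l : X) * a * (l : X)⁻¹ * a⁻¹, hcm l⟩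
    have hinj : Function.Injective f := by
      intro l m h
      have h1 : (l : X) * a * (l : X)⁻¹ * a⁻¹ = (m : X) * a * (m : X)⁻¹ * a⁻¹ := congrArg Subtype.val h
      have h2 : (l : X) * a * (l : X)⁻¹ = (m : X) * a * (m : X)⁻¹ := mul_right_cancel h1
      have h3 : a * ((m : X)⁻¹ * l) = ((m : X)⁻¹ * l) * a := by
        calc a * ((m : X)⁻¹ * l) = (m : X)⁻¹ * (m * a * (m : X)⁻¹) * l := by group
          _ = (m : X)⁻¹ * (l * a * (l : X)⁻¹) * l := by rw [h2]
          _ = ((m : X)⁻¹ * l) * a := by group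
      have h4 := hfix _ (mul_mem (inv_mem m.2) l.2) h3
      exact Subtype.ext (inv_mul_eq_one.1 h4).symm
    have hsurj : Function.Surjective f := Finite.surjective_of_injective hinj
    intro c hc
    obtain ⟨l, hl⟩ := hsurj ⟨c * a * c⁻¹ * a⁻¹, hcm c⟩
    have hl' : (l : X) * a * (l : X)⁻¹ * a⁻¹ = c * a * c⁻¹ * a⁻¹ := congrArg Subtype.val hl
    have hl2 : (l : X) * a * (l : X)⁻¹ = c * a * c⁻¹ := mul_right_cancel hl'
    have hla : a * ((l : X)⁻¹ * c) = ((l : X)⁻¹ * c) * a := by
      calc a * ((l : X)⁻¹ * c) = (l : X)⁻¹ * (l * a * (l : X)⁻¹) * c := by group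
        _ = (l : X)⁻¹ * (c * a * c⁻¹) * c := by rw [hl2]
        _ = ((l : X)⁻¹ * c) * a := by group
    have hlC : (l : X)⁻¹ * c ∈ C := mul_mem (inv_mem (hDC l.2)) hc
    have hcen : (l : X)⁻¹ * c ∈ center X := by
      generalize (l : X)⁻¹ * c = e at hla hlC
      rw [mem_center_iff]
      intro h
      have hm : e * h * e⁻¹ * h⁻¹ ∈ D := by
        have : e * h * e⁻¹ * h⁻¹ = ⁅e, h⁆ := by rw [commutatorElement_def]
        rw [this]
        exact commutator_mem_commutator (mem_top _) (mem_top _)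
      have hl3 : a * h * a⁻¹ * h⁻¹ ∈ D := by
        have : a * h * a⁻¹ * h⁻¹ = ⁅a, h⁆ := by rw [commutatorElement_def]
        rw [this]
        exact commutator_mem_commutator (mem_top _) (mem_top _)
      have he := mem_centralizer_iff.1 hlC _ hl3
      have h1 : a * (e * h * e⁻¹ * h⁻¹) * a⁻¹ = e * h * e⁻¹ * h⁻¹ := by
        generalize hw : a * h * a⁻¹ * h⁻¹ = w at he hl3
        have e1 : a * h * a⁻¹ = w * h := by rw [← hw]; group
        have e2 : a * e * a⁻¹ = e := by rw [hla]; group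
        have e3 : w * (e * h * e⁻¹ * h⁻¹) = (e * h * e⁻¹ * h⁻¹) * w := hcomm _ hl3 _ hm
        calc a * (e * h * e⁻¹ * h⁻¹) * a⁻¹
            = (a * e * a⁻¹) * (a * h * a⁻¹) * (a * e * a⁻¹)⁻¹ * (a * h * a⁻¹)⁻¹ := by group
          _ = e * (w * h) * e⁻¹ * (w * h)⁻¹ := by rw [e1, e2]
          _ = (e * w) * h * e⁻¹ * h⁻¹ * w⁻¹ := by group
          _ = (w * e) * h * e⁻¹ * h⁻¹ * w⁻¹ := by rw [he]
          _ = (w * (e * h * e⁻¹ * h⁻¹)) * w⁻¹ := by group
          _ = ((e * h * e⁻¹ * h⁻¹) * w) * w⁻¹ := by rw [e3]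
          _ = e * h * e⁻¹ * h⁻¹ := by group
      have h2 := hfix _ hm (mul_inv_eq_iff_eq_mul.1 h1)
      calc h * e = (e * h * e⁻¹ * h⁻¹)⁻¹ * (e * h) := by group
        _ = e * h := by rw [h2, inv_one, one_mul]
    rw [hZ1, mem_bot] at hcen
    have : c = l := by
      rw [inv_mul_eq_one] at hcen
      exact hcen.symm
    rw [this]
    exact l.2
  have hCeq : C = D := le_antisymm hCD hDC
  -- count
  obtain ⟨l, hl⟩ := Subgroup.ne_bot_iff_exists_ne_one.1 hD1
  have hl1 : (l : X) ≠ 1 := fun h => hl (Subtype.ext h)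
  have h1 := H18.CharInd.card_isConj_eq_index (l : X)
  have h2 : centralizer ({(l : X)} : Set X) = D := by
    refine Eq.trans ?_ hCeq
    apply le_antisymm
    · intro h hh
      exact hstab l l.2 hl1 h (mem_centralizer_singleton_iff.1 hh)
    · intro h hh
      rw [mem_centralizer_singleton_iff]
      exact (mem_centralizer_iff.1 hh l l.2).symm
  rw [h2] at h1
  rw [← h1]
  have h3 : {y : X | IsConj (l : X) y} = (D : Set X) \ {1} := by
    ext y
    constructor
    · intro h
      obtain ⟨g, rfl⟩ := isConj_iff.1 h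
      refine ⟨(inferInstance : D.Normal).conj_mem _ l.2 g, fun h4 => hl1 ?_⟩
      have h5 : g * (l : X) * g⁻¹ = 1 := h4
      exact conj_eq_one_iff.1 h5
    · rintro ⟨h4, h5⟩
      exact htr l l.2 hl1 y h4 h5
  change Nat.card ({y : X | IsConj (l : X) y} : Set X) = _
  rw [h3, Nat.card_coe_set_eq, Set.ncard_sdiff (Set.singleton_subset_iff.2 (one_mem D)) (Set.toFinite _),
    Set.ncard_singleton]
  rfl

/-- A derived subgroup of order two cannot be of odd index. -/
theorem even_index (hq : Nat.card (commutator X) = 2) : 2 ∣ (commutator X).index := by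
  by_contra hodd
  obtain ⟨z, hz1, huniq⟩ := (Nat.card_eq_two_iff' (1 : commutator X)).1 hq
  have hz2 : (z : X) ^ 2 = 1 := by
    have h1 : z ^ 2 = 1 := by
      rw [← hq]; exact pow_card_eq_one'
    exact congrArg Subtype.val h1
  have hcen : commutator X ≤ center X := by
    intro w hw
    rw [mem_center_iff]
    intro g
    by_cases hw1 : w = 1
    · rw [hw1, mul_one, one_mul]
    · have h1 := (inferInstance : (commutator X).Normal).conj_mem w hw g
      have h2 := huniq ⟨w, hw⟩ (fun h => hw1 (congrArg Subtype.val h))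
      have h3 := huniq ⟨g * w * g⁻¹, h1⟩ (fun h => hw1 (conj_eq_one_iff.1 (congrArg Subtype.val h)))
      have h4 : g * w * g⁻¹ = w := congrArg Subtype.val (h3.trans h2.symm)
      exact mul_inv_eq_iff_eq_mul.1 h4
  have h1 : (z : X) ^ (center X).index = 1 := by
    have h2 : (z : X) ∈ (MonoidHom.transferCenterPow X).ker := by
      have h3 : commutator X ≤ (MonoidHom.transferCenterPow X).ker := by
        rw [_root_.commutator_def, commutator_le]
        intro a _ b _
        rw [MonoidHom.mem_ker, map_commutatorElement, commutatorElement_eq_one_iff_mul_comm]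
        exact Subtype.ext (mem_center_iff.1 (MonoidHom.transferCenterPow X b).2 _)
      exact h3 z.2
    rw [MonoidHom.mem_ker] at h2
    have h3 := MonoidHom.transferCenterPow_apply (z : X)
    rw [h2] at h3
    exact h3.symm
  have h2 : ¬ 2 ∣ (center X).index := fun h => hodd (h.trans (index_dvd_of_le hcen))
  have h3 : orderOf (z : X) ∣ 1 := by
    have h4 := orderOf_dvd_of_pow_eq_one h1
    have h5 := orderOf_dvd_of_pow_eq_one hz2
    have h6 : Nat.Coprime 2 (center X).index := (Nat.Prime.coprime_iff_not_dvd Nat.prime_two).2 h2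
    rw [← h6.gcd_eq_one]
    exact Nat.dvd_gcd h5 h4
  have h4 : (z : X) = 1 := orderOf_eq_one_iff.1 (Nat.dvd_one.1 h3)
  exact hz1 (Subtype.ext h4)

end H5.OneNL4
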