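import Cfsg.Agent.Lib.H5.OneNL4
import Cfsg.Agent.Lib.H82.Coset
import Cfsg.Agent.Lib.H82.Rel6
import Cfsg.Agent.Lib.H81.CentralVal
import Cfsg.Agent.Lib.H78.Cong

/-!
# A noncentral element at which only one nonlinear irreducible character is nonzero
-/

set_option autoImplicit false
set_option linter.style.haveILetI false

namespace H5.OneNL5

open Cfsg H18.CharBasic H18.CharOrtho H18.CharInd H18.CharQuot H82.Deg H82.Simple H82.Quot
open scoped ComplexConjugate commutatorElement

universe u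

variable {G : Type u} [Group G] [Finite G]

theorem dvd_degree_of_zero {p : ℕ} (hp : p.Prime) (ψ : IrrCharacter G) {x : G} {j : ℕ}
    (hx : x ^ p ^ j = 1) (h0 : (ψ : G → ℂ) x = 0) : p ∣ charDegree (ψ : G → ℂ) := by
  obtain ⟨M, hM⟩ := H78.Cong.exists_isPModular hp
  have h1 := H78.Cong.char_congr_one hM (isCharacter_of_isIrr ψ.2) hx
  rw [h0, zero_sub, ← coe_charDegree' ψ] at h1
  have h2 := (H20.Loc.locI_intCast_iff hM (n := -(charDegree (ψ : G → ℂ) : ℤ))).1 (by
    push_cast
    exact h1)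
  rw [Int.dvd_neg] at h2
  exact_mod_cast h2

theorem over_iff_degree (ψ : IrrCharacter G) :
    Over (commutator G) ψ ↔ charDegree (ψ : G → ℂ) = 1 := by
  constructor
  · exact H82.Rel.degree_of_over (commutator G) le_rfl ψ
  · intro h x hx
    have h1 : (ψ : G → ℂ) 1 = 1 := by rw [← coe_charDegree' ψ, h, Nat.cast_one]
    rw [H81.CentralVal.linear_commutator (isCharacter_of_isIrr ψ.2) h1 hx, h1]

/-- The hypotheses. -/
structure Dat (g : G) (χ : IrrCharacter G) : Prop where
  hg1 : g ≠ 1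
  hχ1 : charDegree (χ : G → ℂ) ≠ 1
  hχg : (χ : G → ℂ) g ≠ 0
  hother : ∀ ψ : IrrCharacter G, charDegree (ψ : G → ℂ) ≠ 1 → ψ ≠ χ → (ψ : G → ℂ) g = 0

variable {g : G} {χ : IrrCharacter G} (h : Dat g χ)

include h

theorem Dat.twist (f : G →* ℂˣ) (x : G) : (f x : ℂ) * (χ : G → ℂ) x = (χ : G → ℂ) x := by
  by_contra hne
  let ψ : IrrCharacter G := ⟨fun g => (f g : ℂ) * (χ : G → ℂ) g, isIrrCharacter_hom_mul f χ.2⟩
  have h1 : ψ ≠ χ := by
    intro h2
    exact hne (congrFun (congrArg Subtype.val h2) x)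
  have h2 : charDegree (ψ : G → ℂ) = charDegree (χ : G → ℂ) := by
    apply charDegree_eq_of
    change (f 1 : ℂ) * (χ : G → ℂ) 1 = _
    rw [map_one, Units.val_one, one_mul, coe_charDegree' χ]
  have h3 := h.hother ψ (by rw [h2]; exact h.hχ1) h1
  change (f g : ℂ) * (χ : G → ℂ) g = 0 at h3
  rcases mul_eq_zero.1 h3 with h4 | h4
  · exact Units.ne_zero _ h4
  · exact h.hχg h4

theorem Dat.mem : g ∈ commutator G := by
  by_contra hg
  obtain ⟨f, hf⟩ := exists_hom_ne_one hg
  have h1 := h.twist f g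
  rw [mul_eq_right₀ h.hχg] at h1
  exact hf (Units.ext h1)

theorem Dat.zero_off {x : G} (hx : x ∉ commutator G) : (χ : G → ℂ) x = 0 := by
  by_contra hne
  obtain ⟨f, hf⟩ := exists_hom_ne_one hx
  have h1 := h.twist f x
  rw [mul_eq_right₀ hne] at h1
  exact hf (Units.ext h1)

theorem Dat.colsum [Fintype (IrrCharacter G)] {y : G} (hy : y ∈ commutator G) :
    ∑ ψ : IrrCharacter G, (ψ : G → ℂ) g * conj ((ψ : G → ℂ) y) =
      ((commutator G).index : ℂ) + (χ : G → ℂ) g * conj ((χ : G → ℂ) y) := by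
  classical
  rw [← Finset.sum_filter_add_sum_filter_not Finset.univ (Over (commutator G))]
  congr 1
  · have h1 := sum_degree_sq_over (commutator G)
    rw [← h1]
    push_cast
    refine Finset.sum_congr rfl fun ψ hψ => ?_
    have hψ' := (Finset.mem_filter.1 hψ).2
    rw [hψ' g h.mem, hψ' y hy, (over_iff_degree ψ).1 hψ', ← coe_charDegree' ψ,
      (over_iff_degree ψ).1 hψ']
    simp
  · apply Finset.sum_eq_single χ
    · intro ψ hψ hne
      have hψ' := (Finset.mem_filter.1 hψ).2
      rw [over_iff_degree] at hψ'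
      rw [h.hother ψ hψ' hne, zero_mul]
    · intro hχ
      exfalso
      apply hχ
      rw [Finset.mem_filter, over_iff_degree]
      exact ⟨Finset.mem_univ _, h.hχ1⟩

theorem Dat.val_mul : (χ : G → ℂ) g * (χ : G → ℂ) 1 = -((commutator G).index : ℂ) := by
  classical
  letI := Fintype.ofFinite (IrrCharacter G)
  have h1 := h.colsum (one_mem (commutator G))
  rw [column_orthogonality, if_neg (fun hc => h.hg1 (isConj_one_left.1 hc)),
    conj_char_one (isCharacter_of_isIrr χ.2)] at h1
  exact (eq_neg_of_add_eq_zero_right h1.symm)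

theorem Dat.val : (χ : G → ℂ) g = -(((commutator G).index : ℂ) / (χ : G → ℂ) 1) := by
  rw [← neg_div, ← h.val_mul, mul_div_cancel_right₀ _ (irr_one_ne_zero χ.2)]

theorem Dat.ker_or {y : G} (hy : y ∈ commutator G) (hc : ¬ IsConj g y) :
    (χ : G → ℂ) y = (χ : G → ℂ) 1 := by
  classical
  letI := Fintype.ofFinite (IrrCharacter G)
  have h1 := h.colsum hy
  rw [column_orthogonality, if_neg hc] at h1
  have h2 : (χ : G → ℂ) g * conj ((χ : G → ℂ) y) = (χ : G → ℂ) g * (χ : G → ℂ) 1 := by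
    rw [h.val_mul]; exact eq_neg_of_add_eq_zero_right h1.symm
  have h3 := mul_left_cancel₀ h.hχg h2
  have h4 := congrArg (starRingEnd ℂ) h3
  rw [Complex.conj_conj, conj_char_one (isCharacter_of_isIrr χ.2)] at h4
  exact h4

theorem Dat.notMem_ker : g ∉ ker χ := by
  intro hg
  rw [mem_ker] at hg
  have h1 := h.val_mul
  rw [hg, ← coe_charDegree' χ] at h1
  have h2 : ((charDegree (χ : G → ℂ) * charDegree (χ : G → ℂ) + (commutator G).index : ℕ) : ℂ) = 0 := by
    push_cast
    rw [h1]; ring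
  have h3 : charDegree (χ : G → ℂ) * charDegree (χ : G → ℂ) + (commutator G).index = 0 := by
    exact_mod_cast h2
  have h4 := charDegree_pos χ
  have h5 := Nat.mul_pos h4 h4
  omega

theorem Dat.ker_le : ker χ ≤ commutator G := by
  intro x hx
  by_contra hne
  rw [mem_ker, h.zero_off hne] at hx
  exact irr_one_ne_zero χ.2 hx.symm

theorem Dat.set_eq : ((commutator G : Subgroup G) : Set G) =
    {x : G | (χ : G → ℂ) x = (χ : G → ℂ) 1} ∪ {x : G | IsConj g x} := by
  ext x
  constructor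
  · intro hx
    by_cases hc : IsConj g x
    · exact Or.inr hc
    · exact Or.inl (h.ker_or hx hc)
  · rintro (hx | hx)
    · exact h.ker_le (mem_ker.2 hx)
    · obtain ⟨c, rfl⟩ := isConj_iff.1 hx
      exact (inferInstance : (commutator G).Normal).conj_mem g h.mem c

theorem Dat.unique (ψ : IrrCharacter G) (hψ : charDegree (ψ : G → ℂ) ≠ 1)
    (hk : ∀ x : G, (χ : G → ℂ) x = (χ : G → ℂ) 1 → (ψ : G → ℂ) x = (ψ : G → ℂ) 1) : ψ = χ := by
  classical
  by_contra hne
  letI := Fintype.ofFinite (commutator G)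
  have h0 := h.hother ψ hψ hne
  have h1 := H82.Coset.sum_coset_left (commutator G) ψ (fun ho => hψ ((over_iff_degree ψ).1 ho)) 1
  have h2 : ∀ n : commutator G, (ψ : G → ℂ) ((n : G) * 1) =
      if (n : G) ∈ ker χ then (ψ : G → ℂ) 1 else 0 := by
    intro n
    rw [mul_one]
    split_ifs with hn
    · exact hk n (mem_ker.1 hn)
    · by_cases hc : IsConj g n
      · rw [← classFunction_isConj (isClassFunction_of_isIrr ψ.2) hc, h0]
      · exact absurd (mem_ker.2 (h.ker_or n.2 hc)) hn
  simp_rw [h2] at h1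
  rw [← Finset.sum_filter, Finset.sum_const, nsmul_eq_mul] at h1
  rcases mul_eq_zero.1 h1 with h3 | h3
  · have h4 : (Finset.univ.filter fun n : commutator G => (n : G) ∈ ker χ).card = 0 := by
      exact_mod_cast h3
    rw [Finset.card_eq_zero] at h4
    have h5 : (1 : commutator G) ∈ (Finset.univ.filter fun n : commutator G => (n : G) ∈ ker χ) := by
      rw [Finset.mem_filter]
      exact ⟨Finset.mem_univ _, one_mem _⟩
    rw [h4] at h5
    exact absurd h5 (Finset.notMem_empty _)
  · exact irr_one_ne_zero ψ.2 h3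

theorem Dat.card_eq : Nat.card (Subgroup.centralizer ({g} : Set G)) * charDegree (χ : G → ℂ) ^ 2 =
    (commutator G).index * charDegree (χ : G → ℂ) ^ 2 + (commutator G).index ^ 2 := by
  classical
  letI := Fintype.ofFinite (IrrCharacter G)
  have h1 := h.colsum h.mem
  rw [column_orthogonality, if_pos (IsConj.refl g)] at h1
  have h2 := h.val_mul
  have h3 : conj ((χ : G → ℂ) g) * (χ : G → ℂ) 1 = -((commutator G).index : ℂ) := by
    have := congrArg (starRingEnd ℂ) h2
    rw [map_mul, conj_char_one (isCharacter_of_isIrr χ.2)] at this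
    rw [this]; simp
  have h4 : (Nat.card (Subgroup.centralizer ({g} : Set G)) : ℂ) * (χ : G → ℂ) 1 ^ 2 =
      ((commutator G).index : ℂ) * (χ : G → ℂ) 1 ^ 2 + ((commutator G).index : ℂ) ^ 2 := by
    rw [h1]
    calc (((commutator G).index : ℂ) + (χ : G → ℂ) g * conj ((χ : G → ℂ) g)) * (χ : G → ℂ) 1 ^ 2
        = ((commutator G).index : ℂ) * (χ : G → ℂ) 1 ^ 2 +
          ((χ : G → ℂ) g * (χ : G → ℂ) 1) * (conj ((χ : G → ℂ) g) * (χ : G → ℂ) 1) := by ring
      _ = _ := by rw [h2, h3]; ring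
  rw [← coe_charDegree' χ] at h4
  exact_mod_cast h4

theorem Dat.isConj {x : G} (hx : x ∈ commutator G) (hxK : x ∉ ker χ) : IsConj g x := by
  by_contra hc
  exact hxK (mem_ker.2 (h.ker_or hx hc))

end H5.OneNL5
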