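import Cfsg.Agent.Lib.H5.OneNL5
import Cfsg.Agent.Lib.H1.FpfNilp
import Cfsg.Agent.S4456
import Cfsg.Agent.S0205

/-!
# A noncentral element at which only one nonlinear irreducible character is nonzero: solvability
-/

set_option autoImplicit false
set_option linter.style.haveILetI false

namespace H5.OneNL5

open Cfsg H18.CharBasic H18.CharOrtho H18.CharInd H18.CharQuot H82.Deg H82.Simple H82.Quot
open Subgroup H5.OneNL1
open scoped ComplexConjugate commutatorElement

universe u

variable {G : Type u} [Group G] [Finite G]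
variable {g : G} {χ : IrrCharacter G} (h : Dat g χ)

include h

omit h in
theorem map_comm : _root_.commutator (G ⧸ ker χ) = (_root_.commutator G).map (QuotientGroup.mk' (ker χ)) := by
  rw [_root_.commutator_def, _root_.commutator_def, map_commutator, ← MonoidHom.range_eq_map,
    MonoidHom.range_eq_top.2 (QuotientGroup.mk'_surjective _)]

omit h in
theorem mk_mem {N M : Subgroup G} [N.Normal] (hNM : N ≤ M) (x : G) :
    QuotientGroup.mk' N x ∈ M.map (QuotientGroup.mk' N) ↔ x ∈ M := by
  rw [← mem_comap, comap_map_eq, QuotientGroup.ker_mk', sup_eq_left.2 hNM]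

theorem Dat.card_D : Nat.card (_root_.commutator (G ⧸ ker χ)) = (ker χ).relIndex (_root_.commutator G) := by
  rw [map_comm, ← relIndex_ker, QuotientGroup.ker_mk']

theorem Dat.index_D : (_root_.commutator (G ⧸ ker χ)).index = (_root_.commutator G).index := by
  rw [map_comm, ← index_comap_of_surjective _ (QuotientGroup.mk'_surjective (ker χ)), comap_map_eq,
    QuotientGroup.ker_mk', sup_eq_left.2 h.ker_le]

theorem Dat.tr_D : ∀ x ∈ _root_.commutator (G ⧸ ker χ), x ≠ 1 → ∀ y ∈ _root_.commutator (G ⧸ ker χ), y ≠ 1 →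
    IsConj x y := by
  intro x hx hx1 y hy hy1
  obtain ⟨x, rfl⟩ := QuotientGroup.mk'_surjective (ker χ) x
  obtain ⟨y, rfl⟩ := QuotientGroup.mk'_surjective (ker χ) y
  rw [map_comm, mk_mem h.ker_le] at hx hy
  have h1 : x ∉ ker χ := fun hh => hx1 ((QuotientGroup.eq_one_iff x).2 hh)
  have h2 : y ∉ ker χ := fun hh => hy1 ((QuotientGroup.eq_one_iff y).2 hh)
  have h3 := (h.isConj hx h1).symm.trans (h.isConj hy h2)
  obtain ⟨c, hc⟩ := isConj_iff.1 h3
  refine isConj_iff.2 ⟨QuotientGroup.mk' _ c, ?_⟩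
  rw [← map_inv, ← map_mul, ← map_mul, hc]

theorem Dat.D_ne_bot : _root_.commutator (G ⧸ ker χ) ≠ ⊥ := by
  intro h0
  have h1 : QuotientGroup.mk' (ker χ) g ∈ _root_.commutator (G ⧸ ker χ) := by
    rw [map_comm, mk_mem h.ker_le]; exact h.mem
  rw [h0, mem_bot] at h1
  exact h.notMem_ker ((QuotientGroup.eq_one_iff g).1 h1)

theorem Dat.center_D : center (G ⧸ ker χ) ≤ _root_.commutator (G ⧸ ker χ) := by
  intro z hz
  obtain ⟨z, rfl⟩ := QuotientGroup.mk'_surjective (ker χ) z
  rw [map_comm, mk_mem h.ker_le]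
  by_contra hne
  have hN : ∀ n ∈ ker χ, (χ : G → ℂ) n = (χ : G → ℂ) 1 := fun n hn => mem_ker.1 hn
  have h1 := H81.CentralVal.central_ne_zero (isIrrCharacter_deflate (ker χ) χ.2 hN) hz
  have h2 := deflate_mk (ker χ) (isCharacter_of_isIrr χ.2) hN z
  rw [h.zero_off hne] at h2
  exact h1 h2

theorem Dat.exists_p : ∃ p n j : ℕ, p.Prime ∧ 1 ≤ n ∧ (ker χ).relIndex (_root_.commutator G) = p ^ n ∧
    ⁅_root_.commutator G, _root_.commutator G⁆ ≤ ker χ ∧ g ^ p ^ j = 1 := by
  obtain ⟨p, hp, hDp, hab, hexp⟩ := H5.OneNL4.exists_prime _ h.D_ne_bot h.tr_D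
  haveI := Fact.mk hp
  obtain ⟨n, hn⟩ := IsPGroup.iff_card.1 hDp
  rw [h.card_D] at hn
  obtain ⟨a, m, hm, hgm⟩ := Nat.exists_eq_pow_mul_and_not_dvd (orderOf_pos g).ne' p hp.ne_one
  refine ⟨p, n, a, hp, ?_, hn, ?_, ?_⟩
  · rcases Nat.eq_zero_or_pos n with h0 | h0
    · exfalso
      rw [h0, pow_zero, relIndex_eq_one] at hn
      exact h.notMem_ker (hn h.mem)
    · exact h0
  · rw [← QuotientGroup.ker_mk' (ker χ), ← Subgroup.map_eq_bot_iff, map_commutator, ← map_comm,
      commutator_eq_bot_iff_le_centralizer]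
    intro x hx
    rw [mem_centralizer_iff]
    intro y hy
    exact hab y hy x hx
  · have h1 : QuotientGroup.mk' (ker χ) g ^ p = 1 := by
      apply hexp
      rw [map_comm, mk_mem h.ker_le]; exact h.mem
    have h2 : g ^ m ∉ ker χ := by
      intro h2
      have h3 : QuotientGroup.mk' (ker χ) g ^ m = 1 := by
        rw [← map_pow]; exact (QuotientGroup.eq_one_iff _).2 h2
      have h4 : orderOf (QuotientGroup.mk' (ker χ) g) ∣ 1 := by
        rw [← ((Nat.Prime.coprime_iff_not_dvd hp).2 hm).gcd_eq_one]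
        exact Nat.dvd_gcd (orderOf_dvd_of_pow_eq_one h1) (orderOf_dvd_of_pow_eq_one h3)
      have h5 := orderOf_eq_one_iff.1 (Nat.dvd_one.1 h4)
      exact h.notMem_ker ((QuotientGroup.eq_one_iff g).1 h5)
    obtain ⟨c, hc⟩ := isConj_iff.1 (h.isConj (_root_.pow_mem h.mem m) h2)
    have h3 : (g ^ m) ^ p ^ a = 1 := by
      rw [← pow_mul, mul_comm, ← hgm, pow_orderOf_eq_one]
    rw [← hc, conj_pow] at h3
    exact conj_eq_one_iff.1 h3

theorem Dat.numbers : Nat.card (centralizer ({g} : Set G)) * ((ker χ).relIndex (_root_.commutator G) - 1) =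
      (_root_.commutator G).index * (ker χ).relIndex (_root_.commutator G) ∧
    (_root_.commutator G).index * ((ker χ).relIndex (_root_.commutator G) - 1) =
      charDegree (χ : G → ℂ) ^ 2 := by
  classical
  set L := _root_.commutator G with hL
  set K := ker χ with hK
  set q := K.relIndex L with hq
  have h0 : Nat.card {y : G // IsConj g y} = Nat.card L - Nat.card K := by
    have h3 : {y : G | IsConj g y} = (L : Set G) \ (K : Set G) := by
      ext y
      constructor
      · intro hy
        obtain ⟨c, rfl⟩ := isConj_iff.1 hy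
        refine ⟨(inferInstance : L.Normal).conj_mem g h.mem c, fun h4 => h.notMem_ker ?_⟩
        have := (inferInstance : K.Normal).conj_mem _ h4 c⁻¹
        have h5 : c⁻¹ * (c * g * c⁻¹) * c⁻¹⁻¹ = g := by group
        rwa [h5] at this
      · rintro ⟨h4, h5⟩
        exact h.isConj h4 h5
    change Nat.card ({y : G | IsConj g y} : Set G) = _
    rw [h3, Nat.card_coe_set_eq, Set.ncard_sdiff h.ker_le (Set.toFinite _)]
    rfl
  have h1 := H18.CharInd.card_isConj_eq_index g
  have h2 := card_mul_index (centralizer ({g} : Set G))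
  have hcL : q * Nat.card K = Nat.card L := relIndex_mul_card h.ker_le
  have h3 := card_mul_index L
  have hKpos : 0 < Nat.card K := Nat.card_pos
  rw [← h1, h0, ← h3, ← hcL] at h2
  have h4 : q * Nat.card K - Nat.card K = (q - 1) * Nat.card K := by rw [Nat.sub_mul, one_mul]
  rw [h4] at h2
  have h5 : Nat.card (centralizer ({g} : Set G)) * (q - 1) = L.index * q := by
    apply Nat.eq_of_mul_eq_mul_right hKpos
    calc Nat.card (centralizer ({g} : Set G)) * (q - 1) * Nat.card K
        = Nat.card (centralizer ({g} : Set G)) * ((q - 1) * Nat.card K) := by ring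
      _ = q * Nat.card K * L.index := h2
      _ = L.index * q * Nat.card K := by ring
  refine ⟨h5, ?_⟩
  have h6 := h.card_eq
  rw [← hL] at h6
  have hb : 0 < L.index := Nat.pos_of_ne_zero Subgroup.index_ne_zero_of_finite
  have hq1 : 1 ≤ q := Nat.pos_of_ne_zero Subgroup.index_ne_zero_of_finite
  obtain ⟨r, hr⟩ : ∃ r, q = r + 1 := ⟨q - 1, by omega⟩
  rw [hr, Nat.add_sub_cancel] at h5 ⊢
  set d := charDegree (χ : G → ℂ)
  set c := Nat.card (centralizer ({g} : Set G))
  have h7 : L.index * (d ^ 2 * r + L.index * r) = L.index * (d ^ 2 * r + d ^ 2) := by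
    calc L.index * (d ^ 2 * r + L.index * r) = (L.index * d ^ 2 + L.index ^ 2) * r := by ring
      _ = (c * d ^ 2) * r := by rw [h6]
      _ = (c * r) * d ^ 2 := by ring
      _ = (L.index * (r + 1)) * d ^ 2 := by rw [h5]
      _ = _ := by ring
  have h8 := Nat.eq_of_mul_eq_mul_left hb h7
  omega

end H5.OneNL5
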