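import Cfsg.Agent.Lib.H5.OneNL6

/-!
# Solvability
-/

set_option autoImplicit false
set_option linter.style.haveILetI false

namespace H5.OneNL5

open Cfsg H18.CharBasic H18.CharOrtho H18.CharInd H18.CharQuot H82.Deg H82.Simple H82.Quot
open Subgroup H5.OneNL1
open scoped ComplexConjugate commutatorElement

universe u

section aux

variable {X : Type u} [Group X] [Finite X]

theorem solvable_of_pgroup {p : ℕ} (hp : p.Prime) (h : IsPGroup p X) : Group.IsSolvable X := by
  haveI := Fact.mk hp
  haveI := h.isNilpotent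
  infer_instance

theorem quot_pgroup {p k : ℕ} (N : Subgroup X) [N.Normal] (hN : N.index = p ^ k) :
    IsPGroup p (X ⧸ N) := IsPGroup.of_card (n := k) hN

theorem solvable_of_two (N : Subgroup X) [N.Normal] (h1 : (Nat.card N).Coprime 2) {k : ℕ}
    (hk : N.index = 2 ^ k) : Group.IsSolvable X := by
  rw [Group.isSolvable_iff_subgroup_quotient N]
  refine ⟨Cfsg.Agent.S0205.result ?_, solvable_of_pgroup Nat.prime_two (quot_pgroup N hk)⟩
  exact Nat.coprime_two_right.1 h1

end aux

variable {G : Type u} [Group G] [Finite G]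
variable {g : G} {χ : IrrCharacter G} (h : Dat g χ)

include h

theorem Dat.solvable_two (hq : (ker χ).relIndex (_root_.commutator G) = 2) : Group.IsSolvable G := by
  obtain ⟨p, n, j, hp, hn, hpn, -, hgj⟩ := h.exists_p
  have hp2 : p = 2 := by
    rw [hpn] at hq
    have h1 : p ∣ 2 := by rw [← hq]; exact dvd_pow_self p (by omega)
    exact (Nat.prime_dvd_prime_iff_eq hp Nat.prime_two).1 h1
  subst hp2
  have hnum := h.numbers.2
  rw [hq] at hnum
  have h2 : 2 ∣ (_root_.commutator G).index := by
    rw [← h.index_D]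
    exact H5.OneNL4.even_index (by rw [h.card_D, hq])
  have h3 : 2 ∣ charDegree (χ : G → ℂ) := by
    have h4 : 2 ∣ charDegree (χ : G → ℂ) ^ 2 := by
      rw [← hnum]; exact Dvd.dvd.mul_right h2 _
    exact Nat.prime_two.dvd_of_dvd_pow h4
  obtain ⟨N, hN, hN1, k, hk⟩ := Cfsg.Agent.S4456.result 2 Nat.prime_two (G := G) (by
    intro ψ hψ
    by_cases hψχ : ψ = χ
    · rw [hψχ]; exact h3
    · exact dvd_degree_of_zero Nat.prime_two ψ hgj (h.hother ψ hψ hψχ))
  exact solvable_of_two N hN1 hk

theorem Dat.index_big (hq : 2 < (ker χ).relIndex (_root_.commutator G)) :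
    (_root_.commutator G).index = (ker χ).relIndex (_root_.commutator G) - 1 := by
  obtain ⟨p, hp, hDp, hab, hexp⟩ := H5.OneNL4.exists_prime _ h.D_ne_bot h.tr_D
  have h1 := H5.OneNL4.index_eq hab h.tr_D h.center_D (by rw [h.card_D]; exact hq)
  rwa [h.index_D, h.card_D] at h1

theorem Dat.cent_g (hq : 2 < (ker χ).relIndex (_root_.commutator G)) :
    Nat.card (centralizer ({g} : Set G)) = (ker χ).relIndex (_root_.commutator G) := by
  have h1 := h.numbers.1
  rw [h.index_big hq, mul_comm] at h1
  exact Nat.eq_of_mul_eq_mul_left (by omega) h1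

theorem Dat.cent_x (hq : 2 < (ker χ).relIndex (_root_.commutator G)) {x : G}
    (hx : x ∈ _root_.commutator G) (hxK : x ∉ ker χ) :
    Nat.card (centralizer ({x} : Set G)) = (ker χ).relIndex (_root_.commutator G) := by
  rw [← h.cent_g hq]
  have hc := h.isConj hx hxK
  have h1 := H18.CharInd.card_isConj_eq_index g
  have h2 := H18.CharInd.card_isConj_eq_index x
  have h3 : Nat.card {y : G // IsConj g y} = Nat.card {y : G // IsConj x y} := by
    apply Nat.card_congr
    exact Equiv.subtypeEquivRight fun y => ⟨fun h4 => hc.symm.trans h4, fun h4 => hc.trans h4⟩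
  rw [h1, h2] at h3
  have h4 := card_mul_index (centralizer ({g} : Set G))
  have h5 := card_mul_index (centralizer ({x} : Set G))
  rw [h3, ← h5] at h4
  exact (Nat.eq_of_mul_eq_mul_right (Nat.pos_of_ne_zero Subgroup.index_ne_zero_of_finite) h4).symm

theorem Dat.cent_le (hq : 2 < (ker χ).relIndex (_root_.commutator G)) {x : G}
    (hx : x ∈ _root_.commutator G) (hxK : x ∉ ker χ) :
    centralizer ({x} : Set G) ≤ _root_.commutator G := by
  rw [← relIndex_eq_one]
  have h1 : (_root_.commutator G).relIndex (centralizer ({x} : Set G)) ∣ (_root_.commutator G).index :=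
    relIndex_dvd_index_of_normal _ _
  have h2 : (_root_.commutator G).relIndex (centralizer ({x} : Set G)) ∣
      Nat.card (centralizer ({x} : Set G)) := relIndex_dvd_card _ _
  rw [h.cent_x hq hx hxK] at h2
  rw [h.index_big hq] at h1
  have h3 : Nat.Coprime ((ker χ).relIndex (_root_.commutator G) - 1)
      ((ker χ).relIndex (_root_.commutator G)) := by
    obtain ⟨r, hr⟩ : ∃ r, (ker χ).relIndex (_root_.commutator G) = r + 1 :=
      ⟨(ker χ).relIndex (_root_.commutator G) - 1, by omega⟩
    rw [hr, Nat.add_sub_cancel]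
    simp
  exact Nat.eq_one_of_dvd_coprimes h3 h1 h2

theorem Dat.cam (hq : 2 < (ker χ).relIndex (_root_.commutator G)) :
    Cam (ker χ) (_root_.commutator G) ((ker χ).relIndex (_root_.commutator G)) := by
  classical
  obtain ⟨p, n, j, hp, hn, hpn, hLL, hgj⟩ := h.exists_p
  refine ⟨inferInstance, inferInstance, h.ker_le, le_rfl, hLL, rfl, h.index_big hq, hq.le, ?_, ?_⟩
  · intro x hx hxK k hk
    set L := _root_.commutator G with hL
    set K := ker χ with hK
    have h1 := H18.CharInd.card_isConj_eq_index (⟨x, hx⟩ : L)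
    have h2 : Nat.card (centralizer ({(⟨x, hx⟩ : L)} : Set L)) = K.relIndex L := by
      rw [← h.cent_x hq hx hxK]
      have h3 : (centralizer ({(⟨x, hx⟩ : L)} : Set L)).map L.subtype = centralizer ({x} : Set G) := by
        apply le_antisymm
        · rintro _ ⟨y, hy, rfl⟩
          rw [SetLike.mem_coe, mem_centralizer_singleton_iff] at hy
          rw [mem_centralizer_singleton_iff]
          exact congrArg Subtype.val hy
        · intro y hy
          refine ⟨⟨y, h.cent_le hq hx hxK hy⟩, ?_, rfl⟩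
          rw [SetLike.mem_coe, mem_centralizer_singleton_iff]
          exact Subtype.ext (mem_centralizer_singleton_iff.1 hy)
      rw [← h3, Subgroup.card_map_of_injective L.subtype_injective]
    have h3 := card_mul_index (centralizer ({(⟨x, hx⟩ : L)} : Set L))
    rw [← h1, h2, ← relIndex_mul_card h.ker_le] at h3
    have h4 : Nat.card {y : L // IsConj (⟨x, hx⟩ : L) y} = Nat.card K :=
      Nat.eq_of_mul_eq_mul_left (by omega) h3
    have hmem : ∀ y : {y : L // IsConj (⟨x, hx⟩ : L) y}, x⁻¹ * (y.1 : G) ∈ K := by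
      rintro ⟨y, hy⟩
      obtain ⟨c, hc⟩ := isConj_iff.1 hy
      apply hLL
      have h5 : x⁻¹ * (y : G) = ⁅x⁻¹, (c : G)⁆ := by
        rw [← hc, commutatorElement_def]
        simp [mul_assoc]
      rw [h5]
      exact commutator_mem_commutator (inv_mem hx) c.2
    let f : {y : L // IsConj (⟨x, hx⟩ : L) y} → K := fun y => ⟨x⁻¹ * (y.1 : G), hmem y⟩
    have hf : Function.Bijective f := by
      rw [Nat.bijective_iff_injective_and_card]
      refine ⟨?_, h4⟩
      intro a b hab
      have h5 : x⁻¹ * (a.1 : G) = x⁻¹ * (b.1 : G) := congrArg Subtype.val hab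
      exact Subtype.ext (Subtype.ext (mul_left_cancel h5))
    obtain ⟨⟨y, hy⟩, hfy⟩ := hf.2 ⟨k, hk⟩
    obtain ⟨c, hc⟩ := isConj_iff.1 hy
    refine ⟨c, c.2, ?_⟩
    have h5 : x⁻¹ * (y : G) = k := congrArg Subtype.val hfy
    have h6 : (c : G) * x * (c : G)⁻¹ = y := congrArg Subtype.val hc
    rw [h6, ← h5]; group
  · intro x hx hxK y hy hyK
    exact (h.isConj hx hxK).symm.trans (h.isConj hy hyK)

/-- the derived subgroup has a normal `p`-complement -/
theorem Dat.npc (hq : 2 < (ker χ).relIndex (_root_.commutator G)) {p j : ℕ} (hp : p.Prime)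
    (hgj : g ^ p ^ j = 1) : ∃ N : Subgroup (_root_.commutator G), N.Normal ∧ (Nat.card N).Coprime p ∧
      ∃ k : ℕ, N.index = p ^ k := by
  have c := h.cam hq
  refine Cfsg.Agent.S4456.result p hp (G := _root_.commutator G) fun θ hθ => ?_
  apply dvd_degree_of_zero hp θ (x := ⟨g, h.mem⟩) (j := j) (Subtype.ext hgj)
  haveI : ((ker χ).subgroupOf (_root_.commutator G)).Normal := inferInstance
  apply H82.Coset.eq_zero_of_coset ((ker χ).subgroupOf (_root_.commutator G))
  · intro n hn
    obtain ⟨y, hy, hyx⟩ := c.loc g h.mem h.notMem_ker n hn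
    exact isConj_iff.2 ⟨⟨y, hy⟩, Subtype.ext hyx⟩
  · intro ho
    apply hθ
    refine H82.Rel.degree_of_over _ ?_ θ ho
    rw [_root_.commutator_def (↥(_root_.commutator G)), commutator_le]
    intro a _ b _
    apply c.ab
    exact commutator_mem_commutator a.2 b.2

theorem Dat.solvable_big (hq : 2 < (ker χ).relIndex (_root_.commutator G)) : Group.IsSolvable G := by
  obtain ⟨p, n, j, hp, hn, hpn, hLL, hgj⟩ := h.exists_p
  haveI := Fact.mk hp
  have c := h.cam hq
  obtain ⟨N, hN, hN1, k, hk⟩ := h.npc hq hp hgj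
  rw [Group.isSolvable_iff_subgroup_quotient (_root_.commutator G)]
  refine ⟨?_, ?_⟩
  swap
  · apply Group.isSolvable_of_comm
    intro a b
    exact mul_comm (G := Abelianization G) a b
  by_cases hp2 : p = 2
  · subst hp2
    exact solvable_of_two N hN1 hk
  have hp3 : 3 ≤ p := by
    have := hp.two_le
    omega
  haveI hN' : N.Normal := hN
  have hNe : ∀ y : (_root_.commutator G), orderOf y ∣ Nat.card N → y ∈ N := by
    intro y hy
    have h1 : (QuotientGroup.mk' N y) ^ p ^ k = 1 := by
      rw [← hk]; exact pow_card_eq_one'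
    have h2 : (QuotientGroup.mk' N y) ^ Nat.card N = 1 := by
      rw [← map_pow, orderOf_dvd_iff_pow_eq_one.1 hy, map_one]
    have h3 : orderOf (QuotientGroup.mk' N y) ∣ 1 := by
      rw [← (Nat.Coprime.pow_right k hN1).gcd_eq_one]
      exact Nat.dvd_gcd (orderOf_dvd_of_pow_eq_one h2) (orderOf_dvd_of_pow_eq_one h1)
    have h4 := orderOf_eq_one_iff.1 (Nat.dvd_one.1 h3)
    exact (QuotientGroup.eq_one_iff y).1 h4
  have hone : ∀ y : (_root_.commutator G), y ∈ N → ∀ i, y ^ p ^ i = 1 → y = 1 := by
    intro y hy i hi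
    have h1 : orderOf y ∣ Nat.card N := by
      rw [← Subgroup.orderOf_mk y hy]; exact orderOf_dvd_natCard _
    have h3 : orderOf y ∣ 1 := by
      rw [← (Nat.Coprime.pow_right i hN1).gcd_eq_one]
      exact Nat.dvd_gcd h1 (orderOf_dvd_of_pow_eq_one hi)
    exact orderOf_eq_one_iff.1 (Nat.dvd_one.1 h3)
  set M := N.map (Subgroup.subtype (_root_.commutator G)) with hM
  have hMn : M.Normal := by
    refine ⟨?_⟩
    rintro _ ⟨m, hm, rfl⟩ x
    have hmL : x * (m : G) * x⁻¹ ∈ (_root_.commutator G) := (inferInstance : (_root_.commutator G).Normal).conj_mem _ m.2 x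
    refine ⟨⟨x * (m : G) * x⁻¹, hmL⟩, ?_, rfl⟩
    apply hNe
    rw [orderOf_dvd_iff_pow_eq_one]
    apply Subtype.ext
    have h1 : (m : G) ^ Nat.card N = 1 := by
      have h2 : m ^ Nat.card N = 1 := by
        have h3 : (⟨m, hm⟩ : N) ^ Nat.card N = 1 := pow_card_eq_one'
        exact congrArg Subtype.val h3
      exact congrArg Subtype.val h2
    change (x * (m : G) * x⁻¹) ^ Nat.card N = 1
    rw [conj_pow, h1]; group
  have hMK : M ≤ ker χ := by
    rintro _ ⟨m, hm, rfl⟩
    by_contra hmK
    obtain ⟨x, hx⟩ := isConj_iff.1 (h.isConj m.2 hmK)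
    have h1 : (m : G) ^ p ^ j = 1 := by
      change x * g * x⁻¹ = (m : G) at hx
      rw [← hx, conj_pow, hgj]; group
    have h2 := hone m hm j (Subtype.ext h1)
    apply hmK
    rw [h2]
    exact one_mem _
  have cM := c.quot M hMK
  have hLp : IsPGroup p (Subgroup.map (QuotientGroup.mk' M) (_root_.commutator G)) := by
    rintro ⟨_, y, hy, rfl⟩
    refine ⟨k, Subtype.ext ?_⟩
    change (QuotientGroup.mk' M y) ^ p ^ k = 1
    rw [← map_pow]
    apply (QuotientGroup.eq_one_iff _).2
    refine ⟨⟨y, hy⟩ ^ p ^ k, ?_, rfl⟩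
    have h1 : (QuotientGroup.mk' N ⟨y, hy⟩) ^ p ^ k = 1 := by
      rw [← hk]; exact pow_card_eq_one'
    rw [← map_pow] at h1
    exact (QuotientGroup.eq_one_iff _).1 h1
  rw [hpn] at cM
  have hgp : (QuotientGroup.mk' M g) ^ p = 1 :=
    cM.pow_eq_one hp3 hLp ((mk_mem (hMK.trans h.ker_le) g).2 h.mem)
      (fun h1 => h.notMem_ker ((mk_mem hMK g).1 h1))
  have hgp1 : g ^ p = 1 := by
    rw [← map_pow] at hgp
    obtain ⟨w, hw, hwg⟩ := (QuotientGroup.eq_one_iff _).1 hgp
    have hwg' : (w : G) = g ^ p := hwg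
    have h1 := hone w hw j (Subtype.ext (by
      change (w : G) ^ p ^ j = 1
      rw [hwg', ← pow_mul, mul_comm, pow_mul, hgj, one_pow]))
    rw [← hwg', h1]; rfl
  have hMcard : Nat.card M = Nat.card N := Subgroup.card_map_of_injective (Subgroup.subtype_injective (_root_.commutator G))
  have hMnil : Group.IsNilpotent M := by
    refine H1.FpfNilp.isNilpotent_of_conj (N := M) (g := g) ?_ ?_ hp ?_
    · rw [Subgroup.normalizer_eq_top]; exact mem_top _
    · apply Subgroup.inf_eq_bot_of_coprime
      rw [hMcard, h.cent_g hq, hpn]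
      exact Nat.Coprime.pow_right n hN1
    · rw [hgp1]; exact one_mem _
  rw [Group.isSolvable_iff_subgroup_quotient N]
  refine ⟨?_, solvable_of_pgroup hp (quot_pgroup N hk)⟩
  have hMs : Group.IsSolvable M := inferInstance
  have e : N ≃* M := N.equivMapOfInjective (Subgroup.subtype (_root_.commutator G)) (Subgroup.subtype_injective (_root_.commutator G))
  exact Group.isSolvable_of_isSolvable_injective (f := e.toMonoidHom) e.injective

theorem Dat.solvable : Group.IsSolvable G := by
  have h1 : 1 < (ker χ).relIndex (_root_.commutator G) := by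
    have h0 : (ker χ).relIndex (_root_.commutator G) ≠ 0 := Subgroup.index_ne_zero_of_finite
    have h2 : (ker χ).relIndex (_root_.commutator G) ≠ 1 := by
      intro h3
      exact h.notMem_ker (relIndex_eq_one.1 h3 h.mem)
    omega
  rcases Nat.lt_or_ge 2 ((ker χ).relIndex (_root_.commutator G)) with h2 | h2
  · exact h.solvable_big h2
  · exact h.solvable_two (by omega)

end H5.OneNL5
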