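import Cfsg.Agent.Lib.H84.Star15
import Cfsg.Agent.Lib.H4.TI
import Cfsg.Agent.Lib.H20.First

/-!
# Characters of nilpotent blocks with prescribed values, and induction from the centralizer of an involution
-/

set_option autoImplicit false

namespace H5.TBa

open Cfsg H20.Loc H20.GA H80.GA H80.GB H80.GD H80.GE H80.GF H80.GJ H80.FS H84.RG H18.CharBasic H18.CharOrtho H18.CharInd H84.TrR
open H20.Blk H20.Orth H20.Ind H20.Height H20.Defect H80.BR1 H80.BR2 H19.Second H19.Second3 H81.Section H81.Contrib H84.Star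
open scoped ComplexConjugate

universe u

attribute [local instance 2000] Fintype.ofFinite

/-- a cyclic group has at most one involution -/
theorem inv_unique {G : Type u} [Group G] [Finite G] {a x y : G} (hx : x ∈ Subgroup.zpowers a)
    (hy : y ∈ Subgroup.zpowers a) (ox : orderOf x = 2) (oy : orderOf y = 2) : x = y := by
  classical
  have h1 := IsCyclic.card_orderOf_eq_totient (α := Subgroup.zpowers a) (d := 2) (by
    rw [← Nat.card_eq_fintype_card]
    have := orderOf_dvd_natCard (⟨x, hx⟩ : Subgroup.zpowers a)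
    rwa [Subgroup.orderOf_mk, ox] at this)
  rw [Nat.totient_two, Finset.card_eq_one] at h1
  obtain ⟨w, hw⟩ := h1
  have h2 : (⟨x, hx⟩ : Subgroup.zpowers a) ∈ ({w} : Finset (Subgroup.zpowers a)) := by
    rw [← hw, Finset.mem_filter]
    exact ⟨Finset.mem_univ _, by rw [Subgroup.orderOf_mk, ox]⟩
  have h3 : (⟨y, hy⟩ : Subgroup.zpowers a) ∈ ({w} : Finset (Subgroup.zpowers a)) := by
    rw [← hw, Finset.mem_filter]
    exact ⟨Finset.mem_univ _, by rw [Subgroup.orderOf_mk, oy]⟩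
  rw [Finset.mem_singleton] at h2 h3
  exact congrArg Subtype.val (h2.trans h3.symm)

/-- the elements with `z` in the cyclic group they generate -/
def AA {G : Type u} [Group G] (z : G) : Set G := {t : G | z ∈ Subgroup.zpowers t}

theorem AA_TI {G : Type u} [Group G] [Finite G] {z : G} (hz : orderOf z = 2) :
    ∀ g : G, g ∉ C z → ∀ t ∈ AA z, g * t * g⁻¹ ∈ AA z → t = 1 := by
  intro g hg t ht ht'
  exfalso
  apply hg
  have h1 : g * z * g⁻¹ ∈ Subgroup.zpowers (g * t * g⁻¹) := by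
    obtain ⟨k, hk⟩ := ht
    refine ⟨k, ?_⟩
    have hk' : t ^ k = z := hk
    change (g * t * g⁻¹) ^ k = g * z * g⁻¹
    rw [← hk', conj_zpow]
  have h2 : orderOf (g * z * g⁻¹) = 2 := by
    rw [← hz]
    exact orderOf_injective (MulAut.conj g).toMonoidHom (MulAut.conj g).injective z
  have h3 : g * z * g⁻¹ = z := inv_unique h1 ht' h2 hz
  rw [Subgroup.mem_centralizer_singleton_iff]
  calc g * z = g * z * g⁻¹ * g := by group
    _ = z * g := by rw [h3]

section K

variable {M : Ideal AlgInt} [M.IsMaximal] {K : Type u} [Group K] [Finite K] {p : ℕ}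
variable {b : Set (IrrCharacter K)} {P : Subgroup K} {e : MonoidAlgebra (ResF M) K}

/-- the function of the block with values prescribed by `f` -/
noncomputable def FF (p : ℕ) (P : Subgroup K) (e : MonoidAlgebra (ResF M) K) (ψ : K → ℂ) (f : P → ℂ) : K → ℂ :=
  H84.Star.star p (Lam p P e f) ψ

theorem FF_add (ψ : K → ℂ) (f g : P → ℂ) : FF p P e ψ (f + g) = FF p P e ψ f + FF p P e ψ g := by
  funext c
  unfold FF H84.Star.star
  rw [Pi.add_apply, ← Finset.sum_add_distrib]
  apply Finset.sum_congr rfl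
  intro a _
  rw [← add_mul]
  congr 1
  unfold Lam
  split_ifs
  · rfl
  · rw [add_zero]

theorem FF_smul (ψ : K → ℂ) (a : ℂ) (f : P → ℂ) : FF p P e ψ (a • f) = a • FF p P e ψ f := by
  funext c
  unfold FF H84.Star.star
  rw [Pi.smul_apply, smul_eq_mul, Finset.mul_sum]
  apply Finset.sum_congr rfl
  intro x _
  rw [← mul_assoc]
  congr 1
  unfold Lam
  split_ifs
  · rfl
  · rw [mul_zero]

theorem FF_zero (ψ : K → ℂ) : FF p P e ψ 0 = 0 := by
  have h := FF_smul (p := p) (e := e) (P := P) ψ 0 0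
  rwa [zero_smul, zero_smul] at h

theorem FF_sum (ψ : K → ℂ) {ι : Type*} (s : Finset ι) (f : ι → P → ℂ) :
    FF p P e ψ (∑ i ∈ s, f i) = ∑ i ∈ s, FF p P e ψ (f i) := by
  classical
  induction s using Finset.induction_on with
  | empty => rw [Finset.sum_empty, Finset.sum_empty, FF_zero]
  | insert a s ha ih => rw [Finset.sum_insert ha, Finset.sum_insert ha, FF_add, ih]

theorem FF_supp (hM : IsPModular p M) {ψ : K → ℂ} {f : P → ℂ} {c : K} (h : FF p P e ψ f c ≠ 0) :
    ∃ y : P, f y ≠ 0 ∧ ∃ g x, IsPPart p c x ∧ (y : K) = g * x * g⁻¹ := by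
  unfold FF at h
  rw [star_eq hM.1 _ _ (pPt_spec hM.1 c)] at h
  obtain ⟨a, -, ha⟩ := Finset.exists_ne_zero_of_sum_ne_zero h
  have h1 : Lam p P e f (pPt p c) a.1 ≠ 0 := fun h0 => ha (by rw [h0, zero_mul])
  unfold Lam at h1
  split_ifs at h1 with hex
  · obtain ⟨g, hg, -⟩ := hex.choose_spec
    exact ⟨hex.choose, h1, g, _, pPt_spec hM.1 c, hg⟩
  · exact absurd rfl h1

variable [Fact p.Prime] [CharP (ResF M) p] [Algebra (ZMod p) (ResF M)] [Algebra.IsAlgebraic (ZMod p) (ResF M)]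
  [IsAlgClosed (ResF M)]

theorem FF_gen (hM : IsPModular p M) (hmax : IsMax p ⊤ (ebar M b) P e) (hnil : H80.FS3.Nilp p ⊤ (ebar M b))
    {f : P → ℂ} (hf : IsGeneralizedCharacter P f) (ψ : IrrCharacter K) :
    IsGeneralizedCharacter K (FF p P e (ψ : K → ℂ) f) := by
  have hinn := inn_of_nilp hmax hnil
  exact isGen_star hM (sys_Lam hmax (FSt_of_inn hinn (isClassFunction_of_isGen hf)) hf)
    (isCharacter_of_isIrr ψ.2)

theorem FF_inner (hM : IsPModular p M) (hmax : IsMax p ⊤ (ebar M b) P e) (hb : IsPBlock M b)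
    (hnil : H80.FS3.Nilp p ⊤ (ebar M b)) {ψ : IrrCharacter K} (hψ : ψ ∈ b)
    (h0 : blockHeight p b (ψ : K → ℂ) = 0) {f g : P → ℂ} (hf : IsClassFunction P f) (hg : IsClassFunction P g) :
    classInner (FF p P e (ψ : K → ℂ) f) (FF p P e (ψ : K → ℂ) g) = classInner f g :=
  inner_isometry hM hmax hb hnil (inn_of_nilp hmax hnil) hψ h0 hf hg

theorem FF_class (hM : IsPModular p M) (hmax : IsMax p ⊤ (ebar M b) P e)
    (hnil : H80.FS3.Nilp p ⊤ (ebar M b)) {ψ : K → ℂ} (hψ : IsClassFunction K ψ)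
    {f : P → ℂ} (hf : IsClassFunction P f) : IsClassFunction K (FF p P e ψ f) :=
  star_class hM.1 (Lam_conj (FSt_of_inn (inn_of_nilp hmax hnil) hf)) hψ

theorem FF_reg (hM : IsPModular p M) (hmax : IsMax p ⊤ (ebar M b) P e) (hb : IsPBlock M b)
    (hnil : H80.FS3.Nilp p ⊤ (ebar M b)) {ψ : IrrCharacter K} (hψ : ψ ∈ b)
    {f : P → ℂ} (hf : IsClassFunction P f) {c : K} (hc : ¬ p ∣ orderOf c) :
    FF p P e (ψ : K → ℂ) f c = f 1 * (ψ : K → ℂ) c :=
  star_reg hM hmax hb (FSt_of_inn (inn_of_nilp hmax hnil) hf) hψ hc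

/-- value on the section of a central element -/
theorem FF_central (hM : IsPModular p M) (hmax : IsMax p ⊤ (ebar M b) P e) (hb : IsPBlock M b)
    (hnil : H80.FS3.Nilp p ⊤ (ebar M b)) {ψ : IrrCharacter K} (hψ : ψ ∈ b)
    {f : P → ℂ} (hf : IsClassFunction P f) {w : P} (hw : ∀ g : K, g * w = w * g)
    (hwo : ∃ k : ℕ, orderOf (w : K) = p ^ k) {c : K} (hc : ¬ p ∣ orderOf c) :
    FF p P e (ψ : K → ℂ) f (w * c) = f w * (ψ : K → ℂ) (w * c) := by
  have hcw : c ∈ C (w : K) := Subgroup.mem_centralizer_singleton_iff.2 (hw c)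
  have h1 := star_const hM hb (Λ := Lam p P e f) hψ hwo (⟨c, hcw⟩ : C (w : K))
    (by rwa [← Subgroup.orderOf_coe]) (a := f w) (by
      intro f' hf'
      obtain ⟨y, g, h1, h2⟩ := (ex_iff hmax).2 hf'
      rw [Lam_eq (FSt_of_inn (inn_of_nilp hmax hnil) hf) h1 h2]
      congr 1
      apply Subtype.ext
      rw [h1, hw g]; group)
  exact h1

end K

end H5.TBa
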