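import Cfsg.Agent.Lib.H5.TBa

/-!
# Major subsections of involutions with nilpotent local block
-/

set_option autoImplicit false
set_option linter.unusedSectionVars false

namespace H5.TBb

open Cfsg H20.Loc H20.GA H80.GA H80.GB H80.GD H80.GE H80.GF H80.GJ H80.FS H84.RG H18.CharBasic H18.CharOrtho H18.CharInd H84.TrR
open H20.Blk H20.Orth H20.Ind H20.Height H20.Defect H80.BR1 H80.BR2 H19.Second H19.Second3 H81.Section H81.Contrib H84.Star
open H5.TBa
open scoped ComplexConjugate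

universe u

attribute [local instance 2000] Fintype.ofFinite

variable {M : Ideal AlgInt} [M.IsMaximal] {G : Type u} [Group G] [Finite G] {p : ℕ}

/-- the exact height in terms of components -/
theorem height_val (hM : IsPModular p M) {z : G} (hz : ∃ k : ℕ, orderOf z = p ^ k)
    {b : Set (IrrCharacter (C z))} {B : Set (IrrCharacter G)} (hind : IsInducedBlock M (C z) b B)
    (hd : blockDefect p b = blockDefect p B)
    {χ : IrrCharacter G} (hχ : χ ∈ B) : ∃ v : ℂ, MemLocalRing M v ∧ ¬ MemLocalIdeal M v ∧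
      (p : ℂ) ^ blockDefect p b * (Nat.card (C z) : ℂ)⁻¹ * proj b (tw z (χ : G → ℂ)) 1 =
        (p : ℂ) ^ blockHeight p B (χ : G → ℂ) * v := by
  classical
  have hpr := pm_isPrime hM
  have key : ∀ (χ' : IrrCharacter G), χ' ∈ B → ∃ u : ℂ, MemLocalRing M u ∧ ¬ MemLocalIdeal M u ∧
      (p : ℂ) ^ blockDefect p b * (Nat.card (C z) : ℂ)⁻¹ * proj b (tw z (χ' : G → ℂ)) 1 =
        (p : ℂ) ^ blockHeight p B (χ' : G → ℂ) * u * omega χ' (az z b) := by
    intro χ' hχ'
    obtain ⟨u, hu1, hu2, hu⟩ := H81.RegMat.exists_ratio hM hind.2.1 hχ'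
    refine ⟨u, hu1, hu2, ?_⟩
    have hχ1 := H18.CharBasic.irr_one_ne_zero χ'.2
    rw [omega_az χ', hd]
    field_simp
    linear_combination proj b (tw z (χ' : G → ℂ)) 1 * hu
  obtain ⟨χ', hχ', h0⟩ := exists_height_zero hM hind.2.1
  obtain ⟨u', hu1', hu2', hu'⟩ := key χ' hχ'
  obtain ⟨u, hu1, hu2, hu⟩ := key χ hχ
  have hor := omega_mem (M := M) χ (az_mem hind.1)
  have hor' := omega_mem (M := M) χ' (az_mem hind.1)
  have h1 : ¬ MemLocalIdeal M (omega χ' (az z b)) := by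
    intro hc
    apply R_unit_twist hM hz hind hχ' h0
    rw [hu']
    exact locI_mul_left (locR_mul (locR_pow (locR_natCast _) _) hu1') hc
  have h2 : ¬ MemLocalIdeal M (omega χ (az z b)) := by
    intro hc
    have h3 := sameBlock_iff.1 (isPBlock_sameBlock hind.2.1 hχ' hχ) _ (az_mem hind.1)
    exact h1 ((locI_congr h3).2 hc)
  refine ⟨u * omega χ (az z b), locR_mul hu1 hor, not_locI_mul hu1 hor hu2 h2, ?_⟩
  rw [hu]; ring

/-- an integer equal to a power of `p` times a unit -/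
theorem int_val (hM : IsPModular p M) {d : ℤ} {h : ℕ} {v : ℂ} (hv : MemLocalRing M v) (hv' : ¬ MemLocalIdeal M v)
    (he : (d : ℂ) = (p : ℂ) ^ h * v) : (p : ℤ) ^ h ∣ d ∧ ¬ (p : ℤ) ^ (h + 1) ∣ d := by
  have hpr := pm_isPrime hM
  have hp := hM.1
  have hp0 : (p : ℂ) ≠ 0 := by exact_mod_cast hp.ne_zero
  have hv0 := ne_zero_of_not_locI hv'
  have hd0 : d ≠ 0 := by
    rintro rfl
    rw [Int.cast_zero] at he
    exact (mul_ne_zero (pow_ne_zero _ hp0) hv0) he.symm
  have hfin : FiniteMultiplicity (p : ℤ) d := by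
    rw [Int.finiteMultiplicity_iff]
    exact ⟨by rw [Int.natAbs_natCast]; exact hp.ne_one, hd0⟩
  obtain ⟨k, m, hk, hm⟩ : ∃ (k : ℕ) (m : ℤ), d = (p : ℤ) ^ k * m ∧ ¬ (p : ℤ) ∣ m := by
    obtain ⟨m, h1, h2⟩ := hfin.exists_eq_pow_mul_and_not_dvd
    exact ⟨_, m, h1, h2⟩
  have hmI : ¬ MemLocalIdeal M (m : ℂ) := fun hc => hm ((locI_intCast_iff hM).1 hc)
  have hkh : k = h := by
    rcases lt_trichotomy k h with h1 | h1 | h1
    · exfalso
      obtain ⟨r, rfl⟩ := Nat.exists_eq_add_of_lt h1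
      apply hmI
      have h2 : (m : ℂ) = (p : ℂ) * ((p : ℂ) ^ r * v) := by
        have h3 : (p : ℂ) ^ k * (m : ℂ) = (p : ℂ) ^ k * ((p : ℂ) * ((p : ℂ) ^ r * v)) := by
          rw [hk] at he
          push_cast at he
          rw [he]; ring
        exact mul_left_cancel₀ (pow_ne_zero _ hp0) h3
      rw [h2]
      exact locI_mul_right (locI_p hM) (locR_mul (locR_pow (locR_natCast _) _) hv)
    · exact h1
    · exfalso
      obtain ⟨r, rfl⟩ := Nat.exists_eq_add_of_lt h1
      apply hv'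
      have h2 : v = (p : ℂ) * ((p : ℂ) ^ r * (m : ℂ)) := by
        have h3 : (p : ℂ) ^ h * v = (p : ℂ) ^ h * ((p : ℂ) * ((p : ℂ) ^ r * (m : ℂ))) := by
          rw [hk] at he
          push_cast at he
          rw [← he]; ring
        exact mul_left_cancel₀ (pow_ne_zero _ hp0) h3
      rw [h2]
      exact locI_mul_right (locI_p hM) (locR_mul (locR_pow (locR_natCast _) _) (locR_intCast _))
  subst hkh
  refine ⟨⟨m, hk⟩, ?_⟩
  rintro ⟨w, hw⟩
  apply hm
  refine ⟨w, ?_⟩
  have hpz : (p : ℤ) ^ k ≠ 0 := pow_ne_zero _ (by exact_mod_cast hp.ne_zero)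
  apply mul_left_cancel₀ hpz
  rw [← hk, hw]; ring

section main

variable [Fact p.Prime] [CharP (ResF M) p] [Algebra (ZMod p) (ResF M)] [Algebra.IsAlgebraic (ZMod p) (ResF M)]
  [IsAlgClosed (ResF M)]
variable {z : G} {b : Set (IrrCharacter (C z))} {P : Subgroup (C z)} {e : MonoidAlgebra (ResF M) (C z)}

/-- the functions supported on the elements with `z` in their cyclic group -/
def Sup (z : G) (P : Subgroup (C z)) (f : P → ℂ) : Prop := ∀ y : P, f y ≠ 0 → cy z ∈ Subgroup.zpowers (y : C z)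

theorem sup_one (hz : orderOf z = 2) {f : P → ℂ} (hf : Sup z P f) : f 1 = 0 := by
  by_contra h
  have h1 := hf 1 h
  rw [Subgroup.coe_one, Subgroup.zpowers_one_eq_bot, Subgroup.mem_bot] at h1
  have h2 : z = 1 := congrArg Subtype.val h1
  rw [h2, orderOf_one] at hz
  omega

theorem FF_AA (hM : IsPModular p M) {ψ : C z → ℂ} {f : P → ℂ} (hf : Sup z P f) (c : C z)
    (hc : (c : G) ∉ AA z) : FF p P e ψ f c = 0 := by
  by_contra h
  apply hc
  obtain ⟨y, hy, g, x, hx, hyx⟩ := FF_supp hM h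
  have h1 := hf y hy
  have h2 : cy z ∈ Subgroup.zpowers x := by
    obtain ⟨k, hk⟩ := h1
    refine ⟨k, ?_⟩
    have hk' : (y : C z) ^ k = cy z := hk
    change x ^ k = cy z
    rw [hyx, conj_zpow] at hk'
    have h3 := cy_comm z g
    calc x ^ k = g⁻¹ * (g * x ^ k * g⁻¹) * g := by group
      _ = g⁻¹ * (cy z * g) := by rw [hk', mul_assoc]
      _ = cy z := by rw [← h3]; group
  have h3 : cy z ∈ Subgroup.zpowers c := by
    have := H20.First.isPPart_mem_zpowers hx
    exact (Subgroup.zpowers_le.2 this) h2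
  obtain ⟨k, hk⟩ := h3
  refine ⟨k, ?_⟩
  exact congrArg Subtype.val hk

variable (p P e) in
/-- the induced function -/
noncomputable def Th (ψ : C z → ℂ) (f : P → ℂ) : G → ℂ := indFun (C z) (FF p P e ψ f)

theorem Th_gen (hM : IsPModular p M) (hmax : IsMax p ⊤ (ebar M b) P e) (hnil : H80.FS3.Nilp p ⊤ (ebar M b))
    {f : P → ℂ} (hf : IsGeneralizedCharacter P f) (ψ : IrrCharacter (C z)) :
    IsGeneralizedCharacter G (Th p P e (ψ : C z → ℂ) f) :=
  isGen_ind _ (FF_gen hM hmax hnil hf ψ)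

theorem Th_inner (hM : IsPModular p M) (hz : orderOf z = 2) (hmax : IsMax p ⊤ (ebar M b) P e) (hb : IsPBlock M b)
    (hnil : H80.FS3.Nilp p ⊤ (ebar M b)) {ψ : IrrCharacter (C z)} (hψ : ψ ∈ b)
    (h0 : blockHeight p b (ψ : C z → ℂ) = 0) {f g : P → ℂ} (hf : IsClassFunction P f) (hg : IsClassFunction P g)
    (sf : Sup z P f) (sg : Sup z P g) :
    classInner (Th p P e (ψ : C z → ℂ) f) (Th p P e (ψ : C z → ℂ) g) = classInner f g := by
  rw [← FF_inner hM hmax hb hnil hψ h0 hf hg]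
  unfold Th
  apply H4.TI.inner_indFun_of_TI (C z) (AA z) (AA_TI hz)
    (FF_class hM hmax hnil (isClassFunction_of_isIrr ψ.2) hg) (FF_AA hM sf) (FF_AA hM sg)
  rw [FF_reg hM hmax hb hnil hψ hf (by rw [orderOf_one]; exact card_pos_p hM.1), sup_one hz sf, zero_mul]

theorem Th_reg (hM : IsPModular p M) (hz : orderOf z = 2) (hp2 : p = 2) {ψ : C z → ℂ} {f : P → ℂ}
    (sf : Sup z P f) {g : G} (hg : ¬ p ∣ orderOf g) : Th p P e ψ f g = 0 := by
  classical
  unfold Th
  rw [indFun_apply]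
  have h1 : ∀ x : G, extendByZero (C z) (FF p P e ψ f) (x⁻¹ * g * x) = 0 := by
    intro x
    by_cases hx : x⁻¹ * g * x ∈ C z
    · rw [ext_mem _ _ hx]
      apply FF_AA hM sf
      intro hA
      have h2 : z ∈ Subgroup.zpowers (x⁻¹ * g * x) := hA
      have h3 := orderOf_dvd_of_mem_zpowers h2
      have h4 : orderOf (x⁻¹ * g * x) = orderOf g := by
        have := orderOf_injective (MulAut.conj x⁻¹).toMonoidHom (MulAut.conj x⁻¹).injective g
        simpa using this
      rw [hz, h4, ← hp2] at h3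
      exact hg h3
    · exact ext_notMem _ _ hx
  simp only [h1, Finset.sum_const_zero, mul_zero]

end main

end H5.TBb
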