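import Mathlib

/-!
# Integral vectors of small norm (combinatorics of dihedral blocks)
-/

set_option autoImplicit false

namespace H5.TBc

variable {I : Type*} [Fintype I] [DecidableEq I]

theorem small {a : I → ℤ} {n : ℕ} (hn : n < 4) (h : ∑ i, a i * a i = n) :
    (∀ i, a i = 0 ∨ a i = 1 ∨ a i = -1) ∧ (Finset.univ.filter (fun i => a i ≠ 0)).card = n := by
  have h1 : ∀ i, a i = 0 ∨ a i = 1 ∨ a i = -1 := by
    intro i
    have h2 : a i * a i ≤ ∑ i, a i * a i :=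
      Finset.single_le_sum (f := fun i => a i * a i) (fun j _ => mul_self_nonneg (a j)) (Finset.mem_univ i)
    have h3 : a i * a i < 4 := by
      rw [h] at h2
      exact lt_of_le_of_lt h2 (by exact_mod_cast hn)
    have h4 : a i < 2 := by nlinarith
    have h5 : -2 < a i := by nlinarith
    omega
  refine ⟨h1, ?_⟩
  have h2 : ∑ i, a i * a i = ((Finset.univ.filter (fun i => a i ≠ 0)).card : ℤ) := by
    rw [Finset.card_filter]
    push_cast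
    apply Finset.sum_congr rfl
    intro i _
    rcases h1 i with h3 | h3 | h3 <;> simp [h3]
  rw [h2] at h
  exact_mod_cast h

/-- signed sum of basis vectors -/
theorem parity {s : Finset I} {f : I → ℤ} (h : ∀ i ∈ s, f i = 1 ∨ f i = -1) :
    ((∑ i ∈ s, f i) - (s.card : ℤ)) % 2 = 0 := by
  induction s using Finset.induction_on with
  | empty => simp
  | insert a s ha ih =>
    rw [Finset.sum_insert ha, Finset.card_insert_of_notMem ha]
    have h1 := ih (fun i hi => h i (Finset.mem_insert_of_mem hi))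
    have h2 := h a (Finset.mem_insert_self a s)
    push_cast
    rcases h2 with h2 | h2 <;> rw [h2] <;> omega

/-- the shape of the two vectors of norm three -/
structure Two (a₁ a₂ : I → ℤ) (X Y₁ Y₂ Y₃ Y₄ : I) : Prop where
  n1 : Y₁ ≠ X
  n2 : Y₂ ≠ X
  n3 : Y₃ ≠ X
  n4 : Y₄ ≠ X
  n12 : Y₁ ≠ Y₂
  n13 : Y₁ ≠ Y₃
  n14 : Y₁ ≠ Y₄
  n23 : Y₂ ≠ Y₃
  n24 : Y₂ ≠ Y₄
  n34 : Y₃ ≠ Y₄
  hX : a₁ X = 1 ∨ a₁ X = -1
  hX' : a₂ X = a₁ X
  h1 : a₁ Y₁ = 1 ∨ a₁ Y₁ = -1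
  h2 : a₁ Y₂ = 1 ∨ a₁ Y₂ = -1
  h3 : a₂ Y₃ = 1 ∨ a₂ Y₃ = -1
  h4 : a₂ Y₄ = 1 ∨ a₂ Y₄ = -1
  z1 : ∀ i, i ≠ X → i ≠ Y₁ → i ≠ Y₂ → a₁ i = 0
  z2 : ∀ i, i ≠ X → i ≠ Y₃ → i ≠ Y₄ → a₂ i = 0

theorem exists_two {a₁ a₂ : I → ℤ} (h1 : ∑ i, a₁ i * a₁ i = 3) (h2 : ∑ i, a₂ i * a₂ i = 3)
    (h12 : ∑ i, a₁ i * a₂ i = 1) (hodd : ∃ i, (a₁ i + a₂ i) % 2 = 1) :
    ∃ X Y₁ Y₂ Y₃ Y₄, Two a₁ a₂ X Y₁ Y₂ Y₃ Y₄ := by
  obtain ⟨v1, c1⟩ := small (n := 3) (by norm_num) h1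
  obtain ⟨v2, c2⟩ := small (n := 3) (by norm_num) h2
  set S1 := Finset.univ.filter (fun i => a₁ i ≠ 0) with hS1
  set S2 := Finset.univ.filter (fun i => a₂ i ≠ 0) with hS2
  have m1 : ∀ i, i ∈ S1 ↔ a₁ i ≠ 0 := fun i => by simp [hS1]
  have m2 : ∀ i, i ∈ S2 ↔ a₂ i ≠ 0 := fun i => by simp [hS2]
  have hsum : ∑ i, a₁ i * a₂ i = ∑ i ∈ S1 ∩ S2, a₁ i * a₂ i := by
    symm
    apply Finset.sum_subset (Finset.subset_univ _)
    intro i _ hi
    rw [Finset.mem_inter, m1, m2] at hi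
    by_contra hne
    exact hi ⟨left_ne_zero_of_mul hne, right_ne_zero_of_mul hne⟩
  have hval : ∀ i ∈ S1 ∩ S2, a₁ i * a₂ i = 1 ∨ a₁ i * a₂ i = -1 := by
    intro i hi
    rw [Finset.mem_inter, m1, m2] at hi
    rcases v1 i with h | h | h
    · exact absurd h hi.1
    · rcases v2 i with h' | h' | h'
      · exact absurd h' hi.2
      · left; rw [h, h']; norm_num
      · right; rw [h, h']; norm_num
    · rcases v2 i with h' | h' | h'
      · exact absurd h' hi.2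
      · right; rw [h, h']; norm_num
      · left; rw [h, h']; norm_num
  have hpar := parity hval
  rw [← hsum, h12] at hpar
  have hle : (S1 ∩ S2).card ≤ 3 := (Finset.card_le_card Finset.inter_subset_left).trans c1.le
  have hcard : (S1 ∩ S2).card = 1 := by
    have : (S1 ∩ S2).card = 1 ∨ (S1 ∩ S2).card = 3 := by omega
    rcases this with h | h
    · exact h
    · exfalso
      have e1 : S1 ∩ S2 = S1 := Finset.eq_of_subset_of_card_le Finset.inter_subset_left (by rw [c1, h])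
      have e2 : S1 ∩ S2 = S2 := Finset.eq_of_subset_of_card_le Finset.inter_subset_right (by rw [c2, h])
      have e3 : S1 = S2 := e1.symm.trans e2
      obtain ⟨i, hi⟩ := hodd
      have h3 := m1 i
      have h4 := m2 i
      rw [e3, h4] at h3
      rcases v1 i with h5 | h5 | h5 <;> rcases v2 i with h6 | h6 | h6 <;> simp [h5, h6] at h3 hi
  obtain ⟨X, hX⟩ := Finset.card_eq_one.1 hcard
  have hX12 : X ∈ S1 ∩ S2 := by rw [hX]; exact Finset.mem_singleton_self X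
  have hX1 := (Finset.mem_inter.1 hX12).1
  have hX2 := (Finset.mem_inter.1 hX12).2
  have d1 : (S1.erase X).card = 2 := by rw [Finset.card_erase_of_mem hX1, c1]
  have d2 : (S2.erase X).card = 2 := by rw [Finset.card_erase_of_mem hX2, c2]
  obtain ⟨Y₁, Y₂, hne12, e1⟩ := Finset.card_eq_two.1 d1
  obtain ⟨Y₃, Y₄, hne34, e2⟩ := Finset.card_eq_two.1 d2
  have hdis : ∀ i, i ∈ S1 → i ∈ S2 → i = X := by
    intro i hi hi'
    have : i ∈ S1 ∩ S2 := Finset.mem_inter.2 ⟨hi, hi'⟩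
    rw [hX] at this
    exact Finset.mem_singleton.1 this
  have y1 : Y₁ ∈ S1.erase X := by rw [e1]; simp
  have y2 : Y₂ ∈ S1.erase X := by rw [e1]; simp
  have y3 : Y₃ ∈ S2.erase X := by rw [e2]; simp
  have y4 : Y₄ ∈ S2.erase X := by rw [e2]; simp
  rw [Finset.mem_erase] at y1 y2 y3 y4
  have pm1 : ∀ i ∈ S1, a₁ i = 1 ∨ a₁ i = -1 := fun i hi => (v1 i).resolve_left ((m1 i).1 hi)
  have pm2 : ∀ i ∈ S2, a₂ i = 1 ∨ a₂ i = -1 := fun i hi => (v2 i).resolve_left ((m2 i).1 hi)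
  refine ⟨X, Y₁, Y₂, Y₃, Y₄, ⟨y1.1, y2.1, y3.1, y4.1, hne12, ?_, ?_, ?_, ?_, hne34, pm1 X hX1, ?_,
    pm1 _ y1.2, pm1 _ y2.2, pm2 _ y3.2, pm2 _ y4.2, ?_, ?_⟩⟩
  · intro h; exact y1.1 (hdis _ y1.2 (h ▸ y3.2))
  · intro h; exact y1.1 (hdis _ y1.2 (h ▸ y4.2))
  · intro h; exact y2.1 (hdis _ y2.2 (h ▸ y3.2))
  · intro h; exact y2.1 (hdis _ y2.2 (h ▸ y4.2))
  · have h5 : ∑ i ∈ S1 ∩ S2, a₁ i * a₂ i = 1 := by rw [← hsum, h12]
    rw [hX, Finset.sum_singleton] at h5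
    rcases pm1 X hX1 with h | h <;> rcases pm2 X hX2 with h' | h' <;> rw [h, h'] at h5 <;> rw [h, h'] <;>
      norm_num at h5
  · intro i hi hi1 hi2
    by_contra hne
    have : i ∈ S1.erase X := Finset.mem_erase.2 ⟨hi, (m1 i).2 hne⟩
    rw [e1] at this
    simp [hi1, hi2] at this
  · intro i hi hi1 hi2
    by_contra hne
    have : i ∈ S2.erase X := Finset.mem_erase.2 ⟨hi, (m2 i).2 hne⟩
    rw [e2] at this
    simp [hi1, hi2] at this

/-- vectors of norm two -/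
theorem norm_two {u : I → ℤ} (h : ∑ i, u i * u i = 2) : ∃ s t, s ≠ t ∧ (u s = 1 ∨ u s = -1) ∧
    (u t = 1 ∨ u t = -1) ∧ ∀ i, i ≠ s → i ≠ t → u i = 0 := by
  obtain ⟨v, c⟩ := small (n := 2) (by norm_num) h
  obtain ⟨s, t, hst, e⟩ := Finset.card_eq_two.1 c
  have hs : s ∈ Finset.univ.filter (fun i => u i ≠ 0) := by rw [e]; simp
  have ht : t ∈ Finset.univ.filter (fun i => u i ≠ 0) := by rw [e]; simp
  rw [Finset.mem_filter] at hs ht
  refine ⟨s, t, hst, (v s).resolve_left hs.2, (v t).resolve_left ht.2, ?_⟩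
  intro i h1 h2
  by_contra hne
  have : i ∈ Finset.univ.filter (fun i => u i ≠ 0) := Finset.mem_filter.2 ⟨Finset.mem_univ i, hne⟩
  rw [e] at this
  simp [h1, h2] at this

theorem sum_pair' {f : I → ℤ} {s t : I} (hst : s ≠ t) (h : ∀ i, i ≠ s → i ≠ t → f i = 0) :
    ∑ i, f i = f s + f t := by
  rw [← Finset.sum_pair hst]
  symm
  apply Finset.sum_subset (Finset.subset_univ _)
  intro i _ hi
  rw [Finset.mem_insert, Finset.mem_singleton, not_or] at hi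
  exact h i hi.1 hi.2

variable {a₁ a₂ : I → ℤ} {X Y₁ Y₂ Y₃ Y₄ : I}

/-- the first type -/
def TA (a₁ : I → ℤ) (X Y₁ Y₂ Y₃ Y₄ : I) (u : I → ℤ) (x : I) : Prop :=
  x ≠ X ∧ x ≠ Y₁ ∧ x ≠ Y₂ ∧ x ≠ Y₃ ∧ x ≠ Y₄ ∧ u X = a₁ X ∧ (u x = 1 ∨ u x = -1) ∧ ∀ i, i ≠ X → i ≠ x → u i = 0

/-- the second type -/
def TB (a₁ a₂ : I → ℤ) (Y₁ Y₂ Y₃ Y₄ : I) (u : I → ℤ) (s t : I) : Prop :=
  (s = Y₁ ∨ s = Y₂) ∧ (t = Y₃ ∨ t = Y₄) ∧ u s = a₁ s ∧ u t = a₂ t ∧ ∀ i, i ≠ s → i ≠ t → u i = 0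

theorem type_of (h : Two a₁ a₂ X Y₁ Y₂ Y₃ Y₄) {u : I → ℤ} (hu : ∑ i, u i * u i = 2)
    (h1 : ∑ i, a₁ i * u i = 1) (h2 : ∑ i, a₂ i * u i = 1) :
    (∃ x, TA a₁ X Y₁ Y₂ Y₃ Y₄ u x) ∨ ∃ s t, TB a₁ a₂ Y₁ Y₂ Y₃ Y₄ u s t := by
  obtain ⟨s, t, hst, us, ut, hz⟩ := norm_two hu
  rw [sum_pair' hst (fun i h3 h4 => by rw [hz i h3 h4, mul_zero])] at h1 h2
  -- the value of `a₁` at a point
  have key : ∀ s t : I, s ≠ t → (u s = 1 ∨ u s = -1) → (u t = 1 ∨ u t = -1) → (∀ i, i ≠ s → i ≠ t → u i = 0) →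
      a₁ s * u s + a₁ t * u t = 1 → a₂ s * u s + a₂ t * u t = 1 → s = X →
      TA a₁ X Y₁ Y₂ Y₃ Y₄ u t := by
    rintro s t hst us ut hz h1 h2 rfl
    have e1 := h.hX
    have e2 := h.hX'
    rw [e2] at h2
    have f1 : t ≠ Y₁ := by
      rintro rfl
      have := h.h1
      have h5 := h.z2 t h.n1 h.n13 h.n14
      rw [h5, zero_mul, add_zero] at h2
      rw [h2] at h1
      rcases this with h6 | h6 <;> rcases ut with h7 | h7 <;> rw [h6, h7] at h1 <;> norm_num at h1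
    have f2 : t ≠ Y₂ := by
      rintro rfl
      have := h.h2
      have h5 := h.z2 t h.n2 h.n23 h.n24
      rw [h5, zero_mul, add_zero] at h2
      rw [h2] at h1
      rcases this with h6 | h6 <;> rcases ut with h7 | h7 <;> rw [h6, h7] at h1 <;> norm_num at h1
    have f0 := h.z1 t hst.symm f1 f2
    rw [f0, zero_mul, add_zero] at h1
    have f3 : t ≠ Y₃ := by
      rintro rfl
      have := h.h3
      rw [h1] at h2
      rcases this with h6 | h6 <;> rcases ut with h7 | h7 <;> rw [h6, h7] at h2 <;> norm_num at h2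
    have f4 : t ≠ Y₄ := by
      rintro rfl
      have := h.h4
      rw [h1] at h2
      rcases this with h6 | h6 <;> rcases ut with h7 | h7 <;> rw [h6, h7] at h2 <;> norm_num at h2
    refine ⟨hst.symm, f1, f2, f3, f4, ?_, ut, hz⟩
    rcases e1 with h6 | h6 <;> rcases us with h7 | h7 <;> rw [h6, h7] at h1 <;> rw [h6, h7] <;> norm_num at h1
  have key2 : ∀ s t : I, s ≠ t → (u s = 1 ∨ u s = -1) → (u t = 1 ∨ u t = -1) → (∀ i, i ≠ s → i ≠ t → u i = 0) →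
      a₁ s * u s + a₁ t * u t = 1 → a₂ s * u s + a₂ t * u t = 1 → s ≠ X → t ≠ X → (s = Y₁ ∨ s = Y₂) →
      TB a₁ a₂ Y₁ Y₂ Y₃ Y₄ u s t := by
    intro s t hst us ut hz h1 h2 hs ht hs1
    have g1 : a₂ s = 0 := by
      rcases hs1 with rfl | rfl
      · exact h.z2 _ h.n1 h.n13 h.n14
      · exact h.z2 _ h.n2 h.n23 h.n24
    have g2 : a₁ s = 1 ∨ a₁ s = -1 := by
      rcases hs1 with rfl | rfl
      · exact h.h1
      · exact h.h2
    rw [g1, zero_mul, zero_add] at h2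
    have g3 : t = Y₃ ∨ t = Y₄ := by
      by_contra hno
      rw [not_or] at hno
      rw [h.z2 t ht hno.1 hno.2, zero_mul] at h2
      norm_num at h2
    have g4 : a₁ t = 0 := by
      rcases g3 with rfl | rfl
      · exact h.z1 _ h.n3 h.n13.symm h.n23.symm
      · exact h.z1 _ h.n4 h.n14.symm h.n24.symm
    have g5 : a₂ t = 1 ∨ a₂ t = -1 := by
      rcases g3 with rfl | rfl
      · exact h.h3
      · exact h.h4
    rw [g4, zero_mul, add_zero] at h1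
    refine ⟨hs1, g3, ?_, ?_, hz⟩
    · rcases g2 with h6 | h6 <;> rcases us with h7 | h7 <;> rw [h6, h7] at h1 <;> rw [h6, h7] <;> norm_num at h1
    · rcases g5 with h6 | h6 <;> rcases ut with h7 | h7 <;> rw [h6, h7] at h2 <;> rw [h6, h7] <;> norm_num at h2
  have h1' := h1; have h2' := h2
  rw [add_comm] at h1' h2'
  by_cases hs : s = X
  · exact Or.inl ⟨t, key s t hst us ut hz h1 h2 hs⟩
  by_cases ht : t = X
  · exact Or.inl ⟨s, key t s hst.symm ut us (fun i h3 h4 => hz i h4 h3) h1' h2' ht⟩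
  by_cases hs1 : s = Y₁ ∨ s = Y₂
  · exact Or.inr ⟨s, t, key2 s t hst us ut hz h1 h2 hs ht hs1⟩
  by_cases ht1 : t = Y₁ ∨ t = Y₂
  · exact Or.inr ⟨t, s, key2 t s hst.symm ut us (fun i h3 h4 => hz i h4 h3) h1' h2' ht hs ht1⟩
  exfalso
  rw [not_or] at hs1 ht1
  rw [h.z1 s hs hs1.1 hs1.2, h.z1 t ht ht1.1 ht1.2, zero_mul, zero_mul] at h1
  norm_num at h1

end H5.TBc
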