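import Cfsg.Agent.Lib.H5.TBc

/-!
# Integral vectors of small norm (combinatorics of dihedral blocks), II
-/

set_option autoImplicit false

namespace H5.TBd

open H5.TBc

variable {I : Type*} [Fintype I] [DecidableEq I]
variable {a₁ a₂ : I → ℤ} {X Y₁ Y₂ Y₃ Y₄ : I} {m : ℕ} {u : Fin m → I → ℤ} {x : Fin m → I}

theorem alt_sum (hm : Even m) : ∑ j : Fin m, (-1 : ℤ) ^ (j : ℕ) = 0 := by
  rw [Fin.sum_univ_eq_sum_range (fun j => (-1 : ℤ) ^ j), neg_one_geom_sum, if_pos hm]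

theorem main_X (h : Two a₁ a₂ X Y₁ Y₂ Y₃ Y₄) (hm : Even m) (hA : ∀ j, TA a₁ X Y₁ Y₂ Y₃ Y₄ (u j) (x j)) :
    a₁ X + a₂ X + 2 * ∑ j : Fin m, (-1 : ℤ) ^ (j : ℕ) * u j X = 2 * a₁ X := by
  have h1 : ∑ j : Fin m, (-1 : ℤ) ^ (j : ℕ) * u j X = 0 := by
    have h2 : ∀ j : Fin m, (-1 : ℤ) ^ (j : ℕ) * u j X = (-1 : ℤ) ^ (j : ℕ) * a₁ X := by
      intro j
      obtain ⟨-, -, -, -, -, h3, -⟩ := hA j
      rw [h3]
    rw [Finset.sum_congr rfl fun j _ => h2 j, ← Finset.sum_mul, alt_sum hm, zero_mul]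
  rw [h1, h.hX']; ring

theorem main_other (hA : ∀ j, TA a₁ X Y₁ Y₂ Y₃ Y₄ (u j) (x j)) {i : I} (hi : i ≠ X) (hi' : ∀ j, i ≠ x j) :
    a₁ i + a₂ i + 2 * ∑ j : Fin m, (-1 : ℤ) ^ (j : ℕ) * u j i = a₁ i + a₂ i := by
  have h1 : ∑ j : Fin m, (-1 : ℤ) ^ (j : ℕ) * u j i = 0 := by
    apply Finset.sum_eq_zero
    intro j _
    obtain ⟨-, -, -, -, -, -, -, h3⟩ := hA j
    rw [h3 i hi (hi' j), mul_zero]
  rw [h1]; ring

theorem main_x (h : Two a₁ a₂ X Y₁ Y₂ Y₃ Y₄) (hA : ∀ j, TA a₁ X Y₁ Y₂ Y₃ Y₄ (u j) (x j))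
    (hinj : Function.Injective x) (k : Fin m) :
    a₁ (x k) + a₂ (x k) + 2 * ∑ j : Fin m, (-1 : ℤ) ^ (j : ℕ) * u j (x k) = 2 ∨
    a₁ (x k) + a₂ (x k) + 2 * ∑ j : Fin m, (-1 : ℤ) ^ (j : ℕ) * u j (x k) = -2 := by
  obtain ⟨h1, h2, h3, h4, h5, -, h6, -⟩ := hA k
  have e : ∑ j : Fin m, (-1 : ℤ) ^ (j : ℕ) * u j (x k) = (-1 : ℤ) ^ (k : ℕ) * u k (x k) := by
    rw [Finset.sum_eq_single k]
    · intro j _ hj
      obtain ⟨-, -, -, -, -, -, -, h7⟩ := hA j
      rw [h7 (x k) h1 (fun hc => hj (hinj hc.symm)), mul_zero]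
    · intro hc; exact absurd (Finset.mem_univ _) hc
  rw [e, h.z1 _ h1 h2 h3, h.z2 _ h1 h4 h5]
  rcases neg_one_pow_eq_or ℤ (k : ℕ) with h7 | h7 <;> rcases h6 with h8 | h8 <;> rw [h7, h8] <;> norm_num

/-- support in the main case -/
theorem main_supp (h : Two a₁ a₂ X Y₁ Y₂ Y₃ Y₄) (hm : Even m) (hA : ∀ j, TA a₁ X Y₁ Y₂ Y₃ Y₄ (u j) (x j))
    (hinj : Function.Injective x) {d : I → ℤ}
    (hd : ∀ i, d i = a₁ i + a₂ i + 2 * ∑ j : Fin m, (-1 : ℤ) ^ (j : ℕ) * u j i) :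
    (Finset.univ.filter (fun i => d i ≠ 0)).card = m + 5 ∧
    (Finset.univ.filter (fun i => (d i).natAbs = 1)).card = 4 ∧
    (∀ i, d i ≠ 0 → (d i).natAbs = 1 ∨ (d i).natAbs = 2) ∧
    (∀ i, d i ≠ 0 → i = X ∨ i = Y₁ ∨ i = Y₂ ∨ i = Y₃ ∨ i = Y₄ ∨ ∃ j, i = x j) := by
  have dX : d X = 2 * a₁ X := by rw [hd]; exact main_X h hm hA
  have dx : ∀ k, d (x k) = 2 ∨ d (x k) = -2 := fun k => by rw [hd]; exact main_x h hA hinj k
  have dY : ∀ i, i ≠ X → (∀ j, i ≠ x j) → d i = a₁ i + a₂ i := fun i h1 h2 => by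
    rw [hd]; exact main_other hA h1 h2
  have x1 : ∀ j, Y₁ ≠ x j := fun j => (hA j).2.1.symm
  have x2 : ∀ j, Y₂ ≠ x j := fun j => (hA j).2.2.1.symm
  have x3 : ∀ j, Y₃ ≠ x j := fun j => (hA j).2.2.2.1.symm
  have x4 : ∀ j, Y₄ ≠ x j := fun j => (hA j).2.2.2.2.1.symm
  have x0 : ∀ j, X ≠ x j := fun j => (hA j).1.symm
  have d1 : d Y₁ = 1 ∨ d Y₁ = -1 := by
    rw [dY _ h.n1 x1, h.z2 _ h.n1 h.n13 h.n14, add_zero]; exact h.h1
  have d2 : d Y₂ = 1 ∨ d Y₂ = -1 := by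
    rw [dY _ h.n2 x2, h.z2 _ h.n2 h.n23 h.n24, add_zero]; exact h.h2
  have d3 : d Y₃ = 1 ∨ d Y₃ = -1 := by
    rw [dY _ h.n3 x3, h.z1 _ h.n3 h.n13.symm h.n23.symm, zero_add]; exact h.h3
  have d4 : d Y₄ = 1 ∨ d Y₄ = -1 := by
    rw [dY _ h.n4 x4, h.z1 _ h.n4 h.n14.symm h.n24.symm, zero_add]; exact h.h4
  have dX' : d X = 2 ∨ d X = -2 := by
    rw [dX]; rcases h.hX with h1 | h1 <;> rw [h1] <;> norm_num
  have hcase : ∀ i, d i ≠ 0 → i = X ∨ i = Y₁ ∨ i = Y₂ ∨ i = Y₃ ∨ i = Y₄ ∨ ∃ j, i = x j := by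
    intro i hi
    by_contra hno
    rw [not_or, not_or, not_or, not_or, not_or, not_exists] at hno
    obtain ⟨k0, k1, k2, k3, k4, k5⟩ := hno
    apply hi
    rw [dY i k0 k5, h.z1 i k0 k1 k2, h.z2 i k0 k3 k4, add_zero]
  refine ⟨?_, ?_, ?_, hcase⟩
  · have e : Finset.univ.filter (fun i => d i ≠ 0) = ({X, Y₁, Y₂, Y₃, Y₄} : Finset I) ∪ Finset.univ.image x := by
      ext i
      rw [Finset.mem_filter, Finset.mem_union, Finset.mem_image]
      simp only [Finset.mem_univ, true_and, Finset.mem_insert, Finset.mem_singleton]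
      constructor
      · intro hi
        rcases hcase i hi with h1 | h1 | h1 | h1 | h1 | ⟨j, h1⟩
        · exact Or.inl (Or.inl h1)
        · exact Or.inl (Or.inr (Or.inl h1))
        · exact Or.inl (Or.inr (Or.inr (Or.inl h1)))
        · exact Or.inl (Or.inr (Or.inr (Or.inr (Or.inl h1))))
        · exact Or.inl (Or.inr (Or.inr (Or.inr (Or.inr h1))))
        · exact Or.inr ⟨j, h1.symm⟩
      · rintro ((rfl | rfl | rfl | rfl | rfl) | ⟨j, rfl⟩)
        · rcases dX' with h1 | h1 <;> rw [h1] <;> norm_num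
        · rcases d1 with h1 | h1 <;> rw [h1] <;> norm_num
        · rcases d2 with h1 | h1 <;> rw [h1] <;> norm_num
        · rcases d3 with h1 | h1 <;> rw [h1] <;> norm_num
        · rcases d4 with h1 | h1 <;> rw [h1] <;> norm_num
        · rcases dx j with h1 | h1 <;> rw [h1] <;> norm_num
    rw [e, Finset.card_union_of_disjoint, Finset.card_image_of_injective _ hinj, Finset.card_univ, Fintype.card_fin]
    · have c : ({X, Y₁, Y₂, Y₃, Y₄} : Finset I).card = 5 := by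
        rw [Finset.card_insert_of_notMem, Finset.card_insert_of_notMem, Finset.card_insert_of_notMem,
          Finset.card_insert_of_notMem, Finset.card_singleton]
        · rw [Finset.mem_singleton]; exact h.n34
        · rw [Finset.mem_insert, Finset.mem_singleton, not_or]; exact ⟨h.n23, h.n24⟩
        · rw [Finset.mem_insert, Finset.mem_insert, Finset.mem_singleton, not_or, not_or]
          exact ⟨h.n12, h.n13, h.n14⟩
        · rw [Finset.mem_insert, Finset.mem_insert, Finset.mem_insert, Finset.mem_singleton, not_or, not_or, not_or]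
          exact ⟨h.n1.symm, h.n2.symm, h.n3.symm, h.n4.symm⟩
      rw [c, add_comm]
    · rw [Finset.disjoint_left]
      intro i hi hi'
      rw [Finset.mem_image] at hi'
      obtain ⟨j, -, rfl⟩ := hi'
      simp only [Finset.mem_insert, Finset.mem_singleton] at hi
      rcases hi with h1 | h1 | h1 | h1 | h1
      · exact x0 j h1.symm
      · exact x1 j h1.symm
      · exact x2 j h1.symm
      · exact x3 j h1.symm
      · exact x4 j h1.symm
  · have e : Finset.univ.filter (fun i => (d i).natAbs = 1) = ({Y₁, Y₂, Y₃, Y₄} : Finset I) := by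
      ext i
      rw [Finset.mem_filter]
      simp only [Finset.mem_univ, true_and, Finset.mem_insert, Finset.mem_singleton]
      constructor
      · intro hi
        have hi0 : d i ≠ 0 := by intro h0; rw [h0] at hi; norm_num at hi
        rcases hcase i hi0 with h1 | h1 | h1 | h1 | h1 | ⟨j, h1⟩
        · exfalso; rw [h1] at hi; rcases dX' with h2 | h2 <;> rw [h2] at hi <;> norm_num at hi
        · exact Or.inl h1
        · exact Or.inr (Or.inl h1)
        · exact Or.inr (Or.inr (Or.inl h1))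
        · exact Or.inr (Or.inr (Or.inr h1))
        · exfalso; rw [h1] at hi; rcases dx j with h2 | h2 <;> rw [h2] at hi <;> norm_num at hi
      · rintro (rfl | rfl | rfl | rfl)
        · rcases d1 with h1 | h1 <;> rw [h1] <;> norm_num
        · rcases d2 with h1 | h1 <;> rw [h1] <;> norm_num
        · rcases d3 with h1 | h1 <;> rw [h1] <;> norm_num
        · rcases d4 with h1 | h1 <;> rw [h1] <;> norm_num
    rw [e, Finset.card_insert_of_notMem, Finset.card_insert_of_notMem, Finset.card_insert_of_notMem,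
      Finset.card_singleton]
    · rw [Finset.mem_singleton]; exact h.n34
    · rw [Finset.mem_insert, Finset.mem_singleton, not_or]; exact ⟨h.n23, h.n24⟩
    · rw [Finset.mem_insert, Finset.mem_insert, Finset.mem_singleton, not_or, not_or]
      exact ⟨h.n12, h.n13, h.n14⟩
  · intro i hi
    rcases hcase i hi with h1 | h1 | h1 | h1 | h1 | ⟨j, h1⟩ <;> rw [h1]
    · rcases dX' with h2 | h2 <;> rw [h2] <;> norm_num
    · rcases d1 with h2 | h2 <;> rw [h2] <;> norm_num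
    · rcases d2 with h2 | h2 <;> rw [h2] <;> norm_num
    · rcases d3 with h2 | h2 <;> rw [h2] <;> norm_num
    · rcases d4 with h2 | h2 <;> rw [h2] <;> norm_num
    · rcases dx j with h2 | h2 <;> rw [h2] <;> norm_num

variable {V : Type*} [AddCommGroup V] [Module ℂ V]

omit [DecidableEq I] in
theorem mem_of_pm {W : Submodule ℂ V} {c : ℤ} (hc : c = 1 ∨ c = -1) {v w : V} (hw : w ∈ W)
    (h : (c : ℂ) • v + w = 0) : v ∈ W := by
  have h1 : (c : ℂ) • v = -w := eq_neg_of_add_eq_zero_left h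
  rcases hc with rfl | rfl
  · rw [Int.cast_one, one_smul] at h1
    rw [h1]; exact W.neg_mem hw
  · rw [Int.cast_neg, Int.cast_one, neg_smul, one_smul, neg_inj] at h1
    rw [h1]; exact hw

theorem sum_three {s t w : I} (f : I → V) (h1 : s ≠ t) (h2 : s ≠ w) (h3 : t ≠ w)
    (h : ∀ i, i ≠ s → i ≠ t → i ≠ w → f i = 0) : ∑ i, f i = f s + (f t + f w) := by
  have e : ∑ i, f i = ∑ i ∈ ({s, t, w} : Finset I), f i := by
    symm
    apply Finset.sum_subset (Finset.subset_univ _)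
    intro i _ hi
    simp only [Finset.mem_insert, Finset.mem_singleton, not_or] at hi
    exact h i hi.1 hi.2.1 hi.2.2
  rw [e, Finset.sum_insert, Finset.sum_pair h3]
  rw [Finset.mem_insert, Finset.mem_singleton, not_or]
  exact ⟨h1, h2⟩

theorem sum_two {s t : I} (f : I → V) (h1 : s ≠ t)
    (h : ∀ i, i ≠ s → i ≠ t → f i = 0) : ∑ i, f i = f s + f t := by
  rw [← Finset.sum_pair h1]
  symm
  apply Finset.sum_subset (Finset.subset_univ _)
  intro i _ hi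
  rw [Finset.mem_insert, Finset.mem_singleton, not_or] at hi
  exact h i hi.1 hi.2

/-- the rank in the main case -/
theorem main_rank (h : Two a₁ a₂ X Y₁ Y₂ Y₃ Y₄) (hA : ∀ j, TA a₁ X Y₁ Y₂ Y₃ Y₄ (u j) (x j))
    (r : I → V) (r1 : ∑ i, (a₁ i : ℂ) • r i = 0) (r2 : ∑ i, (a₂ i : ℂ) • r i = 0)
    (ru : ∀ j, ∑ i, (u j i : ℂ) • r i = 0) {S : Set I}
    (hS : ∀ i ∈ S, i = X ∨ i = Y₁ ∨ i = Y₂ ∨ i = Y₃ ∨ i = Y₄ ∨ ∃ j, i = x j) :
    Submodule.span ℂ (r '' S) ≤ Submodule.span ℂ {r Y₁, r Y₂, r Y₃} := by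
  rw [sum_three _ h.n1.symm h.n2.symm h.n12 (fun i i1 i2 i3 => by rw [h.z1 i i1 i2 i3]; simp)] at r1
  rw [sum_three _ h.n3.symm h.n4.symm h.n34 (fun i i1 i2 i3 => by rw [h.z2 i i1 i2 i3]; simp)] at r2
  set W := Submodule.span ℂ ({r Y₁, r Y₂, r Y₃} : Set V) with hW
  have w1 : r Y₁ ∈ W := Submodule.subset_span (by simp)
  have w2 : r Y₂ ∈ W := Submodule.subset_span (by simp)
  have w3 : r Y₃ ∈ W := Submodule.subset_span (by simp)
  have wX : r X ∈ W := mem_of_pm h.hX (W.add_mem (W.smul_mem _ w1) (W.smul_mem _ w2)) r1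
  have w4 : r Y₄ ∈ W := by
    apply mem_of_pm h.h4 (w := (a₂ X : ℂ) • r X + (a₂ Y₃ : ℂ) • r Y₃)
    · exact W.add_mem (W.smul_mem _ wX) (W.smul_mem _ w3)
    · rw [← r2]; abel
  have wx : ∀ j, r (x j) ∈ W := by
    intro j
    obtain ⟨h1, -, -, -, -, -, h6, h7⟩ := hA j
    have h8 := ru j
    rw [sum_two _ h1 (fun i i1 i2 => by rw [h7 i i2 i1]; simp)] at h8
    exact mem_of_pm h6 (W.smul_mem _ wX) h8
  rw [Submodule.span_le]
  rintro _ ⟨i, hi, rfl⟩
  rcases hS i hi with h1 | h1 | h1 | h1 | h1 | ⟨j, h1⟩ <;> rw [h1]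
  · exact wX
  · exact w1
  · exact w2
  · exact w3
  · exact w4
  · exact wx j

end H5.TBd
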