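import Cfsg.Agent.Lib.H5.TBb

/-!
# The column of a central involution with nilpotent local block
-/

set_option autoImplicit false
set_option linter.unusedSectionVars false

namespace H5.TBe

open Cfsg H20.Loc H20.GA H80.GA H80.GB H80.GD H80.GE H80.GF H80.GJ H80.FS H84.RG H18.CharBasic H18.CharOrtho H18.CharInd H84.TrR
open H20.Blk H20.Orth H20.Ind H20.Height H20.Defect H80.BR1 H80.BR2 H19.Second H19.Second3 H81.Section H81.Contrib H84.Star
open H5.TBa H5.TBb
open scoped ComplexConjugate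

universe u

attribute [local instance 2000] Fintype.ofFinite

variable {M : Ideal AlgInt} [M.IsMaximal] {G : Type u} [Group G] [Finite G] {p : ℕ}
variable [Fact p.Prime] [CharP (ResF M) p] [Algebra (ZMod p) (ResF M)] [Algebra.IsAlgebraic (ZMod p) (ResF M)]
  [IsAlgClosed (ResF M)]
variable {z : G} {b : Set (IrrCharacter (C z))} {P : Subgroup (C z)} {e : MonoidAlgebra (ResF M) (C z)}

open Classical in
/-- `|P|` times the indicator function of `w` -/
noncomputable def fz (w : P) (y : P) : ℂ := if y = w then (Nat.card P : ℂ) else 0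

theorem fz_class (w : P) (hw : (w : C z) = cy z) : IsClassFunction P (fz w) := by
  intro y h
  have hc : ∀ g : P, g * w = w * g := fun g => Subtype.ext (by
    change (g : C z) * w = w * g
    rw [hw]; exact cy_comm z _)
  have : h * y * h⁻¹ = w ↔ y = w := by
    constructor
    · intro h1
      have h2 : y = h⁻¹ * w * h := by rw [← h1]; group
      rw [h2, mul_assoc, ← hc h]; group
    · rintro rfl
      rw [hc h]; group
  unfold fz
  by_cases h1 : y = w
  · rw [if_pos h1, if_pos (this.2 h1)]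
  · rw [if_neg h1, if_neg (fun h2 => h1 (this.1 h2))]

theorem fz_sup (w : P) (hw : (w : C z) = cy z) : Sup z P (fz w) := by
  intro y hy
  unfold fz at hy
  split_ifs at hy with h
  · rw [h, hw]; exact Subgroup.mem_zpowers _
  · exact absurd rfl hy

/-- the translated regular part -/
noncomputable def F0 (p : ℕ) (z : G) (ψ : C z → ℂ) : C z → ℂ := reg p (fun c => ψ (cy z * c))

theorem FF_fz (hM : IsPModular p M) (hmax : IsMax p ⊤ (ebar M b) P e) (hb : IsPBlock M b)
    (hnil : H80.FS3.Nilp p ⊤ (ebar M b)) {ψ : IrrCharacter (C z)} (hψ : ψ ∈ b)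
    (hzp : ∃ k : ℕ, orderOf z = p ^ k) (w : P) (hw : (w : C z) = cy z) (c : C z) :
    FF p P e (ψ : C z → ℂ) (fz w) c = (Nat.card P : ℂ) * shift z (F0 p z (ψ : C z → ℂ)) c := by
  have hcw : ∀ g : C z, g * w = w * g := fun g => by rw [hw]; exact cy_comm z g
  have hwo : ∃ k : ℕ, orderOf (w : C z) = p ^ k := by
    rw [hw, ← Subgroup.orderOf_coe]; exact hzp
  have hcw' : c = w * ((cy z)⁻¹ * c) := by rw [hw, mul_inv_cancel_left]
  by_cases hc : p ∣ orderOf ((cy z)⁻¹ * c)
  · have h1 : shift z (F0 p z (ψ : C z → ℂ)) c = 0 := by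
      unfold shift F0
      exact reg_not hc
    rw [h1, mul_zero]
    by_contra h
    obtain ⟨y, hy, g, x, hx, hyx⟩ := FF_supp hM h
    have hyw : y = w := by
      unfold fz at hy
      by_contra h2
      rw [if_neg h2] at hy
      exact hy rfl
    have hxz : x = cy z := by
      have h2 : x = g⁻¹ * w * g := by rw [← hyw, hyx]; group
      rw [h2, ← hw, mul_assoc, ← hcw g]; group
    obtain ⟨y', h1, -, -, h4⟩ := hx
    apply h4
    have h5 : y' = (cy z)⁻¹ * c := by rw [← h1, hxz]; group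
    rw [h5]; exact hc
  · have h1 := FF_central hM hmax hb hnil hψ (fz_class w hw) hcw hwo hc
    rw [← hcw'] at h1
    rw [h1]
    have h2 : fz w w = (Nat.card P : ℂ) := by unfold fz; rw [if_pos rfl]
    have h3 : shift z (F0 p z (ψ : C z → ℂ)) c = (ψ : C z → ℂ) c := by
      unfold shift F0
      rw [reg_of hc, mul_inv_cancel_left]
    rw [h2, h3]

/-- the regular parts of the characters of the local block are proportional -/
theorem Vb_le (hM : IsPModular p M) (hmax : IsMax p ⊤ (ebar M b) P e) (hb : IsPBlock M b)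
    (hnil : H80.FS3.Nilp p ⊤ (ebar M b)) {ψ : IrrCharacter (C z)} (hψ : ψ ∈ b)
    (h0 : blockHeight p b (ψ : C z → ℂ) = 0) :
    Vb p b ≤ Submodule.span ℂ {reg p (ψ : C z → ℂ)} := by
  rw [Submodule.span_le]
  rintro _ ⟨ξ, hξ, rfl⟩
  obtain ⟨ζ, hζ⟩ := (nilEquiv hM hmax hb hnil hψ h0).surjective ⟨ξ, hξ⟩
  have h1 : (nilEquiv hM hmax hb hnil hψ h0 ζ : IrrCharacter (C z)) = ξ := congrArg Subtype.val hζ
  change pRegularPart p (ξ : C z → ℂ) ∈ _
  rw [pRegularPart_eq, ← h1]
  have h2 : reg p ((nilEquiv hM hmax hb hnil hψ h0 ζ : IrrCharacter (C z)) : C z → ℂ) =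
      (ζ : P → ℂ) 1 • reg p (ψ : C z → ℂ) := by
    funext g
    exact nilEquiv_reg hM hmax hb hnil hψ h0 ζ g
  rw [h2]
  exact Submodule.smul_mem _ _ (Submodule.mem_span_singleton_self _)

theorem inner_FF_fz (hM : IsPModular p M) (hmax : IsMax p ⊤ (ebar M b) P e) (hb : IsPBlock M b)
    (hnil : H80.FS3.Nilp p ⊤ (ebar M b)) {ψ : IrrCharacter (C z)} (hψ : ψ ∈ b)
    (hzp : ∃ k : ℕ, orderOf z = p ^ k) (w : P) (hw : (w : C z) = cy z) (θ : C z → ℂ) :
    classInner (FF p P e (ψ : C z → ℂ) (fz w)) θ =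
      (Nat.card P : ℂ) * classInner (F0 p z (ψ : C z → ℂ)) (fun c => θ (cy z * c)) := by
  unfold classInner
  have h1 : ∑ c : C z, FF p P e (ψ : C z → ℂ) (fz w) c * conj (θ c) =
      ∑ c : C z, (Nat.card P : ℂ) * (F0 p z (ψ : C z → ℂ) c * conj (θ (cy z * c))) := by
    symm
    refine Fintype.sum_equiv (Equiv.mulLeft (cy z)) _ _ fun c => ?_
    rw [Equiv.coe_mulLeft, FF_fz hM hmax hb hnil hψ hzp w hw, shift, inv_mul_cancel_left, mul_assoc]
  rw [h1, ← Finset.mul_sum]
  ring

theorem inner_fz (w : P) : classInner (fz w) (fz w) = (Nat.card P : ℂ) := by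
  have hP0 : (Nat.card P : ℂ) ≠ 0 := by exact_mod_cast (Nat.card_pos (α := P)).ne'
  unfold classInner
  rw [Finset.sum_eq_single w]
  · unfold fz
    rw [if_pos rfl, Complex.conj_natCast]
    field_simp
  · intro y _ hy
    unfold fz
    rw [if_neg hy, zero_mul]
  · intro h; exact absurd (Finset.mem_univ _) h

/-- the coefficients of the induced function -/
theorem coeff (hM : IsPModular p M) (hz : orderOf z = 2) (hzp : ∃ k : ℕ, orderOf z = p ^ k)
    {B : Set (IrrCharacter G)} (hind : IsInducedBlock M (C z) b B) (hd : blockDefect p b = blockDefect p B)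
    (hmax : IsMax p ⊤ (ebar M b) P e) (hb : IsPBlock M b)
    (hnil : H80.FS3.Nilp p ⊤ (ebar M b)) {ψ : IrrCharacter (C z)} (hψ : ψ ∈ b)
    (h0 : blockHeight p b (ψ : C z → ℂ) = 0) (w : P) (hw : (w : C z) = cy z)
    (χ : IrrCharacter G) {d : ℤ} (hdχ : classInner (Th p P e (ψ : C z → ℂ) (fz w)) (χ : G → ℂ) = d) :
    (χ ∉ B → d = 0) ∧ (χ ∈ B → (p : ℤ) ^ blockHeight p B (χ : G → ℂ) ∣ d ∧
      ¬ (p : ℤ) ^ (blockHeight p B (χ : G → ℂ) + 1) ∣ d) := by
  classical
  have hpr := pm_isPrime hM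
  have hP0 : (Nat.card P : ℂ) ≠ 0 := by exact_mod_cast (Nat.card_pos (α := P)).ne'
  -- the central character value at `z`
  have hzc : cy z ∈ Subgroup.center (C z) := by
    rw [Subgroup.mem_center_iff]
    intro g; exact cy_comm z g
  obtain ⟨ω, hω0, hω, hωn⟩ := H81.CentralVal.exists_central ψ.2 hzc
  have hω2 : ω ^ 2 = 1 := by
    apply hωn
    apply Subtype.ext
    push_cast
    rw [coe_cy, ← hz, pow_orderOf_eq_one]
  have hωpm : ω = 1 ∨ ω = -1 := by
    have h1 : (ω - 1) * (ω + 1) = 0 := by linear_combination hω2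
    rcases mul_eq_zero.1 h1 with h | h
    · left; linear_combination h
    · right; linear_combination h
  have hωc : conj ω = ω := by rcases hωpm with h | h <;> rw [h] <;> simp
  have hF0 : F0 p z (ψ : C z → ℂ) = ω • reg p (ψ : C z → ℂ) := by
    unfold F0
    rw [← reg_smul]
    congr 1
    funext c
    rw [hω]; rfl
  have hVψ : reg p (ψ : C z → ℂ) ∈ Vb p b := by
    rw [← pRegularPart_eq]
    exact Submodule.subset_span ⟨ψ, hψ, rfl⟩
  -- the norm
  set κ := classInner (reg p (ψ : C z → ℂ)) (reg p (ψ : C z → ℂ)) with hκ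
  have hκ1 : (Nat.card P : ℂ) * κ = 1 := by
    have h1 := FF_inner hM hmax hb hnil hψ h0 (fz_class w hw) (fz_class w hw)
    rw [inner_fz, inner_FF_fz hM hmax hb hnil hψ hzp w hw] at h1
    have h2 : (fun c => FF p P e (ψ : C z → ℂ) (fz w) (cy z * c)) = (Nat.card P : ℂ) • F0 p z (ψ : C z → ℂ) := by
      funext c
      rw [FF_fz hM hmax hb hnil hψ hzp w hw, shift, inv_mul_cancel_left]
      rfl
    rw [h2, H18.CharOrtho.inner_smul_right, Complex.conj_natCast, hF0, H18.CharOrtho.inner_smul_left,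
      H18.CharOrtho.inner_smul_right, hωc] at h1
    apply mul_left_cancel₀ hP0
    linear_combination h1 - (Nat.card P : ℂ) * (Nat.card P : ℂ) * κ * hω2
  -- the coefficient in terms of the component
  have hco : (d : ℂ) = (Nat.card P : ℂ) * (ω * classInner (reg p (ψ : C z → ℂ)) (comp p z b (χ : G → ℂ))) := by
    rw [← hdχ]
    unfold Th
    rw [frobenius (C z) _ (isClassFunction_of_isIrr χ.2)]
    rw [inner_FF_fz hM hmax hb hnil hψ hzp w hw (fun c : C z => (χ : G → ℂ) c)]
    have h3 : (fun c : C z => (χ : G → ℂ) ((cy z * c : C z) : G)) = tw z (χ : G → ℂ) := rfl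
    rw [h3, hF0, H18.CharOrtho.inner_smul_left]
    congr 2
    have h4 := inner_Vb hM (isUnion_of_isPBlock hb) hVψ (tw z (χ : G → ℂ))
    rw [← h4]
    rfl
  constructor
  · intro hχ
    have h1 : comp p z b (χ : G → ℂ) = 0 := by
      apply comp_eq_zero hM hb hzp
      intro hi
      apply hχ
      have h2 := H19.BrMap.induced_unique hind hi
      rw [h2]
      exact mem_blockOf_self χ
    rw [h1, H18.CharOrtho.inner_zero_right, mul_zero, mul_zero] at hco
    exact_mod_cast hco
  · intro hχ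
    have h1 := Vb_le hM hmax hb hnil hψ h0 (comp_mem (p := p) (y := z) (b := b) (χ : G → ℂ))
    rw [Submodule.mem_span_singleton] at h1
    obtain ⟨μ, hμ⟩ := h1
    rw [← hμ, H18.CharOrtho.inner_smul_right] at hco
    have hco2 : (d : ℂ) = ω * conj μ := by
      rw [hco]
      linear_combination ω * conj μ * hκ1
    have hμd : μ = ω * d := by
      have h2 : conj (d : ℂ) = conj (ω * conj μ) := by rw [hco2]
      rw [map_mul, Complex.conj_conj, hωc, map_intCast] at h2
      rw [h2]
      linear_combination -μ * hω2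
    obtain ⟨v, hv1, hv2, hv⟩ := height_val hM hzp hind hd hχ
    obtain ⟨u, hu1, hu2, hu⟩ := H81.RegMat.exists_ratio hM hb hψ
    rw [h0, pow_zero, one_mul] at hu
    have h3 : proj b (tw z (χ : G → ℂ)) 1 = μ * (ψ : C z → ℂ) 1 := by
      have h4 := congrFun hμ 1
      have h5 : ¬ p ∣ orderOf (1 : C z) := by rw [orderOf_one]; exact card_pos_p hM.1
      rw [Pi.smul_apply, smul_eq_mul, reg_of h5, comp, reg_of h5] at h4
      exact h4.symm
    have hC : (Nat.card (C z) : ℂ) ≠ 0 := by exact_mod_cast (Nat.card_pos (α := C z)).ne'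
    have h6 : μ * u = (p : ℂ) ^ blockHeight p B (χ : G → ℂ) * v := by
      rw [← hv, h3]
      have h7 : (p : ℂ) ^ blockDefect p b * (Nat.card (C z) : ℂ)⁻¹ * (μ * (ψ : C z → ℂ) 1) =
          μ * (((p : ℂ) ^ blockDefect p b * (ψ : C z → ℂ) 1) * (Nat.card (C z) : ℂ)⁻¹) := by ring
      rw [h7, hu, mul_assoc u, mul_inv_cancel₀ hC, mul_one]
    have hu0 := ne_zero_of_not_locI hu2
    have hω1 : MemLocalRing M ω := by
      rcases hωpm with h | h
      · rw [h]; exact locR_one
      · rw [h]; exact locR_neg locR_one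
    have hω3 : ¬ MemLocalIdeal M ω := by
      rcases hωpm with h | h
      · rw [h]; exact not_locI_one
      · rw [h]; intro hc
        have := locI_neg hc
        rw [neg_neg] at this
        exact not_locI_one this
    have h8 : (d : ℂ) = (p : ℂ) ^ blockHeight p B (χ : G → ℂ) * (v * (ω * u⁻¹)) := by
      rw [hμd] at h6
      have h9 : (d : ℂ) = ω * (ω * d * u) * u⁻¹ := by
        have : ω * (ω * d * u) * u⁻¹ = (ω ^ 2) * d * (u * u⁻¹) := by ring
        rw [this, mul_inv_cancel₀ hu0, hω2]; ring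
      rw [h9, h6]; ring
    exact int_val hM (locR_mul hv1 (locR_mul hω1 (locR_inv hu1 hu2)))
      (not_locI_mul hv1 (locR_mul hω1 (locR_inv hu1 hu2)) hv2
        (not_locI_mul hω1 (locR_inv hu1 hu2) hω3 (not_locI_inv hu1 hu2))) h8

end H5.TBe
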