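import Mathlib
import Cfsg.Agent.Lib.H5.DBd
import Cfsg.Agent.Lib.H18.CharInd

/-!
# Dihedral 2-groups: characters induced from the rotation subgroup
-/

set_option autoImplicit false
set_option linter.unusedSectionVars false
set_option linter.unusedVariables false
set_option linter.style.haveILetI false
open Cfsg H5.DBa H5.DBd H18.CharBasic H18.CharOrtho H18.CharInd
open scoped ComplexConjugate

universe u

namespace H5.TBf

attribute [local instance 2000] Fintype.ofFinite

variable {G : Type u} [Group G] [Finite G]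
variable {P : Sylow 2 G} {σ : G} {n : ℕ} {ζ : ℂ}

/-- induced linear characters -/
noncomputable def II (ψ : Subgroup.zpowers σ →* ℂˣ) : G → ℂ :=
  indFun (Subgroup.zpowers σ) (fun x => (ψ x : ℂ))

theorem II_gen (ψ : Subgroup.zpowers σ →* ℂˣ) : IsGeneralizedCharacter G (II ψ) :=
  isGen_ind _ (isGen_of_isIrr (isIrrCharacter_of_hom ψ))

theorem II_class (ψ : Subgroup.zpowers σ →* ℂˣ) : IsClassFunction G (II ψ) := isClassFunction_indFun _ _

theorem memP (hP : (P : Subgroup G) = ⊤) (g : G) : g ∈ P := by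
  have h1 : g ∈ (P : Subgroup G) := by rw [hP]; exact Subgroup.mem_top g
  exact h1

theorem conj_mem (h : DS P σ n) (hP : (P : Subgroup G) = ⊤) (g : G) {x : G} (hx : x ∈ Subgroup.zpowers σ) :
    g * x * g⁻¹ ∈ Subgroup.zpowers σ ∧ (g * x * g⁻¹ = x ∨ g * x * g⁻¹ = x⁻¹) := by
  by_cases hg : g ∈ Subgroup.zpowers σ
  · have h1 : g * x * g⁻¹ = x := by rw [comm_z hg hx, mul_inv_cancel_right]
    rw [h1]; exact ⟨hx, Or.inl rfl⟩
  · have h1 := h.inverts (memP hP g) hg hx
    rw [h1]; exact ⟨Subgroup.inv_mem _ hx, Or.inr rfl⟩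

theorem II_off (h : DS P σ n) (hP : (P : Subgroup G) = ⊤) (ψ : Subgroup.zpowers σ →* ℂˣ) {y : G}
    (hy : y ∉ Subgroup.zpowers σ) : II ψ y = 0 := by
  unfold II
  rw [indFun_apply]
  have h1 : ∀ x : G, extendByZero (Subgroup.zpowers σ) (fun x => (ψ x : ℂ)) (x⁻¹ * y * x) = 0 := by
    intro x
    apply ext_notMem
    intro hc
    apply hy
    have := (conj_mem h hP x hc).1
    have e : x * (x⁻¹ * y * x) * x⁻¹ = y := by group
    rwa [e] at this
  simp only [h1, Finset.sum_const_zero, mul_zero]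

theorem II_on (h : DS P σ n) (hP : (P : Subgroup G) = ⊤) (ψ : Subgroup.zpowers σ →* ℂˣ)
    (y : Subgroup.zpowers σ) : II ψ (y : G) = (ψ y : ℂ) + ((ψ y)⁻¹ : ℂˣ) := by
  classical
  unfold II
  rw [indFun_apply]
  have h1 : ∀ x : G, extendByZero (Subgroup.zpowers σ) (fun x => (ψ x : ℂ)) (x⁻¹ * y * x) =
      if x ∈ Subgroup.zpowers σ then (ψ y : ℂ) else ((ψ y)⁻¹ : ℂˣ) := by
    intro x
    split_ifs with hx
    · have e : x⁻¹ * (y : G) * x = y := by rw [mul_assoc, comm_z y.2 hx, inv_mul_cancel_left]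
      rw [e, ext_coe]
    · have e : x⁻¹ * (y : G) * x = ((y⁻¹ : Subgroup.zpowers σ) : G) := by
        have hx' : x⁻¹ ∉ Subgroup.zpowers σ := fun hc => hx (by simpa using Subgroup.inv_mem _ hc)
        have := h.inverts (s := x⁻¹) (memP hP _) hx' y.2
        rw [inv_inv] at this
        exact this
      rw [e, ext_coe, map_inv]
  rw [Finset.sum_congr rfl fun x _ => h1 x, Finset.sum_ite, Finset.sum_const, Finset.sum_const]
  have c1 : (Finset.univ.filter (fun x : G => x ∈ Subgroup.zpowers σ)).card = Nat.card (Subgroup.zpowers σ) := by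
    rw [Nat.card_eq_fintype_card]
    exact (Fintype.card_subtype _).symm
  have c2 : (Finset.univ.filter (fun x : G => x ∉ Subgroup.zpowers σ)).card = Nat.card (Subgroup.zpowers σ) := by
    have h2 := Finset.card_filter_add_card_filter_not (s := (Finset.univ : Finset G)) (fun x : G => x ∈ Subgroup.zpowers σ)
    rw [c1, Finset.card_univ, ← Nat.card_eq_fintype_card] at h2
    have h3 : Nat.card G = 2 ^ n := by rw [← h.card, hP, Subgroup.card_top]
    have h4 : Nat.card (Subgroup.zpowers σ) = 2 ^ (n - 1) := by rw [Nat.card_zpowers, h.ord]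
    have h5 : 2 ^ n = 2 * 2 ^ (n - 1) := by
      have := h.hn
      rw [← pow_succ']; congr 1; omega
    rw [h4] at h2 ⊢
    omega
  rw [c1, c2, nsmul_eq_mul, nsmul_eq_mul, ← mul_add, ← mul_assoc, inv_mul_cancel₀, one_mul]
  exact_mod_cast (Nat.card_pos (α := Subgroup.zpowers σ)).ne'

theorem inner_lin (ψ φ : Subgroup.zpowers σ →* ℂˣ) [Decidable (ψ = φ)] :
    classInner (fun x : Subgroup.zpowers σ => (ψ x : ℂ)) (fun x => (φ x : ℂ)) = if ψ = φ then 1 else 0 := by
  split_ifs with h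
  · subst h; exact inner_irr_self (isIrrCharacter_of_hom ψ)
  · apply inner_irr_ne (isIrrCharacter_of_hom ψ) (isIrrCharacter_of_hom φ)
    intro h1
    apply h
    ext x
    exact congrFun h1 x

open Classical in
theorem inner_II (h : DS P σ n) (hP : (P : Subgroup G) = ⊤) (ψ φ : Subgroup.zpowers σ →* ℂˣ) :
    classInner (II ψ : G → ℂ) (II φ) = (if ψ = φ then 1 else 0) + (if ψ = φ⁻¹ then 1 else 0) := by
  have h1 : classInner (II ψ : G → ℂ) (II φ) = classInner (fun x : Subgroup.zpowers σ => (ψ x : ℂ))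
      (fun x => II φ (x : G)) := frobenius _ _ (II_class φ)
  have h2 : (fun x : Subgroup.zpowers σ => II φ (x : G)) = (fun x : Subgroup.zpowers σ => (φ x : ℂ)) +
      (fun x : Subgroup.zpowers σ => ((φ⁻¹ : Subgroup.zpowers σ →* ℂˣ) x : ℂ)) := by
    funext x
    rw [II_on h hP]; rfl
  rw [h1, h2, H18.CharOrtho.inner_add_right, inner_lin, inner_lin]

section vals
variable (h : DS P σ n) (hζ : IsPrimitiveRoot ζ (2 ^ (n - 1)))

/-- the first index -/
def i0 (h : DS P σ n) : Fin (2 ^ (n - 2) - 1) := ⟨0, by have := q_ge h; omega⟩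

/-- the other indices -/
def ij (h : DS P σ n) (j : Fin (2 ^ (n - 2) - 2)) : Fin (2 ^ (n - 2) - 1) := ⟨j + 1, by have := j.2; omega⟩

/-- the basis vectors -/
noncomputable def va : G → ℂ := II (1 : Subgroup.zpowers σ →* ℂˣ) - II (pj h hζ (i0 h))
noncomputable def vb : G → ℂ := II (l0 h hζ) - II (pj h hζ (i0 h))
noncomputable def vc (j : Fin (2 ^ (n - 2) - 2)) : G → ℂ := II (pj h hζ (ij h j)) - II (pj h hζ (i0 h))

theorem one_inv : (1 : Subgroup.zpowers σ →* ℂˣ)⁻¹ = 1 := by ext x; simp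

include h in
theorem in11 (hP : (P : Subgroup G) = ⊤) : classInner (II (1 : Subgroup.zpowers σ →* ℂˣ) : G → ℂ) (II (1 : Subgroup.zpowers σ →* ℂˣ)) = 2 := by
  rw [inner_II h hP, one_inv, if_pos rfl]; norm_num

theorem inll (hP : (P : Subgroup G) = ⊤) : classInner (II (l0 h hζ) : G → ℂ) (II (l0 h hζ)) = 2 := by
  rw [inner_II h hP, l0_inv, if_pos rfl]; norm_num

theorem in1l (hP : (P : Subgroup G) = ⊤) : classInner (II (1 : Subgroup.zpowers σ →* ℂˣ) : G → ℂ) (II (l0 h hζ)) = 0 := by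
  rw [inner_II h hP, l0_inv, if_neg (l0_ne h hζ).symm]; norm_num

theorem in1p (hP : (P : Subgroup G) = ⊤) (j : Fin (2 ^ (n - 2) - 1)) :
    classInner (II (1 : Subgroup.zpowers σ →* ℂˣ) : G → ℂ) (II (pj h hζ j)) = 0 := by
  rw [inner_II h hP, if_neg (pj_ne h hζ j).symm, if_neg]
  · norm_num
  · intro h1
    apply pj_ne h hζ j
    rw [← inv_inv' (pj h hζ j), ← h1, one_inv]

theorem inlp (hP : (P : Subgroup G) = ⊤) (j : Fin (2 ^ (n - 2) - 1)) :
    classInner (II (l0 h hζ) : G → ℂ) (II (pj h hζ j)) = 0 := by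
  rw [inner_II h hP, if_neg (pj_ne_l0 h hζ j).symm, if_neg]
  · norm_num
  · intro h1
    apply pj_ne_l0 h hζ j
    rw [← inv_inv' (pj h hζ j), ← h1, l0_inv]

theorem inpp (hP : (P : Subgroup G) = ⊤) (i j : Fin (2 ^ (n - 2) - 1)) :
    classInner (II (pj h hζ i) : G → ℂ) (II (pj h hζ j)) = if i = j then 1 else 0 := by
  rw [inner_II h hP, if_neg (pj_ne_inv h hζ i j), add_zero]
  by_cases hij : i = j
  · rw [hij, if_pos rfl, if_pos rfl]
  · rw [if_neg hij, if_neg (fun h1 => hij (pj_inj h hζ h1))]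

theorem inner_swap (f g : G → ℂ) (r : ℝ) (hr : classInner f g = (r : ℂ)) : classInner g f = (r : ℂ) := by
  rw [← H18.CharOrtho.inner_conj_symm, hr, Complex.conj_ofReal]

theorem zero_swap {f g : G → ℂ} (hr : classInner f g = 0) : classInner g f = 0 := by
  have := inner_swap f g 0 (by rw [hr]; simp)
  rw [this]; simp

theorem ij_ne (j : Fin (2 ^ (n - 2) - 2)) : ij h j ≠ i0 h := by
  intro h1
  have := congrArg Fin.val h1
  simp [ij, i0] at this

theorem n_aa (hP : (P : Subgroup G) = ⊤) : classInner (va h hζ) (va h hζ) = 3 := by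
  unfold va
  rw [H18.CharOrtho.inner_sub_left, H18.CharOrtho.inner_sub_right, H18.CharOrtho.inner_sub_right, in11 h hP,
    in1p h hζ hP, zero_swap (in1p h hζ hP _), inpp h hζ hP, if_pos rfl]
  norm_num

theorem n_bb (hP : (P : Subgroup G) = ⊤) : classInner (vb h hζ) (vb h hζ) = 3 := by
  unfold vb
  rw [H18.CharOrtho.inner_sub_left, H18.CharOrtho.inner_sub_right, H18.CharOrtho.inner_sub_right, inll h hζ hP,
    inlp h hζ hP, zero_swap (inlp h hζ hP _), inpp h hζ hP, if_pos rfl]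
  norm_num

theorem n_ab (hP : (P : Subgroup G) = ⊤) : classInner (va h hζ) (vb h hζ) = 1 := by
  unfold va vb
  rw [H18.CharOrtho.inner_sub_left, H18.CharOrtho.inner_sub_right, H18.CharOrtho.inner_sub_right, in1l h hζ hP,
    in1p h hζ hP, zero_swap (inlp h hζ hP _), inpp h hζ hP, if_pos rfl]
  norm_num

theorem n_ac (hP : (P : Subgroup G) = ⊤) (j : Fin (2 ^ (n - 2) - 2)) : classInner (va h hζ) (vc h hζ j) = 1 := by
  unfold va vc
  rw [H18.CharOrtho.inner_sub_left, H18.CharOrtho.inner_sub_right, H18.CharOrtho.inner_sub_right, in1p h hζ hP,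
    in1p h hζ hP, inpp h hζ hP, inpp h hζ hP, if_pos rfl, if_neg (ij_ne h j).symm]
  norm_num

theorem n_bc (hP : (P : Subgroup G) = ⊤) (j : Fin (2 ^ (n - 2) - 2)) : classInner (vb h hζ) (vc h hζ j) = 1 := by
  unfold vb vc
  rw [H18.CharOrtho.inner_sub_left, H18.CharOrtho.inner_sub_right, H18.CharOrtho.inner_sub_right, inlp h hζ hP,
    inlp h hζ hP, inpp h hζ hP, inpp h hζ hP, if_pos rfl, if_neg (ij_ne h j).symm]
  norm_num

theorem n_cc (hP : (P : Subgroup G) = ⊤) (i j : Fin (2 ^ (n - 2) - 2)) :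
    classInner (vc h hζ i) (vc h hζ j) = if i = j then 2 else 1 := by
  unfold vc
  rw [H18.CharOrtho.inner_sub_left, H18.CharOrtho.inner_sub_right, H18.CharOrtho.inner_sub_right, inpp h hζ hP,
    inpp h hζ hP, inpp h hζ hP, inpp h hζ hP, if_pos rfl, if_neg (ij_ne h j).symm, if_neg (ij_ne h i)]
  have e : (ij h i = ij h j) ↔ i = j := by
    constructor
    · intro h1
      have h2 := congrArg Fin.val h1
      simp only [ij] at h2
      exact Fin.ext (by omega)
    · rintro rfl; rfl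
  by_cases hij : i = j
  · rw [if_pos (e.2 hij), if_pos hij]; norm_num
  · rw [if_neg (fun h1 => hij (e.1 h1)), if_neg hij]; norm_num

include h in
/-- support of differences -/
theorem diff_supp (hP : (P : Subgroup G) = ⊤) (ψ φ : Subgroup.zpowers σ →* ℂˣ) {y : G}
    (hy : (II ψ - II φ : G → ℂ) y ≠ 0) : JJ σ n ∈ Subgroup.zpowers y := by
  by_cases hy' : y ∈ Subgroup.zpowers σ
  · apply h.JJ_pow hy'
    rintro rfl
    apply hy
    have h1 := II_on h hP ψ 1
    have h2 := II_on h hP φ 1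
    rw [Pi.sub_apply]
    rw [map_one] at h1 h2
    rw [show ((1 : Subgroup.zpowers σ) : G) = 1 from rfl] at h1 h2
    rw [h1, h2, sub_self]
  · exfalso
    apply hy
    rw [Pi.sub_apply, II_off h hP ψ hy', II_off h hP φ hy', sub_self]

end vals

end H5.TBf
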