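import Mathlib
import Cfsg.Agent.Lib.H5.TBf

/-!
# Dihedral 2-groups: the indicator function of the central involution
-/

set_option autoImplicit false
set_option linter.unusedSectionVars false
set_option linter.unusedVariables false
set_option linter.style.haveILetI false
open Cfsg H5.DBa H5.DBd H18.CharBasic H18.CharOrtho H18.CharInd H5.TBf
open scoped ComplexConjugate

universe u

namespace H5.TBg

attribute [local instance 2000] Fintype.ofFinite

/-- geometric sums -/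
theorem geom {v ε : ℂ} {m : ℕ} (hv0 : v ≠ 0) (hε : v ^ (m + 2) = ε) (hε2 : ε * ε = 1) :
    2 + 2 * ε + 2 * (v + v⁻¹) + 2 * ∑ j ∈ Finset.range m, (v ^ (j + 2) + (v⁻¹) ^ (j + 2)) =
      if v = 1 then (4 * (m + 2 : ℕ) : ℂ) else 0 := by
  split_ifs with h
  · subst h
    rw [one_pow] at hε
    rw [← hε]
    simp only [inv_one, one_pow, Finset.sum_const, Finset.card_range, nsmul_eq_mul]
    push_cast
    ring
  · have hS := mul_geom_sum v (m + 2)
    have hS' := mul_geom_sum v⁻¹ (m + 2)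
    have hε' : (v⁻¹) ^ (m + 2) = ε := by
      rw [inv_pow, hε]
      exact inv_eq_of_mul_eq_one_right hε2
    rw [hε] at hS
    rw [hε'] at hS'
    rw [Finset.sum_range_succ', Finset.sum_range_succ'] at hS hS'
    rw [Finset.sum_add_distrib]
    set A := ∑ j ∈ Finset.range m, v ^ (j + 2) with hA
    set B := ∑ j ∈ Finset.range m, (v⁻¹) ^ (j + 2) with hB
    have h1 : v - 1 ≠ 0 := sub_ne_zero.2 h
    apply mul_left_cancel₀ h1
    have h2 : v * ((v⁻¹ - 1) * (B + v⁻¹ ^ (0 + 1) + v⁻¹ ^ 0)) = v * (ε - 1) := by rw [hS']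
    have h3 : v * v⁻¹ = 1 := mul_inv_cancel₀ hv0
    simp only [zero_add, pow_one, pow_zero] at hS h2
    linear_combination 2 * hS - 2 * h2 + (2 * (B + v⁻¹ + 1)) * h3

variable {G : Type u} [Group G] [Finite G]
variable {P : Sylow 2 G} {σ : G} {n : ℕ} {ζ : ℂ}
variable (h : DS P σ n) (hζ : IsPrimitiveRoot ζ (2 ^ (n - 1)))

theorem II_ps (hP : (P : Subgroup G) = ⊤) (k l : ℕ) :
    II (ps h hζ k) (σ ^ l) = (ζ ^ l) ^ k + ((ζ ^ l)⁻¹) ^ k := by
  have h1 := II_on h hP (ps h hζ k) (gn σ ^ l)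
  have h2 := ps_pow h hζ k l
  have h3 : ((gn σ ^ l : Subgroup.zpowers σ) : G) = σ ^ l := rfl
  rw [h3] at h1
  rw [h1, Units.val_inv_eq_inv_val, h2, mul_comm k l, pow_mul, inv_pow]

theorem q_even (h : DS P σ n) : Even (2 ^ (n - 2)) := by
  have := h.hn
  exact (Nat.even_pow.2 ⟨even_two, by omega⟩)

theorem m_even (h : DS P σ n) : Even (2 ^ (n - 2) - 2) := by
  have h1 := q_even h
  have h2 := q_ge h
  rw [Nat.even_sub h2]
  exact ⟨fun _ => even_two, fun _ => h1⟩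

/-- the indicator function of the central involution -/
theorem indicator (hP : (P : Subgroup G) = ⊤) (y : G) [Decidable (y = JJ σ n)] :
    va h hζ y + vb h hζ y + 2 * ∑ j : Fin (2 ^ (n - 2) - 2), (-1 : ℂ) ^ (j : ℕ) * vc h hζ j y =
      if y = JJ σ n then (Nat.card G : ℂ) else 0 := by
  classical
  have hq := q2 h
  have hqge := q_ge h
  by_cases hy : y ∈ Subgroup.zpowers σ
  · obtain ⟨l, rfl⟩ : ∃ l : ℕ, σ ^ l = y := by
      rw [← mem_powers_iff_mem_zpowers] at hy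
      exact hy
    set ω : ℂ := ζ ^ l with hω
    set v : ℂ := -ω with hv
    have hζ0 : ζ ≠ 0 := hζ.ne_zero (by positivity)
    have hω0 : ω ≠ 0 := pow_ne_zero _ hζ0
    have hv0 : v ≠ 0 := neg_ne_zero.2 hω0
    have hqq : 2 ^ (n - 2) = (2 ^ (n - 2) - 2) + 2 := by omega
    have hωq : (ω ^ (2 ^ (n - 2))) * (ω ^ (2 ^ (n - 2))) = 1 := by
      rw [← pow_add, ← two_mul, hq, hω, ← pow_mul, mul_comm, pow_mul, hζ.pow_eq_one, one_pow]
    have hvq : v ^ (2 ^ (n - 2) - 2 + 2) = ω ^ (2 ^ (n - 2)) := by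
      rw [← hqq, hv, Even.neg_pow (q_even h)]
    have key := geom hv0 hvq hωq
    have e1 : II (1 : Subgroup.zpowers σ →* ℂˣ) (σ ^ l) = 2 := by
      have := II_ps h hζ hP 0 l
      rw [ps_zero] at this
      rw [this, pow_zero, pow_zero]; norm_num
    have e2 : II (l0 h hζ) (σ ^ l) = 2 * ω ^ (2 ^ (n - 2)) := by
      have h1 : (ω⁻¹) ^ (2 ^ (n - 2)) = ω ^ (2 ^ (n - 2)) := by
        rw [inv_pow]; exact inv_eq_of_mul_eq_one_right hωq
      have := II_ps h hζ hP (2 ^ (n - 2)) l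
      rw [← hω, h1] at this
      unfold l0
      rw [this]; ring
    have e3 : II (pj h hζ (i0 h)) (σ ^ l) = -(v + v⁻¹) := by
      have := II_ps h hζ hP 1 l
      have h1 : pj h hζ (i0 h) = ps h hζ 1 := rfl
      rw [h1, this, ← hω, pow_one, pow_one, hv, inv_neg]; ring
    have e4 : ∀ j : Fin (2 ^ (n - 2) - 2), (-1 : ℂ) ^ (j : ℕ) * vc h hζ j (σ ^ l) =
        (v ^ ((j : ℕ) + 2) + (v⁻¹) ^ ((j : ℕ) + 2)) + (-1 : ℂ) ^ (j : ℕ) * (v + v⁻¹) := by
      intro j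
      have h1 : pj h hζ (ij h j) = ps h hζ ((j : ℕ) + 2) := rfl
      have h2 := II_ps h hζ hP ((j : ℕ) + 2) l
      unfold vc
      rw [Pi.sub_apply, h1, h2, e3, ← hω]
      have h3 : v ^ ((j : ℕ) + 2) = (-1) ^ (j : ℕ) * ω ^ ((j : ℕ) + 2) := by
        rw [hv, neg_pow, pow_add]; ring
      have h4 : (v⁻¹) ^ ((j : ℕ) + 2) = (-1) ^ (j : ℕ) * (ω⁻¹) ^ ((j : ℕ) + 2) := by
        rw [hv, inv_neg, neg_pow, pow_add]; ring
      rw [h3, h4]; ring
    have e5 : ∑ j : Fin (2 ^ (n - 2) - 2), (-1 : ℂ) ^ (j : ℕ) * (v + v⁻¹) = 0 := by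
      rw [← Finset.sum_mul, Fin.sum_univ_eq_sum_range (fun j => (-1 : ℂ) ^ j), neg_one_geom_sum,
        if_pos (m_even h), zero_mul]
    have e6 : ∑ j : Fin (2 ^ (n - 2) - 2), (-1 : ℂ) ^ (j : ℕ) * vc h hζ j (σ ^ l) =
        ∑ j ∈ Finset.range (2 ^ (n - 2) - 2), (v ^ (j + 2) + (v⁻¹) ^ (j + 2)) := by
      rw [Finset.sum_congr rfl fun j _ => e4 j, Finset.sum_add_distrib, e5, add_zero,
        Fin.sum_univ_eq_sum_range (fun j => (v ^ (j + 2) + (v⁻¹) ^ (j + 2)))]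
    have hiff : (σ ^ l = JJ σ n) ↔ v = 1 := by
      have h1 : σ ^ l = JJ σ n ↔ l ≡ 2 ^ (n - 2) [MOD 2 ^ (n - 1)] := by
        rw [JJ, pow_eq_pow_iff_modEq, h.ord]
      have h2 : ζ ^ l = ζ ^ (2 ^ (n - 2)) ↔ l ≡ 2 ^ (n - 2) [MOD 2 ^ (n - 1)] := by
        have h3 : (zu hζ) ^ l = (zu hζ) ^ (2 ^ (n - 2)) ↔ l ≡ 2 ^ (n - 2) [MOD 2 ^ (n - 1)] := by
          rw [pow_eq_pow_iff_modEq, ← (zu_prim hζ).eq_orderOf]
        rw [← h3, Units.ext_iff, Units.val_pow_eq_pow_val, Units.val_pow_eq_pow_val, zu_val]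
      have h3 : ζ ^ (2 ^ (n - 2)) = -1 := by
        have h4 : (ζ ^ (2 ^ (n - 2))) ^ 2 = 1 := by
          rw [← pow_mul, mul_comm, hq, hζ.pow_eq_one]
        rw [pow_two] at h4
        rcases mul_self_eq_one_iff.1 h4 with h5 | h5
        · exfalso
          have h6 := Nat.le_of_dvd (by positivity) (hζ.dvd_of_pow_eq_one _ h5)
          omega
        · exact h5
      rw [h1, ← h2, h3, ← hω, hv]
      constructor
      · intro h4; rw [h4]; norm_num
      · intro h4; linear_combination -h4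
    unfold va vb
    rw [Pi.sub_apply, Pi.sub_apply, e1, e2, e3, e6]
    have hcard : (Nat.card G : ℂ) = (4 * ((2 ^ (n - 2) - 2 + 2 : ℕ) : ℂ)) := by
      rw [← hqq]
      have h3 : Nat.card G = 2 ^ n := by rw [← h.card, hP, Subgroup.card_top]
      have h5 : 2 ^ n = 4 * 2 ^ (n - 2) := by
        have := h.hn
        rw [show (4 : ℕ) = 2 ^ 2 by norm_num, ← pow_add]; congr 1; omega
      rw [h3, h5]; push_cast; ring
    by_cases hv1 : v = 1
    · rw [if_pos hv1] at key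
      rw [if_pos (hiff.2 hv1), hcard, ← key]; ring
    · rw [if_neg hv1] at key
      rw [if_neg (fun h1 => hv1 (hiff.1 h1)), ← key]; ring
  · have hne : y ≠ JJ σ n := fun h1 => hy (h1 ▸ h.JJ_mem_z)
    rw [if_neg hne]
    unfold va vb vc
    simp only [Pi.sub_apply, II_off h hP _ hy]
    simp

end H5.TBg
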