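import Cfsg.Agent.Lib.H5.TBe
import Cfsg.Agent.Lib.H5.TBg
import Cfsg.Agent.Lib.H11.DihedralAut
import Cfsg.Agent.Lib.H71.AFour
import Cfsg.Agent.Lib.H80.SU4
import Cfsg.Agent.Lib.H80.FS4

/-!
# Dihedral defect groups: the local block at the central involution is nilpotent
-/

set_option autoImplicit false
set_option linter.unusedSectionVars false
set_option linter.unusedVariables false

namespace H5.TBh

open Cfsg H5.DBa H5.DBd H5.TBf

universe u

attribute [local instance 2000] Fintype.ofFinite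

section group
variable {K : Type u} [Group K] [Finite K] {P : Subgroup K} {S : Sylow 2 P} {σ : P} {n : ℕ}

theorem card_P (h : DS S σ n) (hS : (S : Subgroup P) = ⊤) : Nat.card P = 2 ^ n := by
  rw [← h.card, hS, Subgroup.card_top]

theorem normal_z (h : DS S σ n) (hS : (S : Subgroup P) = ⊤) : (Subgroup.zpowers σ).Normal :=
  ⟨fun x hx g => (conj_mem h hS g hx).1⟩

theorem index_z (h : DS S σ n) (hS : (S : Subgroup P) = ⊤) : (Subgroup.zpowers σ).index = 2 := by
  have h1 := Subgroup.index_mul_card (Subgroup.zpowers σ)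
  rw [card_P h hS, Nat.card_zpowers, h.ord] at h1
  have h5 : 2 ^ n = 2 * 2 ^ (n - 1) := by
    have := h.hn
    rw [← pow_succ']; congr 1; omega
  rw [h5] at h1
  exact Nat.eq_of_mul_eq_mul_right (by positivity) h1

theorem odd_centralizes (h : DS S σ n) (hS : (S : Subgroup P) = ⊤)
    (hw : ∀ g : K, g * ((JJ σ n : P) : K) = ((JJ σ n : P) : K) * g) {Q : Subgroup K} (hQ : Q ≤ P) {x : K}
    (hx : x ∈ Subgroup.normalizer (Q : Set K)) (hodd : ¬ 2 ∣ orderOf x) : x ∈ Subgroup.centralizer (Q : Set K) := by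
  have hn := normal_z h hS
  have hQ2 : IsPGroup 2 Q := by
    have h1 : IsPGroup 2 P := IsPGroup.of_card (card_P h hS)
    exact h1.to_le hQ
  set R0 : Subgroup Q := (Subgroup.zpowers σ).comap (Subgroup.inclusion hQ) with hR0
  have hcyc : IsCyclic R0 := by
    let f : R0 →* Subgroup.zpowers σ :=
      { toFun := fun q => ⟨Subgroup.inclusion hQ q.1, q.2⟩
        map_one' := rfl
        map_mul' := fun a b => rfl }
    apply isCyclic_of_injective f
    intro a b hab
    have h1 := congrArg (fun t : Subgroup.zpowers σ => ((t : P) : K)) hab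
    exact Subtype.ext (Subtype.ext h1)
  have hidx : R0.index ∣ 2 := by
    rw [hR0, Subgroup.index_comap, ← index_z h hS]
    exact Subgroup.relIndex_dvd_index_of_normal _ _
  have hsq : ∀ y : Q, y ∉ R0 → y * y = 1 := by
    intro y hy
    have h1 := (h.inv (Subgroup.inclusion hQ y) (memP hS _) hy).1
    apply Subtype.ext
    have h2 := congrArg (fun t : P => (t : K)) h1
    exact h2
  have ho : Odd (orderOf x) := by
    rw [← Nat.not_even_iff_odd, even_iff_two_dvd]; exact hodd
  by_cases hwQ : ((JJ σ n : P) : K) ∈ Q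
  · have h1 : orderOf (Q.normalizerMonoidHom ⟨x, hx⟩) ∣ orderOf x := by
      have := orderOf_map_dvd Q.normalizerMonoidHom (⟨x, hx⟩ : Subgroup.normalizer (Q : Set K))
      rwa [Subgroup.orderOf_mk] at this
    have h2 : Odd (orderOf (Q.normalizerMonoidHom ⟨x, hx⟩)) := Odd.of_dvd_nat ho h1
    have h3 := H11.DihedralAut.aut_eq_one hQ2 R0 hidx hsq _ h2 ⟨_, hwQ⟩ (by
      intro h4
      have h5' := congrArg (fun t : Q => (t : K)) h4
      have h5 : (JJ σ n : P) = 1 := Subtype.ext h5'
      have h6 := h.JJ_order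
      rw [h5, orderOf_one] at h6
      omega) (by
      apply Subtype.ext
      change x * ((JJ σ n : P) : K) * x⁻¹ = ((JJ σ n : P) : K)
      rw [hw x, mul_inv_cancel_right])
    rw [Subgroup.mem_centralizer_iff]
    intro u hu
    have h4 := DFunLike.congr_fun h3 ⟨u, hu⟩
    have h5 : x * u * x⁻¹ = u := congrArg Subtype.val h4
    exact (mul_inv_eq_iff_eq_mul.1 h5).symm
  · have hbot : R0 = ⊥ := by
      rw [eq_bot_iff]
      intro y hy
      rw [Subgroup.mem_bot]
      by_contra hne
      apply hwQ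
      have h1 : Subgroup.inclusion hQ y ≠ 1 := by
        intro h2
        apply hne
        apply Subtype.ext
        have h3 := congrArg (fun t : P => (t : K)) h2
        exact h3
      have h2 := h.JJ_pow hy h1
      obtain ⟨k, hk⟩ := h2
      have h3 : ((y : K)) ^ k = ((JJ σ n : P) : K) := congrArg Subtype.val hk
      rw [← h3]
      exact Subgroup.zpow_mem _ y.2 k
    apply H71.AFour.odd_cent Q hQ2 ⟨R0, hcyc, hidx, hsq⟩ ?_ hx ho
    intro hK
    have h1 := hK.card_four
    rw [hbot, Subgroup.index_bot, h1] at hidx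
    omega

end group

open H20.Loc H20.GA H80.GA H80.GB H80.GC H80.GD H80.GE H80.GF H80.GH H80.GJ H80.FS H80.FS3 H84.RG H20.Blk H20.Orth H20.Ind H20.Height H20.Defect
  H80.BR1 H80.BR2 H81.Section H81.Contrib H84.Star

section blocks
variable {M : Ideal AlgInt} [M.IsMaximal] {G : Type u} [Group G] [Finite G] {p : ℕ}
variable [Fact p.Prime] [CharP (ResF M) p] [Algebra (ZMod p) (ResF M)] [Algebra.IsAlgebraic (ZMod p) (ResF M)]
  [IsAlgClosed (ResF M)]

/-- the local block of a central element of the defect group -/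
theorem exists_local (hM : IsPModular p M) {B : Set (IrrCharacter G)} (hB : IsPBlock M B) {D : Subgroup G}
    (hD : IsDefectGroup p M B D) {z : G} (hzD : z ∈ D) (hzc : ∀ d ∈ D, d * z = z * d) :
    ∃ b : Set (IrrCharacter (C z)), IsPBlock M b ∧ IsInducedBlock M (C z) b B ∧
      IsDefectGroup p M b (D.subgroupOf (C z)) ∧ blockDefect p b = blockDefect p B := by
  obtain ⟨e, hmax⟩ := exists_isMax_of_isDefectGroup hM hB hD
  obtain ⟨b, hb, hle⟩ := H80.SU4.exists_sub hmax.of.pair hzD
  have hzo : ∃ k : ℕ, orderOf z = p ^ k := by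
    have := order_of_mem hmax.of.pair.pgr ⟨z, hzD⟩
    exact this
  have hDC : D ≤ C z := by
    intro d hd
    rw [Subgroup.mem_centralizer_singleton_iff]
    exact hzc d hd
  have hind : IsInducedBlock M (C z) b B := (ind_iff hM hzo hb hB).2 ((pairOf_of_sle hmax.of.pair hle).1 hmax.of)
  have hCH : CH D (Subgroup.zpowers z) = D := by
    unfold CH
    have h1 := CZ_eq z
    unfold CZ at h1
    rw [h1]
    exact inf_eq_right.2 hDC
  have hfc : (fsys hmax.of.pair).IsFullyCentralized (Subgroup.zpowers z) := by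
    refine ⟨hle.le' hmax.of.pair, ?_⟩
    intro Q' hQ'
    rw [cIn_eq, cIn_eq, hCH]
    exact Subgroup.card_le_of_le inf_le_right
  have h1 := (fc_iff hmax hle).1 hfc
  rw [CH_eq, hCH] at h1
  have h2 : IsDefectGroup p M b (D.subgroupOf (C z)) := by
    rw [isDefectGroup_iff_isDef' hM hb, Subgroup.subgroupOf_map_subtype, inf_eq_left.2 hDC]
    exact h1
  refine ⟨b, hb, hind, h2, ?_⟩
  have h3 := card_defectGroup hM hb h2
  have h4 := card_defectGroup hM hB hD
  rw [Nat.card_congr (Subgroup.subgroupOfEquivOfLe hDC).toEquiv, h4] at h3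
  exact (Nat.pow_right_injective hM.1.two_le h3).symm

end blocks

section nil
variable {M : Ideal AlgInt} [M.IsMaximal] {K : Type u} [Group K] [Finite K]
variable [CharP (ResF M) 2] [Algebra (ZMod 2) (ResF M)] [Algebra.IsAlgebraic (ZMod 2) (ResF M)]
  [IsAlgClosed (ResF M)]
variable {P : Subgroup K} {S : Sylow 2 P} {σ : P} {n : ℕ}

/-- a block with dihedral defect group containing a central involution is nilpotent -/
theorem nilp (h : DS S σ n) (hS : (S : Subgroup P) = ⊤)
    (hw : ∀ g : K, g * ((JJ σ n : P) : K) = ((JJ σ n : P) : K) * g) {b : MonoidAlgebra (ResF M) K}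
    {e : MonoidAlgebra (ResF M) K} (hmax : IsMax 2 ⊤ b P e) : Nilp 2 ⊤ b := by
  refine ⟨hmax.of.blk, ?_⟩
  intro Q f hf x hx hpx
  obtain ⟨g, -, hg⟩ := sle_max hmax hf
  have hle : cs g Q ≤ P := hg.le' hmax.of.pair
  have hxn : x ∈ Subgroup.normalizer (Q : Set K) := (mem_ST.1 hx).2.1
  have h1 : g * x * g⁻¹ ∈ Subgroup.normalizer ((cs g Q : Subgroup K) : Set K) := by
    rw [← cs_normalizer, conj_mem_cs]
    exact hxn
  have h2 : orderOf (g * x * g⁻¹) = orderOf x := by
    have := orderOf_injective (MulAut.conj g).toMonoidHom (MulAut.conj g).injective x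
    simpa using this
  have h3 := odd_centralizes h hS hw hle h1 (by rw [h2]; exact hpx)
  rw [Subgroup.mem_centralizer_iff] at h3 ⊢
  intro u hu
  have h4 := h3 (g * u * g⁻¹) (conj_mem_cs.2 hu)
  have h5 : g * (u * x) * g⁻¹ = g * (x * u) * g⁻¹ := by
    calc g * (u * x) * g⁻¹ = g * u * g⁻¹ * (g * x * g⁻¹) := by group
      _ = g * x * g⁻¹ * (g * u * g⁻¹) := h4
      _ = _ := by group
  exact mul_left_cancel (mul_right_cancel h5)

end nil

end H5.TBh
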