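import Cfsg.Agent.Lib.H5.TBd

/-!
# Integral vectors of small norm (combinatorics of dihedral blocks), III
-/

set_option autoImplicit false

namespace H5.TBi

open H5.TBc H5.TBd

variable {I : Type*} [Fintype I] [DecidableEq I]
variable {a₁ a₂ : I → ℤ} {X Y₁ Y₂ Y₃ Y₄ : I}

omit [Fintype I] [DecidableEq I] in
theorem swap (h : Two a₁ a₂ X Y₁ Y₂ Y₃ Y₄) : Two a₂ a₁ X Y₃ Y₄ Y₁ Y₂ where
  n1 := h.n3
  n2 := h.n4
  n3 := h.n1
  n4 := h.n2
  n12 := h.n34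
  n13 := h.n13.symm
  n14 := h.n23.symm
  n23 := h.n14.symm
  n24 := h.n24.symm
  n34 := h.n12
  hX := by rw [h.hX']; exact h.hX
  hX' := h.hX'.symm
  h1 := h.h3
  h2 := h.h4
  h3 := h.h1
  h4 := h.h2
  z1 := h.z2
  z2 := h.z1

omit [Fintype I] [DecidableEq I] in
theorem swap12 (h : Two a₁ a₂ X Y₁ Y₂ Y₃ Y₄) : Two a₁ a₂ X Y₂ Y₁ Y₃ Y₄ where
  n1 := h.n2
  n2 := h.n1
  n3 := h.n3
  n4 := h.n4
  n12 := h.n12.symm
  n13 := h.n23
  n14 := h.n24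
  n23 := h.n13
  n24 := h.n14
  n34 := h.n34
  hX := h.hX
  hX' := h.hX'
  h1 := h.h2
  h2 := h.h1
  h3 := h.h3
  h4 := h.h4
  z1 := fun i i1 i2 i3 => h.z1 i i1 i3 i2
  z2 := h.z2

omit [Fintype I] [DecidableEq I] in
theorem swap34 (h : Two a₁ a₂ X Y₁ Y₂ Y₃ Y₄) : Two a₁ a₂ X Y₁ Y₂ Y₄ Y₃ :=
  swap (swap12 (swap h))

/-- the two alternatives -/
def Res (m : ℕ) (d : I → ℤ) {V : Type*} [AddCommGroup V] [Module ℂ V] (r : I → V) (S : Set I) : Prop :=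
  ((Finset.univ.filter (fun i => d i ≠ 0)).card = m + 5 ∧
    (Finset.univ.filter (fun i => (d i).natAbs = 1)).card = 4 ∧
    (∀ i, d i ≠ 0 → (d i).natAbs = 1 ∨ (d i).natAbs = 2) ∧
    Module.finrank ℂ (Submodule.span ℂ (r '' S)) ≤ 3) ∨
  (m = 2 ∧ (Finset.univ.filter (fun i => d i ≠ 0)).card = 5 ∧ Module.finrank ℂ (Submodule.span ℂ (r '' S)) ≤ 1)

variable {V : Type*} [AddCommGroup V] [Module ℂ V]

theorem exc (h : Two a₁ a₂ X Y₁ Y₂ Y₃ Y₄) {u₀ u₁ : I → ℤ} (p1 : u₀ Y₁ = a₁ Y₁) (p2 : u₀ Y₃ = a₂ Y₃)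
    (p3 : ∀ i, i ≠ Y₁ → i ≠ Y₃ → u₀ i = 0) (q1 : u₁ Y₁ = a₁ Y₁) (q2 : u₁ Y₄ = a₂ Y₄)
    (q3 : ∀ i, i ≠ Y₁ → i ≠ Y₄ → u₁ i = 0) {d : I → ℤ} (hd : ∀ i, d i = a₁ i + a₂ i + 2 * (u₀ i - u₁ i))
    (r : I → V) (r1 : ∑ i, (a₁ i : ℂ) • r i = 0) (r2 : ∑ i, (a₂ i : ℂ) • r i = 0)
    (r3 : ∑ i, (u₀ i : ℂ) • r i = 0) (r4 : ∑ i, (u₁ i : ℂ) • r i = 0) {S : Set I} (hS : ∀ i ∈ S, d i ≠ 0) :
    (Finset.univ.filter (fun i => d i ≠ 0)).card = 5 ∧ Module.finrank ℂ (Submodule.span ℂ (r '' S)) ≤ 1 := by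
  have dX : d X = 2 * a₁ X := by
    rw [hd, p3 X h.n1.symm h.n3.symm, q3 X h.n1.symm h.n4.symm, h.hX']; ring
  have d1 : d Y₁ = a₁ Y₁ := by
    rw [hd, p1, q1, h.z2 _ h.n1 h.n13 h.n14]; ring
  have d2 : d Y₂ = a₁ Y₂ := by
    rw [hd, p3 _ h.n12.symm h.n23, q3 _ h.n12.symm h.n24, h.z2 _ h.n2 h.n23 h.n24]; ring
  have d3 : d Y₃ = 3 * a₂ Y₃ := by
    rw [hd, p2, q3 _ h.n13.symm h.n34, h.z1 _ h.n3 h.n13.symm h.n23.symm]; ring
  have d4 : d Y₄ = - a₂ Y₄ := by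
    rw [hd, p3 _ h.n14.symm h.n34.symm, q2, h.z1 _ h.n4 h.n14.symm h.n24.symm]; ring
  have hcase : ∀ i, d i ≠ 0 → i = X ∨ i = Y₁ ∨ i = Y₂ ∨ i = Y₃ ∨ i = Y₄ := by
    intro i hi
    by_contra hno
    rw [not_or, not_or, not_or, not_or] at hno
    obtain ⟨k0, k1, k2, k3, k4⟩ := hno
    apply hi
    rw [hd, h.z1 i k0 k1 k2, h.z2 i k0 k3 k4, p3 i k1 k3, q3 i k1 k4]; ring
  constructor
  · have e : Finset.univ.filter (fun i => d i ≠ 0) = ({X, Y₁, Y₂, Y₃, Y₄} : Finset I) := by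
      ext i
      rw [Finset.mem_filter]
      simp only [Finset.mem_univ, true_and, Finset.mem_insert, Finset.mem_singleton]
      constructor
      · exact hcase i
      · rintro (rfl | rfl | rfl | rfl | rfl)
        · rw [dX]; rcases h.hX with h1 | h1 <;> rw [h1] <;> norm_num
        · rw [d1]; rcases h.h1 with h1 | h1 <;> rw [h1] <;> norm_num
        · rw [d2]; rcases h.h2 with h1 | h1 <;> rw [h1] <;> norm_num
        · rw [d3]; rcases h.h3 with h1 | h1 <;> rw [h1] <;> norm_num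
        · rw [d4]; rcases h.h4 with h1 | h1 <;> rw [h1] <;> norm_num
    rw [e, Finset.card_insert_of_notMem, Finset.card_insert_of_notMem, Finset.card_insert_of_notMem,
      Finset.card_insert_of_notMem, Finset.card_singleton]
    · rw [Finset.mem_singleton]; exact h.n34
    · rw [Finset.mem_insert, Finset.mem_singleton, not_or]; exact ⟨h.n23, h.n24⟩
    · rw [Finset.mem_insert, Finset.mem_insert, Finset.mem_singleton, not_or, not_or]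
      exact ⟨h.n12, h.n13, h.n14⟩
    · rw [Finset.mem_insert, Finset.mem_insert, Finset.mem_insert, Finset.mem_singleton, not_or, not_or, not_or]
      exact ⟨h.n1.symm, h.n2.symm, h.n3.symm, h.n4.symm⟩
  · rw [sum_three _ h.n1.symm h.n2.symm h.n12 (fun i i1 i2 i3 => by rw [h.z1 i i1 i2 i3]; simp)] at r1
    rw [sum_three _ h.n3.symm h.n4.symm h.n34 (fun i i1 i2 i3 => by rw [h.z2 i i1 i2 i3]; simp)] at r2
    rw [sum_two _ h.n13 (fun i i1 i2 => by rw [p3 i i1 i2]; simp), p1, p2] at r3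
    rw [sum_two _ h.n14 (fun i i1 i2 => by rw [q3 i i1 i2]; simp), q1, q2] at r4
    set W := Submodule.span ℂ ({r Y₁} : Set V) with hW
    have w1 : r Y₁ ∈ W := Submodule.subset_span (by simp)
    have w3 : r Y₃ ∈ W := by
      apply mem_of_pm h.h3 (w := (a₁ Y₁ : ℂ) • r Y₁) (W.smul_mem _ w1)
      rw [← r3]; abel
    have w4 : r Y₄ ∈ W := by
      apply mem_of_pm h.h4 (w := (a₁ Y₁ : ℂ) • r Y₁) (W.smul_mem _ w1)
      rw [← r4]; abel
    have wX : r X ∈ W := by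
      have hX : a₂ X = 1 ∨ a₂ X = -1 := by rw [h.hX']; exact h.hX
      exact mem_of_pm hX (W.add_mem (W.smul_mem _ w3) (W.smul_mem _ w4)) r2
    have w2 : r Y₂ ∈ W := by
      apply mem_of_pm h.h2 (w := (a₁ X : ℂ) • r X + (a₁ Y₁ : ℂ) • r Y₁)
      · exact W.add_mem (W.smul_mem _ wX) (W.smul_mem _ w1)
      · rw [← r1]; abel
    have hle : Submodule.span ℂ (r '' S) ≤ W := by
      rw [Submodule.span_le]
      rintro _ ⟨i, hi, rfl⟩
      rcases hcase i (hS i hi) with h1 | h1 | h1 | h1 | h1 <;> rw [h1]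
      · exact wX
      · exact w1
      · exact w2
      · exact w3
      · exact w4
    have h1 : Module.Finite ℂ W := Module.Finite.span_singleton ℂ _
    refine (Submodule.finrank_mono hle).trans ?_
    rw [hW, ← Finset.coe_singleton]
    exact (finrank_span_finset_le_card _).trans (by simp)

/-- inner product of two vectors of the second type -/
theorem tb_inner (h : Two a₁ a₂ X Y₁ Y₂ Y₃ Y₄) {u v : I → ℤ} {s t s' t' : I}
    (hu : TB a₁ a₂ Y₁ Y₂ Y₃ Y₄ u s t) (hv : TB a₁ a₂ Y₁ Y₂ Y₃ Y₄ v s' t') (h1 : ∑ i, u i * v i = 1) :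
    (s = s' ∧ t ≠ t') ∨ (s ≠ s' ∧ t = t') := by
  obtain ⟨a1, a2, a3, a4, a5⟩ := hu
  obtain ⟨b1, b2, b3, b4, b5⟩ := hv
  have hst : ∀ s t : I, (s = Y₁ ∨ s = Y₂) → (t = Y₃ ∨ t = Y₄) → s ≠ t := by
    rintro s t (rfl | rfl) (rfl | rfl)
    · exact h.n13
    · exact h.n14
    · exact h.n23
    · exact h.n24
  have v1 : a₁ s * a₁ s = 1 := by
    rcases a1 with rfl | rfl
    · rcases h.h1 with h2 | h2 <;> rw [h2] <;> norm_num
    · rcases h.h2 with h2 | h2 <;> rw [h2] <;> norm_num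
  have v2 : a₂ t * a₂ t = 1 := by
    rcases a2 with rfl | rfl
    · rcases h.h3 with h2 | h2 <;> rw [h2] <;> norm_num
    · rcases h.h4 with h2 | h2 <;> rw [h2] <;> norm_num
  rw [sum_pair' (hst s t a1 a2) (fun i i1 i2 => by rw [a5 i i1 i2, zero_mul]), a3, a4] at h1
  by_cases e1 : s = s' <;> by_cases e2 : t = t'
  · exfalso
    subst e1; subst e2
    rw [b3, b4, v1, v2] at h1
    norm_num at h1
  · exact Or.inl ⟨e1, e2⟩
  · exact Or.inr ⟨e1, e2⟩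
  · exfalso
    rw [b5 s e1 (hst s t' a1 b2), b5 t (hst s' t b1 a2).symm e2] at h1
    norm_num at h1

theorem tb_pair (h : Two a₁ a₂ X Y₁ Y₂ Y₃ Y₄) {u₀ u₁ : I → ℤ} {s t s' t' : I}
    (hu : TB a₁ a₂ Y₁ Y₂ Y₃ Y₄ u₀ s t) (hv : TB a₁ a₂ Y₁ Y₂ Y₃ Y₄ u₁ s' t') (hs : s = s') (ht : t ≠ t')
    {d : I → ℤ} (hd : ∀ i, d i = a₁ i + a₂ i + 2 * (u₀ i - u₁ i))
    (r : I → V) (r1 : ∑ i, (a₁ i : ℂ) • r i = 0) (r2 : ∑ i, (a₂ i : ℂ) • r i = 0)
    (r3 : ∑ i, (u₀ i : ℂ) • r i = 0) (r4 : ∑ i, (u₁ i : ℂ) • r i = 0) {S : Set I} (hS : ∀ i ∈ S, d i ≠ 0) :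
    (Finset.univ.filter (fun i => d i ≠ 0)).card = 5 ∧ Module.finrank ℂ (Submodule.span ℂ (r '' S)) ≤ 1 := by
  subst hs
  obtain ⟨a1, a2, a3, a4, a5⟩ := hu
  obtain ⟨b1, b2, b3, b4, b5⟩ := hv
  have key : ∀ {Y₁ Y₂ Y₃ Y₄ : I}, Two a₁ a₂ X Y₁ Y₂ Y₃ Y₄ → s = Y₁ → t = Y₃ → t' = Y₄ →
      (Finset.univ.filter (fun i => d i ≠ 0)).card = 5 ∧ Module.finrank ℂ (Submodule.span ℂ (r '' S)) ≤ 1 := by
    rintro Y₁ Y₂ Y₃ Y₄ h rfl rfl rfl
    exact exc h a3 a4 a5 b3 b4 b5 hd r r1 r2 r3 r4 hS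
  rcases a1 with e1 | e1 <;> rcases a2 with e2 | e2 <;> rcases b2 with e3 | e3
  · exact absurd (e2.trans e3.symm) ht
  · exact key h e1 e2 e3
  · exact key (swap34 h) e1 e2 e3
  · exact absurd (e2.trans e3.symm) ht
  · exact absurd (e2.trans e3.symm) ht
  · exact key (swap12 h) e1 e2 e3
  · exact key (swap34 (swap12 h)) e1 e2 e3
  · exact absurd (e2.trans e3.symm) ht

omit [Fintype I] [DecidableEq I] in
theorem tb_swap {u : I → ℤ} {s t : I} (hu : TB a₁ a₂ Y₁ Y₂ Y₃ Y₄ u s t) : TB a₂ a₁ Y₃ Y₄ Y₁ Y₂ u t s := by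
  obtain ⟨a1, a2, a3, a4, a5⟩ := hu
  exact ⟨a2, a1, a4, a3, fun i i1 i2 => a5 i i2 i1⟩

/-- three elements of a two-element set -/
theorem three_of_two {a b x y z : I} (hx : x = a ∨ x = b) (hy : y = a ∨ y = b) (hz : z = a ∨ z = b)
    (h1 : x ≠ y) (h2 : x ≠ z) (h3 : y ≠ z) : False := by
  rcases hx with rfl | rfl <;> rcases hy with rfl | rfl <;> rcases hz with rfl | rfl <;>
    first | exact h1 rfl | exact h2 rfl | exact h3 rfl

/-- the main dichotomy -/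
theorem dichotomy {m : ℕ} (hm : Even m) {u : Fin m → I → ℤ}
    (h1 : ∑ i, a₁ i * a₁ i = 3) (h2 : ∑ i, a₂ i * a₂ i = 3) (h12 : ∑ i, a₁ i * a₂ i = 1)
    (hu1 : ∀ j, ∑ i, a₁ i * u j i = 1) (hu2 : ∀ j, ∑ i, a₂ i * u j i = 1)
    (huu : ∀ j k, ∑ i, u j i * u k i = if j = k then 2 else 1) {d : I → ℤ}
    (hd : ∀ i, d i = a₁ i + a₂ i + 2 * ∑ j : Fin m, (-1 : ℤ) ^ (j : ℕ) * u j i) (hodd : ∃ i, d i % 2 = 1)
    (r : I → V) (r1 : ∑ i, (a₁ i : ℂ) • r i = 0) (r2 : ∑ i, (a₂ i : ℂ) • r i = 0)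
    (ru : ∀ j, ∑ i, (u j i : ℂ) • r i = 0) {S : Set I} (hS : ∀ i ∈ S, d i ≠ 0) : Res m d r S := by
  obtain ⟨X, Y₁, Y₂, Y₃, Y₄, h⟩ := exists_two h1 h2 h12 (by
    obtain ⟨i, hi⟩ := hodd
    refine ⟨i, ?_⟩
    rw [hd i] at hi
    omega)
  have htype : ∀ j, (∃ x, TA a₁ X Y₁ Y₂ Y₃ Y₄ (u j) x) ∨ ∃ s t, TB a₁ a₂ Y₁ Y₂ Y₃ Y₄ (u j) s t := fun j =>
    type_of h (by rw [huu, if_pos rfl]) (hu1 j) (hu2 j)
  have hmix : ∀ i j x s t, TA a₁ X Y₁ Y₂ Y₃ Y₄ (u i) x → TB a₁ a₂ Y₁ Y₂ Y₃ Y₄ (u j) s t → False := by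
    intro i j x s t hA hB
    obtain ⟨c1, c2, c3, c4, c5, c6, c7, c8⟩ := hA
    obtain ⟨b1, b2, b3, b4, b5⟩ := hB
    have hsX : X ≠ s := by rcases b1 with rfl | rfl; exacts [h.n1.symm, h.n2.symm]
    have htX : X ≠ t := by rcases b2 with rfl | rfl; exacts [h.n3.symm, h.n4.symm]
    have hxs : x ≠ s := by rcases b1 with rfl | rfl; exacts [c2, c3]
    have hxt : x ≠ t := by rcases b2 with rfl | rfl; exacts [c4, c5]
    have h3 := huu i j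
    rw [sum_pair' c1.symm (fun i i1 i2 => by rw [c8 i i1 i2, zero_mul]), b5 X hsX htX, b5 x hxs hxt] at h3
    split_ifs at h3 <;> norm_num at h3
  by_cases hall : ∀ j, ∃ x, TA a₁ X Y₁ Y₂ Y₃ Y₄ (u j) x
  · left
    choose x hx using hall
    have hinj : Function.Injective x := by
      intro i j hij
      by_contra hne
      obtain ⟨c1, c2, c3, c4, c5, c6, c7, c8⟩ := hx i
      obtain ⟨b1, b2, b3, b4, b5, b6, b7, b8⟩ := hx j
      have h3 := huu i j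
      rw [sum_pair' c1.symm (fun i i1 i2 => by rw [c8 i i1 i2, zero_mul]), if_neg hne, c6, b6] at h3
      rw [hij] at h3 c7
      rcases h.hX with h4 | h4 <;> rcases c7 with h5 | h5 <;> rcases b7 with h6 | h6 <;>
        rw [h4, h5, h6] at h3 <;> norm_num at h3
    obtain ⟨e1, e2, e3, e4⟩ := main_supp h hm hx hinj hd
    refine ⟨e1, e2, e3, ?_⟩
    have hle := main_rank h hx r r1 r2 ru (S := S) (fun i hi => e4 i (hS i hi))
    classical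
    have hW : Submodule.span ℂ ({r Y₁, r Y₂, r Y₃} : Set V) =
        Submodule.span ℂ ((({r Y₁, r Y₂, r Y₃} : Finset V)) : Set V) := by
      rw [Finset.coe_insert, Finset.coe_insert, Finset.coe_singleton]
    have hfin : Module.Finite ℂ (Submodule.span ℂ ({r Y₁, r Y₂, r Y₃} : Set V)) := by
      rw [hW]
      exact Module.Finite.span_finset ℂ _
    refine (Submodule.finrank_mono hle).trans ?_
    rw [hW]
    exact (finrank_span_finset_le_card _).trans Finset.card_le_three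
  · right
    rw [not_forall] at hall
    obtain ⟨j0, hj0⟩ := hall
    obtain ⟨s0, t0, hB0⟩ := (htype j0).resolve_left hj0
    have hB : ∀ j, ∃ s t, TB a₁ a₂ Y₁ Y₂ Y₃ Y₄ (u j) s t := by
      intro j
      rcases htype j with ⟨x, hx⟩ | h3
      · exact (hmix _ _ _ _ _ hx hB0).elim
      · exact h3
    choose s t hst using hB
    have hpair : ∀ i j, i ≠ j → (s i = s j ∧ t i ≠ t j) ∨ (s i ≠ s j ∧ t i = t j) := by
      intro i j hij
      apply tb_inner h (hst i) (hst j)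
      rw [huu, if_neg hij]
    have hm2 : m = 2 := by
      by_contra hne
      have hpos : 0 < m := j0.pos
      have h4 : 4 ≤ m := by
        obtain ⟨k, hk⟩ := hm
        omega
      have p01 := hpair ⟨0, by omega⟩ ⟨1, by omega⟩ (by intro hc; simp at hc)
      have p02 := hpair ⟨0, by omega⟩ ⟨2, by omega⟩ (by intro hc; simp at hc)
      have p12 := hpair ⟨1, by omega⟩ ⟨2, by omega⟩ (by intro hc; simp at hc)
      have m0 := hst ⟨0, by omega⟩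
      have m1 := hst ⟨1, by omega⟩
      have m2 := hst ⟨2, by omega⟩
      rcases p01 with ⟨x1, x2⟩ | ⟨x1, x2⟩ <;> rcases p02 with ⟨y1, y2⟩ | ⟨y1, y2⟩ <;>
        rcases p12 with ⟨z1, z2⟩ | ⟨z1, z2⟩
      · exact three_of_two m0.2.1 m1.2.1 m2.2.1 x2 y2 z2
      · exact z1 (x1.symm.trans y1)
      · exact y1 (x1.trans z1)
      · exact x2 (y2.trans z2.symm)
      · exact x1 (y1.trans z1.symm)
      · exact y2 (x2.trans z2)
      · exact z2 (x2.symm.trans y2)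
      · exact three_of_two m0.1 m1.1 m2.1 x1 y1 z1
    subst hm2
    refine ⟨rfl, ?_⟩
    have hd' : ∀ i, d i = a₁ i + a₂ i + 2 * (u 0 i - u 1 i) := by
      intro i
      rw [hd i, Fin.sum_univ_two]
      simp only [Fin.val_zero, Fin.val_one, pow_zero, pow_one]
      ring
    have hd'' : ∀ i, d i = a₂ i + a₁ i + 2 * (u 0 i - u 1 i) := by
      intro i; rw [hd' i]; ring
    rcases hpair 0 1 (by decide) with ⟨e1, e2⟩ | ⟨e1, e2⟩
    · exact tb_pair h (hst 0) (hst 1) e1 e2 hd' r r1 r2 (ru 0) (ru 1) hS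
    · exact tb_pair (swap h) (tb_swap (hst 0)) (tb_swap (hst 1)) e2 e1 hd'' r r2 r1 (ru 0) (ru 1) hS

end H5.TBi
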