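import Cfsg.Agent.Lib.H5.TBh
import Cfsg.Agent.Lib.H5.TBi

/-!
# Blocks with dihedral defect groups
-/

set_option autoImplicit false
set_option linter.unusedSectionVars false
set_option linter.unusedVariables false

namespace H5.TBj

open Cfsg H20.Loc H20.GA H80.GA H80.GB H80.GD H80.GE H80.GF H80.GJ H80.FS H80.FS3 H84.RG H18.CharBasic H18.CharOrtho H18.CharInd H84.TrR
open H20.Blk H20.Orth H20.Ind H20.Height H20.Defect H80.BR1 H80.BR2 H19.Second H19.Second3 H81.Section H81.Contrib H84.Star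
open H5.DBa H5.DBd H5.TBa H5.TBb H5.TBe H5.TBf H5.TBg H5.TBh H5.TBi
open scoped ComplexConjugate

universe u

attribute [local instance 2000] Fintype.ofFinite

/-- local data at the central involution of a dihedral defect group -/
theorem exists_ds {D : Type u} [Group D] [Finite D] {n : ℕ} (hn : 3 ≤ n)
    (φ : D ≃* DihedralGroup (2 ^ (n - 1))) : ∃ (S : Sylow 2 D) (σ : D), DS S σ n ∧ (S : Subgroup D) = ⊤ ∧
      φ σ = DihedralGroup.r 1 := by
  have hm0 : 2 ^ (n - 1) ≠ 0 := by positivity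
  haveI : NeZero (2 ^ (n - 1)) := ⟨hm0⟩
  have hcard : Nat.card D = 2 ^ n := by
    rw [Nat.card_congr φ.toEquiv, DihedralGroup.nat_card]
    have : n = (n - 1) + 1 := by omega
    conv_rhs => rw [this, pow_succ, mul_comm]
  have hP2 : IsPGroup 2 D := IsPGroup.of_card hcard
  obtain ⟨S⟩ : Nonempty (Sylow 2 D) := inferInstance
  have hS : (S : Subgroup D) = ⊤ := by
    have h1 := S.card_eq_multiplicity
    apply Subgroup.eq_top_of_card_eq
    rw [h1, hcard, Nat.factorization_pow, Finsupp.smul_apply, Nat.Prime.factorization_self Nat.prime_two]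
    simp
  refine ⟨S, φ.symm (DihedralGroup.r 1), ?_, hS, by simp⟩
  have hmem : φ.symm (DihedralGroup.r 1) ∈ S := memP hS _
  refine DBa.mk S hn hmem ?_ ?_
  · rw [MulEquiv.orderOf_eq, DihedralGroup.orderOf_r_one]
  · exact ((MulEquiv.subgroupCongr hS).trans Subgroup.topEquiv).trans φ

section
variable {M : Ideal AlgInt} [M.IsMaximal] {G : Type u} [Group G] [Finite G]
variable [CharP (ResF M) 2] [Algebra (ZMod 2) (ResF M)] [Algebra.IsAlgebraic (ZMod 2) (ResF M)]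
  [IsAlgClosed (ResF M)]

/-- the local situation -/
structure Loc (M : Ideal AlgInt) [M.IsMaximal] [CharP (ResF M) 2] [Algebra (ZMod 2) (ResF M)]
    (B : Set (IrrCharacter G)) (n : ℕ) (z : G) (b : Set (IrrCharacter (C z)))
    (P : Subgroup (C z)) (e : MonoidAlgebra (ResF M) (C z)) (S : Sylow 2 P) (σ : P)
    (ψ : IrrCharacter (C z)) : Prop where
  hz : orderOf z = 2
  hind : IsInducedBlock M (C z) b B
  hd : blockDefect 2 b = blockDefect 2 B
  hmax : IsMax 2 ⊤ (ebar M b) P e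
  hb : IsPBlock M b
  hnil : Nilp 2 ⊤ (ebar M b)
  ds : DS S σ n
  hS : (S : Subgroup P) = ⊤
  hw : ((JJ σ n : P) : C z) = cy z
  hψ : ψ ∈ b
  h0 : blockHeight 2 b (ψ : C z → ℂ) = 0

theorem exists_loc (hM : IsPModular 2 M) {B : Set (IrrCharacter G)} (hB : IsPBlock M B) {D : Subgroup G}
    (hD : IsDefectGroup 2 M B D) {n : ℕ} (hn : 3 ≤ n) (φ : D ≃* DihedralGroup (2 ^ (n - 1))) :
    ∃ (z : G) (b : Set (IrrCharacter (C z))) (P : Subgroup (C z)) (e : MonoidAlgebra (ResF M) (C z))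
      (S : Sylow 2 P) (σ : P) (ψ : IrrCharacter (C z)), Loc M B n z b P e S σ ψ := by
  obtain ⟨S0, σ0, h0, hS0, hφ⟩ := exists_ds hn φ
  set z : G := ((JJ σ0 n : D) : G) with hz
  have hzo : orderOf z = 2 := by rw [hz, Subgroup.orderOf_coe, h0.JJ_order]
  have hzD : z ∈ D := (JJ σ0 n : D).2
  have hzc : ∀ d ∈ D, d * z = z * d := by
    intro d hd
    have := h0.JJ_central (s := (⟨d, hd⟩ : D)) (memP hS0 _)
    exact congrArg Subtype.val this
  have hDC : D ≤ C z := by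
    intro d hd
    rw [Subgroup.mem_centralizer_singleton_iff]
    exact hzc d hd
  obtain ⟨b, hb, hind, hDb, hd⟩ := exists_local hM hB hD hzD hzc
  obtain ⟨e, hmax⟩ := exists_isMax_of_isDefectGroup hM hb hDb
  let eq : D.subgroupOf (C z) ≃* D := Subgroup.subgroupOfEquivOfLe hDC
  obtain ⟨S, σ, h, hS, hφ'⟩ := exists_ds hn (eq.trans φ)
  have hσ : eq σ = σ0 := by
    apply φ.injective
    rw [hφ]; exact hφ'
  have hw : ((JJ σ n : D.subgroupOf (C z)) : C z) = cy z := by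
    apply Subtype.ext
    change (((JJ σ n : D.subgroupOf (C z)) : C z) : G) = z
    have h1 : (eq (JJ σ n) : D) = JJ σ0 n := by
      unfold JJ
      rw [map_pow, hσ]
    have h2 : ((eq (JJ σ n) : D) : G) = (((JJ σ n : D.subgroupOf (C z)) : C z) : G) := rfl
    rw [← h2, h1]
  have hnil : Nilp 2 ⊤ (ebar M b) := nilp h hS (by
    intro g
    rw [hw]
    exact cy_comm z g) hmax
  obtain ⟨ψ, hψ, hψ0⟩ := exists_height_zero hM hb
  exact ⟨z, b, _, e, S, σ, ψ, ⟨hzo, hind, hd, hmax, hb, hnil, h, hS, hw, hψ, hψ0⟩⟩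

variable {B : Set (IrrCharacter G)} {n : ℕ} {z : G} {b : Set (IrrCharacter (C z))}
    {P : Subgroup (C z)} {e : MonoidAlgebra (ResF M) (C z)} {S : Sylow 2 P} {σ : P}
    {ψ : IrrCharacter (C z)} {ζ : ℂ}

/-- good functions on the defect group -/
structure Good (z : G) (P : Subgroup (C z)) (f : P → ℂ) : Prop where
  gen : IsGeneralizedCharacter P f
  sup : Sup z P f

theorem good_diff (h : Loc M B n z b P e S σ ψ) (χ φ : Subgroup.zpowers σ →* ℂˣ) :
    Good z P (II χ - II φ) := by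
  refine ⟨isGen_sub (II_gen χ) (II_gen φ), ?_⟩
  intro y hy
  have h1 := diff_supp h.ds h.hS χ φ hy
  rw [← h.hw]
  obtain ⟨k, hk⟩ := h1
  refine ⟨k, ?_⟩
  exact congrArg Subtype.val hk

theorem exists_coeff (hM : IsPModular 2 M) (h : Loc M B n z b P e S σ ψ) {f : P → ℂ} (hf : Good z P f) :
    ∃ a : IrrCharacter G → ℤ, ∀ χ : IrrCharacter G, classInner (Th 2 P e (ψ : C z → ℂ) f) (χ : G → ℂ) = a χ := by
  have h1 := Th_gen hM h.hmax h.hnil hf.gen ψ
  choose a ha using fun χ : IrrCharacter G => inner_gen_intCast h1 (isGen_of_isIrr χ.2)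
  exact ⟨a, ha⟩

theorem sum_coeff (hM : IsPModular 2 M) (h : Loc M B n z b P e S σ ψ) {f g : P → ℂ} (hf : Good z P f)
    (hg : Good z P g) {a c : IrrCharacter G → ℤ}
    (ha : ∀ χ : IrrCharacter G, classInner (Th 2 P e (ψ : C z → ℂ) f) (χ : G → ℂ) = a χ)
    (hc : ∀ χ : IrrCharacter G, classInner (Th 2 P e (ψ : C z → ℂ) g) (χ : G → ℂ) = c χ) {k : ℤ}
    (hk : classInner f g = k) : ∑ χ, a χ * c χ = k := by
  have h1 := Th_inner hM h.hz h.hmax h.hb h.hnil h.hψ h.h0 (isClassFunction_of_isGen hf.gen)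
    (isClassFunction_of_isGen hg.gen) hf.sup hg.sup
  rw [hk, parseval (isClassFunction_of_isGen (Th_gen hM h.hmax h.hnil hf.gen ψ))] at h1
  have h2 : ((∑ χ, a χ * c χ : ℤ) : ℂ) = (k : ℂ) := by
    rw [← h1]
    push_cast
    apply Finset.sum_congr rfl
    intro χ _
    rw [ha, hc, map_intCast]
  exact_mod_cast h2

/-- relations on the regular elements -/
theorem reg_rel (hM : IsPModular 2 M) (h : Loc M B n z b P e S σ ψ) {f : P → ℂ} (hf : Good z P f)
    {a : IrrCharacter G → ℤ}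
    (ha : ∀ χ : IrrCharacter G, classInner (Th 2 P e (ψ : C z → ℂ) f) (χ : G → ℂ) = a χ) :
    ∑ χ : IrrCharacter G, (a χ : ℂ) • pRegularPart 2 (χ : G → ℂ) = 0 := by
  have h1 := mem_classFun_expand (isClassFunction_of_isGen (Th_gen hM h.hmax h.hnil hf.gen ψ))
  funext g
  rw [Finset.sum_apply]
  by_cases hg : 2 ∣ orderOf g
  · apply Finset.sum_eq_zero
    intro χ _
    rw [Pi.smul_apply, pRegularPart_eq, reg_not hg, smul_zero]
  · have h2 := Th_reg (p := 2) (P := P) (e := e) (ψ := (ψ : C z → ℂ)) hM h.hz rfl hf.sup hg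
    rw [h1, Finset.sum_apply] at h2
    rw [Pi.zero_apply, ← h2]
    apply Finset.sum_congr rfl
    intro χ _
    rw [Pi.smul_apply, Pi.smul_apply, pRegularPart_eq, reg_of hg, ha]

theorem Th_add (f g : P → ℂ) : Th 2 P e (ψ : C z → ℂ) (f + g) = Th 2 P e (ψ : C z → ℂ) f + Th 2 P e (ψ : C z → ℂ) g := by
  unfold Th
  rw [FF_add, indFun_add]

theorem Th_smul (a : ℂ) (g : P → ℂ) : Th 2 P e (ψ : C z → ℂ) (a • g) = a • Th 2 P e (ψ : C z → ℂ) g := by
  unfold Th
  rw [FF_smul, indFun_smul]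

theorem Th_sum {ι : Type*} (s : Finset ι) (f : ι → P → ℂ) :
    Th 2 P e (ψ : C z → ℂ) (∑ i ∈ s, f i) = ∑ i ∈ s, Th 2 P e (ψ : C z → ℂ) (f i) := by
  unfold Th
  rw [FF_sum, indFun_sum]

theorem fz_eq (h : Loc M B n z b P e S σ ψ) (hζ : IsPrimitiveRoot ζ (2 ^ (n - 1))) :
    fz (JJ σ n) = va h.ds hζ + vb h.ds hζ + (2 : ℂ) • ∑ j : Fin (2 ^ (n - 2) - 2), ((-1 : ℂ) ^ (j : ℕ)) • vc h.ds hζ j := by
  classical
  funext y
  have h1 := indicator h.ds hζ h.hS y
  unfold fz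
  rw [Pi.add_apply, Pi.add_apply, Pi.smul_apply, Finset.sum_apply, smul_eq_mul]
  simp only [Pi.smul_apply, smul_eq_mul]
  rw [h1]

/-- the main theorem on the column of the central involution -/
theorem main (hM : IsPModular 2 M) (h : Loc M B n z b P e S σ ψ) :
    ∃ d : IrrCharacter G → ℤ, (∀ χ, χ ∉ B → d χ = 0) ∧
      (∀ χ ∈ B, (2 : ℤ) ^ blockHeight 2 B (χ : G → ℂ) ∣ d χ ∧ ¬ (2 : ℤ) ^ (blockHeight 2 B (χ : G → ℂ) + 1) ∣ d χ) ∧
      Res (2 ^ (n - 2) - 2) d (fun χ : IrrCharacter G => pRegularPart 2 (χ : G → ℂ)) B := by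
  classical
  have hζ := Complex.isPrimitiveRoot_exp (2 ^ (n - 1)) (by positivity)
  set ζ := Complex.exp (2 * Real.pi * Complex.I / ((2 ^ (n - 1) : ℕ) : ℂ)) with hζd
  have ga : Good z P (va h.ds hζ) := good_diff h _ _
  have gb : Good z P (vb h.ds hζ) := good_diff h _ _
  have gc : ∀ j, Good z P (vc h.ds hζ j) := fun j => good_diff h _ _
  obtain ⟨a₁, ha₁⟩ := exists_coeff hM h ga
  obtain ⟨a₂, ha₂⟩ := exists_coeff hM h gb
  choose u hu using fun j => exists_coeff hM h (gc j)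
  set d : IrrCharacter G → ℤ := fun χ => a₁ χ + a₂ χ + 2 * ∑ j : Fin (2 ^ (n - 2) - 2), (-1 : ℤ) ^ (j : ℕ) * u j χ
    with hd
  have hdχ : ∀ χ : IrrCharacter G, classInner (Th 2 P e (ψ : C z → ℂ) (fz (JJ σ n))) (χ : G → ℂ) = (d χ : ℂ) := by
    intro χ
    rw [fz_eq h hζ, Th_add, Th_add, Th_smul, Th_sum, H18.CharOrtho.inner_add_left, H18.CharOrtho.inner_add_left,
      H18.CharOrtho.inner_smul_left, inner_sum_left, ha₁, ha₂]
    have h1 : ∀ j : Fin (2 ^ (n - 2) - 2), classInner (Th 2 P e (ψ : C z → ℂ) (((-1 : ℂ) ^ (j : ℕ)) • vc h.ds hζ j))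
        (χ : G → ℂ) = (-1 : ℂ) ^ (j : ℕ) * (u j χ : ℂ) := by
      intro j
      rw [Th_smul, H18.CharOrtho.inner_smul_left, hu]
    rw [Finset.sum_congr rfl fun j _ => h1 j, hd]
    push_cast
    ring
  have hzp : ∃ k : ℕ, orderOf z = 2 ^ k := ⟨1, by rw [h.hz, pow_one]⟩
  have hco : ∀ χ : IrrCharacter G, _ := fun χ =>
    coeff hM h.hz hzp h.hind h.hd h.hmax h.hb h.hnil h.hψ h.h0 (JJ σ n) h.hw χ (hdχ χ)
  refine ⟨d, fun χ => (hco χ).1, fun χ => (hco χ).2, ?_⟩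
  have hodd : ∃ χ, d χ % 2 = 1 := by
    obtain ⟨χ, hχ, h0⟩ := exists_height_zero hM h.hind.2.1
    have h1 := ((hco χ).2 hχ).2
    rw [h0, zero_add, pow_one] at h1
    exact ⟨χ, by omega⟩
  have hne : ∀ χ ∈ B, d χ ≠ 0 := by
    intro χ hχ h0
    apply ((hco χ).2 hχ).2
    rw [h0]; exact dvd_zero _
  apply dichotomy (m_even h.ds) (u := u) (a₁ := a₁) (a₂ := a₂)
  · exact sum_coeff hM h ga ga ha₁ ha₁ (by rw [n_aa h.ds hζ h.hS]; norm_num)
  · exact sum_coeff hM h gb gb ha₂ ha₂ (by rw [n_bb h.ds hζ h.hS]; norm_num)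
  · exact sum_coeff hM h ga gb ha₁ ha₂ (by rw [n_ab h.ds hζ h.hS]; norm_num)
  · intro j
    exact sum_coeff hM h ga (gc j) ha₁ (hu j) (by rw [n_ac h.ds hζ h.hS]; norm_num)
  · intro j
    exact sum_coeff hM h gb (gc j) ha₂ (hu j) (by rw [n_bc h.ds hζ h.hS]; norm_num)
  · intro j k
    exact sum_coeff hM h (gc j) (gc k) (hu j) (hu k) (by rw [n_cc h.ds hζ h.hS]; split_ifs <;> norm_num)
  · intro χ; rfl
  · exact hodd
  · exact reg_rel hM h ga ha₁
  · exact reg_rel hM h gb ha₂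
  · intro j; exact reg_rel hM h (gc j) (hu j)
  · exact hne

end

end H5.TBj
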