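import Cfsg.Agent.Lib.H77.OverInv
import Cfsg.Agent.Lib.H77.SubChar
import Cfsg.Agent.Lib.H83.Gallagher
import Cfsg.Agent.Lib.H78.BlkCount
import Cfsg.Agent.S0886

/-!
# Characters over an invariant character, restricted to cosets
-/

set_option autoImplicit false
set_option linter.unusedSectionVars false
set_option linter.unusedVariables false

namespace H5.TCc

open Cfsg H18.CharBasic H18.CharOrtho H18.CharInd H18.CharQuot H31.Clifford
open scoped ComplexConjugate

universe u

section ext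
variable {H : Type u} [Group H] [Fintype H] (N : Subgroup H) [hN : N.Normal] [Fintype N]

theorem ext_prop {η : H → ℂ} (hη : IsIrrCharacter H η)
    (hηN : IsIrrCharacter N (fun n : N => η n)) {Ψ : H → ℂ} (hΨ : IsCharacter H Ψ) {e : ℂ}
    (hΨN : ∀ n : N, Ψ n = e * η n) (x : H) : ∃ c : ℂ, ∀ n : N, Ψ (x * n) = c * η (x * n) := by
  classical
  letI := Fintype.ofFinite (IrrCharacter H)
  have key : ∀ ψ : IrrCharacter H, ∃ c : ℂ, ∀ n : N, classInner Ψ (ψ : H → ℂ) * (ψ : H → ℂ) (x * n) = c * η (x * n) := by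
    intro ψ
    by_cases hψ : classInner Ψ (ψ : H → ℂ) = 0
    · exact ⟨0, fun n => by rw [hψ, zero_mul, zero_mul]⟩
    · have hψN : classInner (fun n : N => (ψ : H → ℂ) n) (fun n : N => η n) ≠ 0 := by
        have hr : IsCharacter N (fun n : N => (ψ : H → ℂ) n) :=
          isCharacter_restrict N (isCharacter_of_isIrr ψ.2)
        obtain ⟨φ, hφ, hne⟩ := exists_irr_inner_ne_zero (isClassFunction_of_isCharacter hr)
          (fun h => irr_one_ne_zero ψ.2 (congrFun h 1))
        have h1 := H77.SubChar.restrict_trans (MonoidHom.id H) N.subtype hΨ ψ.2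
          (isCharacter_of_isIrr hφ) hψ hne
        have h2 : (fun b : N => Ψ ((MonoidHom.id H) (N.subtype b))) = e • fun n : N => η n :=
          funext fun b => hΨN b
        rw [h2, H18.CharOrtho.inner_smul_left] at h1
        have h3 : (fun n : N => η n) = φ := by
          by_contra hcon
          exact h1 (by rw [inner_irr_ne hηN hφ hcon, mul_zero])
        rw [h3]; exact hne
      obtain ⟨β, hβ, hβN, hψβ⟩ := H83.Gallagher.exists_eq_mul hη N hηN ψ.2 hψN
      refine ⟨classInner Ψ (ψ : H → ℂ) * β x, fun n => ?_⟩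
      rw [congrFun hψβ (x * n)]
      rw [char_mul_right (isCharacter_of_isIrr hβ) (hβN n n.2) x, mul_assoc]
  choose c hc using key
  refine ⟨∑ ψ, c ψ, fun n => ?_⟩
  have h1 := congrFun (mem_classFun_expand (isClassFunction_of_isCharacter hΨ)) (x * n)
  rw [Finset.sum_apply] at h1
  rw [h1, Finset.sum_mul]
  exact Finset.sum_congr rfl fun ψ _ => hc ψ n

end ext

section main
variable {G : Type u} [Group G] [Fintype G] (N : Subgroup G) [hN : N.Normal] [Fintype N]

/-- characters over an invariant character are proportional on each coset -/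
theorem coset_prop (θ : IrrCharacter N)
    (hinv : ∀ (g : G) (n : N), (θ : N → ℂ) ⟨g * n * g⁻¹, hN.conj_mem n n.2 g⟩ = (θ : N → ℂ) n) (x : G) :
    ∃ F : N → ℂ, ∀ χ : IrrCharacter G, classInner (fun n : N => (χ : G → ℂ) n) (θ : N → ℂ) ≠ 0 →
      ∃ c : ℂ, ∀ n : N, (χ : G → ℂ) (x * n) = c * F n := by
  classical
  set H : Subgroup G := N ⊔ Subgroup.zpowers x with hH
  have hNH : N ≤ H := le_sup_left
  have hxH : x ∈ H := (le_sup_right : Subgroup.zpowers x ≤ H) (Subgroup.mem_zpowers x)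
  set NH : Subgroup H := N.subgroupOf H with hNHdef
  letI := Fintype.ofFinite H
  letI := Fintype.ofFinite NH
  have hgenH : ∀ r : H ⧸ NH, r ∈ Subgroup.zpowers ((⟨x, hxH⟩ : H) : H ⧸ NH) := by
    intro r
    obtain ⟨h, rfl⟩ := QuotientGroup.mk_surjective r
    obtain ⟨n, hn, z, hz, he⟩ := Subgroup.mem_sup_of_normal_left.1 h.2
    obtain ⟨k, rfl⟩ := Subgroup.mem_zpowers_iff.1 hz
    refine Subgroup.mem_zpowers_iff.2 ⟨k, ?_⟩
    rw [← QuotientGroup.mk_zpow, QuotientGroup.eq, Subgroup.mem_subgroupOf]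
    push_cast
    rw [← he]
    have := hN.conj_mem n hn (x ^ k)⁻¹
    rw [inv_inv, mul_assoc] at this
    exact this
  have hcycH : IsCyclic (H ⧸ NH) := ⟨_, hgenH⟩
  let θH : NH → ℂ := fun n => (θ : N → ℂ) ⟨(n : H), n.2⟩
  have hθH : IsIrrCharacter NH θH :=
    (isIrrCharacter_mulEquiv (Subgroup.subgroupOfEquivOfLe hNH)).1 θ.2
  obtain ⟨η, hη, hηN⟩ := Cfsg.Agent.S0886.result NH hcycH θH hθH (fun h n => hinv h ⟨((n : H) : G), n.2⟩)
  have hηN' : (fun n : NH => η n) = θH := funext hηN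
  refine ⟨fun n => η ⟨x * n, H.mul_mem hxH (hNH n.2)⟩, fun χ hχ => ?_⟩
  have hin : inertia N (θ : N → ℂ) = ⊤ := by
    rw [eq_top_iff]
    intro g _
    rw [mem_inertia]
    funext n
    exact hinv g n
  have hr := H77.OverInv.restrict_of_inv N χ.2 θ.2 hin hχ
  set e := classInner (fun n : N => (χ : G → ℂ) n) (θ : N → ℂ) with he
  obtain ⟨c, hc⟩ := ext_prop NH hη (by rw [hηN']; exact hθH)
    (isCharacter_restrict H (isCharacter_of_isIrr χ.2)) (e := e) (fun n => by
      rw [hηN n]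
      exact congrFun hr ⟨(n : H), n.2⟩) ⟨x, hxH⟩
  exact ⟨c, fun n => hc ⟨⟨n, hNH n.2⟩, n.2⟩⟩

end main

end H5.TCc
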