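import Cfsg.Agent.Lib.H5.TBi

/-!
# Combinatorics of the vectors of dihedral type: structure and perpendicular vectors
-/

set_option autoImplicit false
set_option linter.unusedSectionVars false

namespace H5.TDa

open H5.TBc H5.TBd H5.TBi

variable {I : Type*} [Fintype I] [DecidableEq I]
variable {a₁ a₂ : I → ℤ} {X Y₁ Y₂ Y₃ Y₄ : I} {m : ℕ} {u : Fin m → I → ℤ} {x : Fin m → I}

/-- the structure of the vectors -/
structure Str (m : ℕ) (a₁ a₂ : I → ℤ) (u : Fin m → I → ℤ) (X Y₁ Y₂ Y₃ Y₄ : I) (x : Fin m → I) : Prop where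
  two : Two a₁ a₂ X Y₁ Y₂ Y₃ Y₄
  ta : ∀ j, TA a₁ X Y₁ Y₂ Y₃ Y₄ (u j) (x j)
  inj : Function.Injective x

/-- the list of the special indices -/
def InL {m : ℕ} (X Y₁ Y₂ Y₃ Y₄ : I) (x : Fin m → I) (i : I) : Prop :=
  i = X ∨ i = Y₁ ∨ i = Y₂ ∨ i = Y₃ ∨ i = Y₄ ∨ ∃ j, i = x j

instance {m : ℕ} (X Y₁ Y₂ Y₃ Y₄ : I) (x : Fin m → I) (i : I) : Decidable (InL X Y₁ Y₂ Y₃ Y₄ x i) := by
  unfold InL; infer_instance

/-- enumeration of the list -/
def lst {m : ℕ} (X Y₁ Y₂ Y₃ Y₄ : I) (x : Fin m → I) : Option (Option (Option (Option (Option (Fin m))))) → I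
  | none => X
  | some none => Y₁
  | some (some none) => Y₂
  | some (some (some none)) => Y₃
  | some (some (some (some none))) => Y₄
  | some (some (some (some (some j)))) => x j

theorem lst_inj (h : Str m a₁ a₂ u X Y₁ Y₂ Y₃ Y₄ x) : Function.Injective (lst X Y₁ Y₂ Y₃ Y₄ x) := by
  have t := h.two
  have e0 : ∀ j, x j ≠ X := fun j => (h.ta j).1
  have e1 : ∀ j, x j ≠ Y₁ := fun j => (h.ta j).2.1
  have e2 : ∀ j, x j ≠ Y₂ := fun j => (h.ta j).2.2.1
  have e3 : ∀ j, x j ≠ Y₃ := fun j => (h.ta j).2.2.2.1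
  have e4 : ∀ j, x j ≠ Y₄ := fun j => (h.ta j).2.2.2.2.1
  intro i j hij
  match i, j, hij with
  | none, none, _ => rfl
  | none, some none, hij => exact absurd hij.symm t.n1
  | none, some (some none), hij => exact absurd hij.symm t.n2
  | none, some (some (some none)), hij => exact absurd hij.symm t.n3
  | none, some (some (some (some none))), hij => exact absurd hij.symm t.n4
  | none, some (some (some (some (some j)))), hij => exact absurd hij.symm (e0 j)
  | some none, none, hij => exact absurd hij t.n1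
  | some none, some none, _ => rfl
  | some none, some (some none), hij => exact absurd hij t.n12
  | some none, some (some (some none)), hij => exact absurd hij t.n13
  | some none, some (some (some (some none))), hij => exact absurd hij t.n14
  | some none, some (some (some (some (some j)))), hij => exact absurd hij.symm (e1 j)
  | some (some none), none, hij => exact absurd hij t.n2
  | some (some none), some none, hij => exact absurd hij.symm t.n12
  | some (some none), some (some none), _ => rfl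
  | some (some none), some (some (some none)), hij => exact absurd hij t.n23
  | some (some none), some (some (some (some none))), hij => exact absurd hij t.n24
  | some (some none), some (some (some (some (some j)))), hij => exact absurd hij.symm (e2 j)
  | some (some (some none)), none, hij => exact absurd hij t.n3
  | some (some (some none)), some none, hij => exact absurd hij.symm t.n13
  | some (some (some none)), some (some none), hij => exact absurd hij.symm t.n23
  | some (some (some none)), some (some (some none)), _ => rfl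
  | some (some (some none)), some (some (some (some none))), hij => exact absurd hij t.n34
  | some (some (some none)), some (some (some (some (some j)))), hij => exact absurd hij.symm (e3 j)
  | some (some (some (some none))), none, hij => exact absurd hij t.n4
  | some (some (some (some none))), some none, hij => exact absurd hij.symm t.n14
  | some (some (some (some none))), some (some none), hij => exact absurd hij.symm t.n24
  | some (some (some (some none))), some (some (some none)), hij => exact absurd hij.symm t.n34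
  | some (some (some (some none))), some (some (some (some none))), _ => rfl
  | some (some (some (some none))), some (some (some (some (some j)))), hij => exact absurd hij.symm (e4 j)
  | some (some (some (some (some i)))), none, hij => exact absurd hij (e0 i)
  | some (some (some (some (some i)))), some none, hij => exact absurd hij (e1 i)
  | some (some (some (some (some i)))), some (some none), hij => exact absurd hij (e2 i)
  | some (some (some (some (some i)))), some (some (some none)), hij => exact absurd hij (e3 i)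
  | some (some (some (some (some i)))), some (some (some (some none))), hij => exact absurd hij (e4 i)
  | some (some (some (some (some i)))), some (some (some (some (some j)))), hij =>
    have : i = j := h.inj hij
    rw [this]

theorem mem_lst {i : I} : InL X Y₁ Y₂ Y₃ Y₄ x i ↔ i ∈ Finset.univ.image (lst X Y₁ Y₂ Y₃ Y₄ x) := by
  rw [Finset.mem_image]
  constructor
  · rintro (h | h | h | h | h | ⟨j, h⟩)
    · exact ⟨none, Finset.mem_univ _, h.symm⟩
    · exact ⟨some none, Finset.mem_univ _, h.symm⟩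
    · exact ⟨some (some none), Finset.mem_univ _, h.symm⟩
    · exact ⟨some (some (some none)), Finset.mem_univ _, h.symm⟩
    · exact ⟨some (some (some (some none))), Finset.mem_univ _, h.symm⟩
    · exact ⟨some (some (some (some (some j)))), Finset.mem_univ _, h.symm⟩
  · rintro ⟨k, -, h⟩
    match k, h with
    | none, h => exact Or.inl h.symm
    | some none, h => exact Or.inr (Or.inl h.symm)
    | some (some none), h => exact Or.inr (Or.inr (Or.inl h.symm))
    | some (some (some none)), h => exact Or.inr (Or.inr (Or.inr (Or.inl h.symm)))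
    | some (some (some (some none))), h => exact Or.inr (Or.inr (Or.inr (Or.inr (Or.inl h.symm))))
    | some (some (some (some (some j)))), h => exact Or.inr (Or.inr (Or.inr (Or.inr (Or.inr ⟨j, h.symm⟩))))

theorem card_L (h : Str m a₁ a₂ u X Y₁ Y₂ Y₃ Y₄ x) :
    (Finset.univ.filter (fun i => InL X Y₁ Y₂ Y₃ Y₄ x i)).card = m + 5 := by
  have e : Finset.univ.filter (fun i => InL X Y₁ Y₂ Y₃ Y₄ x i) = Finset.univ.image (lst X Y₁ Y₂ Y₃ Y₄ x) := by
    ext i
    rw [Finset.mem_filter, mem_lst]
    simp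
  rw [e, Finset.card_image_of_injective _ (lst_inj h), Finset.card_univ]
  simp only [Fintype.card_option, Fintype.card_fin]

theorem sum_split (h : Str m a₁ a₂ u X Y₁ Y₂ Y₃ Y₄ x) {A : Type*} [AddCommMonoid A] (g : I → A) :
    ∑ i, g i = (g X + (g Y₁ + (g Y₂ + (g Y₃ + (g Y₄ + ∑ j, g (x j)))))) +
      ∑ i ∈ Finset.univ.filter (fun i => ¬ InL X Y₁ Y₂ Y₃ Y₄ x i), g i := by
  rw [← Finset.sum_filter_add_sum_filter_not Finset.univ (fun i => InL X Y₁ Y₂ Y₃ Y₄ x i)]
  congr 1
  have e : Finset.univ.filter (fun i => InL X Y₁ Y₂ Y₃ Y₄ x i) = Finset.univ.image (lst X Y₁ Y₂ Y₃ Y₄ x) := by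
    ext i
    rw [Finset.mem_filter, mem_lst]
    simp
  rw [e, Finset.sum_image (fun a _ b _ hab => lst_inj h hab)]
  rw [Fintype.sum_option, Fintype.sum_option, Fintype.sum_option, Fintype.sum_option, Fintype.sum_option]
  rfl

theorem sum_lst (h : Str m a₁ a₂ u X Y₁ Y₂ Y₃ Y₄ x) {A : Type*} [AddCommMonoid A] (g : I → A)
    (hg : ∀ i, ¬ InL X Y₁ Y₂ Y₃ Y₄ x i → g i = 0) :
    ∑ i, g i = g X + (g Y₁ + (g Y₂ + (g Y₃ + (g Y₄ + ∑ j, g (x j))))) := by
  have e : ∑ i ∈ Finset.univ.filter (fun i => ¬ InL X Y₁ Y₂ Y₃ Y₄ x i), g i = 0 :=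
    Finset.sum_eq_zero fun i hi => hg i (Finset.mem_filter.1 hi).2
  rw [sum_split h, e, add_zero]

theorem sum3 {s t w : I} (f : I → ℤ) (h1 : s ≠ t) (h2 : s ≠ w) (h3 : t ≠ w)
    (h : ∀ i, i ≠ s → i ≠ t → i ≠ w → f i = 0) : ∑ i, f i = f s + f t + f w := by
  have e : ∑ i, f i = ∑ i ∈ ({s, t, w} : Finset I), f i := by
    symm
    apply Finset.sum_subset (Finset.subset_univ _)
    intro i _ hi
    simp only [Finset.mem_insert, Finset.mem_singleton, not_or] at hi
    exact h i hi.1 hi.2.1 hi.2.2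
  rw [e, Finset.sum_insert, Finset.sum_pair h3]
  · ring
  rw [Finset.mem_insert, Finset.mem_singleton, not_or]
  exact ⟨h1, h2⟩

/-- perpendicular vectors -/
structure Perp (a₁ a₂ : I → ℤ) (u : Fin m → I → ℤ) (s : I → ℤ) : Prop where
  p1 : ∑ i, a₁ i * s i = 0
  p2 : ∑ i, a₂ i * s i = 0
  pu : ∀ j, ∑ i, u j i * s i = 0

/-- the relations of a perpendicular vector -/
structure Rel (a₁ a₂ : I → ℤ) (u : Fin m → I → ℤ) (X Y₁ Y₂ Y₃ Y₄ : I) (x : Fin m → I) (s : I → ℤ) : Prop where
  r1 : a₁ X * s X + a₁ Y₁ * s Y₁ + a₁ Y₂ * s Y₂ = 0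
  r2 : a₁ X * s X + a₂ Y₃ * s Y₃ + a₂ Y₄ * s Y₄ = 0
  ru : ∀ j, u j (x j) * s (x j) = - (a₁ X * s X)

theorem rel (h : Str m a₁ a₂ u X Y₁ Y₂ Y₃ Y₄ x) {s : I → ℤ} (hs : Perp a₁ a₂ u s) :
    Rel a₁ a₂ u X Y₁ Y₂ Y₃ Y₄ x s := by
  have t := h.two
  refine ⟨?_, ?_, ?_⟩
  · have h1 := hs.p1
    rwa [sum3 _ t.n1.symm t.n2.symm t.n12 (fun i i1 i2 i3 => by rw [t.z1 i i1 i2 i3, zero_mul])] at h1
  · have h1 := hs.p2
    rwa [sum3 _ t.n3.symm t.n4.symm t.n34 (fun i i1 i2 i3 => by rw [t.z2 i i1 i2 i3, zero_mul]), t.hX'] at h1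
  · intro j
    obtain ⟨c1, -, -, -, -, c6, -, c8⟩ := h.ta j
    have h1 := hs.pu j
    rw [sum_pair' c1.symm (fun i i1 i2 => by rw [c8 i i1 i2, zero_mul]), c6] at h1
    linarith

theorem sgn_sq {a : ℤ} (h : a = 1 ∨ a = -1) : a * a = 1 := by
  rcases h with rfl | rfl <;> norm_num

/-- products at the other characters of positive height -/
theorem mul_x (h : Str m a₁ a₂ u X Y₁ Y₂ Y₃ Y₄ x) {s t : I → ℤ} (hs : Rel a₁ a₂ u X Y₁ Y₂ Y₃ Y₄ x s)
    (ht : Rel a₁ a₂ u X Y₁ Y₂ Y₃ Y₄ x t) (j : Fin m) : s (x j) * t (x j) = s X * t X := by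
  obtain ⟨-, -, -, -, -, -, c7, -⟩ := h.ta j
  have e1 := hs.ru j
  have e2 := ht.ru j
  have e3 := sgn_sq c7
  have e4 := sgn_sq h.two.hX
  have e5 : (u j (x j) * u j (x j)) * (s (x j) * t (x j)) = (a₁ X * a₁ X) * (s X * t X) := by
    calc (u j (x j) * u j (x j)) * (s (x j) * t (x j)) = (u j (x j) * s (x j)) * (u j (x j) * t (x j)) := by ring
      _ = (a₁ X * a₁ X) * (s X * t X) := by rw [e1, e2]; ring
  rwa [e3, e4, one_mul, one_mul] at e5

theorem inner_eq (h : Str m a₁ a₂ u X Y₁ Y₂ Y₃ Y₄ x) {s t : I → ℤ} (hs : Rel a₁ a₂ u X Y₁ Y₂ Y₃ Y₄ x s)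
    (ht : Rel a₁ a₂ u X Y₁ Y₂ Y₃ Y₄ x t) : ∑ i, s i * t i = ((m : ℤ) + 1) * (s X * t X) +
      (s Y₁ * t Y₁ + s Y₂ * t Y₂ + s Y₃ * t Y₃ + s Y₄ * t Y₄) +
      ∑ i ∈ Finset.univ.filter (fun i => ¬ InL X Y₁ Y₂ Y₃ Y₄ x i), s i * t i := by
  rw [sum_split h, Finset.sum_congr rfl fun j _ => mul_x h hs ht j, Finset.sum_const, Finset.card_univ,
    Fintype.card_fin, nsmul_eq_mul]
  ring

end H5.TDa
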