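import Cfsg.Agent.Lib.H5.TDa

/-!
# The dichotomy with the full structure
-/

set_option autoImplicit false
set_option linter.unusedSectionVars false

namespace H5.TDb

open H5.TBc H5.TBd H5.TBi H5.TDa

variable {I : Type*} [Fintype I] [DecidableEq I]
variable {a₁ a₂ : I → ℤ} {X Y₁ Y₂ Y₃ Y₄ : I} {m : ℕ} {u : Fin m → I → ℤ} {x : Fin m → I}

/-- the exceptional situation: a coordinate where perpendicular vectors are small -/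
def Small (a₁ a₂ u₀ u₁ d : I → ℤ) : Prop := ∃ y, d y % 2 = 1 ∧ ∀ s : I → ℤ, ∑ i, a₁ i * s i = 0 →
  ∑ i, a₂ i * s i = 0 → ∑ i, u₀ i * s i = 0 → ∑ i, u₁ i * s i = 0 → 16 * (s y * s y) ≤ ∑ i, s i * s i

theorem exc2 (h : Two a₁ a₂ X Y₁ Y₂ Y₃ Y₄) {u₀ u₁ : I → ℤ} (p1 : u₀ Y₁ = a₁ Y₁) (p2 : u₀ Y₃ = a₂ Y₃)
    (p3 : ∀ i, i ≠ Y₁ → i ≠ Y₃ → u₀ i = 0) (q1 : u₁ Y₁ = a₁ Y₁) (q2 : u₁ Y₄ = a₂ Y₄)
    (q3 : ∀ i, i ≠ Y₁ → i ≠ Y₄ → u₁ i = 0) {d : I → ℤ} (hd : ∀ i, d i = a₁ i + a₂ i + 2 * (u₀ i - u₁ i)) :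
    Small a₁ a₂ u₀ u₁ d := by
  refine ⟨Y₁, ?_, ?_⟩
  · have d1 : d Y₁ = a₁ Y₁ := by
      rw [hd, p1, q1, h.z2 _ h.n1 h.n13 h.n14]; ring
    rw [d1]
    rcases h.h1 with h1 | h1 <;> rw [h1] <;> norm_num
  · intro s h1 h2 h3 h4
    rw [sum3 _ h.n1.symm h.n2.symm h.n12 (fun i i1 i2 i3 => by rw [h.z1 i i1 i2 i3, zero_mul])] at h1
    rw [sum3 _ h.n3.symm h.n4.symm h.n34 (fun i i1 i2 i3 => by rw [h.z2 i i1 i2 i3, zero_mul])] at h2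
    rw [sum_pair' h.n13 (fun i i1 i2 => by rw [p3 i i1 i2, zero_mul]), p1, p2] at h3
    rw [sum_pair' h.n14 (fun i i1 i2 => by rw [q3 i i1 i2, zero_mul]), q1, q2] at h4
    rw [h.hX'] at h2
    have s0 := sgn_sq h.hX
    have s1 := sgn_sq h.h1
    have s2 := sgn_sq h.h2
    have s3 := sgn_sq h.h3
    have s4 := sgn_sq h.h4
    have e3 : s Y₃ * s Y₃ = s Y₁ * s Y₁ := by
      have : a₂ Y₃ * s Y₃ = - (a₁ Y₁ * s Y₁) := by linarith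
      calc s Y₃ * s Y₃ = (a₂ Y₃ * s Y₃) * (a₂ Y₃ * s Y₃) := by linear_combination -(s Y₃ * s Y₃) * s3
        _ = (a₁ Y₁ * s Y₁) * (a₁ Y₁ * s Y₁) := by rw [this]; ring
        _ = s Y₁ * s Y₁ := by linear_combination (s Y₁ * s Y₁) * s1
    have e4 : s Y₄ * s Y₄ = s Y₁ * s Y₁ := by
      have : a₂ Y₄ * s Y₄ = - (a₁ Y₁ * s Y₁) := by linarith
      calc s Y₄ * s Y₄ = (a₂ Y₄ * s Y₄) * (a₂ Y₄ * s Y₄) := by linear_combination -(s Y₄ * s Y₄) * s4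
        _ = (a₁ Y₁ * s Y₁) * (a₁ Y₁ * s Y₁) := by rw [this]; ring
        _ = s Y₁ * s Y₁ := by linear_combination (s Y₁ * s Y₁) * s1
    have e0 : s X * s X = 4 * (s Y₁ * s Y₁) := by
      have : a₁ X * s X = 2 * (a₁ Y₁ * s Y₁) := by linarith
      calc s X * s X = (a₁ X * s X) * (a₁ X * s X) := by linear_combination -(s X * s X) * s0
        _ = 4 * ((a₁ Y₁ * s Y₁) * (a₁ Y₁ * s Y₁)) := by rw [this]; ring
        _ = 4 * (s Y₁ * s Y₁) := by linear_combination 4 * (s Y₁ * s Y₁) * s1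
    have e2 : s Y₂ * s Y₂ = 9 * (s Y₁ * s Y₁) := by
      have : a₁ Y₂ * s Y₂ = -3 * (a₁ Y₁ * s Y₁) := by linarith
      calc s Y₂ * s Y₂ = (a₁ Y₂ * s Y₂) * (a₁ Y₂ * s Y₂) := by linear_combination -(s Y₂ * s Y₂) * s2
        _ = 9 * ((a₁ Y₁ * s Y₁) * (a₁ Y₁ * s Y₁)) := by rw [this]; ring
        _ = 9 * (s Y₁ * s Y₁) := by linear_combination 9 * (s Y₁ * s Y₁) * s1
    have hle : ∑ i ∈ ({X, Y₁, Y₂, Y₃, Y₄} : Finset I), s i * s i ≤ ∑ i, s i * s i :=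
      Finset.sum_le_sum_of_subset_of_nonneg (Finset.subset_univ _) (fun i _ _ => mul_self_nonneg _)
    rw [Finset.sum_insert, Finset.sum_insert, Finset.sum_insert, Finset.sum_pair h.n34, e0, e2, e3, e4] at hle
    · linarith
    · rw [Finset.mem_insert, Finset.mem_singleton, not_or]; exact ⟨h.n23, h.n24⟩
    · rw [Finset.mem_insert, Finset.mem_insert, Finset.mem_singleton, not_or, not_or]
      exact ⟨h.n12, h.n13, h.n14⟩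
    · rw [Finset.mem_insert, Finset.mem_insert, Finset.mem_insert, Finset.mem_singleton, not_or, not_or, not_or]
      exact ⟨h.n1.symm, h.n2.symm, h.n3.symm, h.n4.symm⟩

theorem small_swap {u₀ u₁ d : I → ℤ} (h : Small a₂ a₁ u₀ u₁ d) : Small a₁ a₂ u₀ u₁ d := by
  obtain ⟨y, h1, h2⟩ := h
  exact ⟨y, h1, fun s s1 s2 s3 s4 => h2 s s2 s1 s3 s4⟩

theorem tb_pair2 (h : Two a₁ a₂ X Y₁ Y₂ Y₃ Y₄) {u₀ u₁ : I → ℤ} {s t s' t' : I}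
    (hu : TB a₁ a₂ Y₁ Y₂ Y₃ Y₄ u₀ s t) (hv : TB a₁ a₂ Y₁ Y₂ Y₃ Y₄ u₁ s' t') (hs : s = s') (ht : t ≠ t')
    {d : I → ℤ} (hd : ∀ i, d i = a₁ i + a₂ i + 2 * (u₀ i - u₁ i)) : Small a₁ a₂ u₀ u₁ d := by
  subst hs
  obtain ⟨a1, a2, a3, a4, a5⟩ := hu
  obtain ⟨b1, b2, b3, b4, b5⟩ := hv
  have key : ∀ {Y₁ Y₂ Y₃ Y₄ : I}, Two a₁ a₂ X Y₁ Y₂ Y₃ Y₄ → s = Y₁ → t = Y₃ → t' = Y₄ →
      Small a₁ a₂ u₀ u₁ d := by
    rintro Y₁ Y₂ Y₃ Y₄ h rfl rfl rfl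
    exact exc2 h a3 a4 a5 b3 b4 b5 hd
  rcases a1 with e1 | e1 <;> rcases a2 with e2 | e2 <;> rcases b2 with e3 | e3
  · exact absurd (e2.trans e3.symm) ht
  · exact key h e1 e2 e3
  · exact key (swap34 h) e1 e2 e3
  · exact absurd (e2.trans e3.symm) ht
  · exact absurd (e2.trans e3.symm) ht
  · exact key (swap12 h) e1 e2 e3
  · exact key (swap34 (swap12 h)) e1 e2 e3
  · exact absurd (e2.trans e3.symm) ht

variable {V : Type*} [AddCommGroup V] [Module ℂ V]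

/-- the main dichotomy -/
theorem dichotomy' {m : ℕ} (hm : Even m) {u : Fin m → I → ℤ}
    (h1 : ∑ i, a₁ i * a₁ i = 3) (h2 : ∑ i, a₂ i * a₂ i = 3) (h12 : ∑ i, a₁ i * a₂ i = 1)
    (hu1 : ∀ j, ∑ i, a₁ i * u j i = 1) (hu2 : ∀ j, ∑ i, a₂ i * u j i = 1)
    (huu : ∀ j k, ∑ i, u j i * u k i = if j = k then 2 else 1) {d : I → ℤ}
    (hd : ∀ i, d i = a₁ i + a₂ i + 2 * ∑ j : Fin m, (-1 : ℤ) ^ (j : ℕ) * u j i) (hodd : ∃ i, d i % 2 = 1)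
    (r : I → V) (r1 : ∑ i, (a₁ i : ℂ) • r i = 0) (r2 : ∑ i, (a₂ i : ℂ) • r i = 0)
    (ru : ∀ j, ∑ i, (u j i : ℂ) • r i = 0) {S : Set I} (hS : ∀ i ∈ S, d i ≠ 0) :
    (∃ X Y₁ Y₂ Y₃ Y₄ x, Str m a₁ a₂ u X Y₁ Y₂ Y₃ Y₄ x) ∨
    (m = 2 ∧ (Finset.univ.filter (fun i => d i ≠ 0)).card = 5 ∧
      Module.finrank ℂ (Submodule.span ℂ (r '' S)) ≤ 1 ∧
      ∃ y, d y % 2 = 1 ∧ ∀ s : I → ℤ, Perp a₁ a₂ u s → 16 * (s y * s y) ≤ ∑ i, s i * s i) := by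
  obtain ⟨X, Y₁, Y₂, Y₃, Y₄, h⟩ := exists_two h1 h2 h12 (by
    obtain ⟨i, hi⟩ := hodd
    refine ⟨i, ?_⟩
    rw [hd i] at hi
    omega)
  have htype : ∀ j, (∃ x, TA a₁ X Y₁ Y₂ Y₃ Y₄ (u j) x) ∨ ∃ s t, TB a₁ a₂ Y₁ Y₂ Y₃ Y₄ (u j) s t := fun j =>
    type_of h (by rw [huu, if_pos rfl]) (hu1 j) (hu2 j)
  have hmix : ∀ i j x s t, TA a₁ X Y₁ Y₂ Y₃ Y₄ (u i) x → TB a₁ a₂ Y₁ Y₂ Y₃ Y₄ (u j) s t → False := by
    intro i j x s t hA hB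
    obtain ⟨c1, c2, c3, c4, c5, c6, c7, c8⟩ := hA
    obtain ⟨b1, b2, b3, b4, b5⟩ := hB
    have hsX : X ≠ s := by rcases b1 with rfl | rfl; exacts [h.n1.symm, h.n2.symm]
    have htX : X ≠ t := by rcases b2 with rfl | rfl; exacts [h.n3.symm, h.n4.symm]
    have hxs : x ≠ s := by rcases b1 with rfl | rfl; exacts [c2, c3]
    have hxt : x ≠ t := by rcases b2 with rfl | rfl; exacts [c4, c5]
    have h3 := huu i j
    rw [sum_pair' c1.symm (fun i i1 i2 => by rw [c8 i i1 i2, zero_mul]), b5 X hsX htX, b5 x hxs hxt] at h3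
    split_ifs at h3 <;> norm_num at h3
  by_cases hall : ∀ j, ∃ x, TA a₁ X Y₁ Y₂ Y₃ Y₄ (u j) x
  · left
    choose x hx using hall
    have hinj : Function.Injective x := by
      intro i j hij
      by_contra hne
      obtain ⟨c1, c2, c3, c4, c5, c6, c7, c8⟩ := hx i
      obtain ⟨b1, b2, b3, b4, b5, b6, b7, b8⟩ := hx j
      have h3 := huu i j
      rw [sum_pair' c1.symm (fun i i1 i2 => by rw [c8 i i1 i2, zero_mul]), if_neg hne, c6, b6] at h3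
      rw [hij] at h3 c7
      rcases h.hX with h4 | h4 <;> rcases c7 with h5 | h5 <;> rcases b7 with h6 | h6 <;>
        rw [h4, h5, h6] at h3 <;> norm_num at h3
    exact ⟨X, Y₁, Y₂, Y₃, Y₄, x, h, hx, hinj⟩
  · right
    rw [not_forall] at hall
    obtain ⟨j0, hj0⟩ := hall
    obtain ⟨s0, t0, hB0⟩ := (htype j0).resolve_left hj0
    have hB : ∀ j, ∃ s t, TB a₁ a₂ Y₁ Y₂ Y₃ Y₄ (u j) s t := by
      intro j
      rcases htype j with ⟨x, hx⟩ | h3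
      · exact (hmix _ _ _ _ _ hx hB0).elim
      · exact h3
    choose s t hst using hB
    have hpair : ∀ i j, i ≠ j → (s i = s j ∧ t i ≠ t j) ∨ (s i ≠ s j ∧ t i = t j) := by
      intro i j hij
      apply tb_inner h (hst i) (hst j)
      rw [huu, if_neg hij]
    have hm2 : m = 2 := by
      by_contra hne
      have hpos : 0 < m := j0.pos
      have h4 : 4 ≤ m := by
        obtain ⟨k, hk⟩ := hm
        omega
      have p01 := hpair ⟨0, by omega⟩ ⟨1, by omega⟩ (by intro hc; simp at hc)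
      have p02 := hpair ⟨0, by omega⟩ ⟨2, by omega⟩ (by intro hc; simp at hc)
      have p12 := hpair ⟨1, by omega⟩ ⟨2, by omega⟩ (by intro hc; simp at hc)
      have m0 := hst ⟨0, by omega⟩
      have m1 := hst ⟨1, by omega⟩
      have m2 := hst ⟨2, by omega⟩
      rcases p01 with ⟨x1, x2⟩ | ⟨x1, x2⟩ <;> rcases p02 with ⟨y1, y2⟩ | ⟨y1, y2⟩ <;>
        rcases p12 with ⟨z1, z2⟩ | ⟨z1, z2⟩
      · exact three_of_two m0.2.1 m1.2.1 m2.2.1 x2 y2 z2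
      · exact z1 (x1.symm.trans y1)
      · exact y1 (x1.trans z1)
      · exact x2 (y2.trans z2.symm)
      · exact x1 (y1.trans z1.symm)
      · exact y2 (x2.trans z2)
      · exact z2 (x2.symm.trans y2)
      · exact three_of_two m0.1 m1.1 m2.1 x1 y1 z1
    subst hm2
    refine ⟨rfl, ?_⟩
    have hd' : ∀ i, d i = a₁ i + a₂ i + 2 * (u 0 i - u 1 i) := by
      intro i
      rw [hd i, Fin.sum_univ_two]
      simp only [Fin.val_zero, Fin.val_one, pow_zero, pow_one]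
      ring
    have hd'' : ∀ i, d i = a₂ i + a₁ i + 2 * (u 0 i - u 1 i) := by
      intro i; rw [hd' i]; ring
    have hfin : ∀ (hsm : Small a₁ a₂ (u 0) (u 1) d), ∃ y, d y % 2 = 1 ∧ ∀ s : I → ℤ, Perp a₁ a₂ u s →
        16 * (s y * s y) ≤ ∑ i, s i * s i := by
      rintro ⟨y, k1, k2⟩
      exact ⟨y, k1, fun s hs => k2 s hs.p1 hs.p2 (hs.pu 0) (hs.pu 1)⟩
    rcases hpair 0 1 (by decide) with ⟨e1, e2⟩ | ⟨e1, e2⟩
    · obtain ⟨k1, k2⟩ := tb_pair h (hst 0) (hst 1) e1 e2 hd' r r1 r2 (ru 0) (ru 1) hS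
      exact ⟨k1, k2, hfin (tb_pair2 h (hst 0) (hst 1) e1 e2 hd')⟩
    · obtain ⟨k1, k2⟩ := tb_pair (swap h) (tb_swap (hst 0)) (tb_swap (hst 1)) e2 e1 hd'' r r2 r1 (ru 0) (ru 1) hS
      exact ⟨k1, k2, hfin (small_swap (tb_pair2 (swap h) (tb_swap (hst 0)) (tb_swap (hst 1)) e2 e1 hd''))⟩

/-- the values of `d` -/
structure DVal {m : ℕ} (a₁ a₂ : I → ℤ) (u : Fin m → I → ℤ) (X Y₁ Y₂ Y₃ Y₄ : I) (x : Fin m → I) (d : I → ℤ) : Prop where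
  dX : d X = 2 * a₁ X
  d1 : d Y₁ = a₁ Y₁
  d2 : d Y₂ = a₁ Y₂
  d3 : d Y₃ = a₂ Y₃
  d4 : d Y₄ = a₂ Y₄
  dx : ∀ j, d (x j) = 2 * ((-1 : ℤ) ^ (j : ℕ) * u j (x j))
  dz : ∀ i, ¬ InL X Y₁ Y₂ Y₃ Y₄ x i → d i = 0

theorem dval (h : Str m a₁ a₂ u X Y₁ Y₂ Y₃ Y₄ x) (hm : Even m) {d : I → ℤ}
    (hd : ∀ i, d i = a₁ i + a₂ i + 2 * ∑ j : Fin m, (-1 : ℤ) ^ (j : ℕ) * u j i) :
    DVal a₁ a₂ u X Y₁ Y₂ Y₃ Y₄ x d := by
  have t := h.two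
  have hA := h.ta
  have dX : d X = 2 * a₁ X := by rw [hd]; exact main_X t hm hA
  have dY : ∀ i, i ≠ X → (∀ j, i ≠ x j) → d i = a₁ i + a₂ i := fun i h1 h2 => by
    rw [hd]; exact main_other hA h1 h2
  have x1 : ∀ j, Y₁ ≠ x j := fun j => (hA j).2.1.symm
  have x2 : ∀ j, Y₂ ≠ x j := fun j => (hA j).2.2.1.symm
  have x3 : ∀ j, Y₃ ≠ x j := fun j => (hA j).2.2.2.1.symm
  have x4 : ∀ j, Y₄ ≠ x j := fun j => (hA j).2.2.2.2.1.symm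
  refine ⟨dX, ?_, ?_, ?_, ?_, ?_, ?_⟩
  · rw [dY _ t.n1 x1, t.z2 _ t.n1 t.n13 t.n14, add_zero]
  · rw [dY _ t.n2 x2, t.z2 _ t.n2 t.n23 t.n24, add_zero]
  · rw [dY _ t.n3 x3, t.z1 _ t.n3 t.n13.symm t.n23.symm, zero_add]
  · rw [dY _ t.n4 x4, t.z1 _ t.n4 t.n14.symm t.n24.symm, zero_add]
  · intro k
    obtain ⟨h1, h2, h3, h4, h5, -, h6, -⟩ := hA k
    have e : ∑ j : Fin m, (-1 : ℤ) ^ (j : ℕ) * u j (x k) = (-1 : ℤ) ^ (k : ℕ) * u k (x k) := by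
      rw [Finset.sum_eq_single k]
      · intro j _ hj
        obtain ⟨-, -, -, -, -, -, -, h7⟩ := hA j
        rw [h7 (x k) h1 (fun hc => hj (h.inj hc.symm)), mul_zero]
      · intro hc; exact absurd (Finset.mem_univ _) hc
    rw [hd, e, t.z1 _ h1 h2 h3, t.z2 _ h1 h4 h5]
    ring
  · intro i hi
    unfold InL at hi
    rw [not_or, not_or, not_or, not_or, not_or, not_exists] at hi
    obtain ⟨k0, k1, k2, k3, k4, k5⟩ := hi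
    rw [dY i k0 k5, t.z1 i k0 k1 k2, t.z2 i k0 k3 k4, add_zero]

end H5.TDb
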