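import Cfsg.Agent.Lib.H5.TDb

/-!
# Counting characters of a block from its contributions
-/

set_option autoImplicit false
set_option linter.unusedSectionVars false

namespace H5.TDc

open H5.TBc H5.TBd H5.TBi H5.TDa H5.TDb

variable {I : Type*} [Fintype I] [DecidableEq I]
variable {a₁ a₂ : I → ℤ} {X Y₁ Y₂ Y₃ Y₄ : I} {m : ℕ} {u : Fin m → I → ℤ} {x : Fin m → I}
variable {B : Set I} {ht : I → ℕ} {d : I → ℤ}

/-- the valuation property -/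
def Val (B : Set I) (ht : I → ℕ) (M : I → I → ℤ) : Prop :=
  ∀ χ ∈ B, ∀ ψ ∈ B, ht ψ = 0 → (2 : ℤ) ^ ht χ ∣ M χ ψ ∧ ¬ (2 : ℤ) ^ (ht χ + 1) ∣ M χ ψ

structure Base (B : Set I) (ht : I → ℕ) (X Y₁ Y₂ Y₃ Y₄ : I) (x : Fin m → I) (E : I → I → ℤ) : Prop where
  sub : ∀ i, InL X Y₁ Y₂ Y₃ Y₄ x i → i ∈ B
  hX : ht X = 1
  hx : ∀ j, ht (x j) = 1
  h1 : ht Y₁ = 0
  h2 : ht Y₂ = 0
  h3 : ht Y₃ = 0
  h4 : ht Y₄ = 0
  e1 : ∀ ξ ∈ B, ¬ InL X Y₁ Y₂ Y₃ Y₄ x ξ → E ξ Y₁ ≠ 0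
  e3 : ∀ ξ ∈ B, ¬ InL X Y₁ Y₂ Y₃ Y₄ x ξ → E ξ Y₃ ≠ 0
  eN : ∀ ξ ∈ B, ¬ InL X Y₁ Y₂ Y₃ Y₄ x ξ → ∀ N : ℕ, (E ξ Y₁ = 2 ^ N ∨ E ξ Y₁ = - 2 ^ N) → ht ξ = N

theorem pow_val {h N : ℕ} {a : ℤ} (h1 : (2 : ℤ) ^ h ∣ a) (h2 : ¬ (2 : ℤ) ^ (h + 1) ∣ a) (ha : a = 2 ^ N ∨ a = - 2 ^ N) :
    h = N := by
  have h3 : (2 : ℤ) ^ h ∣ 2 ^ N := by
    rcases ha with rfl | rfl
    · exact h1
    · exact (dvd_neg).1 h1
  have h4 : ¬ (2 : ℤ) ^ (h + 1) ∣ 2 ^ N := by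
    rcases ha with rfl | rfl
    · exact h2
    · intro hc; exact h2 ((dvd_neg).2 hc)
  have h5 : h ≤ N := by
    by_contra hlt
    have h6 := Int.le_of_dvd (by positivity) h3
    have h7 : (2 : ℤ) ^ N < 2 ^ h := pow_lt_pow_right₀ (by norm_num) (by omega)
    omega
  by_contra hne
  apply h4
  exact pow_dvd_pow 2 (by omega)

theorem base (h : Str m a₁ a₂ u X Y₁ Y₂ Y₃ Y₄ x) (hd : DVal a₁ a₂ u X Y₁ Y₂ Y₃ Y₄ x d)
    (hB : ∀ i, i ∉ B → d i = 0) {M E : I → I → ℤ} (hval : Val B ht M) (hex : ∃ ψ ∈ B, ht ψ = 0)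
    (hM : ∀ χ ∈ B, ∀ ψ ∈ B, M χ ψ = d χ * d ψ + E χ ψ) (hE : ∀ χ ψ, E χ ψ % 2 = 0)
    (hEX : ∀ ψ, E X ψ = 0) (hEx : ∀ j ψ, E (x j) ψ = 0) : Base B ht X Y₁ Y₂ Y₃ Y₄ x E := by
  have t := h.two
  have s1 : a₁ Y₁ = 1 ∨ a₁ Y₁ = -1 := t.h1
  have s2 : a₁ Y₂ = 1 ∨ a₁ Y₂ = -1 := t.h2
  have s3 : a₂ Y₃ = 1 ∨ a₂ Y₃ = -1 := t.h3
  have s4 : a₂ Y₄ = 1 ∨ a₂ Y₄ = -1 := t.h4
  have s0 : a₁ X = 1 ∨ a₁ X = -1 := t.hX
  have dX := hd.dX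
  have dx : ∀ j, d (x j) = 2 ∨ d (x j) = -2 := by
    intro j
    rw [hd.dx j]
    rcases neg_one_pow_eq_or ℤ (j : ℕ) with h7 | h7 <;> rcases (h.ta j).2.2.2.2.2.2.1 with h8 | h8 <;> rw [h7, h8] <;>
      norm_num
  have hsub : ∀ i, InL X Y₁ Y₂ Y₃ Y₄ x i → i ∈ B := by
    intro i hi
    by_contra hno
    have h0 := hB i hno
    rcases hi with rfl | rfl | rfl | rfl | rfl | ⟨j, rfl⟩
    · rw [dX] at h0; omega
    · rw [hd.d1] at h0; omega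
    · rw [hd.d2] at h0; omega
    · rw [hd.d3] at h0; omega
    · rw [hd.d4] at h0; omega
    · rcases dx j with h1 | h1 <;> rw [h1] at h0 <;> norm_num at h0
  obtain ⟨ψ, hψ, h0⟩ := hex
  have hodd : ∀ χ ∈ B, ∀ ψ ∈ B, ht ψ = 0 → ht χ = 0 → M χ ψ % 2 = 1 := by
    intro χ hχ ψ hψ h0 h1
    obtain ⟨-, h3⟩ := hval χ hχ ψ hψ h0
    rw [h1, zero_add, pow_one] at h3
    omega
  have hdψ : d ψ % 2 = 1 := by
    have h1 := hodd ψ hψ ψ hψ h0 h0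
    rw [hM ψ hψ ψ hψ] at h1
    have h2 := hE ψ ψ
    rcases Int.even_or_odd' (d ψ) with ⟨c, hc | hc⟩
    · exfalso
      rw [hc] at h1
      have : 2 * c * (2 * c) = 2 * (2 * c * c) := by ring
      rw [this] at h1
      omega
    · omega
  have key : ∀ χ ∈ B, d χ % 2 = 1 → ht χ = 0 := by
    intro χ hχ hodd'
    obtain ⟨h1, -⟩ := hval χ hχ ψ hψ h0
    by_contra hne
    have h2 : (2 : ℤ) ∣ M χ ψ := (dvd_pow_self 2 hne).trans h1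
    rw [hM χ hχ ψ hψ] at h2
    have h3 := hE χ ψ
    obtain ⟨c, hc⟩ : ∃ c, d χ = 2 * c + 1 := ⟨d χ / 2, by omega⟩
    obtain ⟨e, he⟩ : ∃ c, d ψ = 2 * c + 1 := ⟨d ψ / 2, by omega⟩
    rw [hc, he] at h2
    have : (2 * c + 1) * (2 * e + 1) = 2 * (2 * c * e + c + e) + 1 := by ring
    rw [this] at h2
    omega
  have m1 : Y₁ ∈ B := hsub _ (Or.inr (Or.inl rfl))
  have m2 : Y₂ ∈ B := hsub _ (Or.inr (Or.inr (Or.inl rfl)))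
  have m3 : Y₃ ∈ B := hsub _ (Or.inr (Or.inr (Or.inr (Or.inl rfl))))
  have m4 : Y₄ ∈ B := hsub _ (Or.inr (Or.inr (Or.inr (Or.inr (Or.inl rfl)))))
  have k1 : ht Y₁ = 0 := key _ m1 (by rw [hd.d1]; omega)
  have k2 : ht Y₂ = 0 := key _ m2 (by rw [hd.d2]; omega)
  have k3 : ht Y₃ = 0 := key _ m3 (by rw [hd.d3]; omega)
  have k4 : ht Y₄ = 0 := key _ m4 (by rw [hd.d4]; omega)
  have hone : ∀ χ ∈ B, (∀ ψ, E χ ψ = 0) → (d χ = 2 ∨ d χ = -2) → ht χ = 1 := by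
    intro χ hχ h1 h2
    obtain ⟨v1, v2⟩ := hval χ hχ Y₁ m1 k1
    apply pow_val v1 v2
    rw [hM χ hχ Y₁ m1, h1, add_zero, hd.d1, pow_one]
    rcases h2 with h2 | h2 <;> rcases s1 with h3 | h3 <;> rw [h2, h3] <;> norm_num
  refine ⟨hsub, ?_, ?_, k1, k2, k3, k4, ?_, ?_, ?_⟩
  · apply hone X (hsub _ (Or.inl rfl)) hEX
    rw [dX]; omega
  · intro j
    exact hone (x j) (hsub _ (Or.inr (Or.inr (Or.inr (Or.inr (Or.inr ⟨j, rfl⟩)))))) (hEx j) (dx j)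
  · intro ξ hξ hno h1
    obtain ⟨-, v2⟩ := hval ξ hξ Y₁ m1 k1
    apply v2
    rw [hM ξ hξ Y₁ m1, hd.dz ξ hno, h1]; simp
  · intro ξ hξ hno h1
    obtain ⟨-, v2⟩ := hval ξ hξ Y₃ m3 k3
    apply v2
    rw [hM ξ hξ Y₃ m3, hd.dz ξ hno, h1]; simp
  · intro ξ hξ hno N h1
    obtain ⟨v1, v2⟩ := hval ξ hξ Y₁ m1 k1
    apply pow_val v1 v2
    rw [hM ξ hξ Y₁ m1, hd.dz ξ hno, zero_mul, zero_add]
    exact h1

/-- the final data -/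
structure Cnt (B : Set I) (ht : I → ℕ) (X Y₁ Y₂ Y₃ Y₄ : I) (x : Fin m → I) (N : ℕ) (T : Finset I) : Prop where
  mem : ∀ i, i ∈ B ↔ InL X Y₁ Y₂ Y₃ Y₄ x i ∨ i ∈ T
  dis : ∀ i ∈ T, ¬ InL X Y₁ Y₂ Y₃ Y₄ x i
  hX : ht X = 1
  hx : ∀ j, ht (x j) = 1
  h1 : ht Y₁ = 0
  h2 : ht Y₂ = 0
  h3 : ht Y₃ = 0
  h4 : ht Y₄ = 0
  hT : ∀ i ∈ T, ht i = N

theorem cnt_of {E : I → I → ℤ} (hb : Base B ht X Y₁ Y₂ Y₃ Y₄ x E) {N : ℕ} {T : Finset I}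
    (h1 : ∀ i ∈ T, i ∈ B ∧ ¬ InL X Y₁ Y₂ Y₃ Y₄ x i) (h2 : ∀ i ∈ B, ¬ InL X Y₁ Y₂ Y₃ Y₄ x i → i ∈ T)
    (h3 : ∀ i ∈ T, ht i = N) : Cnt B ht X Y₁ Y₂ Y₃ Y₄ x N T := by
  refine ⟨fun i => ⟨fun hi => ?_, fun hi => ?_⟩, fun i hi => (h1 i hi).2, hb.hX, hb.hx, hb.h1, hb.h2, hb.h3, hb.h4, h3⟩
  · by_cases h4 : InL X Y₁ Y₂ Y₃ Y₄ x i
    · exact Or.inl h4
    · exact Or.inr (h2 i hi h4)
  · rcases hi with h4 | h4
    · exact hb.sub i h4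
    · exact (h1 i h4).1

/-- local rank one -/
theorem case1 (h : Str m a₁ a₂ u X Y₁ Y₂ Y₃ Y₄ x) (hd : DVal a₁ a₂ u X Y₁ Y₂ Y₃ Y₄ x d)
    (hB : ∀ i, i ∉ B → d i = 0) {M : I → I → ℤ} (hval : Val B ht M) (hex : ∃ ψ ∈ B, ht ψ = 0)
    (hM : ∀ χ ∈ B, ∀ ψ ∈ B, M χ ψ = d χ * d ψ) (N : ℕ) : Cnt B ht X Y₁ Y₂ Y₃ Y₄ x N ∅ := by
  have hb := base (E := fun _ _ => 0) h hd hB hval hex (fun χ hχ ψ hψ => by rw [hM χ hχ ψ hψ, add_zero])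
    (fun _ _ => rfl) (fun _ => rfl) (fun _ _ => rfl)
  apply cnt_of hb
  · intro i hi; exact absurd hi (Finset.notMem_empty i)
  · intro i hi hno
    exact absurd rfl (hb.e1 i hi hno)
  · intro i hi; exact absurd hi (Finset.notMem_empty i)

theorem sq_even {a : ℤ} (h : a % 2 = 0) (h0 : a ≠ 0) : 4 ≤ a * a := by
  obtain ⟨c, rfl⟩ : ∃ c, a = 2 * c := ⟨a / 2, by omega⟩
  have : c ≠ 0 := by rintro rfl; exact h0 rfl
  have h1 : 1 ≤ c * c := by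
    rcases lt_or_gt_of_ne this with h2 | h2 <;> nlinarith
  nlinarith

theorem sq_pos' {a : ℤ} (h0 : a ≠ 0) : 1 ≤ a * a := by
  rcases lt_or_gt_of_ne h0 with h2 | h2 <;> nlinarith

theorem sq_of {a b s t : ℤ} (ha : a = 1 ∨ a = -1) (hb : b = 1 ∨ b = -1) (h : a * s + b * t = 0) : s * s = t * t := by
  have e1 := sgn_sq ha
  have e2 := sgn_sq hb
  have e3 : a * s = -(b * t) := by linarith
  calc s * s = (a * s) * (a * s) := by linear_combination -(s * s) * e1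
    _ = (b * t) * (b * t) := by rw [e3]; ring
    _ = t * t := by linear_combination (t * t) * e2

/-- local rank two -/
theorem case2 (h : Str m a₁ a₂ u X Y₁ Y₂ Y₃ Y₄ x) (hd : DVal a₁ a₂ u X Y₁ Y₂ Y₃ Y₄ x d) (hm : 2 ≤ m)
    (hB : ∀ i, i ∉ B → d i = 0) {M : I → I → ℤ} (hval : Val B ht M) (hex : ∃ ψ ∈ B, ht ψ = 0)
    {s : I → ℤ} (hs : Perp a₁ a₂ u s) (hn : ∑ i, s i * s i = 8) (hsd : ∀ i, (s i - d i) % 2 = 0)
    (hsB : ∀ i, i ∉ B → s i = 0) {r : ℤ} (hr : r % 2 = 0) {N : ℕ} (hrN : 2 * r = 2 ^ N)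
    (hM : ∀ χ ∈ B, ∀ ψ ∈ B, M χ ψ = d χ * d ψ + r * (s χ * s ψ)) :
    ∃ T : Finset I, T.card = 1 ∧ Cnt B ht X Y₁ Y₂ Y₃ Y₄ x N T := by
  have t := h.two
  have hR := rel h hs
  have hin := inner_eq h hR hR
  rw [hn] at hin
  set W := ∑ i ∈ Finset.univ.filter (fun i => ¬ InL X Y₁ Y₂ Y₃ Y₄ x i), s i * s i with hW
  have hW0 : 0 ≤ W := Finset.sum_nonneg fun i _ => mul_self_nonneg _
  have q1 := mul_self_nonneg (s Y₁)
  have q2 := mul_self_nonneg (s Y₂)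
  have q3 := mul_self_nonneg (s Y₃)
  have q4 := mul_self_nonneg (s Y₄)
  have sX : s X = 0 := by
    by_contra hne
    have h1 := hsd X
    rw [hd.dX] at h1
    have h2 := sq_even (a := s X) (by omega) hne
    have h3 : (3 : ℤ) ≤ (m : ℤ) + 1 := by
      have : (2 : ℤ) ≤ m := by exact_mod_cast hm
      linarith
    nlinarith
  have r1 := hR.r1
  have r2 := hR.r2
  rw [sX, mul_zero, zero_add] at r1 r2
  have e12 := sq_of t.h1 t.h2 r1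
  have e34 := sq_of t.h3 t.h4 r2
  rw [sX, ← e12, ← e34] at hin
  have o1 : s Y₁ % 2 = 1 := by
    have h1 := hsd Y₁
    rw [hd.d1] at h1
    rcases t.h1 with h2 | h2 <;> rw [h2] at h1 <;> omega
  have o3 : s Y₃ % 2 = 1 := by
    have h1 := hsd Y₃
    rw [hd.d3] at h1
    rcases t.h3 with h2 | h2 <;> rw [h2] at h1 <;> omega
  have z1 : 1 ≤ s Y₁ * s Y₁ := sq_pos' (by intro h0; rw [h0] at o1; norm_num at o1)
  have z3 : 1 ≤ s Y₃ * s Y₃ := sq_pos' (by intro h0; rw [h0] at o3; norm_num at o3)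
  have v1 : s Y₁ = 1 ∨ s Y₁ = -1 := by
    have h1 : s Y₁ < 3 := by nlinarith
    have h2 : -3 < s Y₁ := by nlinarith
    omega
  have v3 : s Y₃ = 1 ∨ s Y₃ = -1 := by
    have h1 : s Y₃ < 3 := by nlinarith
    have h2 : -3 < s Y₃ := by nlinarith
    omega
  have w1 := sgn_sq v1
  have w3 := sgn_sq v3
  rw [w1, w3] at hin
  have hW4 : W = 4 := by linarith
  have sx : ∀ j, s (x j) = 0 := by
    intro j
    have h1 := hR.ru j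
    rw [sX, mul_zero, neg_zero] at h1
    rcases mul_eq_zero.1 h1 with h2 | h2
    · exfalso
      rcases (h.ta j).2.2.2.2.2.2.1 with h3 | h3 <;> rw [h3] at h2 <;> norm_num at h2
    · exact h2
  have hb := base (E := fun χ ψ => r * (s χ * s ψ)) h hd hB hval hex hM
    (fun χ ψ => by
      obtain ⟨c, hc⟩ : ∃ c, r = 2 * c := ⟨r / 2, by omega⟩
      have : r * (s χ * s ψ) = 2 * (c * (s χ * s ψ)) := by rw [hc]; ring
      omega)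
    (fun ψ => by rw [sX]; ring) (fun j ψ => by rw [sx]; ring)
  obtain ⟨ξ, hξ, hne⟩ : ∃ ξ ∈ Finset.univ.filter (fun i => ¬ InL X Y₁ Y₂ Y₃ Y₄ x i), s ξ * s ξ ≠ 0 :=
    Finset.exists_ne_zero_of_sum_ne_zero (by rw [← hW, hW4]; norm_num)
  have hξL : ¬ InL X Y₁ Y₂ Y₃ Y₄ x ξ := (Finset.mem_filter.1 hξ).2
  have hsξ : s ξ ≠ 0 := left_ne_zero_of_mul hne
  have hev : ∀ i, ¬ InL X Y₁ Y₂ Y₃ Y₄ x i → s i % 2 = 0 := by
    intro i hi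
    have h1 := hsd i
    rw [hd.dz i hi] at h1
    omega
  have h4 := sq_even (hev ξ hξL) hsξ
  have hrest := Finset.add_sum_erase _ (fun i => s i * s i) hξ
  rw [← hW, hW4] at hrest
  have hrest0 : ∑ i ∈ (Finset.univ.filter (fun i => ¬ InL X Y₁ Y₂ Y₃ Y₄ x i)).erase ξ, s i * s i = 0 := by
    apply le_antisymm
    · linarith
    · exact Finset.sum_nonneg fun i _ => mul_self_nonneg _
  have hother : ∀ i, ¬ InL X Y₁ Y₂ Y₃ Y₄ x i → i ≠ ξ → s i = 0 := by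
    intro i hi hne'
    have h5 := (Finset.sum_eq_zero_iff_of_nonneg (fun i _ => mul_self_nonneg (s i))).1 hrest0 i
      (Finset.mem_erase.2 ⟨hne', Finset.mem_filter.2 ⟨Finset.mem_univ _, hi⟩⟩)
    exact mul_self_eq_zero.1 h5
  have hξB : ξ ∈ B := by
    by_contra hno
    exact hsξ (hsB ξ hno)
  have hsξ2 : s ξ = 2 ∨ s ξ = -2 := by
    have h5 : s ξ * s ξ = 4 := by rw [hrest0, add_zero] at hrest; exact hrest
    have h6 : s ξ < 3 := by nlinarith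
    have h7 : -3 < s ξ := by nlinarith
    have h8 := hev ξ hξL
    omega
  refine ⟨{ξ}, Finset.card_singleton ξ, cnt_of hb ?_ ?_ ?_⟩
  · intro i hi
    rw [Finset.mem_singleton] at hi
    rw [hi]; exact ⟨hξB, hξL⟩
  · intro i hi hno
    rw [Finset.mem_singleton]
    by_contra hne'
    exact hb.e1 i hi hno (by show r * (s i * s Y₁) = 0; rw [hother i hno hne']; ring)
  · intro i hi
    rw [Finset.mem_singleton] at hi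
    rw [hi]
    apply hb.eN ξ hξB hξL
    show r * (s ξ * s Y₁) = 2 ^ N ∨ r * (s ξ * s Y₁) = - 2 ^ N
    rw [← hrN]
    rcases hsξ2 with h5 | h5 <;> rcases v1 with h6 | h6 <;> rw [h5, h6]
    · left; ring
    · right; ring
    · right; ring
    · left; ring

end H5.TDc
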