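import Cfsg.Agent.Lib.H5.TDc

/-!
# Counting characters of a block from its contributions, II
-/

set_option autoImplicit false
set_option linter.unusedSectionVars false

namespace H5.TDd

open H5.TBc H5.TBd H5.TBi H5.TDa H5.TDb H5.TDc

variable {I : Type*} [Fintype I] [DecidableEq I]
variable {a₁ a₂ : I → ℤ} {X Y₁ Y₂ Y₃ Y₄ : I} {m : ℕ} {u : Fin m → I → ℤ} {x : Fin m → I}
variable {B : Set I} {ht : I → ℕ} {d : I → ℤ}

/-- a perpendicular vector of norm at most four -/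
structure Four (X Y₁ Y₂ Y₃ Y₄ : I) (x : Fin m → I) (s : I → ℤ) (W : ℤ) : Prop where
  sX : s X = 0
  sx : ∀ j, s (x j) = 0
  e12 : s Y₁ * s Y₁ = s Y₂ * s Y₂
  e34 : s Y₃ * s Y₃ = s Y₄ * s Y₄
  hW : 2 * (s Y₁ * s Y₁) + 2 * (s Y₃ * s Y₃) + W = 4
  hW' : W = ∑ i ∈ Finset.univ.filter (fun i => ¬ InL X Y₁ Y₂ Y₃ Y₄ x i), s i * s i

theorem four (h : Str m a₁ a₂ u X Y₁ Y₂ Y₃ Y₄ x) (hm : 2 ≤ m) {s : I → ℤ} (hs : Perp a₁ a₂ u s)
    (hn : ∑ i, s i * s i = 4) : ∃ W, 0 ≤ W ∧ Four X Y₁ Y₂ Y₃ Y₄ x s W := by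
  have t := h.two
  have hR := rel h hs
  have hin := inner_eq h hR hR
  rw [hn] at hin
  set W := ∑ i ∈ Finset.univ.filter (fun i => ¬ InL X Y₁ Y₂ Y₃ Y₄ x i), s i * s i with hW
  have hW0 : 0 ≤ W := Finset.sum_nonneg fun i _ => mul_self_nonneg _
  have q1 := mul_self_nonneg (s Y₁)
  have q2 := mul_self_nonneg (s Y₂)
  have q3 := mul_self_nonneg (s Y₃)
  have q4 := mul_self_nonneg (s Y₄)
  have sX : s X = 0 := by
    by_contra hne
    have h2 := sq_pos' hne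
    have h3 : (3 : ℤ) ≤ (m : ℤ) + 1 := by
      have : (2 : ℤ) ≤ m := by exact_mod_cast hm
      linarith
    have ha : a₁ X * s X ≠ 0 := by
      intro h0
      rcases mul_eq_zero.1 h0 with h4 | h4
      · rcases t.hX with h5 | h5 <;> rw [h5] at h4 <;> norm_num at h4
      · exact hne h4
    have b1 : 1 ≤ s Y₁ * s Y₁ + s Y₂ * s Y₂ := by
      by_cases h4 : s Y₁ = 0
      · have h5 : s Y₂ ≠ 0 := by
          intro h6
          apply ha
          have := hR.r1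
          rw [h4, h6] at this
          linarith
        have := sq_pos' h5
        linarith
      · have := sq_pos' h4
        linarith
    have b2 : 1 ≤ s Y₃ * s Y₃ + s Y₄ * s Y₄ := by
      by_cases h4 : s Y₃ = 0
      · have h5 : s Y₄ ≠ 0 := by
          intro h6
          apply ha
          have := hR.r2
          rw [h4, h6] at this
          linarith
        have := sq_pos' h5
        linarith
      · have := sq_pos' h4
        linarith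
    nlinarith
  have r1 := hR.r1
  have r2 := hR.r2
  rw [sX, mul_zero, zero_add] at r1 r2
  have e12 := sq_of t.h1 t.h2 r1
  have e34 := sq_of t.h3 t.h4 r2
  rw [sX, ← e12, ← e34] at hin
  refine ⟨W, hW0, sX, ?_, e12, e34, by linarith, hW⟩
  intro j
  have h1 := hR.ru j
  rw [sX, mul_zero, neg_zero] at h1
  rcases mul_eq_zero.1 h1 with h2 | h2
  · exfalso
    rcases (h.ta j).2.2.2.2.2.2.1 with h3 | h3 <;> rw [h3] at h2 <;> norm_num at h2
  · exact h2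

/-- a vector of norm four of the wrong type -/
theorem case2e (h : Str m a₁ a₂ u X Y₁ Y₂ Y₃ Y₄ x) (hd : DVal a₁ a₂ u X Y₁ Y₂ Y₃ Y₄ x d) (hm : 2 ≤ m)
    (hB : ∀ i, i ∉ B → d i = 0) {M : I → I → ℤ} (hval : Val B ht M) (hex : ∃ ψ ∈ B, ht ψ = 0)
    {s : I → ℤ} (hs : Perp a₁ a₂ u s) (hn : ∑ i, s i * s i = 4) {r : ℤ} (hr : r % 2 = 0)
    (hM : ∀ χ ∈ B, ∀ ψ ∈ B, M χ ψ = d χ * d ψ + r * (s χ * s ψ)) :
    s X = 0 ∧ (∀ j, s (x j) = 0) ∧ ∀ ξ ∈ B, ¬ InL X Y₁ Y₂ Y₃ Y₄ x ξ →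
      s Y₁ ≠ 0 ∧ s Y₂ ≠ 0 ∧ s Y₃ ≠ 0 ∧ s Y₄ ≠ 0 := by
  obtain ⟨W, hW0, f⟩ := four h hm hs hn
  have hb := base (E := fun χ ψ => r * (s χ * s ψ)) h hd hB hval hex hM
    (fun χ ψ => by
      obtain ⟨c, hc⟩ : ∃ c, r = 2 * c := ⟨r / 2, by omega⟩
      have : r * (s χ * s ψ) = 2 * (c * (s χ * s ψ)) := by rw [hc]; ring
      omega)
    (fun ψ => by rw [f.sX]; ring) (fun j ψ => by rw [f.sx]; ring)
  refine ⟨f.sX, f.sx, fun ξ hξ hno => ?_⟩
  have h1 : s Y₁ ≠ 0 := fun h0 => hb.e1 ξ hξ hno (by show r * (s ξ * s Y₁) = 0; rw [h0]; ring)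
  have h3 : s Y₃ ≠ 0 := fun h0 => hb.e3 ξ hξ hno (by show r * (s ξ * s Y₃) = 0; rw [h0]; ring)
  refine ⟨h1, ?_, h3, ?_⟩
  · intro h0
    have := f.e12
    rw [h0] at this
    exact h1 (mul_self_eq_zero.1 (by linarith))
  · intro h0
    have := f.e34
    rw [h0] at this
    exact h3 (mul_self_eq_zero.1 (by linarith))

theorem case3_aux {R : ℤ} {N : ℕ} (hRN : R = 2 ^ N) {s t : I → ℤ}
    (hb : Base B ht X Y₁ Y₂ Y₃ Y₄ x (fun χ ψ => R * (s χ * s ψ + t χ * t ψ)))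
    {Ws Wt : ℤ} (fs : Four X Y₁ Y₂ Y₃ Y₄ x s Ws) (ft : Four X Y₁ Y₂ Y₃ Y₄ x t Wt)
    (hpar : ∀ i, ¬ InL X Y₁ Y₂ Y₃ Y₄ x i → (s i + t i) % 2 = 0) (hsB : ∀ i, i ∉ B → s i = 0)
    (s1 : s Y₁ = 1 ∨ s Y₁ = -1) (s3 : s Y₃ = 0) (t1 : t Y₁ = 0) (t3 : t Y₃ = 1 ∨ t Y₃ = -1) :
    ∃ T : Finset I, T.card = 2 ∧ Cnt B ht X Y₁ Y₂ Y₃ Y₄ x N T := by
  have hWs : Ws = 2 := by
    have h1 := fs.hW
    rw [sgn_sq s1, s3] at h1
    linarith
  have hWt : Wt = 2 := by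
    have h1 := ft.hW
    rw [sgn_sq t3, t1] at h1
    linarith
  have key : ∀ (s : I → ℤ) (W : ℤ), Four X Y₁ Y₂ Y₃ Y₄ x s W → W = 2 →
      (∀ i, ¬ InL X Y₁ Y₂ Y₃ Y₄ x i → s i = 0 ∨ s i = 1 ∨ s i = -1) ∧
      (Finset.univ.filter (fun i => ¬ InL X Y₁ Y₂ Y₃ Y₄ x i ∧ s i ≠ 0)).card = 2 := by
    intro s W f hW
    have h1 : ∑ i, (if InL X Y₁ Y₂ Y₃ Y₄ x i then 0 else s i) * (if InL X Y₁ Y₂ Y₃ Y₄ x i then 0 else s i) =
        ((2 : ℕ) : ℤ) := by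
      have h2 := f.hW'
      rw [hW] at h2
      push_cast
      rw [h2, Finset.sum_filter]
      apply Finset.sum_congr rfl
      intro i _
      by_cases hi : InL X Y₁ Y₂ Y₃ Y₄ x i
      · rw [if_pos hi, if_neg (not_not.2 hi)]; ring
      · rw [if_neg hi, if_pos hi]
    obtain ⟨h2, h3⟩ := small (n := 2) (by norm_num) h1
    constructor
    · intro i hi
      have := h2 i
      rwa [if_neg hi] at this
    · rw [← h3]
      congr 1
      ext i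
      rw [Finset.mem_filter, Finset.mem_filter]
      by_cases hi : InL X Y₁ Y₂ Y₃ Y₄ x i
      · rw [if_pos hi]; simp [hi]
      · rw [if_neg hi]; simp [hi]
  obtain ⟨vs, cs⟩ := key s Ws fs hWs
  obtain ⟨vt, ct⟩ := key t Wt ft hWt
  refine ⟨Finset.univ.filter (fun i => ¬ InL X Y₁ Y₂ Y₃ Y₄ x i ∧ s i ≠ 0), cs, cnt_of hb ?_ ?_ ?_⟩
  · intro i hi
    obtain ⟨-, h1, h2⟩ := Finset.mem_filter.1 hi
    refine ⟨?_, h1⟩
    by_contra hno
    exact h2 (hsB i hno)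
  · intro i hi hno
    rw [Finset.mem_filter]
    refine ⟨Finset.mem_univ _, hno, ?_⟩
    intro h0
    have h1 : t i = 0 := by
      have := hpar i hno
      rw [h0, zero_add] at this
      rcases vt i hno with h2 | h2 | h2 <;> rw [h2] at this <;> first | exact h2 | norm_num at this
    exact hb.e1 i hi hno (by show R * (s i * s Y₁ + t i * t Y₁) = 0; rw [h0, h1]; ring)
  · intro i hi
    obtain ⟨-, h1, h2⟩ := Finset.mem_filter.1 hi
    have hiB : i ∈ B := by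
      by_contra hno
      exact h2 (hsB i hno)
    apply hb.eN i hiB h1
    show R * (s i * s Y₁ + t i * t Y₁) = 2 ^ N ∨ R * (s i * s Y₁ + t i * t Y₁) = - 2 ^ N
    rw [t1, ← hRN]
    rcases vs i h1 with h3 | h3 | h3
    · exact absurd h3 h2
    · rcases s1 with h4 | h4 <;> rw [h3, h4]
      · left; ring
      · right; ring
    · rcases s1 with h4 | h4 <;> rw [h3, h4]
      · right; ring
      · left; ring

/-- local rank three -/
theorem case3 (h : Str m a₁ a₂ u X Y₁ Y₂ Y₃ Y₄ x) (hd : DVal a₁ a₂ u X Y₁ Y₂ Y₃ Y₄ x d) (hm : 2 ≤ m)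
    (hB : ∀ i, i ∉ B → d i = 0) {M : I → I → ℤ} (hval : Val B ht M) (hex : ∃ ψ ∈ B, ht ψ = 0)
    {s t : I → ℤ} (hs : Perp a₁ a₂ u s) (hn : ∑ i, s i * s i = 4) (ht' : Perp a₁ a₂ u t) (hn' : ∑ i, t i * t i = 4)
    (hsd : ∀ i, (s i + t i - d i) % 2 = 0)
    (hsB : ∀ i, i ∉ B → s i = 0) (htB : ∀ i, i ∉ B → t i = 0) {R : ℤ} (hR : R % 2 = 0) {N : ℕ} (hRN : R = 2 ^ N)
    (hM : ∀ χ ∈ B, ∀ ψ ∈ B, M χ ψ = d χ * d ψ + R * (s χ * s ψ + t χ * t ψ)) :
    ∃ T : Finset I, T.card = 2 ∧ Cnt B ht X Y₁ Y₂ Y₃ Y₄ x N T := by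
  obtain ⟨Ws, hWs, fs⟩ := four h hm hs hn
  obtain ⟨Wt, hWt, ft⟩ := four h hm ht' hn'
  have tw := h.two
  have hb := base (E := fun χ ψ => R * (s χ * s ψ + t χ * t ψ)) h hd hB hval hex hM
    (fun χ ψ => by
      obtain ⟨c, hc⟩ : ∃ c, R = 2 * c := ⟨R / 2, by omega⟩
      have : R * (s χ * s ψ + t χ * t ψ) = 2 * (c * (s χ * s ψ + t χ * t ψ)) := by rw [hc]; ring
      omega)
    (fun ψ => by rw [fs.sX, ft.sX]; ring) (fun j ψ => by rw [fs.sx, ft.sx]; ring)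
  have hpar : ∀ i, ¬ InL X Y₁ Y₂ Y₃ Y₄ x i → (s i + t i) % 2 = 0 := by
    intro i hi
    have h1 := hsd i
    rw [hd.dz i hi] at h1
    omega
  have bs1 : s Y₁ = 0 ∨ s Y₁ = 1 ∨ s Y₁ = -1 := by
    have h1 := fs.hW
    have h2 := mul_self_nonneg (s Y₃)
    have h3 : s Y₁ < 2 := by nlinarith
    have h4 : -2 < s Y₁ := by nlinarith
    omega
  have bs3 : s Y₃ = 0 ∨ s Y₃ = 1 ∨ s Y₃ = -1 := by
    have h1 := fs.hW
    have h2 := mul_self_nonneg (s Y₁)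
    have h3 : s Y₃ < 2 := by nlinarith
    have h4 : -2 < s Y₃ := by nlinarith
    omega
  have bt1 : t Y₁ = 0 ∨ t Y₁ = 1 ∨ t Y₁ = -1 := by
    have h1 := ft.hW
    have h2 := mul_self_nonneg (t Y₃)
    have h3 : t Y₁ < 2 := by nlinarith
    have h4 : -2 < t Y₁ := by nlinarith
    omega
  have bt3 : t Y₃ = 0 ∨ t Y₃ = 1 ∨ t Y₃ = -1 := by
    have h1 := ft.hW
    have h2 := mul_self_nonneg (t Y₁)
    have h3 : t Y₃ < 2 := by nlinarith
    have h4 : -2 < t Y₃ := by nlinarith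
    omega
  have o1 : (s Y₁ + t Y₁) % 2 = 1 := by
    have h1 := hsd Y₁
    rw [hd.d1] at h1
    rcases tw.h1 with h2 | h2 <;> rw [h2] at h1 <;> omega
  have o3 : (s Y₃ + t Y₃) % 2 = 1 := by
    have h1 := hsd Y₃
    rw [hd.d3] at h1
    rcases tw.h3 with h2 | h2 <;> rw [h2] at h1 <;> omega
  -- a vector vanishing at all the four
  have bad : ∀ (s t : I → ℤ) (Wt : ℤ), Four X Y₁ Y₂ Y₃ Y₄ x t Wt → (∀ i, i ∉ B → t i = 0) →
      (∀ i, ¬ InL X Y₁ Y₂ Y₃ Y₄ x i → s i = 0) → t Y₁ = 0 → t Y₃ = 0 →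
      (∀ ξ ∈ B, ¬ InL X Y₁ Y₂ Y₃ Y₄ x ξ → R * (s ξ * s Y₁ + t ξ * t Y₁) ≠ 0) → False := by
    intro s t Wt f hB' hs0 t1 t3 hne
    have h1 := f.hW
    rw [t1, t3] at h1
    have h2 : Wt ≠ 0 := by intro h0; rw [h0] at h1; norm_num at h1
    rw [f.hW'] at h2
    obtain ⟨ξ, hξ, h3⟩ := Finset.exists_ne_zero_of_sum_ne_zero h2
    have hξL := (Finset.mem_filter.1 hξ).2
    have hξB : ξ ∈ B := by
      by_contra hno
      exact left_ne_zero_of_mul h3 (hB' ξ hno)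
    exact hne ξ hξB hξL (by rw [hs0 ξ hξL, t1]; ring)
  have zero_of : ∀ (s : I → ℤ) (W : ℤ), Four X Y₁ Y₂ Y₃ Y₄ x s W → (s Y₁ = 1 ∨ s Y₁ = -1) → (s Y₃ = 1 ∨ s Y₃ = -1) →
      ∀ i, ¬ InL X Y₁ Y₂ Y₃ Y₄ x i → s i = 0 := by
    intro s W f h1 h3 i hi
    have h4 := f.hW
    rw [sgn_sq h1, sgn_sq h3] at h4
    have h5 : W = 0 := by linarith
    rw [f.hW'] at h5
    have h6 := (Finset.sum_eq_zero_iff_of_nonneg (fun i _ => mul_self_nonneg (s i))).1 h5 i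
      (Finset.mem_filter.2 ⟨Finset.mem_univ _, hi⟩)
    exact mul_self_eq_zero.1 h6
  have hb' : Base B ht X Y₁ Y₂ Y₃ Y₄ x (fun χ ψ => R * (t χ * t ψ + s χ * s ψ)) := by
    have e : (fun χ ψ => R * (t χ * t ψ + s χ * s ψ)) = (fun χ ψ => R * (s χ * s ψ + t χ * t ψ)) := by
      funext χ ψ; ring
    rw [e]; exact hb
  rcases bs1 with h1 | h1
  · have k1 : t Y₁ = 1 ∨ t Y₁ = -1 := by rw [h1] at o1; omega
    rcases bs3 with h3 | h3
    · -- `s` vanishes at all four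
      exfalso
      have k3 : t Y₃ = 1 ∨ t Y₃ = -1 := by rw [h3] at o3; omega
      exact bad t s Ws fs hsB (zero_of t Wt ft k1 k3) h1 h3 (fun ξ hξ hno => hb'.e1 ξ hξ hno)
    · have k3 : t Y₃ = 0 := by rcases h3 with h3 | h3 <;> rw [h3] at o3 <;> omega
      exact case3_aux hRN hb' ft fs (fun i hi => by rw [add_comm]; exact hpar i hi) htB k1 k3 h1 h3
  · have k1 : t Y₁ = 0 := by rcases h1 with h1 | h1 <;> rw [h1] at o1 <;> omega
    rcases bs3 with h3 | h3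
    · have k3 : t Y₃ = 1 ∨ t Y₃ = -1 := by rw [h3] at o3; omega
      exact case3_aux hRN hb fs ft hpar hsB h1 h3 k1 k3
    · exfalso
      have k3 : t Y₃ = 0 := by rcases h3 with h3 | h3 <;> rw [h3] at o3 <;> omega
      exact bad s t Wt ft htB (zero_of s Ws fs h1 h3) k1 k3 (fun ξ hξ hno => hb.e1 ξ hξ hno)

/-- the final counts -/
theorem counts (h : Str m a₁ a₂ u X Y₁ Y₂ Y₃ Y₄ x) {N : ℕ} (hN : 2 ≤ N) {T : Finset I}
    (c : Cnt B ht X Y₁ Y₂ Y₃ Y₄ x N T) : Nat.card B = m + 5 + T.card ∧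
      Nat.card {i : I // i ∈ B ∧ ht i = 0} = 4 ∧ Nat.card {i : I // i ∈ B ∧ ht i = 1} = m + 1 ∧
      ∀ i ∈ B, ht i = 0 ∨ ht i = 1 ∨ ht i = N := by
  classical
  have t := h.two
  have hL := card_L h
  set L := Finset.univ.filter (fun i => InL X Y₁ Y₂ Y₃ Y₄ x i) with hLd
  have mL : ∀ i, i ∈ L ↔ InL X Y₁ Y₂ Y₃ Y₄ x i := fun i => by simp [hLd]
  have mY : ∀ i, i ∈ ({Y₁, Y₂, Y₃, Y₄} : Finset I) ↔ i = Y₁ ∨ i = Y₂ ∨ i = Y₃ ∨ i = Y₄ := fun i => by simp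
  have cY : ({Y₁, Y₂, Y₃, Y₄} : Finset I).card = 4 := by
    rw [Finset.card_insert_of_notMem, Finset.card_insert_of_notMem, Finset.card_insert_of_notMem,
      Finset.card_singleton]
    · rw [Finset.mem_singleton]; exact t.n34
    · rw [Finset.mem_insert, Finset.mem_singleton, not_or]; exact ⟨t.n23, t.n24⟩
    · rw [Finset.mem_insert, Finset.mem_insert, Finset.mem_singleton, not_or, not_or]
      exact ⟨t.n12, t.n13, t.n14⟩
  have hYL : ({Y₁, Y₂, Y₃, Y₄} : Finset I) ⊆ L := by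
    intro i hi
    rw [mY] at hi
    rw [mL]
    rcases hi with hi | hi | hi | hi
    · exact Or.inr (Or.inl hi)
    · exact Or.inr (Or.inr (Or.inl hi))
    · exact Or.inr (Or.inr (Or.inr (Or.inl hi)))
    · exact Or.inr (Or.inr (Or.inr (Or.inr (Or.inl hi))))
  have hht : ∀ i, i ∈ B → (ht i = 0 ∧ i ∈ ({Y₁, Y₂, Y₃, Y₄} : Finset I)) ∨
      (ht i = 1 ∧ i ∈ L ∧ i ∉ ({Y₁, Y₂, Y₃, Y₄} : Finset I)) ∨ (ht i = N ∧ i ∈ T) := by
    intro i hi
    rcases (c.mem i).1 hi with h1 | h1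
    · rcases h1 with h2 | h2 | h2 | h2 | h2 | ⟨j, h2⟩
      · right; left
        rw [h2, mL, mY]
        refine ⟨c.hX, Or.inl rfl, ?_⟩
        rintro (h3 | h3 | h3 | h3)
        · exact t.n1 h3.symm
        · exact t.n2 h3.symm
        · exact t.n3 h3.symm
        · exact t.n4 h3.symm
      · left; rw [h2, mY]; exact ⟨c.h1, Or.inl rfl⟩
      · left; rw [h2, mY]; exact ⟨c.h2, Or.inr (Or.inl rfl)⟩
      · left; rw [h2, mY]; exact ⟨c.h3, Or.inr (Or.inr (Or.inl rfl))⟩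
      · left; rw [h2, mY]; exact ⟨c.h4, Or.inr (Or.inr (Or.inr rfl))⟩
      · right; left
        obtain ⟨e0, e1, e2, e3, e4, -⟩ := h.ta j
        rw [h2, mL, mY]
        refine ⟨c.hx j, Or.inr (Or.inr (Or.inr (Or.inr (Or.inr ⟨j, rfl⟩)))), ?_⟩
        rintro (h3 | h3 | h3 | h3)
        · exact e1 h3
        · exact e2 h3
        · exact e3 h3
        · exact e4 h3
    · exact Or.inr (Or.inr ⟨c.hT i h1, h1⟩)
  have hdisj : Disjoint L T := by
    rw [Finset.disjoint_left]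
    intro i h1 h2
    exact c.dis i h2 ((mL i).1 h1)
  refine ⟨?_, ?_, ?_, ?_⟩
  · have e : B = ((L ∪ T : Finset I) : Set I) := by
      ext i
      rw [c.mem, Finset.mem_coe, Finset.mem_union, mL]
    rw [e, Nat.card_coe_set_eq, Set.ncard_coe_finset, Finset.card_union_of_disjoint hdisj, hL]
  · have e : {i : I | i ∈ B ∧ ht i = 0} = ((({Y₁, Y₂, Y₃, Y₄} : Finset I)) : Set I) := by
      ext i
      rw [Finset.mem_coe]
      constructor
      · rintro ⟨h1, h2⟩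
        rcases hht i h1 with h3 | h3 | h3
        · exact h3.2
        · omega
        · omega
      · intro h1
        have h2 : i ∈ B := (c.mem i).2 (Or.inl ((mL i).1 (hYL h1)))
        refine ⟨h2, ?_⟩
        rw [mY] at h1
        rcases h1 with h1 | h1 | h1 | h1 <;> rw [h1]
        · exact c.h1
        · exact c.h2
        · exact c.h3
        · exact c.h4
    have := Nat.card_coe_set_eq {i : I | i ∈ B ∧ ht i = 0}
    rw [e, Set.ncard_coe_finset, cY] at this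
    rw [← this]
    apply Nat.card_congr
    apply Equiv.subtypeEquivRight
    intro i
    have h5 : i ∈ {i : I | i ∈ B ∧ ht i = 0} ↔ i ∈ ((({Y₁, Y₂, Y₃, Y₄} : Finset I)) : Set I) := by rw [e]
    exact h5
  · have e : {i : I | i ∈ B ∧ ht i = 1} = ((L \ ({Y₁, Y₂, Y₃, Y₄} : Finset I) : Finset I) : Set I) := by
      ext i
      rw [Finset.mem_coe, Finset.mem_sdiff]
      constructor
      · rintro ⟨h1, h2⟩
        rcases hht i h1 with h3 | h3 | h3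
        · omega
        · exact h3.2
        · omega
      · rintro ⟨h1, h2⟩
        have h3 : i ∈ B := (c.mem i).2 (Or.inl ((mL i).1 h1))
        refine ⟨h3, ?_⟩
        rcases hht i h3 with h4 | h4 | h4
        · exact absurd h4.2 h2
        · exact h4.1
        · exact absurd ((mL i).1 h1) (c.dis i h4.2)
    have := Nat.card_coe_set_eq {i : I | i ∈ B ∧ ht i = 1}
    rw [e, Set.ncard_coe_finset, Finset.card_sdiff_of_subset hYL, hL, cY] at this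
    have h6 : m + 5 - 4 = m + 1 := by omega
    rw [h6] at this
    rw [← this]
    apply Nat.card_congr
    apply Equiv.subtypeEquivRight
    intro i
    have h5 : i ∈ {i : I | i ∈ B ∧ ht i = 1} ↔ i ∈ ((L \ ({Y₁, Y₂, Y₃, Y₄} : Finset I) : Finset I) : Set I) := by
      rw [e]
    exact h5
  · intro i hi
    rcases hht i hi with h1 | h1 | h1
    · exact Or.inl h1.1
    · exact Or.inr (Or.inl h1.1)
    · exact Or.inr (Or.inr h1.1)

end H5.TDd
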