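import Cfsg.Agent.Lib.H5.TDb

/-!
# Rows of the matrix of contributions (integral part)
-/

set_option autoImplicit false
set_option linter.unusedSectionVars false

namespace H5.TDe

open H5.TBc H5.TBd H5.TBi H5.TDa H5.TDb

variable {I : Type*} [Fintype I] [DecidableEq I]
variable {a₁ a₂ : I → ℤ} {X Y₁ Y₂ Y₃ Y₄ : I} {m : ℕ} {u : Fin m → I → ℤ} {x : Fin m → I}

/-- the standard vector -/
structure Std (a₁ a₂ : I → ℤ) (u : Fin m → I → ℤ) (X Y₁ Y₂ Y₃ Y₄ : I) (x : Fin m → I) (c : I → ℤ) : Prop where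
  cX : c X = -2 * a₁ X
  c1 : c Y₁ = a₁ Y₁
  c2 : c Y₂ = a₁ Y₂
  c3 : c Y₃ = a₂ Y₃
  c4 : c Y₄ = a₂ Y₄
  cx : ∀ j, c (x j) = 2 * u j (x j)
  cz : ∀ i, ¬ InL X Y₁ Y₂ Y₃ Y₄ x i → c i = 0

theorem mul_sgn {a b c : ℤ} (ha : a = 1 ∨ a = -1) (h : a * b = c) : b = a * c := by
  rw [← h, ← mul_assoc, sgn_sq ha, one_mul]

/-- numerical part of the next theorem -/
theorem rowX_aux (m f p1 p2 p3 p4 : ℤ) (hm : 0 < m + 2) (e1 : f * f = (p1 + p2) * (p1 + p2))
    (e2 : f * f = (p3 + p4) * (p3 + p4))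
    (hin : 4 * (m + 2) * f = (m + 1) * (f * f) + (p1 * p1 + p2 * p2 + p3 * p3 + p4 * p4)) (h4 : (4 : ℤ) ∣ f)
    (h1 : p1 ≠ 0) : f = 4 ∧ p1 = p2 ∧ p3 = p4 := by
  have hQ : 2 * (4 * (m + 2) * f) = 2 * (m + 2) * (f * f) + (p1 - p2) * (p1 - p2) + (p3 - p4) * (p3 - p4) := by
    linear_combination 2 * hin - e1 - e2
  have n1 := mul_self_nonneg (p1 - p2)
  have n2 := mul_self_nonneg (p3 - p4)
  have hle : f * f ≤ 4 * f := by
    have h5 : 2 * (m + 2) * (f * f) ≤ 2 * (m + 2) * (4 * f) := by linarith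
    exact le_of_mul_le_mul_left h5 (by linarith)
  have hf0 : 0 ≤ f := by nlinarith
  have hf4 : f ≤ 4 := by
    by_contra hlt
    push Not at hlt
    nlinarith
  have hfne : f ≠ 0 := by
    intro h0
    apply h1
    rw [h0] at hQ e1
    have h5 : (p1 - p2) * (p1 - p2) = 0 := by linarith
    have h6 : p1 + p2 = 0 := mul_self_eq_zero.1 (by linarith)
    have h7 : p1 - p2 = 0 := mul_self_eq_zero.1 h5
    linarith
  have hf' : f = 4 := by
    obtain ⟨k, hk⟩ := h4
    omega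
  rw [hf'] at hQ
  have k1 : (p1 - p2) * (p1 - p2) = 0 := by linarith
  have k2 : (p3 - p4) * (p3 - p4) = 0 := by linarith
  exact ⟨hf', by linarith [mul_self_eq_zero.1 k1], by linarith [mul_self_eq_zero.1 k2]⟩

/-- the row of the character of height one -/
theorem rowX (h : Str m a₁ a₂ u X Y₁ Y₂ Y₃ Y₄ x) {M : I → ℤ} (hp : Perp a₁ a₂ u M) (h4 : (4 : ℤ) ∣ M X)
    (h1 : M Y₁ ≠ 0) (hn : ∑ i, M i * M i = 4 * ((m : ℤ) + 2) * M X)
    (hz : ∀ i, ¬ InL X Y₁ Y₂ Y₃ Y₄ x i → M i = 0) :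
    M X = 4 ∧ Std a₁ a₂ u X Y₁ Y₂ Y₃ Y₄ x (fun i => -(a₁ X) * (M i / 2)) ∧ ∀ i, M i % 2 = 0 := by
  have t := h.two
  have hR := rel h hp
  have hin := inner_eq h hR hR
  have hT : ∑ i ∈ Finset.univ.filter (fun i => ¬ InL X Y₁ Y₂ Y₃ Y₄ x i), M i * M i = 0 :=
    Finset.sum_eq_zero fun i hi => by rw [hz i (Finset.mem_filter.1 hi).2]; ring
  rw [hT, hn, add_zero] at hin
  set f := M X with hf
  set p1 := a₁ Y₁ * M Y₁ with hp1
  set p2 := a₁ Y₂ * M Y₂ with hp2
  set p3 := a₂ Y₃ * M Y₃ with hp3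
  set p4 := a₂ Y₄ * M Y₄ with hp4
  have s0 := sgn_sq t.hX
  have q1 : M Y₁ * M Y₁ = p1 * p1 := by
    rw [hp1]; linear_combination -(M Y₁ * M Y₁) * sgn_sq t.h1
  have q2 : M Y₂ * M Y₂ = p2 * p2 := by
    rw [hp2]; linear_combination -(M Y₂ * M Y₂) * sgn_sq t.h2
  have q3 : M Y₃ * M Y₃ = p3 * p3 := by
    rw [hp3]; linear_combination -(M Y₃ * M Y₃) * sgn_sq t.h3
  have q4 : M Y₄ * M Y₄ = p4 * p4 := by
    rw [hp4]; linear_combination -(M Y₄ * M Y₄) * sgn_sq t.h4
  have r1 : a₁ X * f = -(p1 + p2) := by have := hR.r1; linarith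
  have r2 : a₁ X * f = -(p3 + p4) := by have := hR.r2; linarith
  have e1 : f * f = (p1 + p2) * (p1 + p2) := by
    calc f * f = (a₁ X * f) * (a₁ X * f) := by linear_combination -(f * f) * s0
      _ = _ := by rw [r1]; ring
  have e2 : f * f = (p3 + p4) * (p3 + p4) := by
    calc f * f = (a₁ X * f) * (a₁ X * f) := by linear_combination -(f * f) * s0
      _ = _ := by rw [r2]; ring
  rw [q1, q2, q3, q4] at hin
  obtain ⟨hf', k1', k2'⟩ := rowX_aux (m : ℤ) f p1 p2 p3 p4 (by positivity) e1 e2 hin h4 (by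
    intro h0
    apply h1
    rw [h0] at q1
    exact mul_self_eq_zero.1 (by linarith))
  rw [hf'] at r1 r2
  have v1 : p1 = -2 * a₁ X := by linarith
  have v2 : p2 = -2 * a₁ X := by linarith
  have v3 : p3 = -2 * a₁ X := by linarith
  have v4 : p4 = -2 * a₁ X := by linarith
  have m1 : M Y₁ = a₁ Y₁ * (-2 * a₁ X) := mul_sgn t.h1 v1
  have m2 : M Y₂ = a₁ Y₂ * (-2 * a₁ X) := mul_sgn t.h2 v2
  have m3 : M Y₃ = a₂ Y₃ * (-2 * a₁ X) := mul_sgn t.h3 v3
  have m4 : M Y₄ = a₂ Y₄ * (-2 * a₁ X) := mul_sgn t.h4 v4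
  have mx : ∀ j, M (x j) = u j (x j) * (-4 * a₁ X) := fun j =>
    mul_sgn (h.ta j).2.2.2.2.2.2.1 (by rw [hR.ru j, ← hf, hf']; ring)
  have hX0 : M X = 4 := hf'
  have half : ∀ w y : ℤ, w = 2 * y → w / 2 = y := fun w y hw => by omega
  refine ⟨hf', ⟨?_, ?_, ?_, ?_, ?_, ?_, ?_⟩, ?_⟩
  · show -(a₁ X) * (M X / 2) = _
    rw [hX0]; norm_num; ring
  · show -(a₁ X) * (M Y₁ / 2) = _
    rw [half (M Y₁) (a₁ Y₁ * (- a₁ X)) (by rw [m1]; ring)]
    linear_combination (a₁ Y₁) * s0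
  · show -(a₁ X) * (M Y₂ / 2) = _
    rw [half (M Y₂) (a₁ Y₂ * (- a₁ X)) (by rw [m2]; ring)]
    linear_combination (a₁ Y₂) * s0
  · show -(a₁ X) * (M Y₃ / 2) = _
    rw [half (M Y₃) (a₂ Y₃ * (- a₁ X)) (by rw [m3]; ring)]
    linear_combination (a₂ Y₃) * s0
  · show -(a₁ X) * (M Y₄ / 2) = _
    rw [half (M Y₄) (a₂ Y₄ * (- a₁ X)) (by rw [m4]; ring)]
    linear_combination (a₂ Y₄) * s0
  · intro j
    show -(a₁ X) * (M (x j) / 2) = _
    rw [half (M (x j)) (u j (x j) * (-2 * a₁ X)) (by rw [mx]; ring)]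
    linear_combination (2 * u j (x j)) * s0
  · intro i hi
    show -(a₁ X) * (M i / 2) = 0
    rw [hz i hi]; simp
  · intro i
    by_cases hi : InL X Y₁ Y₂ Y₃ Y₄ x i
    · rcases hi with rfl | rfl | rfl | rfl | rfl | ⟨j, rfl⟩
      · rw [hX0]; norm_num
      · rw [m1]
        have : a₁ i * (-2 * a₁ X) = 2 * (-(a₁ i * a₁ X)) := by ring
        omega
      · rw [m2]
        have : a₁ i * (-2 * a₁ X) = 2 * (-(a₁ i * a₁ X)) := by ring
        omega
      · rw [m3]
        have : a₂ i * (-2 * a₁ X) = 2 * (-(a₂ i * a₁ X)) := by ring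
        omega
      · rw [m4]
        have : a₂ i * (-2 * a₁ X) = 2 * (-(a₂ i * a₁ X)) := by ring
        omega
      · rw [mx]
        have : u j (x j) * (-4 * a₁ X) = 2 * (-2 * (u j (x j) * a₁ X)) := by ring
        omega
    · rw [hz i hi]; norm_num

/-- two integers with sum a power of two and product a square -/
theorem nt : ∀ (k : ℕ) (α β γ : ℤ), α + β = 2 ^ k → α * β = γ * γ → α = 0 ∨ β = 0 ∨ α = β := by
  intro k
  induction k with
  | zero =>
    intro α β γ h1 h2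
    rw [pow_zero] at h1
    have h3 := mul_self_nonneg γ
    rw [← h2] at h3
    have h4 : β = 1 - α := by linarith
    rw [h4] at h3
    have h5 : 0 ≤ α := by by_contra hlt; push Not at hlt; nlinarith
    have h6 : α ≤ 1 := by by_contra hlt; push Not at hlt; nlinarith
    omega
  | succ k ih =>
    intro α β γ h1 h2
    have hs : (α + β) % 2 = 0 := by
      rw [h1, pow_succ]; omega
    rcases Int.even_or_odd' α with ⟨a, ha | ha⟩
    · obtain ⟨b, hb⟩ : ∃ b, β = 2 * b := ⟨β / 2, by omega⟩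
      have h3 : (γ * γ) % 2 = 0 := by
        rw [← h2, ha, hb]
        have : 2 * a * (2 * b) = 2 * (2 * a * b) := by ring
        omega
      have h4 : γ % 2 = 0 := by
        rcases Int.even_or_odd' γ with ⟨g, hg | hg⟩
        · omega
        · exfalso
          rw [hg] at h3
          have : (2 * g + 1) * (2 * g + 1) = 2 * (2 * g * g + 2 * g) + 1 := by ring
          omega
      obtain ⟨g, hg⟩ : ∃ g, γ = 2 * g := ⟨γ / 2, by omega⟩
      rw [ha, hb, hg] at h2
      have h5 : a * b = g * g := by nlinarith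
      rw [ha, hb, pow_succ] at h1
      have h6 : a + b = 2 ^ k := by linarith
      rcases ih a b g h6 h5 with h7 | h7 | h7
      · left; rw [ha, h7]; ring
      · right; left; rw [hb, h7]; ring
      · right; right; rw [ha, hb, h7]
    · obtain ⟨b, hb⟩ : ∃ b, β = 2 * b + 1 := ⟨β / 2, by omega⟩
      have h3 : (γ * γ) % 2 = 1 := by
        rw [← h2, ha, hb]
        have : (2 * a + 1) * (2 * b + 1) = 2 * (2 * a * b + a + b) + 1 := by ring
        omega
      obtain ⟨g, hg⟩ : ∃ g, γ = 2 * g + 1 := by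
        rcases Int.even_or_odd' γ with ⟨g, hg | hg⟩
        · exfalso
          rw [hg] at h3
          have : 2 * g * (2 * g) = 2 * (2 * g * g) := by ring
          omega
        · exact ⟨g, hg⟩
      rcases Nat.eq_zero_or_pos k with hk | hk
      · rw [hk, zero_add, pow_one] at h1
        right; right
        have h5 := mul_self_nonneg γ
        rw [← h2] at h5
        have h6 : β = 2 - α := by linarith
        rw [h6] at h5
        have h7 : 0 ≤ α := by by_contra hlt; push Not at hlt; nlinarith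
        have h8 : α ≤ 2 := by by_contra hlt; push Not at hlt; nlinarith
        omega
      · exfalso
        obtain ⟨l, rfl⟩ := Nat.exists_eq_add_of_le hk
        have h4 : (2 : ℤ) ^ (1 + l + 1) = 4 * 2 ^ l := by rw [pow_add, pow_add]; ring
        rw [h4] at h1
        set w : ℤ := 2 ^ l with hw
        have h5 : b = 2 * w - a - 1 := by omega
        rw [ha, hb, hg, h5] at h2
        have h6 : (2 * a + 1) * (2 * (2 * w - a - 1) + 1) - (2 * g + 1) * (2 * g + 1) =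
            4 * (2 * a * w + w - a * a - a - g * g - g) - 2 := by ring
        omega

end H5.TDe
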