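import Cfsg.Agent.Lib.H5.TDa

/-!
# Numerical part of the block invariants of semidihedral and quaternion defect groups
-/

set_option autoImplicit false
set_option linter.unusedSectionVars false

namespace H5.TEe

variable {I : Type*} [DecidableEq I]

theorem odd_term {c : ℤ} (hc : c % 2 = 1) : 0 ≤ c * c - 1 ∧ (c * c - 1 ≠ 0 → 8 ≤ c * c - 1) ∧ (c * c - 1) % 8 = 0 := by
  obtain ⟨m, rfl⟩ : ∃ m, c = 2 * m + 1 := ⟨c / 2, by omega⟩
  have h1 : (2 * m + 1) * (2 * m + 1) - 1 = 4 * (m * (m + 1)) := by ring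
  have h2 : (m * (m + 1)) % 2 = 0 := by
    rcases Int.emod_two_eq_zero_or_one m with h | h
    · rw [Int.mul_emod, h]; simp
    · have : (m + 1) % 2 = 0 := by omega
      rw [Int.mul_emod, this]; simp
  have h3 : 0 ≤ m * (m + 1) := by
    rcases le_or_gt 0 m with h | h
    · exact mul_nonneg h (by omega)
    · exact mul_nonneg_of_nonpos_of_nonpos h.le (by omega)
  rw [h1]
  refine ⟨by omega, by omega, by omega⟩

theorem even_term {c : ℤ} (hc : c % 2 = 0) (h0 : c ≠ 0) : 0 ≤ c * c - 4 ∧ (c * c - 4 ≠ 0 → 12 ≤ c * c - 4) := by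
  obtain ⟨m, rfl⟩ : ∃ m, c = 2 * m := ⟨c / 2, by omega⟩
  have h1 : 2 * m * (2 * m) - 4 = 4 * (m * m - 1) := by ring
  have hm : m ≠ 0 := by rintro rfl; exact h0 rfl
  have h2 : 1 ≤ m * m := by
    have := mul_self_pos.2 hm
    omega
  have h3 : m * m ≠ 1 → 4 ≤ m * m := by
    intro h
    by_contra hlt
    have h4 : m < 2 := by nlinarith
    have h5 : -2 < m := by nlinarith
    have h6 : m = 1 ∨ m = -1 := by omega
    rcases h6 with rfl | rfl <;> norm_num at h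
  rw [h1]
  refine ⟨by omega, fun h => ?_⟩
  have := h3 (by intro hc'; apply h; omega)
  omega

theorem even_term0 {c : ℤ} (hc : c % 2 = 0) : 0 ≤ c * c ∧ (c * c ≠ 0 → c * c = 4 ∨ 16 ≤ c * c) := by
  refine ⟨mul_self_nonneg c, fun h => ?_⟩
  have h0 : c ≠ 0 := by rintro rfl; exact h rfl
  have := even_term hc h0
  omega

/-- the bounds -/
theorem count1 {S : Finset I} {c : I → ℤ} {q : ℕ} (hsum : ∑ i ∈ S, c i * c i = 8 * q)
    (hodd : (S.filter (fun i => c i % 2 = 1)).card = 4) (h0 : ∀ i ∈ S, c i ≠ 0) (hN : 2 * q + 2 ≤ S.card) :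
    S.card = 2 * q + 3 ∧ (∀ i ∈ S, c i % 2 = 1 → c i * c i = 1) ∧ (∀ i ∈ S, c i % 2 = 0 → c i * c i = 4) := by
  set O := S.filter (fun i => c i % 2 = 1) with hO
  set E := S.filter (fun i => ¬ c i % 2 = 1) with hE
  have hcard : O.card + E.card = S.card := Finset.card_filter_add_card_filter_not _
  have hs : ∑ i ∈ O, c i * c i + ∑ i ∈ E, c i * c i = 8 * q := by
    rw [← hsum]; exact Finset.sum_filter_add_sum_filter_not _ _ _
  have h1 : ∑ i ∈ O, (c i * c i - 1) = ∑ i ∈ O, c i * c i - O.card := by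
    rw [Finset.sum_sub_distrib]; simp
  have h2 : ∑ i ∈ E, (c i * c i - 4) = ∑ i ∈ E, c i * c i - 4 * E.card := by
    rw [Finset.sum_sub_distrib]; simp [mul_comm]
  have t1 : ∀ i ∈ O, 0 ≤ c i * c i - 1 := fun i hi => (odd_term (Finset.mem_filter.1 hi).2).1
  have t2 : ∀ i ∈ E, 0 ≤ c i * c i - 4 := fun i hi =>
    (even_term (by have := (Finset.mem_filter.1 hi).2; omega) (h0 i (Finset.mem_filter.1 hi).1)).1
  have s1 : 0 ≤ ∑ i ∈ O, (c i * c i - 1) := Finset.sum_nonneg t1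
  have s2 : 0 ≤ ∑ i ∈ E, (c i * c i - 4) := Finset.sum_nonneg t2
  have u1 : ∀ i ∈ O, c i * c i - 1 ≠ 0 → 8 ≤ ∑ i ∈ O, (c i * c i - 1) := by
    intro i hi hne
    exact ((odd_term (Finset.mem_filter.1 hi).2).2.1 hne).trans (Finset.single_le_sum t1 hi)
  have u2 : ∀ i ∈ E, c i * c i - 4 ≠ 0 → 12 ≤ ∑ i ∈ E, (c i * c i - 4) := by
    intro i hi hne
    exact ((even_term (by have := (Finset.mem_filter.1 hi).2; omega) (h0 i (Finset.mem_filter.1 hi).1)).2 hne).trans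
      (Finset.single_le_sum t2 hi)
  have z1 : ∑ i ∈ O, (c i * c i - 1) < 8 → ∑ i ∈ O, (c i * c i - 1) = 0 := by
    intro hlt
    refine Finset.sum_eq_zero fun i hi => ?_
    by_contra hne
    have := u1 i hi hne
    omega
  have z2 : ∑ i ∈ E, (c i * c i - 4) < 12 → ∑ i ∈ E, (c i * c i - 4) = 0 := by
    intro hlt
    refine Finset.sum_eq_zero fun i hi => ?_
    by_contra hne
    have := u2 i hi hne
    omega
  have hN' : S.card = 2 * q + 3 := by omega
  refine ⟨hN', ?_, ?_⟩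
  · intro i hi hci
    by_contra hne
    have := u1 i (Finset.mem_filter.2 ⟨hi, hci⟩) (by omega)
    omega
  · intro i hi hci
    by_contra hne
    have := u2 i (Finset.mem_filter.2 ⟨hi, by omega⟩) (by omega)
    omega

/-- the second function -/
theorem count2 {S : Finset I} {c A : I → ℤ} {q : ℕ} (hsum : ∑ i ∈ S, c i * c i = 8 * q)
    (hA : ∑ i ∈ S, A i * A i = 8) (hAc : ∀ i ∈ S, (A i + c i) % 2 = 0)
    (hodd : (S.filter (fun i => c i % 2 = 1)).card = 4) (h0 : ∀ i ∈ S, A i = 0 → c i ≠ 0) (hN : 2 * q + 2 ≤ S.card) :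
    (∀ i ∈ S, c i % 2 = 1 → A i * A i = 1) ∧ ∃ T ∈ S, A T * A T = 4 ∧ c T % 2 = 0 ∧
      (∀ i ∈ S, i ≠ T → c i % 2 = 0 → A i = 0) ∧
      ((S.card = 2 * q + 4 ∧ c T = 0 ∧ (∀ i ∈ S, c i % 2 = 1 → c i * c i = 1) ∧
        (∀ i ∈ S, i ≠ T → c i % 2 = 0 → c i * c i = 4)) ∨
      (S.card = 2 * q + 3 ∧ c T * c T = 4 ∧ (∀ i ∈ S, c i % 2 = 1 → c i * c i = 1) ∧
        (∀ i ∈ S, i ≠ T → c i % 2 = 0 → c i * c i = 4)) ∨
      (S.card = 2 * q + 2 ∧ c T = 0 ∧ ∑ i ∈ S.filter (fun i => c i % 2 = 1), (c i * c i - 1) = 8)) := by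
  set O := S.filter (fun i => c i % 2 = 1) with hO
  set E := S.filter (fun i => ¬ c i % 2 = 1) with hE
  have hcard : O.card + E.card = S.card := Finset.card_filter_add_card_filter_not _
  have hs : ∑ i ∈ O, c i * c i + ∑ i ∈ E, c i * c i = 8 * q := by
    rw [← hsum]; exact Finset.sum_filter_add_sum_filter_not _ _ _
  have hsA : ∑ i ∈ O, A i * A i + ∑ i ∈ E, A i * A i = 8 := by
    rw [← hA]; exact Finset.sum_filter_add_sum_filter_not _ _ _
  have oA : ∀ i ∈ O, A i % 2 = 1 := by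
    intro i hi
    have h1 := hAc i (Finset.mem_filter.1 hi).1
    have h2 := (Finset.mem_filter.1 hi).2
    omega
  have eA : ∀ i ∈ E, A i % 2 = 0 := by
    intro i hi
    have h1 := hAc i (Finset.mem_filter.1 hi).1
    have h2 := (Finset.mem_filter.1 hi).2
    omega
  have h1A : ∑ i ∈ O, (A i * A i - 1) = ∑ i ∈ O, A i * A i - O.card := by
    rw [Finset.sum_sub_distrib]; simp
  have tA1 : ∀ i ∈ O, 0 ≤ A i * A i - 1 := fun i hi => (odd_term (oA i hi)).1
  have tA2 : ∀ i ∈ E, 0 ≤ A i * A i := fun i hi => mul_self_nonneg _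
  have sA1 : 0 ≤ ∑ i ∈ O, (A i * A i - 1) := Finset.sum_nonneg tA1
  have sA2 : 0 ≤ ∑ i ∈ E, A i * A i := Finset.sum_nonneg tA2
  have kA : ∀ i ∈ O, A i * A i = 1 := by
    intro i hi
    by_contra hne
    have := ((odd_term (oA i hi)).2.1 (by omega)).trans (Finset.single_le_sum tA1 hi)
    omega
  have kA0 : ∑ i ∈ O, (A i * A i - 1) = 0 := Finset.sum_eq_zero fun i hi => by rw [kA i hi]; norm_num
  have kE : ∑ i ∈ E, A i * A i = 4 := by omega
  obtain ⟨T, hT, hTne⟩ := Finset.exists_ne_zero_of_sum_ne_zero (by rw [kE]; norm_num : ∑ i ∈ E, A i * A i ≠ 0)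
  have hT4 : A T * A T = 4 := by
    have h1 : A T * A T ≤ 4 := kE ▸ Finset.single_le_sum tA2 hT
    rcases (even_term0 (eA T hT)).2 hTne with h2 | h2
    · exact h2
    · omega
  have hE0 : ∀ i ∈ E, i ≠ T → A i = 0 := by
    intro i hi hne
    have h1 := Finset.add_sum_erase E (fun i => A i * A i) hT
    rw [kE, hT4] at h1
    have h2 : ∑ i ∈ E.erase T, A i * A i = 0 := by omega
    have h3 := (Finset.sum_eq_zero_iff_of_nonneg (fun i hi => tA2 i (Finset.mem_of_mem_erase hi))).1 h2 i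
      (Finset.mem_erase.2 ⟨hne, hi⟩)
    exact mul_self_eq_zero.1 h3
  have hTS : T ∈ S := (Finset.mem_filter.1 hT).1
  have hTe : c T % 2 = 0 := by have := (Finset.mem_filter.1 hT).2; omega
  -- the function `c`
  set F := E.erase T with hF
  have hFc : F.card + 1 = E.card := Finset.card_erase_add_one hT
  have hsF : c T * c T + ∑ i ∈ F, c i * c i = ∑ i ∈ E, c i * c i := Finset.add_sum_erase E (fun i => c i * c i) hT
  have h1 : ∑ i ∈ O, (c i * c i - 1) = ∑ i ∈ O, c i * c i - O.card := by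
    rw [Finset.sum_sub_distrib]; simp
  have h2 : ∑ i ∈ F, (c i * c i - 4) = ∑ i ∈ F, c i * c i - 4 * F.card := by
    rw [Finset.sum_sub_distrib]; simp [mul_comm]
  have mF : ∀ i ∈ F, i ∈ S ∧ i ≠ T ∧ c i % 2 = 0 ∧ c i ≠ 0 := by
    intro i hi
    rw [hF, Finset.mem_erase] at hi
    have h3 := Finset.mem_filter.1 hi.2
    exact ⟨h3.1, hi.1, by have := h3.2; omega, h0 i h3.1 (hE0 i hi.2 hi.1)⟩
  have t1 : ∀ i ∈ O, 0 ≤ c i * c i - 1 := fun i hi => (odd_term (Finset.mem_filter.1 hi).2).1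
  have t2 : ∀ i ∈ F, 0 ≤ c i * c i - 4 := fun i hi => (even_term (mF i hi).2.2.1 (mF i hi).2.2.2).1
  have s1 : 0 ≤ ∑ i ∈ O, (c i * c i - 1) := Finset.sum_nonneg t1
  have s2 : 0 ≤ ∑ i ∈ F, (c i * c i - 4) := Finset.sum_nonneg t2
  have m1 : (∑ i ∈ O, (c i * c i - 1)) % 8 = 0 := by
    have : (8 : ℤ) ∣ ∑ i ∈ O, (c i * c i - 1) := Finset.dvd_sum fun i hi =>
      Int.dvd_of_emod_eq_zero (odd_term (Finset.mem_filter.1 hi).2).2.2
    omega
  have u1 : ∀ i ∈ O, c i * c i - 1 ≠ 0 → 8 ≤ ∑ i ∈ O, (c i * c i - 1) := by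
    intro i hi hne
    exact ((odd_term (Finset.mem_filter.1 hi).2).2.1 hne).trans (Finset.single_le_sum t1 hi)
  have u2 : ∀ i ∈ F, c i * c i - 4 ≠ 0 → 12 ≤ ∑ i ∈ F, (c i * c i - 4) := by
    intro i hi hne
    exact ((even_term (mF i hi).2.2.1 (mF i hi).2.2.2).2 hne).trans (Finset.single_le_sum t2 hi)
  have z2 : ∑ i ∈ F, (c i * c i - 4) < 12 → ∑ i ∈ F, (c i * c i - 4) = 0 := by
    intro hlt
    refine Finset.sum_eq_zero fun i hi => ?_
    by_contra hne
    have := u2 i hi hne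
    omega
  have eT := even_term0 hTe
  have hkey : ∑ i ∈ O, (c i * c i - 1) + ∑ i ∈ F, (c i * c i - 4) + c T * c T = 8 * q + 16 - 4 * S.card := by
    have : (F.card : ℤ) + 1 = E.card := by exact_mod_cast hFc
    have h5 : (O.card : ℤ) + E.card = S.card := by exact_mod_cast hcard
    have h6 : (O.card : ℤ) = 4 := by exact_mod_cast hodd
    rw [h1, h2]
    linarith
  refine ⟨fun i hi hci => kA i (Finset.mem_filter.2 ⟨hi, hci⟩), T, hTS, hT4, hTe,
    fun i hi hne hci => hE0 i (Finset.mem_filter.2 ⟨hi, by omega⟩) hne, ?_⟩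
  have fin : ∑ i ∈ O, (c i * c i - 1) = 0 → ∑ i ∈ F, (c i * c i - 4) = 0 →
      (∀ i ∈ S, c i % 2 = 1 → c i * c i = 1) ∧ (∀ i ∈ S, i ≠ T → c i % 2 = 0 → c i * c i = 4) := by
    intro hO0 hF0
    constructor
    · intro i hi hci
      have := (Finset.sum_eq_zero_iff_of_nonneg t1).1 hO0 i (Finset.mem_filter.2 ⟨hi, hci⟩)
      omega
    · intro i hi hne hci
      have := (Finset.sum_eq_zero_iff_of_nonneg t2).1 hF0 i
        (Finset.mem_erase.2 ⟨hne, Finset.mem_filter.2 ⟨hi, by omega⟩⟩)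
      omega
  have hcT0 : c T * c T = 0 → c T = 0 := fun h => mul_self_eq_zero.1 h
  by_cases hT0 : c T * c T = 0
  · have : S.card = 2 * q + 4 ∨ S.card = 2 * q + 3 ∨ S.card = 2 * q + 2 := by omega
    rcases this with h3 | h3 | h3
    · left
      have := fin (by omega) (by omega)
      exact ⟨h3, hcT0 hT0, this.1, this.2⟩
    · exfalso; omega
    · right; right
      exact ⟨h3, hcT0 hT0, by omega⟩
  · rcases eT.2 hT0 with h4 | h4
    · have : S.card = 2 * q + 3 := by omega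
      right; left
      have h5 := fin (by omega) (by omega)
      exact ⟨this, h4, h5.1, h5.2⟩
    · exfalso; omega

end H5.TEe
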