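import Cfsg.Agent.Lib.H5.TEe
import Cfsg.Agent.Lib.H5.TBc

/-!
# Numerical part: heights
-/

set_option autoImplicit false
set_option linter.unusedSectionVars false

namespace H5.TEg

open H5.TEe H5.TBc

variable {I : Type*} [DecidableEq I] [Fintype I]

/-- the numerical data of the block -/
structure Num (S : Finset I) (ht : I → ℕ) (q : ℕ) (c : I → ℤ) (Mz : I → I → ℤ) : Prop where
  sum : ∑ i ∈ S, c i * c i = 8 * q
  odd4 : (S.filter (fun i => c i % 2 = 1)).card = 4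
  val : ∀ i ∈ S, ∀ j ∈ S, ht j = 0 → (2 : ℤ) ^ ht i ∣ Mz i j ∧ ¬ (2 : ℤ) ^ (ht i + 1) ∣ Mz i j
  ex0 : ∃ j ∈ S, ht j = 0
  par : ∀ i j, (Mz i j - c i * c j) % 2 = 0

variable {S : Finset I} {ht : I → ℕ} {q : ℕ} {c : I → ℤ} {Mz : I → I → ℤ}

theorem mul_odd {a b : ℤ} (ha : a % 2 = 1) (hb : b % 2 = 1) : (a * b) % 2 = 1 := by
  rw [Int.mul_emod, ha, hb]; norm_num

theorem mul_even {a b : ℤ} (ha : a % 2 = 0) : (a * b) % 2 = 0 := by
  rw [Int.mul_emod, ha]; simp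

theorem mul_even' {a b : ℤ} (hb : b % 2 = 0) : (a * b) % 2 = 0 := by
  rw [Int.mul_emod, hb]; simp

theorem odd_of_mul {a b : ℤ} (h : (a * b) % 2 = 1) : a % 2 = 1 := by
  by_contra hno
  have := mul_even (a := a) (b := b) (by omega)
  omega

/-- a function is odd exactly at the characters of height zero -/
theorem Num.iff (h : Num S ht q c Mz) {i : I} (hi : i ∈ S) : ht i = 0 ↔ c i % 2 = 1 := by
  obtain ⟨j, hj, hj0⟩ := h.ex0
  have h1 := h.val j hj j hj hj0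
  rw [hj0, zero_add, pow_one] at h1
  have hjj : (c j * c j) % 2 = 1 := by
    have h2 := h.par j j
    have h3 := h1.2
    omega
  have hjo := odd_of_mul hjj
  have h2 := h.val i hi j hj hj0
  have h3 := h.par i j
  constructor
  · intro h0
    rw [h0, zero_add, pow_one] at h2
    have h4 : (c i * c j) % 2 = 1 := by have := h2.2; omega
    exact odd_of_mul h4
  · intro hc
    by_contra hne
    have h4 := mul_odd hc hjo
    have h5 : (2 : ℤ) ∣ Mz i j := by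
      refine dvd_trans ?_ h2.1
      exact dvd_pow_self 2 hne
    omega

theorem Num.card0 (h : Num S ht q c Mz) : (S.filter (fun i => ht i = 0)).card = 4 := by
  rw [← h.odd4]
  congr 1
  ext i
  rw [Finset.mem_filter, Finset.mem_filter]
  constructor
  · rintro ⟨h1, h2⟩; exact ⟨h1, (h.iff h1).1 h2⟩
  · rintro ⟨h1, h2⟩; exact ⟨h1, (h.iff h1).2 h2⟩

/-- the height from a value -/
theorem ht_of {m : ℤ} {a N : ℕ} (h1 : (2 : ℤ) ^ a ∣ m) (h2 : ¬ (2 : ℤ) ^ (a + 1) ∣ m) (h3 : ∃ o : ℤ, o % 2 = 1 ∧ m = 2 ^ N * o) :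
    a = N := by
  obtain ⟨o, ho, rfl⟩ := h3
  have hco : IsCoprime ((2 : ℤ)) o := by
    rw [Int.isCoprime_iff_gcd_eq_one]
    have h4 : Int.gcd 2 o ∣ 2 := by exact_mod_cast (Int.gcd_dvd_left (2 : ℤ) o)
    rcases (Nat.dvd_prime Nat.prime_two).1 h4 with h5 | h5
    · exact h5
    · exfalso
      have h6 : ((2 : ℕ) : ℤ) ∣ o := by rw [← h5]; exact Int.gcd_dvd_right _ _
      omega
  rcases lt_trichotomy a N with h | h | h
  · exfalso
    apply h2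
    exact dvd_mul_of_dvd_left (pow_dvd_pow 2 (by omega)) _
  · exact h
  · exfalso
    have h4 : (2 : ℤ) ^ (N + 1) ∣ 2 ^ N * o := dvd_trans (pow_dvd_pow 2 (by omega)) h1
    rw [pow_succ] at h4
    have h5 := (mul_dvd_mul_iff_left (pow_ne_zero N (by norm_num : (2 : ℤ) ≠ 0))).1 h4
    omega

/-- the conclusion in the first case -/
theorem conc1 (h : Num S ht q c Mz) (h4 : ∀ i j, (Mz i j - c i * c j) % 4 = 0) (h0 : ∀ i ∈ S, c i ≠ 0)
    (hN : 2 * q + 2 ≤ S.card) : S.card = 2 * q + 3 ∧ (S.filter (fun i => ht i = 1)).card = 2 * q - 1 ∧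
      ∀ i ∈ S, ht i = 0 ∨ ht i = 1 := by
  obtain ⟨k1, k2, k3⟩ := count1 h.sum h.odd4 h0 hN
  have key : ∀ i ∈ S, ht i = 0 ∨ ht i = 1 := by
    intro i hi
    by_cases hc : c i % 2 = 1
    · exact Or.inl ((h.iff hi).2 hc)
    · right
      have h5 := k3 i hi (by omega)
      obtain ⟨j, hj, hj0⟩ := h.ex0
      have hcj := (h.iff hj).1 hj0
      obtain ⟨v1, v2⟩ := h.val i hi j hj hj0
      apply ht_of v1 v2
      have h6 := h4 i j
      have h7 : c i = 2 ∨ c i = -2 := by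
        have : (c i - 2) * (c i + 2) = 0 := by linear_combination h5
        rcases mul_eq_zero.1 this with h | h <;> omega
      refine ⟨Mz i j / 2, ?_, ?_⟩
      · rcases h7 with h7 | h7 <;> rw [h7] at h6 <;> omega
      · rcases h7 with h7 | h7 <;> rw [h7] at h6 <;> omega
  refine ⟨k1, ?_, key⟩
  have h5 := h.card0
  have h6 : S.filter (fun i => ¬ ht i = 0) = S.filter (fun i => ht i = 1) := by
    ext i
    rw [Finset.mem_filter, Finset.mem_filter]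
    constructor
    · rintro ⟨a, b⟩; exact ⟨a, (key i a).resolve_left b⟩
    · rintro ⟨a, b⟩; exact ⟨a, by omega⟩
  have h7 := Finset.card_filter_add_card_filter_not (s := S) (fun i => ht i = 0)
  rw [h6] at h7
  omega

theorem sum_four {f : I → ℤ} {Y₁ Y₂ Y₃ Y₄ : I} (h12 : Y₁ ≠ Y₂) (h13 : Y₁ ≠ Y₃) (h14 : Y₁ ≠ Y₄) (h23 : Y₂ ≠ Y₃)
    (h24 : Y₂ ≠ Y₄) (h34 : Y₃ ≠ Y₄) {O : Finset I} (hO : ∀ i, i ∈ O ↔ i = Y₁ ∨ i = Y₂ ∨ i = Y₃ ∨ i = Y₄) :
    ∑ i ∈ O, f i = f Y₁ + f Y₂ + f Y₃ + f Y₄ := by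
  have : O = {Y₁, Y₂, Y₃, Y₄} := by
    ext i
    rw [hO]
    simp
  rw [this, Finset.sum_insert, Finset.sum_insert, Finset.sum_pair h34]
  · ring
  · simp [h23, h24]
  · simp [h12, h13, h14]

theorem odd_sq {y : ℤ} (h : y % 2 = 1) : (y * y) % 8 = 1 := by
  have := (odd_term h).2.2
  omega

theorem odd_sgn {a y : ℤ} (ha : a = 1 ∨ a = -1) (h : y % 2 = 1) : (a * y) % 2 = 1 := by
  rcases ha with rfl | rfl <;> omega

theorem sgn_mul_sq {a y : ℤ} (ha : a = 1 ∨ a = -1) : (a * y) * (a * y) = y * y := by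
  rcases ha with rfl | rfl <;> ring

theorem sgn_mul_mul {a y w : ℤ} (ha : a = 1 ∨ a = -1) : (a * y) * (a * w) = y * w := by
  rcases ha with rfl | rfl <;> ring

/-- excluded configurations -/
theorem excl {cX y1 y2 y3 y4 αX α1 α2 α3 α4 TT : ℤ} (r1 : cX + y1 + y2 = 0) (r2 : cX + y3 + y4 = 0)
    (s1 : αX + α1 + α2 = 0) (s2 : αX + α3 + α4 = 0) (q1 : α1 * α1 = 1) (q2 : α2 * α2 = 1) (q3 : α3 * α3 = 1)
    (q4 : α4 * α4 = 1) (o1 : y1 % 2 = 1) (o2 : y2 % 2 = 1) (o3 : y3 % 2 = 1) (o4 : y4 % 2 = 1)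
    (hs : α1 * y1 + α2 * y2 + α3 * y3 + α4 * y4 + TT = 0)
    (hc : (αX = 0 ∧ ((TT * TT = 16 ∧ cX * cX = 4 ∧ y1 * y1 = 1 ∧ y2 * y2 = 1 ∧ y3 * y3 = 1 ∧ y4 * y4 = 1) ∨
      (TT = 0 ∧ y1 * y1 + y2 * y2 + y3 * y3 + y4 * y4 = 12))) ∨
      (αX * αX = 4 ∧ TT = αX * cX ∧ ((cX * cX = 4 ∧ y1 * y1 = 1 ∧ y2 * y2 = 1 ∧ y3 * y3 = 1 ∧ y4 * y4 = 1) ∨
      (cX = 0 ∧ y1 * y1 + y2 * y2 + y3 * y3 + y4 * y4 = 12)))) : False := by
  have sg : ∀ a : ℤ, a * a = 1 → a = 1 ∨ a = -1 := by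
    intro a ha
    have : (a - 1) * (a + 1) = 0 := by linear_combination ha
    rcases mul_eq_zero.1 this with h | h <;> omega
  have e1 := odd_sq o1
  have e2 := odd_sq o2
  have e3 := odd_sq o3
  have e4 := odd_sq o4
  rcases hc with ⟨h0, ⟨hT, hX, k1, k2, k3, k4⟩ | ⟨hT, hsum⟩⟩ | ⟨h0, hT, ⟨hX, k1, k2, k3, k4⟩ | ⟨hX, hsum⟩⟩
  · rcases sg _ k1 with rfl | rfl <;> rcases sg _ k2 with rfl | rfl <;> rcases sg _ k3 with rfl | rfl <;>
      rcases sg _ k4 with rfl | rfl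
    all_goals
      have hα2 : α2 = -α1 := by omega
      have hα4 : α4 = -α3 := by omega
      subst hα2 hα4
      first
        | (exfalso; omega)
        | (have hT0 : TT = 0 := by omega
           rw [hT0] at hT; omega)
        | (have hcX : cX = 0 := by omega
           rw [hcX] at hX; omega)
  · have hα2 : α2 = -α1 := by omega
    have hα4 : α4 = -α3 := by omega
    have h1 : α1 * (y1 - y2) = -(α3 * (y3 - y4)) := by rw [hα2, hα4, hT] at hs; linear_combination hs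
    have h2 : (y1 - y2) * (y1 - y2) = (y3 - y4) * (y3 - y4) := by
      have h3 : (α1 * (y1 - y2)) * (α1 * (y1 - y2)) = (α3 * (y3 - y4)) * (α3 * (y3 - y4)) := by rw [h1]; ring
      linear_combination h3 + (-(y1 - y2) * (y1 - y2)) * q1 + ((y3 - y4) * (y3 - y4)) * q3
    have h3 : (y1 + y2) * (y1 + y2) = (y3 + y4) * (y3 + y4) := by
      have : y1 + y2 = y3 + y4 := by omega
      rw [this]
    have h4 : y1 * y1 + y2 * y2 = y3 * y3 + y4 * y4 := by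
      have : 2 * (y1 * y1 + y2 * y2) = 2 * (y3 * y3 + y4 * y4) := by linear_combination h2 + h3
      omega
    omega
  · have eqs : ∀ a b : ℤ, a * a = 1 → b * b = 1 → αX + a + b = 0 → a = b := by
      intro a b ha hb hab
      by_contra hne
      have h5 : αX = 0 := by
        rcases sg _ ha with rfl | rfl <;> rcases sg _ hb with rfl | rfl <;> omega
      rw [h5] at h0
      omega
    have hα : α1 = α2 := eqs _ _ q1 q2 s1
    have hα' : α3 = α4 := eqs _ _ q3 q4 s2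
    have h31 : α3 = α1 := by omega
    subst hα hα' h31
    have h5 : αX = -2 * α3 := by omega
    have h6 : α3 * (y1 + y2 + y3 + y4 - 2 * cX) = 0 := by
      rw [hT, h5] at hs
      linear_combination hs
    have h7 : α3 * (-4 * cX) = 0 := by
      have : y1 + y2 + y3 + y4 - 2 * cX = -4 * cX := by omega
      rw [this] at h6; exact h6
    rcases mul_eq_zero.1 h7 with h8 | h8
    · rw [h8] at q1; omega
    · have : cX = 0 := by omega
      rw [this] at hX; omega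
  · have h1 : y2 = -y1 := by omega
    have h2 : y4 = -y3 := by omega
    rw [h1, h2] at hsum
    have h3 : y1 * y1 + y3 * y3 = 6 := by
      have : 2 * (y1 * y1 + y3 * y3) = 12 := by linear_combination hsum
      omega
    omega

/-- the conclusion in the second case -/
theorem conc2 {A : I → ℤ} {N : ℕ} (hN1 : 1 ≤ N) (hqN : q = 2 ^ N) (h : Num S ht q c Mz)
    (hMz : ∀ i j, Mz i j = c i * c j + q * (A i * A j))
    (hA : ∑ i ∈ S, A i * A i = 8) (hAc : ∀ i ∈ S, (A i + c i) % 2 = 0) (hoc : ∑ i ∈ S, A i * c i = 0)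
    (hN : 2 * q + 2 ≤ S.card) {a₁ a₂ : I → ℤ} {X Y₁ Y₂ Y₃ Y₄ : I} (t : Two a₁ a₂ X Y₁ Y₂ Y₃ Y₄)
    (hO : ∀ i, (i ∈ S ∧ c i % 2 = 1) ↔ i = Y₁ ∨ i = Y₂ ∨ i = Y₃ ∨ i = Y₄) (hX : X ∈ S)
    (c1 : a₁ X * c X + a₁ Y₁ * c Y₁ + a₁ Y₂ * c Y₂ = 0) (c2 : a₁ X * c X + a₂ Y₃ * c Y₃ + a₂ Y₄ * c Y₄ = 0)
    (A1 : a₁ X * A X + a₁ Y₁ * A Y₁ + a₁ Y₂ * A Y₂ = 0) (A2 : a₁ X * A X + a₂ Y₃ * A Y₃ + a₂ Y₄ * A Y₄ = 0) :
    S.card = 2 * q + 4 ∧ (S.filter (fun i => ht i = 1)).card = 2 * q - 1 ∧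
      (∃ T ∈ S, ht T = N + 1) ∧ ∀ i ∈ S, ht i = 0 ∨ ht i = 1 ∨ ht i = N + 1 := by
  have h0 : ∀ i ∈ S, A i = 0 → c i ≠ 0 := by
    intro i hi hAi hci
    obtain ⟨j, hj, hj0⟩ := h.ex0
    apply (h.val i hi j hj hj0).2
    rw [hMz, hAi, hci]
    simp
  obtain ⟨k1, T, hT, k2, k3, k4, k5⟩ := count2 h.sum hA hAc h.odd4 h0 hN
  obtain ⟨m1, o1⟩ := (hO Y₁).2 (Or.inl rfl)
  obtain ⟨m2, o2⟩ := (hO Y₂).2 (Or.inr (Or.inl rfl))
  obtain ⟨m3, o3⟩ := (hO Y₃).2 (Or.inr (Or.inr (Or.inl rfl)))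
  obtain ⟨m4, o4⟩ := (hO Y₄).2 (Or.inr (Or.inr (Or.inr rfl)))
  have hOf : ∀ i, i ∈ S.filter (fun i => c i % 2 = 1) ↔ i = Y₁ ∨ i = Y₂ ∨ i = Y₃ ∨ i = Y₄ := by
    intro i
    rw [Finset.mem_filter]; exact hO i
  have hXe : c X % 2 = 0 := by
    by_contra hne
    rcases (hO X).1 ⟨hX, by omega⟩ with h1 | h1 | h1 | h1
    · exact t.n1 h1.symm
    · exact t.n2 h1.symm
    · exact t.n3 h1.symm
    · exact t.n4 h1.symm
  have hTO : ∀ Y, c Y % 2 = 1 → Y ≠ T := by rintro Y hY rfl; omega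
  -- the sum of products
  have hsumAc : A Y₁ * c Y₁ + A Y₂ * c Y₂ + A Y₃ * c Y₃ + A Y₄ * c Y₄ + A T * c T = 0 := by
    have e1 := Finset.sum_filter_add_sum_filter_not S (fun i => c i % 2 = 1) (fun i => A i * c i)
    have e2 : ∑ i ∈ S.filter (fun i => ¬ c i % 2 = 1), A i * c i = A T * c T := by
      rw [Finset.sum_eq_single T]
      · intro i hi hne
        rw [Finset.mem_filter] at hi
        rw [k4 i hi.1 hne (by have := hi.2; omega), zero_mul]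
      · intro hno
        exact absurd (Finset.mem_filter.2 ⟨hT, by omega⟩) hno
    rw [sum_four t.n12 t.n13 t.n14 t.n23 t.n24 t.n34 hOf, e2, hoc] at e1
    exact e1
  have key : ∀ P : Prop, ((A X = 0 ∧ X ≠ T) → P) → (X = T → P) → P := by
    intro P p1 p2
    by_cases hXT : X = T
    · exact p2 hXT
    · exact p1 ⟨k4 X hX hXT hXe, hXT⟩
  have ex : ∀ (TT : ℤ), TT = A T * c T → ((a₁ X * A X = 0 ∧ ((TT * TT = 16 ∧ (a₁ X * c X) * (a₁ X * c X) = 4 ∧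
      c Y₁ * c Y₁ = 1 ∧ c Y₂ * c Y₂ = 1 ∧ c Y₃ * c Y₃ = 1 ∧ c Y₄ * c Y₄ = 1) ∨
      (TT = 0 ∧ c Y₁ * c Y₁ + c Y₂ * c Y₂ + c Y₃ * c Y₃ + c Y₄ * c Y₄ = 12))) ∨
      ((a₁ X * A X) * (a₁ X * A X) = 4 ∧ TT = (a₁ X * A X) * (a₁ X * c X) ∧ (((a₁ X * c X) * (a₁ X * c X) = 4 ∧
        c Y₁ * c Y₁ = 1 ∧ c Y₂ * c Y₂ = 1 ∧ c Y₃ * c Y₃ = 1 ∧ c Y₄ * c Y₄ = 1) ∨
      (a₁ X * c X = 0 ∧ c Y₁ * c Y₁ + c Y₂ * c Y₂ + c Y₃ * c Y₃ + c Y₄ * c Y₄ = 12)))) → False := by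
    intro TT hTT hcase
    refine excl (TT := TT) c1 c2 A1 A2 ?_ ?_ ?_ ?_ (odd_sgn t.h1 o1) (odd_sgn t.h2 o2) (odd_sgn t.h3 o3)
      (odd_sgn t.h4 o4) ?_ ?_
    · rw [sgn_mul_sq t.h1]; exact k1 _ m1 o1
    · rw [sgn_mul_sq t.h2]; exact k1 _ m2 o2
    · rw [sgn_mul_sq t.h3]; exact k1 _ m3 o3
    · rw [sgn_mul_sq t.h4]; exact k1 _ m4 o4
    · rw [sgn_mul_mul t.h1, sgn_mul_mul t.h2, sgn_mul_mul t.h3, sgn_mul_mul t.h4, hTT]; exact hsumAc
    · rw [sgn_mul_sq t.h1, sgn_mul_sq t.h2, sgn_mul_sq t.h3, sgn_mul_sq t.h4]; exact hcase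
  rcases k5 with ⟨l1, l2, l3, l4⟩ | ⟨l1, l2, l3, l4⟩ | ⟨l1, l2, l3⟩
  · -- the main case
    obtain ⟨j, hj, hj0⟩ := h.ex0
    have hcj := (h.iff hj).1 hj0
    have sg2 : ∀ a : ℤ, a * a = 4 → a = 2 ∨ a = -2 := by
      intro a ha
      have : (a - 2) * (a + 2) = 0 := by linear_combination ha
      rcases mul_eq_zero.1 this with h | h <;> omega
    have hTh : ht T = N + 1 := by
      obtain ⟨v1, v2⟩ := h.val T hT j hj hj0
      apply ht_of v1 v2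
      rw [hMz, l2, zero_mul, zero_add, hqN]
      have hAj : A j % 2 = 1 := by have := hAc j hj; omega
      rcases sg2 _ k2 with h5 | h5
      · exact ⟨A j, hAj, by rw [h5]; push_cast; ring⟩
      · exact ⟨-A j, by omega, by rw [h5]; push_cast; ring⟩
    have h1 : ∀ i ∈ S, i ≠ T → c i % 2 = 0 → ht i = 1 := by
      intro i hi hne hci
      obtain ⟨v1, v2⟩ := h.val i hi j hj hj0
      apply ht_of v1 v2
      rw [hMz, k4 i hi hne hci, zero_mul, mul_zero, add_zero]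
      rcases sg2 _ (l4 i hi hne hci) with h5 | h5
      · exact ⟨c j, hcj, by rw [h5]; ring⟩
      · exact ⟨-c j, by omega, by rw [h5]; ring⟩
    refine ⟨l1, ?_, ⟨T, hT, hTh⟩, ?_⟩
    · have h5 := h.odd4
      have h6 : (S.filter (fun i => ¬ c i % 2 = 1)).erase T = S.filter (fun i => ht i = 1) := by
        ext i
        rw [Finset.mem_erase, Finset.mem_filter, Finset.mem_filter]
        constructor
        · rintro ⟨a, b, d⟩; exact ⟨b, h1 i b a (by omega)⟩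
        · rintro ⟨a, b⟩
          refine ⟨?_, a, ?_⟩
          · rintro rfl; omega
          · intro hc
            have := (h.iff a).2 hc
            omega
      have h7 := Finset.card_filter_add_card_filter_not (s := S) (fun i => c i % 2 = 1)
      have h8 : T ∈ S.filter (fun i => ¬ c i % 2 = 1) := Finset.mem_filter.2 ⟨hT, by omega⟩
      have h9 := Finset.card_erase_add_one h8
      rw [h6] at h9
      omega
    · intro i hi
      by_cases hc : c i % 2 = 1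
      · exact Or.inl ((h.iff hi).2 hc)
      · by_cases hne : i = T
        · right; right; rw [hne]; exact hTh
        · right; left; exact h1 i hi hne (by omega)
  · exfalso
    apply key False
    · rintro ⟨hAX, hXT⟩
      refine ex _ rfl (Or.inl ⟨by rw [hAX, mul_zero], Or.inl ⟨?_, ?_, l3 _ m1 o1, l3 _ m2 o2, l3 _ m3 o3, l3 _ m4 o4⟩⟩)
      · calc A T * c T * (A T * c T) = (A T * A T) * (c T * c T) := by ring
          _ = 16 := by rw [k2, l2]; norm_num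
      · rw [sgn_mul_sq t.hX]; exact l4 X hX hXT hXe
    · rintro rfl
      refine ex _ rfl (Or.inr ⟨?_, ?_, Or.inl ⟨?_, l3 _ m1 o1, l3 _ m2 o2, l3 _ m3 o3, l3 _ m4 o4⟩⟩)
      · rw [sgn_mul_sq t.hX]; exact k2
      · rw [sgn_mul_mul t.hX]
      · rw [sgn_mul_sq t.hX]; exact l2
  · exfalso
    have h12 : c Y₁ * c Y₁ + c Y₂ * c Y₂ + c Y₃ * c Y₃ + c Y₄ * c Y₄ = 12 := by
      rw [sum_four t.n12 t.n13 t.n14 t.n23 t.n24 t.n34 hOf] at l3
      linarith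
    apply key False
    · rintro ⟨hAX, hXT⟩
      exact ex _ rfl (Or.inl ⟨by rw [hAX, mul_zero], Or.inr ⟨by rw [l2, mul_zero], h12⟩⟩)
    · rintro rfl
      refine ex _ rfl (Or.inr ⟨?_, ?_, Or.inr ⟨by rw [l2, mul_zero], h12⟩⟩)
      · rw [sgn_mul_sq t.hX]; exact k2
      · rw [sgn_mul_mul t.hX]

end H5.TEg
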